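import Cfsg.Agent.H26.RD1
import Cfsg.Agent.H15.Deg

/-! Projections onto joint eigenspaces of subgroups in complex representations. -/

set_option autoImplicit false
set_option linter.unusedSectionVars false

namespace Cfsg.Agent.H14.Dg

open Module Finset H26.RD
open scoped Classical commutatorElement

variable {G : Type*} [Group G] [Fintype G] {V : Type*} [AddCommGroup V] [Module ℂ V] [FiniteDimensional ℂ V]

local notation "tr" => LinearMap.trace ℂ V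

/-- a linear character of a subgroup -/
structure IsCh (A : Subgroup G) (l : G → ℂ) : Prop where
  one : l 1 = 1
  mul : ∀ a ∈ A, ∀ b ∈ A, l (a * b) = l a * l b

variable {A B N : Subgroup G} {l : G → ℂ}

theorem isCh_one (A : Subgroup G) : IsCh A fun _ => 1 := ⟨rfl, by simp⟩

theorem IsCh.mono (h : IsCh A l) (hB : B ≤ A) : IsCh B l := ⟨h.one, fun a ha b hb => h.mul a (hB ha) b (hB hb)⟩

theorem IsCh.ne (h : IsCh A l) {a : G} (ha : a ∈ A) : l a ≠ 0 := fun e => by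
  have := h.mul a ha _ (inv_mem ha)
  simp [e, h.one] at this

theorem IsCh.sum (h : IsCh A l) {a : G} (ha : a ∈ A) (hne : l a ≠ 1) : ∑ x : A, (l x)⁻¹ = 0 := by
  have : ∑ x : A, (l x)⁻¹ = (l a)⁻¹ * ∑ x : A, (l x)⁻¹ := by
    rw [mul_sum, ← Equiv.sum_comp (Equiv.mulLeft (⟨a, ha⟩ : A))]
    exact sum_congr rfl fun x _ => by simp [h.mul a ha x x.2, mul_comm]
  exact (mul_left_eq_self₀.1 this.symm).resolve_left (by simpa using hne)

theorem card_ne (A : Subgroup G) : (Nat.card A : ℂ) ≠ 0 := Nat.cast_ne_zero.2 Nat.card_pos.ne'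

variable (ρ : Representation ℂ G V)

/-- the projection onto the eigenspace -/
noncomputable def pj (A : Subgroup G) (l : G → ℂ) : End ℂ V := (Nat.card A : ℂ)⁻¹ • ∑ a : A, (l a)⁻¹ • ρ a

variable {ρ}

theorem pj_mul_of {T : End ℂ V} (h : IsCh A l) (hT : ∀ a ∈ A, ρ a * T = l a • T) : pj ρ A l * T = T := by
  simp [pj, sum_mul, hT, smul_smul, h.ne, ← Nat.cast_smul_eq_nsmul ℂ, card_ne A, -Nat.card_eq_fintype_card, ← Nat.card_eq_fintype_card]

theorem pj_apply {v : V} (h : IsCh A l) (hT : ∀ a ∈ A, ρ a v = l a • v) : pj ρ A l v = v := by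
  simp [pj, hT, smul_smul, h.ne, ← Nat.cast_smul_eq_nsmul ℂ, card_ne A, -Nat.card_eq_fintype_card, ← Nat.card_eq_fintype_card]

theorem mul_pj (h : IsCh A l) {a : G} (ha : a ∈ A) : ρ a * pj ρ A l = l a • pj ρ A l := by
  rw [pj, mul_smul_comm, smul_comm (l a)]
  congr 1
  rw [mul_sum, smul_sum, ← Equiv.sum_comp (Equiv.mulLeft (⟨a, ha⟩ : A)) fun x : A => l a • (l x)⁻¹ • ρ x]
  exact sum_congr rfl fun x _ => by simp [h.mul a ha x x.2, smul_smul, h.ne ha, mul_comm]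

theorem pj_idem (h : IsCh A l) : pj ρ A l * pj ρ A l = pj ρ A l := pj_mul_of h fun _ => mul_pj h

theorem pj_comm {T : End ℂ V} (h : ∀ a ∈ A, Commute T (ρ a)) : Commute T (pj ρ A l) :=
  (Commute.sum_right _ _ _ fun (a : A) _ => (h a a.2).smul_right _).smul_right _

theorem pj_conj {g : G} (h : ∀ a ∈ A, g * a * g⁻¹ ∈ A ∧ l (g * a * g⁻¹) = l a) : Commute (ρ g) (pj ρ A l) := by
  have hi : Function.Bijective fun a : A => (⟨g * a * g⁻¹, (h a a.2).1⟩ : A) :=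
    Finite.injective_iff_bijective.1 fun a b e => Subtype.ext (by simpa using e)
  refine Commute.smul_right (?_ : _ = _) _
  rw [mul_sum, sum_mul, ← hi.sum_comp fun a : A => ((l a)⁻¹ • ρ a) * ρ g]
  exact sum_congr rfl fun a _ => by simp [(h a a.2).2, ← map_mul]

theorem tr_pj (A : Subgroup G) (l : G → ℂ) (T : End ℂ V) :
    Nat.card A * tr (pj ρ A l * T) = ∑ a : A, (l a)⁻¹ * tr (ρ a * T) := by
  simp [pj, sum_mul, card_ne A, -Nat.card_eq_fintype_card]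

theorem tr_conj {g : G} {T : End ℂ V} (h : Commute (ρ g) T) (a : G) : tr (ρ (g * a * g⁻¹) * T) = tr (ρ a * T) := by
  have : ρ g⁻¹ * T * ρ g = T := by rw [mul_assoc, ← h.eq, ← mul_assoc, ← map_mul]; simp
  rw [map_mul ρ, map_mul ρ, mul_assoc, mul_assoc, LinearMap.trace_mul_comm, mul_assoc, this]

theorem tr_split (h : IsCh A l) {a : G} (ha : a ∈ A) (hne : l a ≠ 1) {T : End ℂ V}
    (hc : ∀ g ∈ A, g ≠ 1 → tr (ρ g * T) = tr (ρ a * T)) :
    Nat.card A * tr (pj ρ A l * T) = tr T - tr (ρ a * T) ∧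
      tr T = tr (pj ρ A (fun _ => 1) * T) + (Nat.card A - 1) * tr (pj ρ A l * T) := by
  have key : ∀ f : G → ℂ, f 1 = 1 → ∑ x : A, (f x)⁻¹ * tr (ρ x * T) = tr T - tr (ρ a * T) + tr (ρ a * T) * ∑ x : A, (f x)⁻¹ :=
    fun f h1 => by
      rw [mul_sum, ← add_sum_erase _ _ (mem_univ 1), ← add_sum_erase _ _ (mem_univ 1),
        sum_congr rfl fun x hx => by rw [hc x x.2 (by simpa using hx), mul_comm]]
      simp [h1]; ring
  have h1 := tr_pj (ρ := ρ) A l T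
  have h2 := tr_pj (ρ := ρ) A (fun _ => 1) T
  rw [key _ h.one, h.sum ha hne, mul_zero, add_zero] at h1
  rw [key (fun _ => 1) rfl] at h2
  simp only [inv_one, sum_const, card_univ, nsmul_eq_mul, mul_one, ← Nat.card_eq_fintype_card] at h2
  exact ⟨h1, mul_left_cancel₀ (card_ne A) (by linear_combination -h2 - (Nat.card A - 1) * h1)⟩

theorem tr_zero (h : IsCh N l) {a x : G} {T : End ℂ V} (h1 : ∀ y ∈ N, x * y * x⁻¹ ∈ N ∧ l (x * y * x⁻¹) = l y)
    (h2 : a⁻¹ * (x * a * x⁻¹) ∈ N) (h3 : l (a⁻¹ * (x * a * x⁻¹)) ≠ 1) (hT : Commute (ρ x) T) :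
    tr (ρ a * (pj ρ N l * T)) = 0 := by
  have := tr_conj ((pj_conj (ρ := ρ) h1).mul_right hT) a
  rw [show x * a * x⁻¹ = a * (a⁻¹ * (x * a * x⁻¹)) by group, map_mul ρ a, mul_assoc (ρ a), ← mul_assoc (ρ _) (pj ρ N l), mul_pj h h2,
    smul_mul_assoc, mul_smul_comm, map_smul, smul_eq_mul] at this
  exact (mul_left_eq_self₀.1 this).resolve_left h3

theorem tr_ext (h : IsCh A l) (hN : N ≤ A) {T : End ℂ V} (h3 : ∀ a ∈ A, a ∉ N → tr (ρ a * (pj ρ N l * T)) = 0) :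
    Nat.card A * tr (pj ρ A l * (pj ρ N l * T)) = Nat.card N * tr (pj ρ N l * T) := by
  rw [tr_pj, ← sum_subset (subset_univ (filter (fun a : A => (a : G) ∈ N) univ)) fun a _ ha => by
    rw [h3 a a.2 (by simpa using ha), mul_zero], sum_congr rfl fun a ha => by
      rw [← mul_assoc, mul_pj (h.mono hN) (by simpa using ha), smul_mul_assoc, map_smul, smul_eq_mul,
        inv_mul_cancel_left₀ (h.ne a.2)], sum_const, nsmul_eq_mul, ← Nat.card_congr (Subgroup.subgroupOfEquivOfLe hN).toEquiv,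
    Nat.card_eq_fintype_card, Fintype.card_subtype]
  rfl

theorem pj_mul_pj (h : IsCh A l) (hN : N ≤ A) : pj ρ A l * pj ρ N l = pj ρ A l := by
  have : Commute (pj ρ A l) (pj ρ N l) := pj_comm fun a ha => (pj_conj fun b hb => ⟨mul_mem (mul_mem (hN ha) hb) (inv_mem (hN ha)), by
    rw [h.mul _ (mul_mem (hN ha) hb) _ (inv_mem (hN ha)), h.mul _ (hN ha) _ hb, mul_right_comm, ← h.mul _ (hN ha) _ (inv_mem (hN ha))]
    simp [h.one]⟩).symm
  rw [this.eq, pj_mul_of (h.mono hN) fun a ha => mul_pj h (hN ha)]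

theorem exists_tr {P : End ℂ V} (h : P * P = P) : ∃ n : ℕ, tr P = n ∧ ∀ v, v ≠ 0 → P v = v → 1 ≤ n :=
  ⟨_, tr_idem h, fun v hv e => Nat.one_le_iff_ne_zero.2 fun c => hv (by
    rw [Submodule.finrank_eq_zero, LinearMap.range_eq_bot] at c; rw [← e, c]; rfl)⟩

variable (ρ) in
/-- the stabiliser of a line -/
def Ln (v : V) : Subgroup G where
  carrier := {g | ∃ c : ℂ, ρ g v = c • v}
  one_mem' := ⟨1, by simp⟩
  mul_mem' := by
    rintro a b ⟨c, hc⟩ ⟨d, hd⟩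
    exact ⟨d * c, by simp [hc, hd, smul_smul]⟩
  inv_mem' := by
    rintro a ⟨c, hc⟩
    have : c • ρ a⁻¹ v = v := by rw [← map_smul, ← hc, ← End.mul_apply, ← map_mul]; simp
    by_cases e : c = 0
    · exact ⟨0, by rw [← this, e]; simp⟩
    · exact ⟨c⁻¹, by rw [eq_inv_smul_iff₀ e, this]⟩

variable (ρ) in
/-- the stabiliser of a vector -/
def Fv (v : V) : Subgroup G where
  carrier := {g | ρ g v = v}
  one_mem' := by simp
  mul_mem' := fun {a b} (h : ρ a v = v) (h' : ρ b v = v) => by simp [h, h']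
  inv_mem' := fun {a} (h : ρ a v = v) => show ρ a⁻¹ v = v by
    conv_lhs => rw [← h, ← End.mul_apply, ← map_mul]
    simp

theorem Fv_le (v : V) : Fv ρ v ≤ Ln ρ v := fun _ h => ⟨1, h.trans (one_smul _ _).symm⟩

variable (ρ) in
/-- the eigenvalue -/
noncomputable def ev (v : V) (g : G) : ℂ := if h : g ∈ Ln ρ v then h.choose else 1

variable {v : V}

theorem ev_spec {g : G} (h : g ∈ Ln ρ v) : ρ g v = ev ρ v g • v := by rw [ev, dif_pos h]; exact h.choose_spec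

theorem ev_eq (hv : v ≠ 0) {g : G} {c : ℂ} (h : ρ g v = c • v) : ev ρ v g = c :=
  smul_left_injective ℂ hv ((ev_spec ⟨c, h⟩).symm.trans h)

theorem isCh_ev (hv : v ≠ 0) : IsCh (Ln ρ v) (ev ρ v) :=
  ⟨ev_eq hv (by simp), fun a ha b hb => ev_eq hv (by simp [ev_spec ha, ev_spec hb, smul_smul, mul_comm])⟩

theorem comm_mem_Fv {a b : G} (ha : a ∈ Ln ρ v) (hb : b ∈ Ln ρ v) : ⁅a, b⁆ ∈ Fv ρ v := by
  obtain ⟨c, hc⟩ := inv_mem ha
  obtain ⟨d, hd⟩ := inv_mem hb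
  have e : ρ (a⁻¹ * b⁻¹) v = ρ (b⁻¹ * a⁻¹) v := by simp only [map_mul, End.mul_apply, hc, hd, map_smul, smul_comm c d]
  show ρ _ v = v
  rw [show ⁅a, b⁆ = a * b * (a⁻¹ * b⁻¹) by group, map_mul, End.mul_apply, e, ← End.mul_apply, ← map_mul]
  simp

theorem mem_Ln_conj {g n : G} : n * g * n⁻¹ ∈ Ln ρ (ρ n v) ↔ g ∈ Ln ρ v := by
  refine exists_congr fun c => ?_
  have : Function.Injective (ρ n) := fun a b e => by simpa [← End.mul_apply, ← map_mul] using congrArg (ρ n⁻¹) e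
  rw [← End.mul_apply, ← map_mul, inv_mul_cancel_right, map_mul, End.mul_apply, ← map_smul, this.eq_iff]

theorem mem_Fv_conj {g n : G} : n * g * n⁻¹ ∈ Fv ρ (ρ n v) ↔ g ∈ Fv ρ v := by
  have : Function.Injective (ρ n) := fun a b e => by simpa [← End.mul_apply, ← map_mul] using congrArg (ρ n⁻¹) e
  show ρ _ _ = _ ↔ ρ _ _ = _
  rw [← End.mul_apply, ← map_mul, inv_mul_cancel_right, map_mul, End.mul_apply, this.eq_iff]

theorem apply_ne (hv : v ≠ 0) (n : G) : ρ n v ≠ 0 := fun e => hv (by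
  simpa [← End.mul_apply, ← map_mul] using congrArg (ρ n⁻¹) e)

theorem exists_line {P : End ℂ V} (h : P * P = P) (h1 : tr P = 1) : ∃ v, v ≠ 0 ∧ P v = v ∧
    ∀ T : End ℂ V, Commute T P → T v = tr (T * P) • v := by
  obtain ⟨w, hw⟩ : ∃ w, P w ≠ 0 := by
    by_contra! c
    simp [show P = 0 from LinearMap.ext c] at h1
  refine ⟨P w, hw, LinearMap.congr_fun h w, fun T hT => ?_⟩
  have := LinearMap.congr_fun (rank_one h h1 T) w
  rwa [← hT.eq, mul_assoc, h] at this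

/-- the multiplicities of the nontrivial characters of a subgroup normalising `N` on the fixed space of `N` -/
theorem fix_split {C : Subgroup G} (hC : ∀ g ∈ C, ∀ y ∈ N, g * y * g⁻¹ ∈ N)
    (ht : ∀ g ∈ C, ∀ g' ∈ C, g ≠ 1 → g' ≠ 1 → ∃ t, (∀ y ∈ N, t * y * t⁻¹ ∈ N) ∧ g' = t * g * t⁻¹) (hv : v ≠ 0)
    (h1 : N ≤ Fv ρ v) (h2 : C ≤ Ln ρ v) (h3 : ¬ C ≤ Fv ρ v) : ∃ r n : ℕ, 1 ≤ n ∧
      tr (pj ρ C (fun _ => 1) * pj ρ N fun _ => 1) = r ∧ tr (pj ρ C (ev ρ v) * pj ρ N fun _ => 1) = n ∧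
      tr (pj ρ N fun _ => 1) = r + (Nat.card C - 1) * n := by
  obtain ⟨a, ha, e⟩ := SetLike.not_le_iff_exists.1 h3
  have hl := (isCh_ev (ρ := ρ) hv).mono h2
  have idem : ∀ {l}, IsCh C l → (pj ρ C l * pj ρ N fun _ => 1) * (pj ρ C l * pj ρ N fun _ => 1) = pj ρ C l * pj ρ N fun _ => 1 :=
    fun {l} h => by
      have : Commute (pj ρ N fun _ => 1) (pj ρ C l) := pj_comm fun g hg => (pj_conj fun y hy => ⟨hC g hg y hy, rfl⟩).symm
      rw [mul_assoc, ← mul_assoc (pj ρ N _), this.eq, mul_assoc, pj_idem (isCh_one N), ← mul_assoc, pj_idem h]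
  obtain ⟨r, hr, -⟩ := exists_tr (idem (isCh_one C))
  obtain ⟨n, hn, hn'⟩ := exists_tr (idem hl)
  refine ⟨r, n, hn' v hv ?_, hr, hn, ?_⟩
  · rw [End.mul_apply, pj_apply (isCh_one N) fun y hy => (h1 hy).trans (one_smul _ _).symm, pj_apply hl fun g hg => ev_spec (h2 hg)]
  · rw [← hr, ← hn]
    refine (tr_split hl ha (fun c => e (show ρ a v = v by rw [ev_spec (h2 ha), c, one_smul])) fun g hg g1 => ?_).2
    obtain ⟨t, a1, rfl⟩ := ht a ha g hg (fun c => e (c ▸ one_mem _)) g1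
    exact tr_conj (pj_conj fun y hy => ⟨a1 y hy, rfl⟩) a

/-- the basic decomposition of the degree -/
theorem deg_split [IsSimpleGroup G] {k : ℕ} {ρ : Representation ℂ G (Fin k → ℂ)} (hρ : ρ.IsIrreducible) (hk : 2 ≤ k)
    (h : IsCh A l) (hN : N ≤ A) (h1 : ∀ g ∈ N, ∀ g' ∈ N, g ≠ 1 → g' ≠ 1 → IsConj g g') {y : G} (hy : y ∈ N) (h2 : l y ≠ 1)
    (h3 : ∀ a ∈ A, a ∉ N → ∃ x, (∀ y ∈ N, x * y * x⁻¹ ∈ N ∧ l (x * y * x⁻¹) = l y) ∧ a⁻¹ * (x * a * x⁻¹) ∈ N ∧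
      l (a⁻¹ * (x * a * x⁻¹)) ≠ 1) {s : ℕ} (hs : Nat.card A = Nat.card N * s) : ∃ b m : ℕ, 1 ≤ m ∧
      LinearMap.trace ℂ _ (pj ρ N fun _ => 1) = b ∧ LinearMap.trace ℂ _ (pj ρ A l) = m ∧
      k = b + (Nat.card N - 1) * s * m := by
  obtain ⟨b, hb, -⟩ := exists_tr (pj_idem (ρ := ρ) (isCh_one N))
  obtain ⟨m, hm, -⟩ := exists_tr (pj_idem (ρ := ρ) h)
  have y1 : y ≠ 1 := fun e => h2 (e ▸ h.one)
  obtain ⟨a1, a2⟩ := tr_split (ρ := ρ) (T := 1) (h.mono hN) hy h2 fun g hg g1 => by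
    obtain ⟨t, rfl⟩ := isConj_iff.1 (h1 y hy g hg y1 g1)
    exact tr_conj (Commute.one_right _) y
  have a3 := tr_ext (ρ := ρ) (T := 1) h hN fun a ha hn => by
    obtain ⟨x, b1, b2, b3⟩ := h3 a ha hn
    exact tr_zero (h.mono hN) b1 b2 b3 (Commute.one_right _)
  simp only [mul_one, pj_mul_pj h hN, hb, hm, hs, LinearMap.trace_one, finrank_fin_fun, Nat.cast_mul] at a1 a2 a3
  rw [mul_assoc, mul_right_inj' (card_ne N)] at a3
  refine ⟨b, m, Nat.one_le_iff_ne_zero.2 ?_, hb, hm, ?_⟩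
  · rintro rfl
    rw [← a3, Nat.cast_zero, mul_zero, mul_zero, eq_comm, sub_eq_zero] at a1
    exact H15.ne_of_simple hρ hk y1 a1.symm
  · rw [← a3, ← Nat.cast_one, ← Nat.cast_sub Nat.card_pos, ← mul_assoc] at a2
    exact_mod_cast a2

end Cfsg.Agent.H14.Dg
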