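import Cfsg.Agent.H14.Dg9
import Cfsg.Agent.H14.Graph
import Cfsg.Agent.H14.GrpD

/-! Degree bounds for simply laced Chevalley groups from root data. -/

set_option autoImplicit false
set_option linter.unusedSectionVars false
set_option linter.style.haveILetI false

namespace Cfsg.Agent.H14.Dg

open Cfsg.Lie Cfsg.Lie.ChevalleyDatum Module Finset H26.RD
open scoped Classical

variable {F : Type*} [Field F] [Fintype F]

local notation "q" => Fintype.card F

/-- the height of a root -/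
def htD (D : ChevalleyDatum) (r : ℕ) : ℤ := ((List.range D.rank).map fun i => (D.coroot.getD r #[]).getD i 0).sum

variable {D : ChevalleyDatum} (G : Good D) (hl : ∀ r s, G.R.len r = G.R.len s)
include hl

theorem ht_eq (r : Fin D.nroots) : G.R.ht r = htD D r := by
  rw [htD, RS.ht, RS.htv_apply, ← List.sum_toFinset _ List.nodup_range, List.toFinset_range, sum_range]
  exact sum_congr rfl fun i _ => by
    rw [← G.cov_eq, mul_right_cancel₀ (G.R.len_pos r).ne' ((G.R.cov_len r i).trans (by rw [hl _ r]))]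

theorem deg_good [IsSimpleGroup (D.group F)] {n k : ℕ} {ρ : Representation ℂ (D.group F) (Fin k → ℂ)} (hρ : ρ.IsIrreducible)
    (hk : 2 ≤ k) {ψ : AddChar F ℂ} (hψ : ψ ≠ 1)
    (c1 : ∀ i : Fin D.rank, (univ.filter fun γ : Fin D.nroots => 0 < htD D γ ∧ D.cartan i γ = 1).card = n + 1)
    (c2 : ∀ (i : Fin D.rank) (δ : Fin D.nroots), D.cartan i δ = 0 → 1 < htD D δ →
      ∃ κ : Fin D.nroots, D.cartan i κ = 0 ∧ -1 ≤ htD D κ ∧ htD D κ < htD D δ ∧ D.pairing κ δ = 1)
    (c3 : ∀ i j, i ≠ j → ∃ k, G.R.car i k = 0 ∧ G.R.car k j = -1 ∨ G.R.car j k = 0 ∧ G.R.car k i = -1) :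
    2 * (q ^ 2 - 1) * q ^ n ≤ k ∨ ∀ i a, a ≠ 0 → ∃ v, Lin (G.rgD F) ρ ψ (G.R.simple i) a v ∧
      (∀ δ, G.R.pos δ → δ ≠ G.R.simple i → ∀ t, ρ ((G.rgD F).x δ t) v = v) := by
  haveI := Fintype.ofFinite (D.group F)
  simp only [← ht_eq G hl, G.cartan_eq, G.pairing_eq, ← RS.pair_simple, ← RS.pos_iff_ht] at c1 c2
  refine (deg_sl (X := G.rgD F) hl hψ (fun i => eq_one_of_tr hρ hk ((G.rgD F).x_add _) (by simp [RG.x_eq_one_iff]))
    fun i => by convert c1 i).imp (by simp) fun hL i a ha => (hL i a ha).imp fun v h => ⟨h, fun δ => h.fix_pos hl c2 hψ c3 hL ha⟩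

theorem sum_pos (f : ℕ → ℕ) {L : List ℕ}
    (h : (((List.finRange D.nroots).filter fun r => 0 < htD D r.val).map fun r => (htD D r.val - 1).toNat) = L) :
    ∑ β ∈ univ.filter G.R.pos, f (G.R.ht β - 1).toNat = (L.map f).sum := by
  rw [← h, List.map_map, ← List.sum_toFinset _ ((List.nodup_finRange _).filter _)]
  exact sum_congr (by ext; simp [G.R.pos_iff_ht, ht_eq G hl]) fun _ _ => by simp [ht_eq G hl]

omit hl in
theorem up_pos : ∀ δ ∈ univ.filter G.R.pos, G.R.pos δ ∧ ∀ γ, G.R.pos γ → G.R.pair γ δ = -1 → G.R.refl γ δ ∈ univ.filter G.R.pos :=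
  fun δ h => ⟨(mem_filter.1 h).2, fun γ a b => by
    have := (mem_filter.1 h).2.ht_pos
    have := a.ht_pos
    simp only [mem_filter, mem_univ, true_and, G.R.pos_iff_ht, ht_refl, b]
    omega⟩

end Cfsg.Agent.H14.Dg
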