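import Cfsg.Agent.H14.Dg10
import Cfsg.Agent.H14.Dg11
import Cfsg.Agent.H4.Integral
import Cfsg.Agent.S1054
import Cfsg.Agent.S1065

/-! The minimal degree of the groups of type `E₈`. -/

set_option autoImplicit false
set_option linter.style.haveILetI false

namespace Cfsg.Agent.H14.Dg

open Cfsg.Lie Cfsg.Lie.ChevalleyDatum Module Finset

theorem chkE8 : ∀ i : Fin 8, (univ.filter fun γ : Fin 240 => 0 < htD chevE8 γ ∧ chevE8.cartan i γ = 1).card = 27 + 1 := by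
  decide +kernel

theorem chkE8' : ∀ (i : Fin 8) (δ : Fin 240), chevE8.cartan i δ = 0 → 1 < htD chevE8 δ →
      ∃ κ : Fin 240, chevE8.cartan i κ = 0 ∧ -1 ≤ htD chevE8 κ ∧ htD chevE8 κ < htD chevE8 δ ∧ chevE8.pairing κ δ = 1 := by
  decide +kernel

theorem degree_E8 {F : Type*} [Field F] [Fintype F] (k : ℕ) (ρ : Representation ℂ (chevE8.group F) (Fin k → ℂ)) (hρ : ρ.IsIrreducible)
    (hk : 2 ≤ k) : Fintype.card F * (Fintype.card F ^ 12 + 1) * (Fintype.card F ^ 10 + 1) * (Fintype.card F ^ 6 + 1) ≤ k := by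
  haveI := Fintype.ofFinite (chevE8.group F)
  haveI := (S1054.result (F := F) chevE8 (by simp)).1
  obtain ⟨ψ, hψ⟩ := (AddChar.exists_apply_ne_zero (a := (1 : F))).2 one_ne_zero
  replace hψ : ψ ≠ 1 := fun e => hψ (by simp [e])
  obtain ⟨p, hp, m, h1, h2⟩ := FiniteField.card' F
  obtain ⟨b, hb⟩ := Nat.exists_eq_add_of_le' (Fintype.one_lt_card (α := F))
  rcases deg_good goodE8 (slE8 _) hρ hk hψ chkE8 chkE8' (by
    rw [car_eqE8]
    exact (by decide +kernel : ∀ i j : Fin 8, i ≠ j → ∃ k, carE8 i k = 0 ∧ carE8 k j = -1 ∨ carE8 j k = 0 ∧ carE8 k i = -1)) with h | h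
  · refine le_trans ?_ h
    rw [hb, show (b + 2) ^ 2 - 1 = b ^ 2 + 4 * b + 3 from Nat.sub_eq_of_eq_add (by ring)]
    ring_nf
    omega
  obtain ⟨z, -, hz⟩ := chain (slE8 _) hψ (fun i a ha => (h i a ha).imp fun v h => ⟨h.1.ne, h.1.eig, h.2⟩) _ (up_pos goodE8)
  rw [sum_pos goodE8 (slE8 _) (fun k => (Fintype.card F - 1) * Fintype.card F ^ k) (L := [0, 0, 1, 0, 1, 2, 0, 1, 2, 3, 0, 1, 2, 3, 4, 0, 1, 2, 3, 4, 5, 0, 1, 2, 3, 4, 5, 2, 3, 4, 5, 6, 4, 5, 6, 7, 6, 7, 8, 8, 9, 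
    10, 0, 1, 2, 3, 4, 5, 6, 3, 4, 5, 6, 7, 5, 6, 7, 8, 7, 8, 9, 9, 10, 11, 6, 7, 8, 9, 8, 9, 10, 10, 11, 12, 9, 10, 11, 11, 
    12, 13, 12, 13, 14, 15, 10, 11, 12, 12, 13, 14, 13, 14, 15, 16, 14, 15, 16, 17, 18, 15, 16, 17, 18, 19, 20, 21, 16, 17, 18, 
    19, 20, 21, 22, 22, 23, 24, 25, 26, 27, 28]) (by decide +kernel), finrank_fin_fun] at hz
  refine not_lt.1 fun c => ?_
  obtain ⟨j, hj⟩ := Nat.exists_eq_add_of_le c.le
  refine arith_E8 h1 h2 Fintype.one_lt_card (by omega) (Nat.le_of_add_le_add_left (hj.ge.trans (le_trans ?_ (Nat.add_le_add_right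
    (le_of_add_le_right hz) 8)))) hj.symm ((H4.Cfsg.IsIrrCharacter.degree_dvd_card ⟨k, ρ, hρ, rfl⟩ (by simp)).trans
      (by rw [S1065.result rfl]; simp only [mul_assoc, dvd_refl]))
  rw [hb, show b + 2 - 1 = b + 1 from rfl]
  simp only [List.map, List.sum_cons, List.sum_nil]
  exact le_of_eq (by ring)

end Cfsg.Agent.H14.Dg
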