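import Cfsg.Agent.H14.Dg9

/-! Representations of simply laced groups: vectors fixed by a maximal unipotent subgroup. -/

set_option autoImplicit false
set_option linter.unusedSectionVars false

namespace Cfsg.Agent.H14.Dg

open Module Finset H26.RD
open scoped Classical commutatorElement

variable {ι Φ : Type} [Fintype ι] [DecidableEq ι] [Fintype Φ] {R : RS ι Φ} {F : Type*} [Field F] [Fintype F]
  {G : Type*} [Group G] [Fintype G] {X : RG R F G} {V : Type*} [AddCommGroup V] [Module ℂ V] [FiniteDimensional ℂ V]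
  {ρ : Representation ℂ G V} {ψ : AddChar F ℂ}

local notation "x" => RG0.x (RG.toRG0 X)
local notation "n" => RG0.n (RG.toRG0 X)
local notation "tr" => LinearMap.trace ℂ V
local notation "q" => Fintype.card F
local notation "E" r => Ex ρ ψ (RG0.x (RG.toRG0 X) r)

theorem pG_rho {S : Set Φ} {g : G} (hg : g ∈ X.gen S) (v : V) : pG X ρ S (ρ g v) = pG X ρ S v := by
  rw [← End.mul_apply, ← (show Commute (ρ g) (pG X ρ S) from
    pj_conj fun _ h => ⟨mul_mem (mul_mem hg h) (inv_mem hg), rfl⟩).eq, show ρ g * pG X ρ S = _ from mul_pj (isCh_one _) hg, one_smul]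
  rfl

theorem pG_pG {S T : Set Φ} (h : S ⊆ T) (v : V) : pG X ρ T (pG X ρ S v) = pG X ρ T v :=
  LinearMap.congr_fun (pj_mul_pj (isCh_one _) (X.gen_mono h)) v

theorem Ex_congr {y z : F → G} {a b : F} {v w : V} {T T' : End ℂ V} {c : F} (hc : c ≠ 0)
    (h : ∀ t, ψ (-(a * t)) • T (ρ (y t) v) = ψ (-(b * (c * t))) • T' (ρ (z (c * t)) w)) : T (Ex ρ ψ y a v) = T' (Ex ρ ψ z b w) := by
  simp only [Ex, LinearMap.smul_apply, LinearMap.sum_apply, map_smul, map_sum, h]
  rw [← Equiv.sum_comp (Equiv.mulLeft₀ c hc) fun t => ψ (-(b * t)) • T' (ρ (z t) w)]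
  rfl

theorem Ex_avg {y : F → G} (hy : OP y) {v : V} {T : End ℂ V} (h : ∀ t, t ≠ 0 → T (ρ (y t) v) = 0) :
    T (Ex ρ ψ y 0 v) = (q : ℂ)⁻¹ • T v := by
  simp only [Ex, LinearMap.smul_apply, LinearMap.sum_apply, map_smul, map_sum]
  rw [sum_eq_single 0 (fun t _ e => by simp [h t e]) (by simp)]
  simp [hy.zero]

theorem univ_two (h : q = 2) : (univ : Finset F) = {0, 1} := (eq_univ_of_card _ (by simp [h])).symm

theorem Ex_two (h : q = 2) {y : F → G} (hy : OP y) (a : F) (v : V) : Ex ρ ψ y a v = (2 : ℂ)⁻¹ • (v + ψ (-a) • ρ (y 1) v) := by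
  simp [Ex, univ_two h, h, hy.zero]

attribute [local irreducible] Ex pG

theorem eq_zero_of_eig (hψ : ψ ≠ 1) {a : F} (ha : a ≠ 0) {z : V} (h : ∀ t, z = ψ (a * t) • z) : z = 0 := by
  obtain ⟨u, hu⟩ := AddChar.ne_one_iff.1 hψ
  have := h (u / a)
  rw [mul_div_cancel₀ _ ha, ← sub_eq_zero, ← one_smul ℂ z, smul_smul, mul_one, ← sub_smul, smul_eq_zero, sub_eq_zero] at this
  simpa using this.resolve_left hu.symm

theorem pG_e {S : Set Φ} {r : Φ} (h : r ∈ S) (v : V) : pG X ρ S ((E r) 0 v) = pG X ρ S v := by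
  rw [Ex_congr (T' := pG X ρ S) (z := fun _ => 1) (b := 0) (w := v) one_ne_zero fun t => by simp [pG_rho (X.x_mem_gen h t)],
    Ex_apply (by simp)]

theorem tr_step {S T : Set Φ} (h : S ⊆ T) {w : V} (h0 : w ≠ 0) (h1 : ∀ r ∈ S, ∀ t, ρ (x r t) w = w) (h2 : pG X ρ T w = 0) {a b : ℕ}
    (ha : tr (pG X ρ S) = a) (hb : tr (pG X ρ T) = b) : b < a := by
  have e1 : pG X ρ T * pG X ρ S = pG X ρ T := LinearMap.ext (pG_pG h)
  have e2 : pG X ρ S * pG X ρ T = pG X ρ T := LinearMap.ext fun v => pG_apply fun r hr t => LinearMap.congr_fun (x_pG (h hr) t) v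
  obtain ⟨m, h3, h4⟩ := exists_tr (P := pG X ρ S - pG X ρ T) (by simp [mul_sub, sub_mul, e1, e2, pG_idem])
  have := h4 w h0 (by simp [pG_apply h1, h2])
  rw [map_sub, ha, hb, sub_eq_iff_eq_add] at h3
  norm_cast at h3
  omega

theorem n_apply (r s : Φ) : ∃ c : F, c ≠ 0 ∧ ∀ t v, ρ (x s (c * t)) (ρ (n r 1) v) = ρ (n r 1) (ρ (x (R.refl r s) t) v) :=
  ⟨_, mul_ne_zero (X.η_cast_ne r (R.refl r s)) (zpow_ne_zero _ one_ne_zero), fun t v => by
    have := X.n_conj r (R.refl r s) 1 one_ne_zero t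
    rw [R.refl_refl] at this
    rw [← this, ← End.mul_apply, ← map_mul, inv_mul_cancel_right, map_mul, End.mul_apply]⟩

theorem n_fix {r s : Φ} {v : V} (h : ∀ t, ρ (x (R.refl r s) t) v = v) (t : F) : ρ (x s t) (ρ (n r 1) v) = ρ (n r 1) v := by
  obtain ⟨c, c0, hc⟩ := n_apply (X := X) (ρ := ρ) r s
  rw [← mul_div_cancel₀ t c0, hc, h]

theorem rho_inj (g : G) : Function.Injective (ρ g) := fun a b e => by
  simpa [← End.mul_apply, ← map_mul] using congrArg (ρ g⁻¹) e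

variable (hl : ∀ r s, R.len r = R.len s)
include hl

theorem Ex_x {r s : Φ} (h : R.pair r s = -1) {t a : F} (ht : t ≠ 0) {w : V} (hw : ∀ u, ρ (x r u) w = ψ (a * u) • w) :
    (E r) a (ρ (x s t) w) = ρ (x s t) ((E (R.refl r s)) 0 w) :=
  Ex_congr (T := 1) (mul_ne_zero (X.η_cast_ne r s) ht) fun u => by
    rw [End.one_apply, ← End.mul_apply, ← map_mul, mul_inv_eq_iff_eq_mul.1 (cjS hl h u t), (X.commute_sl hl (r := R.refl r s) (by
      simp [R.pair_refl_left_sl hl, h]) _ _).eq, map_mul, map_mul, End.mul_apply, End.mul_apply, hw, mul_right_comm]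
    simp [smul_smul, ← AddChar.map_add_eq_mul]

theorem fix_e {r s : Φ} {v : V} (h : s ≠ R.neg r) (h1 : ∀ t, ρ (x r t) v = v) (h2 : R.pair r s = -1 → ∀ t, ρ (x (R.refl r s) t) v = v)
    (a t : F) : ρ (x r t) ((E s) a v) = (E s) a v :=
  Ex_congr (T' := 1) one_ne_zero fun u => by rw [swap_apply hl h h2, h1]; simp

theorem key_vec (hψ : ψ ≠ 1) {i j : ι} (hij : R.car i j = -1) {a : F} (ha : a ≠ 0) {v : V}
    (h1 : ∀ t, ρ (x (R.simple i) t) v = ψ (a * t) • v) (h2 : ∀ δ, R.pos δ → δ ≠ R.simple i → ∀ t, ρ (x δ t) v = v)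
    (hL : ∀ b, b ≠ 0 → ∃ w, Lin X ρ ψ (R.simple j) b w ∧ ∀ t, ρ (x (R.simple i) t) w = w) {t : F} (ht : t ≠ 0) :
    ∃ P : End ℂ V, (∀ w, P ((E (R.simple j)) 0 w) = P w) ∧ (∀ w, (∀ δ, R.pos δ → ∀ t, ρ (x δ t) w = w) → P w = w) ∧
      (E (R.simple i)) a (ρ (n (R.simple i) 1)⁻¹ (P (ρ (x (R.neg (R.simple j)) t) ((E (R.simple i)) 0 (ρ (n (R.simple i) 1) v))))) =
        (q : ℂ)⁻¹ • v := by
  have ne : i ≠ j := by rintro rfl; simp at hij
  have pa := R.pos_simple i
  have pb := R.pos_simple j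
  have sb : ∀ δ, R.pos δ → δ ≠ R.simple j → R.pos (R.refl (R.simple j) δ) := fun δ a b => by simpa using a.srefl b
  have sa : ∀ δ, R.pos δ → δ ≠ R.simple i → R.pos (R.refl (R.simple i) δ) := fun δ a b => by simpa using a.srefl b
  have nb : R.simple j ≠ R.simple i := fun e => ne (R.simple_injective e).symm
  rw [← R.pair_simple_simple] at hij
  generalize R.simple i = α at *
  generalize R.simple j = β at *
  have hji := R.pair_comm_sl hl α β ▸ hij
  obtain ⟨γ, hγ⟩ : ∃ γ, γ = R.refl α β := ⟨_, rfl⟩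
  have pc : R.pos γ := hγ ▸ sa β pb nb
  have p1 : R.pair α γ = 1 := by simp [hγ, R.pair_refl_self, hij]
  have p2 : R.pair γ β = 1 := by simp [hγ, R.pair_refl_left_sl hl, hij]
  have r1 : R.refl α γ = β := by simp [hγ]
  have vc : R.vec γ = R.vec β + R.vec α := by simp [hγ, R.vec_refl, hij]
  have r2 : R.refl β γ = α := R.vec_inj (by simp [R.vec_refl, R.pair_comm_sl hl β γ, p2, vc])
  have r3 : R.refl γ (R.neg β) = α := R.vec_inj (by simp [R.vec_refl, R.vec_neg, p2, vc])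
  have nc : γ ≠ α := by rintro rfl; simp at p1
  have n2 : ∀ s, ∃ c : F, c ≠ 0 ∧ ∀ t y, ρ (x s (c * t)) (ρ (n α 1) (ρ (n β 1) y)) =
      ρ (n α 1) (ρ (n β 1) (ρ (x (R.refl β (R.refl α s)) t) y)) := fun s => by
    obtain ⟨c, c0, hc⟩ := n_apply (X := X) (ρ := ρ) α s
    obtain ⟨d, d0, hd⟩ := n_apply (X := X) (ρ := ρ) β (R.refl α s)
    exact ⟨c * d, mul_ne_zero c0 d0, fun t y => by rw [mul_assoc, hc, hd]⟩
  have s1 : ∀ t, ρ (x (R.neg γ) t) ((E (R.neg β)) 0 v) = (E (R.neg β)) 0 v := fun t => by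
    obtain ⟨c, c0, hc⟩ := n2 β
    obtain ⟨d, d0, hd⟩ := n2 α
    obtain ⟨w, hw, hw'⟩ := hL (a / c) (div_ne_zero ha c0)
    suffices k : ∀ δ, R.pos δ → R.pair β δ = 1 → ∀ t, ρ (x (R.refl β (R.refl α δ)) t) ((E (R.neg β)) 0 v) = (E (R.neg β)) 0 v by
      obtain ⟨e, he⟩ := hw.uniq (ρ (n α 1) (ρ (n β 1) ((E (R.neg β)) 0 v))) (fun t => by
        rw [← mul_div_cancel₀ t c0, hc, ← hγ, r2, ← End.mul_apply (ρ (x α _)), (show Commute (ρ (x α (t / c))) ((E (R.neg β)) 0) from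
          comm_Ex' (fun u => X.commute_sl hl (by simp [hij]) _ u) 0).eq, End.mul_apply, h1, map_smul, map_smul, map_smul]
        congr 2; field_simp) fun δ a1 a2 => n_fix (n_fix (k δ a1 a2))
      have := hd t ((E (R.neg β)) 0 v)
      rw [he, map_smul, hw', ← he, R.refl_self, R.refl_neg_right, ← r2, R.refl_refl] at this
      exact (rho_inj _ (rho_inj _ this)).symm
    intro δ a1 a2
    by_cases c : δ = γ
    · rw [c, r1, R.refl_self]
      exact fun t => by simpa using LinearMap.congr_fun (mul_Ex (ρ := ρ) (ψ := ψ) (X.x_add (R.neg β)) 0 t) v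
    have b1 := sa δ a1 (by rintro rfl; omega)
    have b2 := sb _ b1 fun e => c (by rw [hγ, ← e, R.refl_refl])
    have b3 : R.pair α (R.refl β (R.refl α δ)) = 1 := by rw [← a2, ← R.pair_refl α β, ← R.pair_refl β (R.refl α β), ← hγ, r2]
    have b4 : R.refl β (R.refl α δ) ≠ β := fun e => by rw [e] at b3; omega
    refine fix_e hl (fun e => b4 (R.neg_injective e).symm) (h2 _ b2 fun e => by simp [e] at b3) (fun e => ?_) 0
    have e' : R.pair β (R.refl α δ) = -1 := by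
      rw [R.pair_neg_right, R.pair_comm_sl hl, R.pair_refl_self] at e; omega
    rw [show R.refl (R.refl β (R.refl α δ)) (R.neg β) = R.refl α δ from
      R.vec_inj (by rw [R.vec_refl, e, R.vec_refl β, e', R.vec_neg]; simp)]
    exact h2 _ b1 fun e => (R.pos_neg_iff_not α).1 (by rwa [← R.refl_refl α δ, e, R.refl_self] at a1) pa
  have c1 : ∀ t, Commute (ρ (x α t)) (pG X ρ {β, γ}) := fun t => comm_pG (by
    rintro s (rfl | rfl) u
    · rw [cjS hl hij, ← hγ]; exact mul_mem (X.x_mem_gen (by simp) _) (X.x_mem_gen (by simp) _)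
    · simpa [(X.commute_sl hl (p1 ▸ zero_le_one) t u).eq] using X.x_mem_gen (by simp) u)
  have c2 : Commute (ρ (n α 1)) (pG X ρ {β, γ}) := comm_pG (by
    rintro s (rfl | rfl) u <;> rw [X.n_conj _ _ _ one_ne_zero] <;> exact X.x_mem_gen (by simp [hγ]) _)
  refine ⟨pG X ρ {β, γ}, pG_e (by simp), fun w h => pG_apply (by rintro _ (rfl | rfl) <;> exact h _ ‹_›), ?_⟩
  obtain ⟨c, c0, hc⟩ := n_apply (X := X) (ρ := ρ) α (R.neg β)
  have e0 : (E α) 0 v = 0 := eq_zero_of_eig hψ ha fun t => by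
    rw [← map_smul, ← h1, ← End.mul_apply, ← (comm_Ex' (fun u => X.x_comm α t u) 0).eq, mul_Ex (X.x_add α)]; simp
  have e1 := fun t ht w (hw : ∀ u, ρ (x γ u) w = w) => Ex_x (X := X) (ρ := ρ) (ψ := ψ) hl (r := γ) (s := R.neg β) (by simp [p2])
    (t := t) (a := 0) ht (w := w) (by simpa using hw)
  rw [← r3, ← e1 t ht _ (n_fix (by rw [r3, r1]; exact h2 β pb nb)), pG_e (by simp), r3, ← mul_div_cancel₀ t c0, hc,
    ← End.mul_apply (pG _ _ _), ← c2.eq, End.mul_apply, ← End.mul_apply (ρ _), ← map_mul, inv_mul_cancel, map_one, End.one_apply,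
    ← End.mul_apply, ← (comm_Ex (fun t => (c1 t).symm) a).eq, End.mul_apply, R.refl_neg_right, ← hγ,
    Ex_x hl (by simp [p1]) (div_ne_zero ht c0) h1, R.refl_neg_right, r1, s1, ← pG_e (ψ := ψ) (r := γ) (by simp),
    Ex_avg (T := (E γ) 0) (X.x_add _) fun t ht => by rw [e1 t ht v (h2 γ pc nc), r3, e0, map_zero],
    Ex_apply (by simpa using h2 γ pc nc), map_smul,
    pG_apply (by rintro _ (rfl | rfl); exacts [h2 _ pb nb, h2 _ pc nc])]

theorem exists_u (hψ : ψ ≠ 1) (hL : ∀ i a, a ≠ 0 → ∃ v, Lin X ρ ψ (R.simple i) a v ∧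
    ∀ δ, R.pos δ → δ ≠ R.simple i → ∀ t, ρ (x δ t) v = v) {i j : ι} (hij : R.car i j = -1) : ∃ u, u ≠ 0 ∧
      (∀ δ, R.pos δ → ∀ t, ρ (x δ t) u = u) ∧ (∀ k, R.car i k = 0 → ∀ t, ρ (x (R.neg (R.simple k)) t) u = u) ∧
      (∀ S, R.simple i ∈ S → R.neg (R.simple i) ∈ S → pG X ρ S u = 0) ∧
      (q = 2 → pG X ρ {R.simple j, R.neg (R.simple j)} u ≠ 0) := by
  obtain ⟨v, hv, h2⟩ := hL i 1 one_ne_zero
  have ne : R.simple i ≠ R.simple j := fun e => by simp [R.simple_injective e] at hij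
  obtain ⟨P, p1, p2, p3⟩ := key_vec hl hψ hij one_ne_zero hv.eig h2
    (fun b hb => (hL j b hb).imp fun w h => ⟨h.1, h.2 _ (R.pos_simple i) ne⟩) one_ne_zero
  have a0 : ∀ δ, R.pos δ → δ ≠ R.simple i → ∀ t, ρ (x δ t) (ρ (n (R.simple i) 1) v) = ρ (n (R.simple i) 1) v := fun δ a b =>
    n_fix (h2 _ (by simpa using a.srefl b) fun e => R.not_pos_neg_simple i (by rwa [← R.refl_refl (R.simple i) δ, e, R.refl_self] at a))
  have a1 : ∀ δ, R.pos δ → ∀ t, ρ (x δ t) ((E (R.simple i)) 0 (ρ (n (R.simple i) 1) v)) = (E (R.simple i)) 0 (ρ (n (R.simple i) 1) v) :=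
    fun δ a => by
      by_cases c : δ = R.simple i
      · exact fun t => by simpa [c] using LinearMap.congr_fun (mul_Ex (ρ := ρ) (ψ := ψ) (X.x_add (R.simple i)) 0 t) _
      · refine fix_e hl (RS.ne_neg_of_f RS.htv (add_pos a.ht_pos (R.pos_simple i).ht_pos)) (a0 δ a c) (fun e => ?_) 0
        have := a.ht_pos
        have h := ht_refl (R := R) δ (R.simple i)
        rw [e, R.ht_simple] at h
        exact a0 _ (by rw [R.pos_iff_ht]; omega) fun c => by rw [c, R.ht_simple] at h; omega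
  refine ⟨_, fun e => hv.ne (by simpa [e] using p3.symm), a1, fun k hk => ?_, fun S b1 b2 => ?_, fun hq e => ?_⟩
  · rw [← R.pair_simple_simple] at hk
    have hk' := R.pair_comm_sl hl _ _ ▸ hk
    refine fix_e hl (fun e => by simp [← R.neg_neg _ ▸ e] at hk) (n_fix fun t => ?_) (by simp [hk']) 0
    have c : R.simple k ≠ R.simple i := fun e => by simp [e] at hk
    obtain ⟨c, hc⟩ : n (R.simple k) 1 ∈ Ln ρ v := mul_mem (mul_mem (Fv_le v (h2 _ (R.pos_simple k) c _))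
      (hv.stab0 hl (by simp [hk]) (by simp) _)) (Fv_le v (h2 _ (R.pos_simple k) c _))
    have := n_fix (X := X) (ρ := ρ) (v := v) (r := R.simple k) (s := R.neg (R.simple k)) (by
      rw [R.refl_neg_self]; exact h2 _ (R.pos_simple k) ‹_›) t
    rw [hc, map_smul] at this
    rw [show R.refl (R.simple i) (R.neg (R.simple k)) = R.neg (R.simple k) from R.vec_inj (by simp [R.vec_refl, hk, -RS.refl_simple])]
    exact smul_right_injective V (fun e => apply_ne (ρ := ρ) hv.ne _ (by rw [hc, e, zero_smul])) this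
  · rw [pG_e b1, pG_rho (X.n_mem_gen b1 b2 1)]
    exact eq_zero_of_eig hψ one_ne_zero fun t => by rw [← map_smul, ← hv.eig, pG_rho (X.x_mem_gen b1 t)]
  · have o : ∀ t : F, t = 0 ∨ t = 1 := fun t => by simpa [univ_two hq] using mem_univ t
    have m : (-1 : F) = 1 := (o _).resolve_left (by simp)
    have i2 : ∀ r z, ρ (x r 1) (ρ (x r 1) z) = z := fun r z => by
      rw [← End.mul_apply, ← map_mul, ← X.x_add, eq_neg_iff_add_eq_zero.1 m.symm]; simp
    have br : ∀ r z, ρ (n r 1) z = ρ (x r 1) (ρ (x (R.neg r) 1) (ρ (x r 1) z)) ∧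
        ρ (n r 1) z = ρ (x (R.neg r) 1) (ρ (x r 1) (ρ (x (R.neg r) 1) z)) := fun r z =>
      ⟨by simp [RG0.n, m], by rw [← X.n_neg_root r one_ne_zero]; simp [RG0.n, m]⟩
    have ψ1 : ψ 1 = -1 := by
      obtain ⟨t, ht⟩ := AddChar.ne_one_iff.1 hψ
      refine (mul_self_eq_one_iff.1 ?_).resolve_left (by rcases o t with rfl | rfl <;> simp_all)
      rw [← AddChar.map_add_eq_mul, eq_neg_iff_add_eq_zero.1 m.symm, AddChar.map_zero_eq_one]
    have h1 := hv.eig 1
    rw [show (n (R.simple i) 1)⁻¹ = n (R.simple i) 1 by rw [← X.n_neg, m]] at p3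
    generalize hu : (E (R.simple i)) 0 (ρ (n (R.simple i) 1) v) = u at *
    have u1 := a1 _ (R.pos_simple j) 1
    have b0 := (br (R.simple j) u).1.symm.trans (br (R.simple j) u).2
    have z : u + (ρ (x (R.neg (R.simple j)) 1) u + ρ (x (R.simple j) 1) (ρ (x (R.neg (R.simple j)) 1) u)) = 0 := by
      refine (pG_apply (X := X) (ρ := ρ) (S := {R.simple j, R.neg (R.simple j)}) ?_).symm.trans ?_
      · rintro _ (rfl | rfl) t <;> rcases o t with rfl | rfl <;> simp only [map_add, i2, ← b0, u1, RG0.x_zero, map_one, End.one_apply] <;>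
          abel
      · rw [map_add, map_add, pG_rho (X.x_mem_gen (Set.mem_insert _ _) _),
          pG_rho (X.x_mem_gen (Set.mem_insert_of_mem _ (Set.mem_singleton _)) _), e, add_zero, add_zero]
    rw [← p1, Ex_two hq (X.x_add (R.simple j)), neg_zero, AddChar.map_zero_eq_one, one_smul, eq_neg_of_add_eq_zero_right z, map_smul,
      map_neg, p2 u a1, ← hu] at p3
    have b1 := (br (R.simple i) v).1.symm.trans (br (R.simple i) v).2
    have b2 := (br (R.simple i) (ρ (x (R.neg (R.simple i)) 1) v)).1.symm.trans (br (R.simple i) _).2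
    simp only [Ex_two hq (X.x_add _), fun z => (br (R.simple i) z).1, map_smul, map_add, map_neg, i2, h1, m, mul_one, ψ1, neg_zero,
      AddChar.map_zero_eq_one, hq, one_smul, neg_smul, b2] at p3 b1
    have i3 := i2 (R.neg (R.simple i)) v
    generalize ρ (x (R.simple i) 1) = a at *
    generalize ρ (x (R.neg (R.simple i)) 1) = b at *
    have c1 : a (b v) = b v + (6 : ℂ) • v := by linear_combination (norm := module) (8 : ℂ) • p3
    rw [c1, map_add, map_smul, i3] at b1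
    have c2 : b v = -v := by linear_combination (norm := module) (-7⁻¹ : ℂ) • b1
    rw [c2, map_neg, h1, mul_one, ψ1] at c1
    exact hv.ne (by linear_combination (norm := module) (-4⁻¹ : ℂ) • c1)

variable (R) in
omit hl in
/-- the roots of a parabolic subgroup -/
def SJ (J : List ι) : Set Φ := {δ | R.pos δ ∨ ∃ j ∈ J, δ = R.neg (R.simple j)}

variable (hψ : ψ ≠ 1) (hL : ∀ i a, a ≠ 0 → ∃ v, Lin X ρ ψ (R.simple i) a v ∧
    ∀ δ, R.pos δ → δ ≠ R.simple i → ∀ t : F, ρ (RG0.x X.toRG0 δ t) v = v)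
include hψ hL

theorem step_a {J : List ι} {i j : ι} (hij : R.car i j = -1) (h : ∀ k ∈ J, R.car i k = 0) {a b : ℕ}
    (ha : tr (pG X ρ (SJ R J)) = a) (hb : tr (pG X ρ (SJ R (i :: J))) = b) : b < a := by
  obtain ⟨u, u0, u1, u2, u3, -⟩ := exists_u hl hψ hL hij
  exact tr_step (fun δ => Or.imp_right fun ⟨k, a, b⟩ => ⟨k, List.mem_cons_of_mem _ a, b⟩) u0
    (by rintro δ (c | ⟨k, c, rfl⟩); exacts [u1 δ c, u2 k (h k c)]) (u3 _ (Or.inl (R.pos_simple i)) (Or.inr ⟨i, by simp, rfl⟩)) ha hb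

theorem step_b (hq : q = 2) {J : List ι} {i j : ι} (hij : R.car i j = -1) (h : ∀ k ∈ J, R.car i k = 0 ∧ R.car j k = 0) {a b : ℕ}
    (ha : tr (pG X ρ (SJ R (j :: J))) = a) (hb : tr (pG X ρ (SJ R (i :: j :: J))) = b) : b < a := by
  obtain ⟨u, -, u1, u2, u3, u4⟩ := exists_u hl hψ hL hij
  have f : ∀ δ, δ = R.simple j ∨ δ = R.neg (R.simple j) → ∀ t, ρ (x δ t) (pG X ρ {R.simple j, R.neg (R.simple j)} u) =
      pG X ρ {R.simple j, R.neg (R.simple j)} u := fun δ c t => LinearMap.congr_fun (x_pG (S := {_, _}) c t) u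
  refine tr_step (fun δ => Or.imp_right fun ⟨k, a, b⟩ => ⟨k, List.mem_cons_of_mem _ a, b⟩) (u4 hq) ?_
    ((pG_pG (by rintro _ (rfl | rfl); exacts [Or.inl (R.pos_simple j), Or.inr ⟨j, by simp, rfl⟩]) u).trans
      (u3 _ (Or.inl (R.pos_simple i)) (Or.inr ⟨i, by simp, rfl⟩))) ha hb
  rintro δ (c | ⟨k, c, rfl⟩) t
  · by_cases e : δ = R.simple j
    · exact f δ (Or.inl e) t
    let M : Set Φ := {δ | R.pos δ ∧ δ ≠ R.simple j}
    have m : ∀ r, r = R.simple j ∨ r = R.neg (R.simple j) → ∀ s, Commute (ρ (x r s)) (pG X ρ M) := fun r hr s => comm_pG fun δ a t => by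
      have n1 : δ ≠ R.neg r := by
        rcases hr with rfl | rfl
        exacts [fun e => R.not_pos_neg_simple j (e ▸ a.1), by simpa using a.2]
      by_cases e : R.pair r δ = -1
      · rw [cjS hl e]
        refine mul_mem (X.x_mem_gen (S := M) ⟨by rcases hr with rfl | rfl <;> simpa using a.1.srefl a.2, fun c => ?_⟩ _) (X.x_mem_gen a _)
        have := R.pair_refl_self r δ
        rw [c, e] at this
        rcases hr with rfl | rfl <;> simp at this
      · simpa [(X.commute_sl hl (pair_ge hl n1 e) s t).eq] using X.x_mem_gen a t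
    rw [← pG_apply (S := M) fun r a => u1 r a.1, ← End.mul_apply (pG _ _ _), (pG_comm (S := {_, _}) m).eq, End.mul_apply, ← End.mul_apply,
      x_pG (show δ ∈ M from ⟨c, e⟩)]
  · rcases List.mem_cons.1 c with rfl | c
    · exact f _ (Or.inr rfl) t
    have := (h k c).2
    rw [← R.pair_simple_simple, R.pair_comm_sl hl] at this
    rw [← End.mul_apply, (comm_pG' (by rintro _ (rfl | rfl) s <;> exact X.commute_sl hl (by simp [this]) _ _)).eq, End.mul_apply,
      u2 k (h k c).1]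

end Cfsg.Agent.H14.Dg
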