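import Cfsg.Agent.H14.Dg10
import Cfsg.Agent.H14.Dg11
import Cfsg.Agent.H14.Dg13
import Cfsg.Agent.H4.Integral
import Cfsg.Agent.S1054
import Cfsg.Agent.S1063

/-! The minimal degree of the groups of type `E₆`. -/

set_option autoImplicit false
set_option linter.style.haveILetI false

namespace Cfsg.Agent.H14.Dg

open Cfsg.Lie Cfsg.Lie.ChevalleyDatum Module Finset

theorem chkE6 : ∀ i : Fin 6, (univ.filter fun γ : Fin 72 => 0 < htD chevE6 γ ∧ chevE6.cartan i γ = 1).card = 9 + 1 := by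
  decide +kernel

theorem chkE6' : ∀ (i : Fin 6) (δ : Fin 72), chevE6.cartan i δ = 0 → 1 < htD chevE6 δ →
      ∃ κ : Fin 72, chevE6.cartan i κ = 0 ∧ -1 ≤ htD chevE6 κ ∧ htD chevE6 κ < htD chevE6 δ ∧ chevE6.pairing κ δ = 1 := by
  decide +kernel

theorem degree_E6 {F : Type*} [Field F] [Fintype F] (k : ℕ) (ρ : Representation ℂ (chevE6.group F) (Fin k → ℂ)) (hρ : ρ.IsIrreducible)
    (hk : 2 ≤ k) : Fintype.card F * (Fintype.card F ^ 6 + Fintype.card F ^ 3 + 1) * (Fintype.card F ^ 4 + 1) ≤ k := by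
  haveI := Fintype.ofFinite (chevE6.group F)
  haveI := (S1054.result (F := F) chevE6 (by simp)).1
  obtain ⟨ψ, hψ⟩ := (AddChar.exists_apply_ne_zero (a := (1 : F))).2 one_ne_zero
  replace hψ : ψ ≠ 1 := fun e => hψ (by simp [e])
  obtain ⟨p, hp, m, h1, h2⟩ := FiniteField.card' F
  obtain ⟨b, hb⟩ := Nat.exists_eq_add_of_le' (Fintype.one_lt_card (α := F))
  rcases deg_good goodE6 (slE6 _) hρ hk hψ chkE6 chkE6' (by
    rw [car_eqE6]
    exact (by decide +kernel : ∀ i j : Fin 6, i ≠ j → ∃ k, carE6 i k = 0 ∧ carE6 k j = -1 ∨ carE6 j k = 0 ∧ carE6 k i = -1)) with h | h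
  · refine le_trans ?_ h
    rw [hb, show (b + 2) ^ 2 - 1 = b ^ 2 + 4 * b + 3 from Nat.sub_eq_of_eq_add (by ring)]
    ring_nf
    omega
  obtain ⟨z, hz', hz⟩ := chain (slE6 _) hψ (fun i a ha => (h i a ha).imp fun v h => ⟨h.1.ne, h.1.eig, h.2⟩) _ (up_pos goodE6)
  rw [sum_pos goodE6 (slE6 _) (fun k => (Fintype.card F - 1) * Fintype.card F ^ k)
    (L := [0, 0, 1, 0, 1, 2, 0, 1, 2, 3, 0, 1, 2, 3, 2, 3, 4, 4, 5, 6, 0, 1, 2, 3, 4, 3, 4, 5, 5, 6, 7, 6, 7, 8, 9, 10])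
    (by decide +kernel), finrank_fin_fun] at hz
  refine not_lt.1 fun c => ?_
  obtain ⟨j, hj⟩ := Nat.exists_eq_add_of_le c.le
  have e : z + j ≤ 6 := Nat.le_of_add_le_add_left (a := k) (by
    rw [add_left_comm, ← hj]
    refine le_trans (le_of_eq ?_) (Nat.add_le_add_right hz 6)
    rw [hb, show b + 2 - 1 = b + 1 from rfl]
    simp only [List.map, List.sum_cons, List.sum_nil]
    ring)
  replace hz' : LinearMap.trace ℂ _ (pG (goodE6.rgD F) ρ (SJ goodE6.R [])) = z := by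
    convert hz'; ext; simp [SJ]
  choose N hN using fun J : List (Fin 6) =>
    (exists_tr (pG_idem (X := goodE6.rgD F) (ρ := ρ) (S := SJ goodE6.R J))).imp fun _ h => h.1
  have A : ∀ (J : List (Fin 6)) (i j : Fin 6), carE6 i j = -1 → (∀ k ∈ J, carE6 i k = 0) → N (i :: J) < N J := by
    rw [← car_eqE6 goodE6]
    exact fun J i j a b => step_a (slE6 _) hψ h a b (hN _) (hN _)
  have B : Fintype.card F = 2 → ∀ (J : List (Fin 6)) (i j : Fin 6), carE6 i j = -1 → (∀ k ∈ J, carE6 i k = 0 ∧ carE6 j k = 0) →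
      N (i :: j :: J) < N (j :: J) := by
    rw [← car_eqE6 goodE6]
    exact fun a J i j b c => step_b (slE6 _) hψ h a b c (hN _) (hN _)
  obtain rfl : N [] = z := by exact_mod_cast (hN _).symm.trans hz'
  have := A [] 0 2 rfl (by simp)
  rcases arith_E6 h1 h2 Fintype.one_lt_card (by omega) (by omega) hj.symm
    ((H4.Cfsg.IsIrrCharacter.degree_dvd_card ⟨k, ρ, hρ, rfl⟩ (by simp)).trans ((Dvd.intro_left _ (S1063.result rfl)).trans
      (by simp only [mul_assoc, dvd_refl]))) with ⟨a, rfl⟩ | ⟨-, rfl⟩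
  · have := B a [] 2 0 rfl (by simp)
    have := A [2, 0] 1 3 rfl (by decide)
    have := A [1, 2, 0] 4 5 rfl (by decide)
    have := B a [1, 2, 0] 5 4 rfl (by decide)
    omega
  · have := A [0] 1 3 rfl (by decide)
    have := A [1, 0] 4 5 rfl (by decide)
    omega

end Cfsg.Agent.H14.Dg
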