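import Cfsg.Agent.H14.Dg13
import Cfsg.Agent.H14.Cent2
import Cfsg.Agent.H15.Sf2

/-! Root subgroups of the fixed points of an involutory twisting map. -/

set_option autoImplicit false
set_option linter.unusedSectionVars false

namespace Cfsg.Agent.H14.Dg

open Finset H15
open scoped Classical commutatorElement

variable {ι Φ : Type} [Fintype ι] [DecidableEq ι] [Fintype Φ] {R : RS ι Φ} {K : Type*} [Field K] [Fintype K]
  {G : Type*} [Group G] {X : RG R K G}

local notation "x" => RG0.x (RG.toRG0 X)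

/-- an involutory twisting map of a simply laced group -/
structure Tv (S : Tw X) (φ : K →+* K) (q : ℕ) : Prop where
  hl : ∀ r s, R.len r = R.len s
  g : ∀ i t, S.g i t = φ t
  φφ : ∀ t, φ (φ t) = t
  ττ : ∀ i, S.τ (S.τ i) = i
  car : ∀ i j, R.car (S.τ i) (S.τ j) = R.car i j
  orth : ∀ r, S.ρ r = r ∨ R.pair r (S.ρ r) = 0
  fix : (univ.filter fun t => φ t = t).card = q
  card : Fintype.card K = q ^ 2
  two : 2 ≤ q

variable {S : Tw X} {φ : K →+* K} {q : ℕ}

local notation "σ" => Tw.ρ S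

variable (S) in
/-- a closed stable set of positive roots -/
def Cl (A : Set Φ) : Prop := ∀ r ∈ A, R.pos r ∧ σ r ∈ A ∧ ∀ s ∈ A, R.pair r s = -1 → R.refl r s ∈ A

theorem cb (hl : ∀ r s, R.len r = R.len s) {M : Set Φ} {r s : Φ} (h : s ≠ R.neg r ∧ (R.pair r s = -1 → R.refl r s ∈ M)) :
    s ≠ R.neg r ∧ R.comb r s ⊆ M := ⟨h.1, fun _ hk => (R.comb_sl hl h.1 hk).2 ▸ h.2 (R.comb_sl hl h.1 hk).1⟩

theorem ne_neg {r s : Φ} (h : 0 < R.ht r + R.ht s) : s ≠ R.neg r := RS.ne_neg_of_f RS.htv h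

theorem s_refl (i : ι) (r : Φ) (t : K) : S.s (x (R.srefl i r) (X.η (R.simple i) r * t)) =
    X.n (R.simple (S.τ i)) 1 * S.s (x r t) * (X.n (R.simple (S.τ i)) 1)⁻¹ := by
  have := X.n_conj (R.simple i) r 1 one_ne_zero t
  rw [one_zpow, mul_one, R.refl_simple] at this
  rw [← this, S.s_conj (X.n_mem_grp _ _) (X.x_mem_grp _ _), S.s_n, map_one]

namespace Tv

variable (h : Tv S φ q)
include h

theorem pr (r s : Φ) : R.pair (σ r) (σ s) = R.pair r s := S.pair_ρ h.car r s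
theorem ht (r : Φ) : R.ht (σ r) = R.ht r := S.ht_ρ h.car r

theorem σσ (r : Φ) : σ (σ r) = r := R.vec_inj (funext fun i => by
  rw [← S.vec_ρ h.car r i, ← S.vec_ρ h.car (σ r) (S.τ i), h.ττ])

theorem pr' (r s : Φ) : R.pair r (σ s) = R.pair (σ r) s := by rw [← h.pr, h.σσ]

theorem σ_refl (r s : Φ) : σ (R.refl r s) = R.refl (σ r) (σ s) := R.vec_inj (funext fun i => by
  obtain ⟨j, rfl⟩ := S.τ.surjective i
  simp [R.vec_refl, S.vec_ρ h.car, h.pr])

theorem orth' (r : Φ) : 0 ≤ R.pair r (σ r) := by rcases h.orth r with e | e <;> simp [e]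

theorem f_eq (r : Φ) : ∃ e : K, e * e = 1 ∧ φ e = e ∧ (∀ t, S.f r t = e * φ t) ∧ ∀ t, S.f (σ r) t = e * φ t := by
  have k : ∀ i r, (∀ t, S.f (R.srefl i r) (X.η (R.simple i) r * t) = X.η (R.simple (S.τ i)) (σ r) * S.f r t) := fun i r t =>
    X.x_injective (σ (R.srefl i r)) (by
      rw [← S.s_x, s_refl, S.s_x, X.n_conj _ _ _ one_ne_zero, one_zpow, mul_one, R.refl_simple, S.ρ_srefl])
  have k0 : ∀ i t, S.f (R.simple i) t = φ t := fun i t => X.x_injective (σ (R.simple i)) (by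
    rw [← S.s_x, S.s_pos, S.ρ_simple, h.g])
  induction r using R.root_induction with
  | h0 i => exact ⟨1, by simp, by simp, by simp [k0], by simp [S.ρ_simple, k0]⟩
  | h1 i r ih =>
    obtain ⟨e, a1, a2, a3, a4⟩ := ih
    have b1 := X.η_cast_mul_self (R.simple i) r
    have b2 := X.η_cast_mul_self (R.simple (S.τ i)) (σ r)
    refine ⟨X.η (R.simple i) r * X.η (R.simple (S.τ i)) (σ r) * e, by grind, by simp [a2], fun t => ?_, fun t => ?_⟩
    · rw [← one_mul t, ← b1, mul_assoc _ _ t, k, a3]; simp; grind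
    · have := k (S.τ i) (σ r) (X.η (R.simple (S.τ i)) (σ r) * t)
      rw [← mul_assoc, b2, one_mul, h.ττ, h.σσ, a4] at this
      rw [S.ρ_srefl, this]; simp; ring

theorem ff (r : Φ) (t : K) : S.f (σ r) (S.f r t) = t := by
  obtain ⟨e, a1, a2, a3, a4⟩ := h.f_eq r
  rw [a3, a4, map_mul, a2, h.φφ, ← mul_assoc, a1, one_mul]

theorem cx {r s : Φ} (a : 0 ≤ R.pair r s) (t u : K) : Commute (x r t) (x s u) := X.commute_sl h.hl a t u

/-- the root elements of the twisted group -/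
def y (r : Φ) (t : K) : S.Fix := ⟨x r t * S.s (x r t), mul_mem (X.x_mem_grp _ _) (S.s_x r t ▸ X.x_mem_grp _ _), by
  rw [S.s_mul _ (X.x_mem_grp _ _) _ (S.s_x r t ▸ X.x_mem_grp _ _), S.s_x, S.s_x, h.σσ, h.ff, (h.cx (h.orth' r) _ _).eq]⟩

theorem y_val (r : Φ) (t : K) : (h.y r t : G) = x r t * x (σ r) (S.f r t) := by rw [← S.s_x]; rfl

theorem y_op (r : Φ) : OP (h.y r) := fun t u => Subtype.ext (by
  obtain ⟨e, -, -, a, -⟩ := h.f_eq r
  simp only [Subgroup.coe_mul, y_val, a, map_add, mul_add, X.x_add, mul_assoc]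
  rw [(h.cx (h.orth' r) u _).left_comm])

theorem y_mem {A : Set Φ} {r : Φ} (a : r ∈ A) (b : σ r ∈ A) (t : K) : (h.y r t : G) ∈ X.gen A :=
  h.y_val r t ▸ mul_mem (X.x_mem_gen a _) (X.x_mem_gen b _)

theorem y_long {r : Φ} (a : σ r = r) (t : K) : (h.y r t : G) = x r (t + S.f r t) := by rw [y_val, a, X.x_add]

theorem cyx {r s : Φ} (a : 0 ≤ R.pair r s) (b : 0 ≤ R.pair (σ r) s) (t u : K) : Commute (h.y r t : G) (x s u) :=
  h.y_val r t ▸ (h.cx a _ _).mul_left (h.cx b _ _)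

theorem cyy {r s : Φ} (a : 0 ≤ R.pair r s) (b : 0 ≤ R.pair (σ r) s) (t u : K) : Commute (h.y r t) (h.y s u) :=
  Subtype.ext (show Commute (h.y r t : G) (h.y s u) from
    h.y_val s u ▸ (h.cyx a b _ _).mul_right (h.cyx (h.pr' r s ▸ b) ((h.pr r s).symm ▸ a) _ _))

theorem conj_y {g : S.Fix} {r s : Φ} {t u : K} (e : g * x r t * (g : G)⁻¹ = x s u) : g * h.y r t * g⁻¹ = h.y s u :=
  Subtype.ext (by
    have := congrArg S.s e
    rw [S.s_conj g.2.1 (X.x_mem_grp _ _), g.2.2] at this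
    show g * (_ * _) * (g : G)⁻¹ = x s u * _
    rw [← this, ← e]
    group)

theorem ex_w (e : K) : ∃ w, w + e * φ w ≠ 0 := by
  by_contra! c
  have a := c 1
  rw [map_one, mul_one, add_eq_zero_iff_neg_eq] at a
  have := h.fix
  rw [filter_true_of_mem fun t _ => by have := c t; rw [← a] at this; linear_combination -this, card_univ, h.card] at this
  nlinarith [h.two]

theorem surj {r : Φ} {t : K} (a : S.f r t = t) : ∃ u, u + S.f r u = t := by
  obtain ⟨e, a1, a2, a3, -⟩ := h.f_eq r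
  obtain ⟨w, hw⟩ := h.ex_w e
  refine ⟨w * (t / (w + e * φ w)), ?_⟩
  have b : φ (w + e * φ w) = e * (w + e * φ w) := by rw [map_add, map_mul, a2, h.φφ]; linear_combination (-φ w) * a1
  rw [a3] at a
  have e0 : e ≠ 0 := left_ne_zero_of_mul_eq_one a1
  rw [a3, map_mul, map_div₀, b, show φ t = e * t by linear_combination e * a - φ t * a1]
  field_simp

theorem card_ker (r : Φ) : (univ.filter fun t => h.y r t = 1).card * q ^ ({r, σ r} : Finset Φ).card = q ^ 2 := by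
  by_cases c : σ r = r
  · obtain ⟨e, a1, a2, a3, -⟩ := h.f_eq r
    obtain ⟨w, hw⟩ := h.ex_w (-e)
    have b : φ (w + -e * φ w) = -e * (w + -e * φ w) := by rw [map_add, map_mul, map_neg, a2, h.φφ]; linear_combination (-φ w) * a1
    rw [c, pair_eq_singleton, card_singleton, pow_one, pow_two]
    refine congrArg (· * q) ((card_bijective _ (Equiv.mulRight₀ _ hw).bijective fun t => ?_).symm.trans h.fix)
    simp only [mem_filter, mem_univ, true_and, Subtype.ext_iff, h.y_long c, a3, Subgroup.coe_one, X.x_eq_one_iff,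
      Equiv.mulRight₀_apply, map_mul, b]
    rw [show ∀ z, t * z + e * (φ t * (-e * z)) = (t - φ t) * z from fun z => by linear_combination (-φ t * z) * a1, mul_eq_zero,
      or_iff_left hw, sub_eq_zero, eq_comm]
  · rw [card_pair (Ne.symm c), card_eq_one.2 ⟨0, eq_singleton_iff_unique_mem.2 ⟨by simp [(h.y_op r).zero], fun t a => ?_⟩⟩, one_mul]
    by_contra b
    have := congrArg Subtype.val (mem_filter.1 a).2
    rw [y_val, Subgroup.coe_one, mul_eq_one_iff_eq_inv, ← X.x_neg] at this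
    exact c (X.eq_of_x_eq b this).symm

theorem ex_ne (r : Φ) : ∃ t, h.y r t ≠ 1 := by
  by_contra! c
  have := h.card_ker r
  rw [filter_true_of_mem fun t _ => c t, card_univ, h.card, Nat.mul_eq_left (by have := h.two; positivity), Nat.pow_eq_one,
    card_eq_zero] at this
  exact this.elim (by have := h.two; omega) (insert_ne_empty _ _)

theorem cj {r s : Φ} (a : R.pair r s = -1) (b : σ r = r ∧ σ s = s ∨ 0 ≤ R.pair r (σ s)) {u : K} (hu : h.y s u ≠ 1) :
    ∃ c : K, c ≠ 0 ∧ ∀ t, h.y r t * h.y s u * (h.y r t)⁻¹ = h.y (R.refl r s) (c * t) * h.y s u := by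
  have p : 0 ≤ R.pair r (σ (R.refl r s)) := by
    have := h.orth' r
    rw [h.σ_refl, R.pair_refl_right, h.pr, a]
    rcases b with ⟨b, c⟩ | b
    · simp [a, b, c]
    · omega
  obtain ⟨c, c0, hc⟩ : ∃ c : K, c ≠ 0 ∧ ∀ t, x r t * h.y s u * (x r t)⁻¹ = x (R.refl r s) (c * t) * h.y s u := by
    have k : ∀ t u, x r t * x s u * (x r t)⁻¹ = x (R.refl r s) (X.η r s * u * t) * x s u := fun t u => by
      rw [mul_right_comm _ u, ← X.comm_sl h.hl a, commutatorElement_def]; group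
    rcases b with ⟨b, c⟩ | b
    · refine ⟨_, mul_ne_zero (X.η_cast_ne r s) fun e => hu (Subtype.ext ?_), fun t => h.y_long c u ▸ k t _⟩
      simp [h.y_long c, e]
    · refine ⟨_, mul_ne_zero (X.η_cast_ne r s) fun e : u = 0 => hu (e ▸ (h.y_op s).zero), fun t => ?_⟩
      rw [y_val, ← mul_assoc, ← mul_assoc, ← k, mul_assoc _ _ (x r t)⁻¹, ← (h.cx b t _).inv_left.eq, ← mul_assoc]
  refine ⟨c, c0, fun t => Subtype.ext ?_⟩
  have := congrArg S.s (hc t)
  rw [S.s_conj (X.x_mem_grp _ _) (h.y s u).2.1, S.s_mul _ (X.x_mem_grp _ _) _ (h.y s u).2.1, (h.y s u).2.2] at this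
  show x r t * S.s (x r t) * h.y s u * (x r t * S.s (x r t))⁻¹ = x (R.refl r s) (c * t) * S.s (x (R.refl r s) (c * t)) * h.y s u
  rw [mul_inv_rev, mul_assoc (x r t), mul_assoc (x r t), ← mul_assoc _ _ (x r t)⁻¹, this, S.s_x (R.refl r s),
    (h.cx (h.orth' _) _ _).eq, mul_assoc (x (σ _) _) (x (R.refl r s) _), ← hc, mul_assoc, (h.cx p _ _).left_comm]
  group

theorem gen_le {M : Subgroup S.Fix} {A : Set Φ} (hA : Cl S A) (hM : ∀ r ∈ A, ∀ t, h.y r t ∈ M) :
    (X.gen A).subgroupOf S.Fix ≤ M := by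
  induction hn : A.ncard using Nat.strong_induction_on generalizing A with | _ n ih =>
  intro g hg
  rcases A.eq_empty_or_nonempty with rfl | c
  · rw [show g = 1 from Subtype.ext (by simpa [Subgroup.mem_subgroupOf] using hg)]; exact one_mem _
  obtain ⟨r, hr, hm⟩ := Set.exists_min_image A R.ht A.toFinite c
  have cl : ∀ {A}, Cl S A → ∀ r ∈ A, ∀ s ∈ A, R.comb r s ⊆ A := fun hA r a s b =>
    (cb h.hl ⟨ne_neg (add_pos (hA r a).1.ht_pos (hA s b).1.ht_pos), (hA r a).2.2 s b⟩).2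
  have p := (hA r hr).1
  have c1 : Cl S {r, σ r} := by
    have := h.orth' r
    have := h.pr' r r
    rintro _ (rfl | rfl) <;> simp [h.σσ, S.ρ_pos, p] <;> omega
  have c2 : Cl S (A \ {r, σ r}) := fun s a => ⟨(hA s a.1).1, ⟨(hA s a.1).2.1, fun e => a.2 (by
    simpa [h.σσ] using (c1 _ e).2.1)⟩, fun k b e => ⟨(hA s a.1).2.2 k b.1 e, by
      have := hm k b.1
      have := (hA s a.1).1.ht_pos
      have e1 := ht_refl (R := R) s k
      have := h.ht r
      rintro (d | d) <;> rw [d, e] at e1 <;> omega⟩⟩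
  have sb : {r, σ r} ⊆ A := Set.insert_subset hr (Set.singleton_subset_iff.2 (hA r hr).2.1)
  obtain ⟨a, ha, b, hb, e⟩ := X.exists_mul_of_union RS.htv (fun r hr => (hA r hr).1.ht_pos) (cl hA) (Set.sdiff_union_of_subset sb) hg
  obtain ⟨h1, h2⟩ := S.fix_of_mul (X.gen_le_grp _) (X.gen_le_grp _) (fun z h1 h2 => by
    simpa using X.mem_gen_inter RS.htv RS.htv (fun r hr => (c2 r hr).1.ht_pos) (cl c2) (fun r hr => (c1 r hr).1.ht_pos) (cl c1) h1 h2)
    ha hb (S.s_mem_gen (fun r hr => (c2 r hr).2.1) ha) (S.s_mem_gen (fun r hr => (c1 r hr).2.1) hb) (e ▸ g.2)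
  rw [show g = ⟨a, h1⟩ * ⟨b, h2⟩ from Subtype.ext e]
  refine mul_mem (ih _ (hn ▸ Set.ncard_lt_ncard ⟨Set.sdiff_subset, fun c => (c hr).2 (Set.mem_insert _ _)⟩) c2
    (fun s a => hM s a.1) rfl ha) ?_
  by_cases d : σ r = r
  · rw [d, Set.pair_eq_singleton, X.mem_gen_singleton] at hb
    obtain ⟨t, rfl⟩ := hb
    obtain ⟨u, hu⟩ := h.surj (X.x_injective r (by simpa [S.s_x, d] using h2.2))
    convert hM r hr u using 1
    exact Subtype.ext (by rw [h.y_long d, hu])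
  obtain ⟨_, b1, _, b2, rfl⟩ := X.exists_mul_of_union RS.htv (fun r hr => (c1 r hr).1.ht_pos) (cl c1) (A := {r}) (B := {σ r}) rfl hb
  obtain ⟨t, rfl⟩ := X.mem_gen_singleton.1 b1
  obtain ⟨u, rfl⟩ := X.mem_gen_singleton.1 b2
  have := (mul_mem (inv_mem (h.y r t).2) h2).2
  rw [y_val, mul_inv_rev, mul_assoc, inv_mul_cancel_left, ← X.x_neg, ← X.x_add, S.s_x, h.σσ] at this
  convert hM r hr t using 1
  exact Subtype.ext (by rw [y_val, neg_add_eq_zero.1 (by_contra fun c => d (X.eq_of_x_eq c this.symm))])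

theorem ex_tor {r : Φ} (a : σ r ≠ r) : ∃ g : S.Fix, (∀ s, ∃ c : K, c ≠ 0 ∧ (σ s = s → c = 1) ∧ (s = r → c ≠ 1) ∧
    ∀ t, g * h.y s t * g⁻¹ = h.y s (c * t)) := by
  obtain ⟨w, w1, w2⟩ : ∃ w, φ w ≠ w ∧ φ w ≠ -w := by
    obtain ⟨w, hw⟩ := h.ex_w (-1)
    by_cases c : φ w = -w
    · refine ⟨w + 1, fun e => hw ?_, fun e => hw ?_⟩ <;> rw [map_add, map_one] at e
      · linear_combination -e
      · linear_combination w * e - (w + 1) * c
    · exact ⟨w, fun e => hw (by simp [e]), c⟩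
  have w0 : w ≠ 0 := fun e => w1 (by simp [e])
  have w3 := (map_ne_zero φ).2 w0
  obtain ⟨t, t0, t1, t2⟩ : ∃ t, t ≠ 0 ∧ φ t = t⁻¹ ∧ t ^ 2 ≠ 1 := ⟨w / φ w, div_ne_zero w0 w3, by simp [h.φφ], fun e => by
    rw [div_pow, div_eq_one_iff_eq (pow_ne_zero _ w3), sq_eq_sq_iff_eq_or_eq_neg] at e
    exact e.elim (fun e => w1 e.symm) fun e => w2 (neg_eq_iff_eq_neg.1 e.symm).symm.symm⟩
  obtain ⟨i, hi⟩ : ∃ i, R.pair (R.simple i) r ≠ R.pair (R.simple i) (σ r) := by
    by_contra! c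
    exact a (R.wt_inj fun i => by simpa [R.pair_simple] using (c i).symm)
  have o : R.pair (R.simple i) (R.simple (S.τ i)) = 0 := S.ρ_simple i ▸ (h.orth _).resolve_left fun e => hi (by rw [h.pr', e])
  have c1 : ∀ s, R.pair (R.simple i) s = 0 → ∀ u, Commute (X.h (R.simple i) t) (x s u) := fun s e u =>
    mul_inv_eq_iff_eq_mul.1 (by simp [X.h_conj _ _ t0, e])
  have c2 : ∀ u, Commute (X.h (R.simple i) t) (X.n (R.simple (S.τ i)) u) := fun u =>
    ((c1 _ o _).mul_right (c1 _ (by simp [o]) _)).mul_right (c1 _ o _)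
  refine ⟨⟨X.h (R.simple i) t * X.h (R.simple (S.τ i)) (φ t), mul_mem (X.H_le_grp (X.h_mem_H _ t0))
    (X.H_le_grp (X.h_mem_H _ ((map_ne_zero φ).2 t0))), ?_⟩, fun s => ⟨t ^ (R.pair (R.simple i) s - R.pair (R.simple i) (σ s)),
      zpow_ne_zero _ t0, fun e => by simp [e], ?_, fun u => h.conj_y ?_⟩⟩
  · rw [S.s_mul _ (X.H_le_grp (X.h_mem_H _ t0)) _ (X.H_le_grp (X.h_mem_H _ ((map_ne_zero φ).2 t0))), S.s_h, S.s_h, h.g, h.g, h.φφ,
      h.ττ]
    exact ((c2 _).mul_right (c2 _)).eq.symm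
  · rintro rfl e
    have k : ∀ s, R.pair (R.simple i) s = 2 → R.pair (R.simple i) (σ s) = 0 := fun s e => by
      rw [R.eq_of_pair_sl h.hl e, S.ρ_simple, o]
    have k' : ∀ s, R.pair (R.simple i) s = -2 → R.pair (R.simple i) (σ s) = 0 := fun s e => by
      simpa [S.ρ_neg] using k (R.neg s) (by simp [e])
    have b : ∀ s, -2 ≤ R.pair (R.simple i) s ∧ R.pair (R.simple i) s ≤ 2 := fun s => by
      rcases R.pair_cases_sl h.hl (R.simple i) s with e | e | e | e | e <;> simp [e]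
    have := k s
    have := k' s
    have := k (σ s)
    have := k' (σ s)
    have := b s
    have := b (σ s)
    rw [h.σσ] at *
    rcases (by omega : ∀ d, d = R.pair (R.simple i) s - R.pair (R.simple i) (σ s) → d = 1 ∨ d = 2 ∨ d = -1 ∨ d = -2) _ rfl
      with d | d | d | d <;> rw [d] at e <;> refine t2 ?_
    · simp_all
    · exact_mod_cast e
    · simp_all
    · exact_mod_cast (zpow_neg t 2 ▸ inv_eq_one).1 e
  · show _ * _ * _ * (_ * _)⁻¹ = _
    rw [mul_inv_rev, mul_assoc, mul_assoc, ← mul_assoc (x s u), ← mul_assoc _ _ (X.h _ t)⁻¹, ← mul_assoc _ (x s u),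
      X.h_conj _ _ ((map_ne_zero φ).2 t0), ← mul_assoc, X.h_conj _ _ t0, t1, h.pr', S.ρ_simple, zpow_sub₀ t0, inv_zpow, div_eq_mul_inv,
      mul_assoc]

end Tv

end Cfsg.Agent.H14.Dg
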