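import Cfsg.Agent.H14.Dg15

/-! Representations of twisted groups: Heisenberg subgroups and the degree bound. -/

set_option autoImplicit false
set_option linter.unusedSectionVars false

namespace Cfsg.Agent.H14.Dg

open Module Finset H15 H26.RD
open scoped Classical commutatorElement

variable {ι Φ : Type} [Fintype ι] [DecidableEq ι] [Fintype Φ] {R : RS ι Φ} {K : Type*} [Field K] [Fintype K]
  {G : Type*} [Group G] {X : RG R K G} {S : Tw X} {φ : K →+* K} {q : ℕ} [Fintype S.Fix]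
  {V : Type*} [AddCommGroup V] [Module ℂ V] [FiniteDimensional ℂ V] {ρ : Representation ℂ S.Fix V} {ψ : AddChar K ℂ}

local notation "x" => RG0.x (RG.toRG0 X)
local notation "σ" => Tw.ρ S
local notation "tr" => LinearMap.trace ℂ V

theorem tr_le {P Q : End ℂ V} (hP : P * P = P) (hQ : Q * Q = Q) (h1 : Q * P = P) (h2 : P * Q = P) {a b : ℕ} (ha : tr P = a)
    (hb : tr Q = b) : a ≤ b := by
  obtain ⟨m, h3, -⟩ := exists_tr (P := Q - P) (by simp [mul_sub, sub_mul, *])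
  rw [map_sub, ha, hb, sub_eq_iff_eq_add] at h3
  norm_cast at h3
  omega

variable (ρ) in
/-- the projection onto the fixed space of a unipotent subgroup -/
noncomputable def pF (A : Set Φ) : End ℂ V := pj ρ ((X.gen A).subgroupOf S.Fix) fun _ => 1

variable {A B : Set Φ}

theorem pF_idem : pF ρ A * pF ρ A = pF ρ A := pj_idem (isCh_one _)

theorem g_pF {g : S.Fix} (h : (g : G) ∈ X.gen A) : ρ g * pF ρ A = pF ρ A :=
  (mul_pj (A := (X.gen A).subgroupOf S.Fix) (isCh_one _) h).trans (one_smul _ _)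

theorem pF_apply {v : V} (h : ∀ g : S.Fix, (g : G) ∈ X.gen A → ρ g v = v) : pF ρ A v = v :=
  pj_apply (isCh_one _) fun g ha => (h g ha).trans (one_smul _ _).symm

theorem comm_pF {g : S.Fix} (h : ∀ a ∈ X.gen A, g * a * (g : G)⁻¹ ∈ X.gen A) : Commute (ρ g) (pF ρ A) :=
  pj_conj fun a ha => ⟨h a ha, rfl⟩

theorem comm_pF' {g : S.Fix} (h : ∀ s ∈ A, ∀ u, Commute (g : G) (x s u)) : Commute (ρ g) (pF ρ A) :=
  comm_pF fun _ ha => (X.gen_le.2 fun s hs u => by simpa [(h s hs u).eq] using X.x_mem_gen hs u :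
    _ ≤ (X.gen A).comap (MulAut.conj (g : G)).toMonoidHom) ha

theorem pF_empty : pF ρ (∅ : Set Φ) = 1 := LinearMap.ext fun _ => pF_apply fun g hg => by
  rw [show g = 1 from Subtype.ext (by simpa using hg)]; simp

theorem pF_pF (h : A ⊆ B) : pF ρ B * pF ρ A = pF ρ B := pj_mul_pj (isCh_one _) fun _ a => X.gen_mono h a

theorem pF_pF' (h : A ⊆ B) : pF ρ A * pF ρ B = pF ρ B :=
  LinearMap.ext fun v => pF_apply fun _ hg => LinearMap.congr_fun (g_pF (X.gen_mono h hg)) v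

theorem comm_self {g : S.Fix} (h : (g : G) ∈ X.gen A) : Commute (ρ g) (pF ρ A) :=
  comm_pF fun _ ha => mul_mem (mul_mem h ha) (inv_mem h)

namespace Tv

variable (h : Tv S φ q)
include h

local notation "E" r => Ex ρ ψ (Tv.y h r)

theorem fix_gen (hA : Cl S A) {v : V} (hv : ∀ r ∈ A, ∀ t, ρ (h.y r t) v = v) (g : S.Fix) (hg : (g : G) ∈ X.gen A) : ρ g v = v :=
  h.gen_le (M := Fv ρ v) hA hv hg

theorem pF_comm (hA : Cl S A) {T : End ℂ V} (hT : ∀ r ∈ A, ∀ t, Commute (ρ (h.y r t)) T) : Commute (pF ρ A) T :=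
  (pj_comm fun _ ha => Commute.symm (h.gen_le (M := ⟨⟨⟨{g | Commute (ρ g) T}, fun {a b} (c : Commute _ _) d => by
    simpa using c.mul_left d⟩, by simp⟩, fun {g} (c : Commute _ _) => (c.units_inv_left (u := ρ.toHomUnits g))⟩) hA hT ha)).symm

theorem pF_E {r : Φ} (a : r ∈ A) (b : σ r ∈ A) : (E r) 0 * pF ρ A = pF ρ A ∧ pF ρ A * (E r) 0 = pF ρ A := by
  have e : (E r) 0 * pF ρ A = pF ρ A := Ex_mul_of fun t => by simpa using g_pF (h.y_mem a b t)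
  exact ⟨e, (comm_Ex (fun t => (comm_self (h.y_mem a b t)).symm) 0).eq.trans e⟩

attribute [local irreducible] pF

theorem tr_E (hψ : ψ ≠ 1) {β γ : Φ} (hβ : σ β = β) (p : R.pair β γ = 1) {a : K} (ha : a ≠ 0) {T : End ℂ V}
    (hT : ∀ t, ρ (h.y β t) * T = ψ (a * t) • T) (c : ∀ t, Commute (ρ (h.y (R.refl γ β) t)) T) :
    tr T = q ^ ({γ, σ γ} : Finset Φ).card * tr ((E γ) 0 * T) := by
  obtain ⟨e1, e2⟩ := refl_star h.hl p
  have p' : ∀ γ, R.pair β (σ γ) = R.pair β γ := fun γ => by rw [h.pr', hβ]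
  have k : ∀ t, tr (ρ (h.y γ t) * T) = if h.y γ t = 1 then tr T else 0 := fun t => by
    split_ifs with b
    · simp [b]
    obtain ⟨d, d0, hd⟩ := h.cj e1 ((h.orth γ).imp (fun e => ⟨by rw [h.σ_refl, e, hβ], e⟩) fun e => by
      simp [R.pair_refl_left_sl h.hl, e, p', p]) b
    obtain ⟨u, hu⟩ := AddChar.ne_one_iff.1 hψ
    have := tr_conj (c (u / (a * d))) (h.y γ t)
    rw [hd, e2, (h.cyy (by simp [p]) (by simp [hβ, p]) _ _).eq, map_mul ρ, mul_assoc, hT, mul_smul_comm, map_smul, smul_eq_mul,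
      show a * (d * (u / (a * d))) = u by field_simp] at this
    exact (mul_left_eq_self₀.1 this).resolve_left hu
  have := congrArg (Nat.cast : ℕ → ℂ) (h.card_ker γ)
  have q0 : (q : ℂ) ≠ 0 := Nat.cast_ne_zero.2 (by have := h.two; omega)
  simp only [Ex, smul_mul_assoc, sum_mul, map_smul, map_sum, k, zero_mul, neg_zero, AddChar.map_zero_eq_one, one_smul, ← sum_filter,
    sum_const, h.card, smul_eq_mul, nsmul_eq_mul]
  push_cast at this ⊢
  field_simp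
  linear_combination (-tr T) * this

attribute [local irreducible] Ex

theorem heisY (hψ : ψ ≠ 1) {β : Φ} (hβ : σ β = β) {a : K} (ha : a ≠ 0) {T : End ℂ V} (hT : ∀ t, ρ (h.y β t) * T = ψ (a * t) • T)
    (Y : Finset Φ) (h1 : ∀ γ ∈ Y, R.pos γ ∧ σ γ ∈ Y ∧ R.pair β γ = 1) (h2 : ∀ γ ∈ Y, ∀ δ ∈ Y, 0 ≤ R.pair γ δ)
    (h3 : ∀ γ ∈ Y, ∀ t, Commute (ρ (h.y (R.refl γ β) t)) T) : tr T = q ^ Y.card * tr (pF ρ Y * T) := by
  induction Y using Finset.strongInduction with | H Y ih =>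
  rcases Y.eq_empty_or_nonempty with rfl | ⟨γ, m⟩
  · simp [pF_empty]
  obtain ⟨a1, a2, a3⟩ := h1 γ m
  have sb : {γ, σ γ} ⊆ Y := insert_subset m (singleton_subset_iff.2 a2)
  obtain ⟨s, hs⟩ : ∃ s, s = Y \ {γ, σ γ} := ⟨_, rfl⟩
  have ms : ∀ {δ}, δ ∈ s ↔ δ ∈ Y ∧ δ ≠ γ ∧ δ ≠ σ γ := by simp [hs]
  have b1 : ∀ δ ∈ s, σ δ ∈ s := fun δ d => ms.2 ⟨(h1 δ (ms.1 d).1).2.1, fun e => (ms.1 d).2.2 (by rw [← e, h.σσ]),
    fun e => (ms.1 d).2.1 ((σ).injective e)⟩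
  have cl : ∀ Z : Finset Φ, Z ⊆ Y → (∀ δ ∈ Z, σ δ ∈ Z) → Cl S Z := fun Z a b r c =>
    ⟨(h1 r (a c)).1, b r c, fun s d e => absurd (h2 r (a c) s (a d)) (by omega)⟩
  have sy : s ⊆ Y := hs ▸ sdiff_subset
  have c1 : ∀ t, Commute (ρ (h.y γ t)) (pF ρ s) := fun t => comm_pF' fun δ d => h.cyx (h2 _ m _ (sy d)) (h2 _ a2 _ (sy d)) t
  have e : pF ρ Y = (E γ) 0 * pF ρ s := by
    rw [← pF_pF (coe_subset.2 sy), ← (h.pF_E (ψ := ψ) (A := Y) m a2).2, mul_assoc]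
    refine LinearMap.ext fun v => pF_apply (h.fix_gen (cl Y Subset.rfl fun δ d => (h1 δ d).2.1) fun δ d t => ?_)
    have k : ∀ t, ρ (h.y γ t) (((E γ) 0 * pF ρ s) v) = ((E γ) 0 * pF ρ s) v := fun t => by
      simpa using LinearMap.congr_fun (mul_Ex' (ρ := ρ) (ψ := ψ) (h.y_op γ) 0 t _) v
    by_cases c : δ ∈ s
    · rw [← End.mul_apply, ← (comm_Ex (fun t => (c1 t).symm) 0).eq, ← mul_assoc, g_pF (h.y_mem c (b1 δ c) t)]
    rcases (by simpa [ms, mem_coe.1 d, or_iff_not_imp_left] using c : δ = γ ∨ δ = σ γ) with rfl | rfl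
    · exact k t
    · convert k (S.f (σ γ) t) using 3
      have := h.ff (σ γ) t
      rw [h.σσ] at this
      exact Subtype.ext (by rw [y_val, y_val, h.σσ, this, (h.cx (h.orth' γ) _ _).eq])
  have p : ∀ δ ∈ s, 0 ≤ R.pair (R.refl γ β) δ := fun δ d => by
    have := pair_le h.hl (r := γ) (ms.1 d).2.1
    rw [R.pair_refl_left_sl h.hl, (h1 δ (sy d)).2.2, R.pair_comm_sl h.hl γ β, a3]
    omega
  rw [ih s (hs ▸ sdiff_ssubset sb (insert_nonempty _ _)) (fun δ d => ⟨(h1 δ (sy d)).1, b1 δ d, (h1 δ (sy d)).2.2⟩)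
    (fun δ d ε d' => h2 δ (sy d) ε (sy d')) fun δ d => h3 δ (sy d), e, ← card_sdiff_add_card_eq_card sb, ← hs, pow_add, mul_assoc,
    mul_assoc, h.tr_E hψ hβ a3 ha (fun t => ?_) fun t => (comm_pF' fun δ d => h.cyx (p δ d) (h.pr' _ _ ▸ p _ (b1 δ d)) t).mul_right (h3 γ m t)]
  rw [(comm_pF' (ρ := ρ) (A := s) fun δ d => h.cyx (by simp [(h1 δ (sy d)).2.2]) (by simp [hβ, (h1 δ (sy d)).2.2]) t).left_comm, hT,
    mul_smul_comm]

theorem comm_up (hA : ∀ δ ∈ A, R.pos δ ∧ ∀ γ, R.pos γ → R.pair γ δ = -1 → R.refl γ δ ∈ A) {γ : Φ} (p : R.pos γ) (t : K) :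
    Commute (ρ (h.y γ t)) (pF ρ A) := comm_pF fun _ => X.conj_mem_gen (S := {r | R.pos r})
      (fun r a s b => cb h.hl ⟨ne_neg (add_pos a.ht_pos (hA s b).1.ht_pos), (hA s b).2 r a⟩) (h.y_mem p (S.ρ_pos' p) t)

theorem chain (hψ : ψ ≠ 1) (hY : ∀ β, R.pos β → σ β = β → ∃ Y : Finset Φ, (Y.card : ℤ) + 1 = R.ht β ∧
      (∀ γ ∈ Y, R.pos γ ∧ σ γ ∈ Y ∧ R.pair β γ = 1 ∧ R.ht γ < R.ht β) ∧ ∀ γ ∈ Y, ∀ δ ∈ Y, 0 ≤ R.pair γ δ)
    (hv : ∀ β, R.pos β → σ β = β → ∃ C : Finset K, C.card = q - 1 ∧ ∀ a ∈ C, a ≠ 0 ∧ ∃ v, v ≠ 0 ∧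
      (∀ t, ρ (h.y β t) v = ψ (a * t) • v) ∧ ∀ g : S.Fix, (g : G) ∈ X.gen {δ | δ ≠ β ∧ R.ht β ≤ R.ht δ} → ρ g v = v) (Z : Finset Φ)
    (hS : ∀ δ ∈ Z, R.pos δ ∧ ∀ γ, R.pos γ → R.pair γ δ = -1 → R.refl γ δ ∈ Z) :
    ∃ z : ℕ, tr (pF ρ Z) = z ∧ z + ∑ β ∈ Z, (if σ β = β then (q - 1) * q ^ (R.ht β - 1).toNat else 0) ≤ finrank ℂ V := by
  induction Z using Finset.induction_on_min_value R.ht with
  | empty => exact ⟨finrank ℂ V, by simp [pF_empty], by simp⟩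
  | insert β s hs hm ih =>
    have hβ := (hS β (mem_insert_self _ _)).1
    have hs' : ∀ δ ∈ s, R.pos δ ∧ ∀ γ, R.pos γ → R.pair γ δ = -1 → R.refl γ δ ∈ s := fun δ a =>
      ⟨(hS δ (mem_insert_of_mem a)).1, fun γ b c => (mem_insert.1 ((hS δ (mem_insert_of_mem a)).2 γ b c)).resolve_left fun e => by
        have := hm δ a
        have := b.ht_pos
        rw [← e, ht_refl, c] at *
        omega⟩
    obtain ⟨z, a1, a2⟩ := ih hs'
    obtain ⟨z', a3, -⟩ := exists_tr (pF_idem (ρ := ρ) (A := (insert β s : Finset Φ)))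
    have sb := coe_subset.2 (subset_insert β s)
    refine ⟨z', a3, le_trans ?_ a2⟩
    rw [sum_insert hs, ← add_assoc, add_le_add_iff_right]
    split_ifs with l
    swap
    · exact tr_le pF_idem pF_idem (pF_pF' sb) (pF_pF sb) a3 a1
    have c := fun {γ} => h.comm_up (ρ := ρ) (A := s) hs' (γ := γ)
    have i := fun a => idem_mul (Ex_idem (ψ := ψ) (h.y_op β) a) pF_idem (comm_Ex (fun t => (c hβ t).symm) a).symm
    obtain ⟨Y, b1, b2, b3⟩ := hY β hβ l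
    obtain ⟨C, c1, c2⟩ := hv β hβ l
    have k : ∀ a, ∃ n : ℕ, tr ((E β) a * pF ρ s) = n ∧ (a ∈ C → q ^ Y.card ≤ n) := fun a => by
      obtain ⟨n, d1, d2⟩ := exists_tr (i a)
      refine ⟨n, d1, fun ha => ?_⟩
      obtain ⟨a0, v, v0, e1, e2⟩ := c2 a ha
      replace d2 := d2 v v0 (by
        rw [End.mul_apply, pF_apply fun g hg => e2 g (X.gen_mono (fun δ d => by exact ⟨ne_of_mem_of_not_mem d hs, hm δ d⟩) hg), Ex_apply e1])
      have g : ∀ γ, R.pos γ → R.pair β γ = 1 → ∀ t, Commute (ρ (h.y γ t)) ((E β) a * pF ρ s) := fun γ p1 p2 t =>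
        (comm_Ex' (fun u => (h.cyy (by simp [p2]) (by simp [l, p2]) u t).symm) a).mul_right (c p1 t)
      obtain ⟨m, d3, -⟩ := exists_tr (idem_mul (pF_idem (ρ := ρ) (A := Y)) (i a) (h.pF_comm
        (fun r c => ⟨(b2 r c).1, (b2 r c).2.1, fun s d e => absurd (b3 r c s d) (by omega)⟩) fun γ d => g γ (b2 γ d).1 (b2 γ d).2.2.1))
      have := h.heisY hψ l a0 (fun t => mul_Ex' (h.y_op β) a t _) Y (fun γ d => ⟨(b2 γ d).1, (b2 γ d).2.1, (b2 γ d).2.2.1⟩) b3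
        fun γ d => g _ (by
          have := b2 γ d
          rw [R.pos_iff_ht, ht_refl, R.pair_comm_sl h.hl γ, this.2.2.1]; omega)
            (by simp [R.pair_refl_right, R.pair_comm_sl h.hl γ, (b2 γ d).2.2.1])
      rw [d1, d3] at this
      norm_cast at this
      exact this ▸ Nat.le_mul_of_pos_right _ (Nat.pos_of_ne_zero fun e => by simp [this, e] at d2)
    choose N h1 h2 using k
    have := tr_sum (ρ := ρ) hψ (h.y_op β) (pF ρ s)
    simp only [h1, a1] at this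
    norm_cast at this
    obtain ⟨e1, e2⟩ := h.pF_E (ρ := ρ) (ψ := ψ) (A := (insert β s : Finset Φ)) (mem_insert_self _ _) (l.symm ▸ mem_insert_self _ _)
    rw [this, ← add_sum_erase _ _ (mem_univ 0), show (R.ht β - 1).toNat = Y.card by omega, ← c1]
    exact add_le_add (tr_le pF_idem (i 0) (by rw [mul_assoc, pF_pF' sb, e1]) (by rw [← mul_assoc, e2, pF_pF sb]) a3 (h1 0))
      ((card_nsmul_le_sum C N _ h2).trans (sum_le_sum_of_subset fun a d => mem_erase.2 ⟨(c2 a d).1, mem_univ a⟩))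

end Tv

end Cfsg.Agent.H14.Dg
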