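import Cfsg.Agent.H14.Dg16

/-! Representations of twisted groups: lines attached to long simple roots. -/

set_option autoImplicit false
set_option linter.unusedSectionVars false

namespace Cfsg.Agent.H14.Dg

open Module Finset H15 H26.RD
open scoped Classical commutatorElement

variable {ι Φ : Type} [Fintype ι] [DecidableEq ι] [Fintype Φ] {R : RS ι Φ} {K : Type*} [Field K] [Fintype K]
  {G : Type*} [Group G] {X : RG R K G} {S : Tw X} {φ : K →+* K} {q : ℕ} [Fintype S.Fix]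
  {V : Type*} [AddCommGroup V] [Module ℂ V] [FiniteDimensional ℂ V] {ρ : Representation ℂ S.Fix V} {ψ : AddChar K ℂ}

local notation "x" => RG0.x (RG.toRG0 X)
local notation "σ" => Tw.ρ S
local notation "tr" => LinearMap.trace ℂ V

theorem eig_of_Ln (hψ : ψ ≠ 1) {z : K → S.Fix} (hz : OP z) {v : V} (hv : v ≠ 0) (h : ∀ t, z t ∈ Ln ρ v) :
    ∃ b, ∀ u, ρ (z u) v = ψ (b * u) • v := by
  obtain ⟨b, hb⟩ : ∃ b, Ex ρ ψ z b v ≠ 0 := by
    by_contra! c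
    exact hv (by simpa [c] using (LinearMap.congr_fun (sum_Ex (ρ := ρ) hψ hz) v).symm)
  obtain ⟨c, hc⟩ : ∃ c : ℂ, c • v = Ex ρ ψ z b v := Submodule.mem_span_singleton.1 (by
    unfold Ex
    simp only [LinearMap.smul_apply, LinearMap.sum_apply]
    refine Submodule.smul_mem _ _ (Submodule.sum_mem _ fun u _ => Submodule.smul_mem _ _ ?_)
    obtain ⟨c, e⟩ := h u
    exact Submodule.mem_span_singleton.2 ⟨c, e.symm⟩)
  exact ⟨b, fun u => smul_right_injective V (r := c) (fun e => hb (by simp [← hc, e])) (by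
    simpa [← hc, smul_comm c] using LinearMap.congr_fun (mul_Ex (ρ := ρ) (ψ := ψ) hz b u) v)⟩

theorem conj_apply {g a b : S.Fix} (h : g * a * g⁻¹ = b) (v : V) : ρ b (ρ g v) = ρ g (ρ a v) := by
  rw [← h, ← End.mul_apply, ← map_mul, inv_mul_cancel_right, map_mul, End.mul_apply]

attribute [local irreducible] Ex pF Tv.y

variable (ρ ψ) in
/-- the line attached to a long simple root -/
structure Lw (h : Tv S φ q) (β : Φ) (a : K) (v : V) : Prop where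
  ne : v ≠ 0
  eig : ∀ t, ρ (h.y β t) v = ψ (a * t) • v
  fix : ∀ γ, R.pos γ → R.pair β γ = 1 → ∀ t, ρ (h.y γ t) v = v
  uniq : ∀ w, (∀ t, ρ (h.y β t) w = ψ (a * t) • w) → (∀ γ, R.pos γ → R.pair β γ = 1 → ∀ t, ρ (h.y γ t) w = w) →
    ∃ c : ℂ, w = c • v

variable (S) in
/-- a stable root -/
def Lg (β : Φ) : Prop := σ β = β

variable (S) in
/-- decompositions of the stable roots orthogonal to a given root -/
def Dc (β : Φ) : Prop := ∀ δ, R.pos δ → σ δ = δ → R.pair β δ = 0 →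
  ∃ κ, R.pair β κ = 0 ∧ -1 ≤ R.ht κ ∧ R.ht κ ≤ R.ht δ + 1 ∧ R.pair κ δ = 1

variable {h : Tv S φ q} {β : Φ} {a : K} {v : V}

local notation "E" r => Ex ρ ψ (Tv.y h r)

theorem two_le_ht (h : Tv S φ q) (h1 : R.ht β = 1) {γ : Φ} (p : R.pos γ) (e : R.pair β γ = 1) : 2 ≤ R.ht γ := by
  have := R.ht_ne_zero (R.refl β γ)
  have := p.ht_pos
  rw [ht_refl, e] at *
  omega

theorem pair_two (h : Tv S φ q) (h1 : R.ht β = 1) {r s : Φ} (p : R.pos r) (p' : R.pos s) (e : R.pair r s = -1) :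
    R.pair β r + R.pair β s ≤ 1 := by
  have := pair_le h.hl (r := β) (s := R.refl r s) fun c => by
    have := ht_refl (R := R) r s
    have := p.ht_pos
    have := p'.ht_pos
    rw [c, e] at *
    omega
  rw [R.pair_refl_right, e] at this
  omega

theorem fix_long (hδ : σ β = β) {κ : Φ} (p : R.pair κ β = 1) (h1 : ∀ t, h.y κ t ∈ Ln ρ v) (h2 : ∀ t, h.y (R.refl κ β) t ∈ Ln ρ v)
    (t : K) : ρ (h.y β t) v = v := by
  obtain ⟨u, hu⟩ := h.ex_ne (R.refl κ β)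
  obtain ⟨c, c0, hc⟩ := h.cj (r := κ) (by simp [R.pair_refl_self, p]) ((h.orth κ).imp (fun e => ⟨e, by rw [h.σ_refl, e, hδ]⟩) fun e => by
    rw [h.σ_refl, R.pair_refl_right, hδ, e, p]; simp) hu
  have := comm_mem_Fv (h1 (t / c)) (h2 u)
  rwa [commutatorElement_def, hc, mul_inv_cancel_right, R.refl_refl, mul_div_cancel₀ _ c0] at this

namespace Lw

variable (L : Lw ρ ψ h β a v) (hβ : Lg S β) (h1 : R.ht β = 1)
include L hβ

theorem stab {D : Set Φ} (hD : Cl S D) (fx : ∀ r ∈ D, ∀ t, ρ (h.y r t) v = v) (d1 : ∀ γ, R.pos γ → R.pair β γ = 1 → γ ∈ D)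
    (d2 : ∀ s ∈ D, s ≠ R.neg β ∧ (R.pair β s = -1 → R.refl β s ∈ D)) {κ : Φ}
    (d3 : ∀ r, r = κ ∨ r = σ κ → (r ≠ R.neg β ∧ (R.pair β r = -1 → R.refl β r ∈ D)) ∧
      ∀ s ∈ D, s ≠ R.neg r ∧ (R.pair r s = -1 → R.refl r s ∈ D)) (t : K) : h.y κ t ∈ Ln ρ v := by
  have m : (h.y κ t : G) ∈ X.gen {κ, σ κ} := h.y_mem (Or.inl rfl) (Or.inr rfl) t
  refine L.uniq _ (fun u => ?_) fun γ p1 p2 u => ?_
  · have := X.commutator_mem_gen (S := {β}) (M := D)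
      (by rintro _ rfl s b; exact cb h.hl (d2 s b)) (fun r b s c => cb h.hl ((d3 r b).2 s c))
      (by rintro _ rfl s b; exact cb h.hl (d3 s b).1) (h.y_mem (A := {β}) rfl hβ u) m
    have := h.fix_gen hD fx ((h.y β u)⁻¹ * (h.y κ t)⁻¹ * h.y β u * h.y κ t) this
    rw [← map_smul, ← L.eig, ← End.mul_apply, ← map_mul,
      show h.y β u * h.y κ t = h.y κ t * (h.y β u * ((h.y β u)⁻¹ * (h.y κ t)⁻¹ * h.y β u * h.y κ t)) by group, map_mul, map_mul,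
      End.mul_apply, End.mul_apply, this]
  · rw [conj_apply (a := (h.y κ t)⁻¹ * h.y γ u * (h.y κ t)⁻¹⁻¹) (by group), h.fix_gen hD fx _ (X.conj_mem_gen
      (fun r b s c => cb h.hl ((d3 r b).2 s c)) (inv_mem m) (h.y_mem (d1 γ p1 p2) (hD _ (d1 γ p1 p2)).2.1 u))]

theorem fix_short {δ : Φ} (hδ : σ δ ≠ δ) (h2 : ∀ t, h.y δ t ∈ Ln ρ v) (t : K) : ρ (h.y δ t) v = v := by
  obtain ⟨g, hg⟩ := h.ex_tor hδ
  obtain ⟨c, -, -, c1, c2⟩ := hg δ
  have c0 := sub_ne_zero.2 (c1 rfl)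
  have := comm_mem_Fv (a := g) (L.uniq _ (fun u => by
    obtain ⟨c, -, c1, -, c2⟩ := hg β
    rw [c1 hβ] at c2
    simpa [L.eig] using conj_apply (ρ := ρ) (c2 u) v) fun γ p1 p2 u => by
      obtain ⟨c, c0, -, -, c2⟩ := hg γ
      rw [← mul_div_cancel₀ u c0, conj_apply (c2 _), L.fix γ p1 p2]) (h2 (t / (c - 1)))
  rwa [commutatorElement_def, c2, ← (h.y_op δ).neg, ← h.y_op δ, show c * (t / (c - 1)) + -(t / (c - 1)) = t by field_simp; ring] at this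

include h1

theorem stab0 {κ : Φ} (p : R.pair β κ = 0) (p' : -1 ≤ R.ht κ) (t : K) : h.y κ t ∈ Ln ρ v := by
  have e : ∀ γ, R.pair β (σ γ) = R.pair β γ := fun γ => by rw [h.pr', show σ β = β from hβ]
  refine L.stab hβ (D := {γ | R.pos γ ∧ R.pair β γ = 1}) (fun r b => ⟨b.1, ⟨S.ρ_pos' b.1, (e r).trans b.2⟩, fun s c d => ?_⟩)
    (fun r b => L.fix r b.1 b.2) (fun _ a b => ⟨a, b⟩) (fun s b => ⟨ne_neg (by have := b.1.ht_pos; omega), by simp [b.2]⟩)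
    (fun r b => ?_) t
  · have := pair_two h h1 b.1 c.1 d
    have := b.2
    have := c.2
    omega
  obtain ⟨b1, b2⟩ : R.pair β r = 0 ∧ -1 ≤ R.ht r := by rcases b with rfl | rfl <;> simp [e, h.ht, *]
  refine ⟨⟨by rintro rfl; simp at b1, by simp [b1]⟩, fun s c => ?_⟩
  have := two_le_ht h h1 c.1 c.2
  exact ⟨ne_neg (by omega), fun d => ⟨by rw [R.pos_iff_ht, ht_refl, d]; omega, by simp [R.pair_refl_right, b1, c.2]⟩⟩

variable (H1 : Dc S β)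
include H1

theorem fix0 {δ : Φ} (p : R.pos δ) (e : R.pair β δ = 0) : ∀ t, ρ (h.y δ t) v = v := by
  by_cases c : σ δ = δ
  · obtain ⟨κ, a1, a2, a3, a4⟩ := H1 δ p c e
    exact fix_long c a4 (L.stab0 hβ h1 a1 a2) (L.stab0 hβ h1 (by simp [R.pair_refl_right, *]) (by rw [ht_refl, a4]; omega))
  · exact L.fix_short hβ c (L.stab0 hβ h1 e (by have := p.ht_pos; omega))

theorem stab1 {κ : Φ} (p : R.pos κ) (e : R.pair β κ = -1) {n : ℤ}
    (hn : ∀ δ, R.pos δ → R.pair β δ = -1 → n < R.ht δ → ∀ t, ρ (h.y δ t) v = v) (c : σ κ = κ ∨ n < 2 * R.ht κ + 2) (t : K) :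
    h.y κ t ∈ Ln ρ v := by
  have e1 : ∀ γ, R.pair β (σ γ) = R.pair β γ := fun γ => by rw [h.pr', show σ β = β from hβ]
  have e2 : ∀ r s, R.pos r → R.pos s → R.pair r s = -1 → R.pos (R.refl r s) ∧ R.ht (R.refl r s) = R.ht r + R.ht s ∧
      (∀ k, R.pair k (R.refl r s) = R.pair k r + R.pair k s) ∧ R.pair β r + R.pair β s ≤ 1 ∧ -1 ≤ R.pair β r + R.pair β s :=
    fun r s a b d => by
      have := a.ht_pos
      have := b.ht_pos
      have f1 : R.ht (R.refl r s) = R.ht r + R.ht s := by rw [ht_refl, d]; ring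
      have f2 : ∀ k, R.pair k (R.refl r s) = R.pair k r + R.pair k s := fun k => by rw [R.pair_refl_right, d]; ring
      refine ⟨(R.pos_iff_ht _).2 (by omega), f1, f2, pair_two h h1 a b d, f2 β ▸ ?_⟩
      by_cases c : R.pair β (R.refl r s) = -1
      · omega
      · exact (by omega : (-1 : ℤ) ≤ 0).trans (pair_ge h.hl (ne_neg (by omega)) c)
  have p0 := p.ht_pos
  have pb := (R.pos_iff_ht β).2 (by omega)
  refine L.stab hβ (D := {δ | R.pos δ ∧ (R.pair β δ = 1 ∨ R.pair β δ = 0 ∧ (n < R.ht δ + R.ht κ ∨ 0 ≤ R.pair κ δ ∧ 0 ≤ R.pair (σ κ) δ) ∨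
    R.pair β δ = -1 ∧ n < R.ht δ)}) (fun r b => ⟨b.1, ⟨S.ρ_pos' b.1, ?_⟩, fun s c d => ?_⟩) (fun r b => ?_) (fun _ a b => ⟨a, Or.inl b⟩)
      (fun s b => ⟨ne_neg (by have := b.1.ht_pos; omega), fun d => ?_⟩) (fun r b => ?_) t
  · have := b.2
    rw [e1, h.ht, h.pr, h.pr']
    omega
  · obtain ⟨f0, f1, f2, f3, f4⟩ := e2 r s b.1 c.1 d
    have := b.1.ht_pos
    have := c.1.ht_pos
    have := b.2
    have := c.2
    exact ⟨f0, by rw [f1, f2, f2, f2]; omega⟩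
  · exact b.2.elim (L.fix r b.1) fun c => c.elim (fun c => L.fix0 hβ h1 H1 b.1 c.1) fun c => hn r b.1 c.1 c.2
  · obtain ⟨f0, -, f2, -⟩ := e2 β s pb b.1 d
    exact ⟨f0, Or.inl (by simp [f2, d])⟩
  obtain ⟨b1, b2, b3, b4⟩ : R.pos r ∧ R.pair β r = -1 ∧ R.ht r = R.ht κ ∧ (σ κ = κ → r = κ) := by
    rcases b with rfl | rfl <;> simp [e1, h.ht, S.ρ_pos, *]
  refine ⟨⟨ne_neg (by omega), fun d => ?_⟩, fun s g => ⟨ne_neg (by have := g.1.ht_pos; omega), fun d => ?_⟩⟩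
  · obtain ⟨f0, -, f2, -⟩ := e2 β r pb b1 d
    exact ⟨f0, Or.inl (by simp [f2, d])⟩
  obtain ⟨f0, f1, f2, f3, f4⟩ := e2 r s b1 g.1 d
  refine ⟨f0, ?_⟩
  rw [f1, f2, f2, f2]
  have := two_le_ht h h1 g.1
  have := g.2
  have := R.pair_self κ
  rcases c with c | c
  · obtain rfl := b4 c
    rw [c] at *
    omega
  · rcases b with rfl | rfl <;> omega

theorem fix_all (H2 : ∀ δ, R.pos δ → σ δ = δ → R.pair β δ = -1 → (∃ κ, R.pair β κ = 0 ∧ -1 ≤ R.ht κ ∧ R.ht κ < R.ht δ ∧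
      R.pair κ δ = 1 ∧ (σ κ = κ ∨ 2 * R.ht κ < R.ht δ + 2)) ∨ R.ht δ = 1 ∧ ((∀ γ, R.pos γ → R.pair δ γ = 1 → ∀ t, ρ (h.y γ t) v = v) →
        (∀ t, h.y δ t ∈ Ln ρ v) → ∀ t, ρ (h.y δ t) v = v)) {δ : Φ} (p : R.pos δ) (c : δ ≠ β) : ∀ t, ρ (h.y δ t) v = v := by
  have k : ∀ δ, R.pos δ → δ ≠ β → R.pair β δ ≠ -1 → ∀ t, ρ (h.y δ t) v = v := fun δ p c e => by
    have := pair_le h.hl c
    have := pair_ge h.hl (ne_neg (by have := p.ht_pos; omega)) e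
    by_cases d : R.pair β δ = 1
    exacts [L.fix δ p d, L.fix0 hβ h1 H1 p (by omega)]
  by_contra d
  obtain ⟨ε, ⟨a1, a2, a3⟩, a4⟩ := Set.exists_max_image {δ | R.pos δ ∧ R.pair β δ = -1 ∧ ¬ ∀ t, ρ (h.y δ t) v = v} R.ht (Set.toFinite _)
    ⟨δ, p, by_contra fun e => d (k δ p c e), d⟩
  have hn : ∀ δ, R.pos δ → R.pair β δ = -1 → R.ht ε < R.ht δ → ∀ t, ρ (h.y δ t) v = v := fun δ b1 b2 b3 =>
    by_contra fun e => (a4 δ ⟨b1, b2, e⟩).not_gt b3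
  have st := L.stab1 hβ h1 H1 a1 a2 hn (Or.inr (by have := a1.ht_pos; omega))
  refine a3 (by_contra fun f => f (L.fix_short hβ (fun l => f ?_) st))
  rcases H2 ε a1 l a2 with ⟨κ, b1, b2, b3, b4, b5⟩ | ⟨b1, b2⟩
  · exact fix_long l b4 (L.stab0 hβ h1 b1 b2) (L.stab1 hβ h1 H1 (by rw [R.pos_iff_ht, ht_refl, b4]; omega)
      (by simp [R.pair_refl_right, *]) hn (b5.imp (fun e => by rw [h.σ_refl, e, l]) fun e => by rw [ht_refl, b4]; omega))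
  · refine b2 (fun γ p1 p2 => ?_) st
    have := two_le_ht h b1 p1 p2
    by_cases e : R.pair β γ = -1
    exacts [hn γ p1 e (by omega), k γ p1 (by rintro rfl; omega) e]

end Lw

variable (h)

theorem lw_of_tr (hψ : ψ ≠ 1) (hβ : σ β = β) (h1 : R.ht β = 1) (ha : a ≠ 0) : ∃ m : ℕ, tr ((E β) a) =
    q ^ (univ.filter fun γ => R.pos γ ∧ R.pair β γ = 1).card * m ∧ (m = 1 → ∃ v, Lw ρ ψ h β a v) := by
  set Y := univ.filter fun γ => R.pos γ ∧ R.pair β γ = 1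
  have m : ∀ {γ}, γ ∈ Y ↔ R.pos γ ∧ R.pair β γ = 1 := by simp [Y]
  have c : ∀ γ, R.pair β γ = 1 → ∀ t, Commute (ρ (h.y γ t)) ((E β) a) := fun γ e t =>
    comm_Ex' (fun u => (h.cyy (by simp [e]) (by simp [hβ, e]) u t).symm) a
  have b1 : ∀ γ ∈ Y, R.pos γ ∧ σ γ ∈ Y ∧ R.pair β γ = 1 := fun γ d =>
    ⟨(m.1 d).1, m.2 ⟨S.ρ_pos' (m.1 d).1, by rw [h.pr', hβ, (m.1 d).2]⟩, (m.1 d).2⟩
  have b2 : ∀ γ ∈ Y, ∀ δ ∈ Y, 0 ≤ R.pair γ δ := fun γ p δ p' => pair_ge h.hl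
    (ne_neg (add_pos (m.1 p).1.ht_pos (m.1 p').1.ht_pos)) fun e => by
      have := pair_two h h1 (m.1 p).1 (m.1 p').1 e
      rw [(m.1 p).2, (m.1 p').2] at this
      omega
  have cl : Cl S Y := fun r c => ⟨(b1 r c).1, (b1 r c).2.1, fun s d e => absurd (b2 r c s d) (by omega)⟩
  have c' := h.pF_comm cl fun γ d => c γ (m.1 d).2
  have iP := idem_mul pF_idem (Ex_idem (h.y_op _) a) c'
  obtain ⟨n, h2, -⟩ := exists_tr iP
  refine ⟨n, h2 ▸ h.heisY hψ hβ ha (mul_Ex (h.y_op _) a) Y b1 b2 fun γ d => c _ (by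
      simp [R.pair_refl_right, R.pair_comm_sl h.hl γ, (m.1 d).2]), fun e => ?_⟩
  rw [e, Nat.cast_one] at h2
  obtain ⟨v, v0, h3, -⟩ := exists_line iP h2
  refine ⟨v, v0, fun t => ?_, fun γ p1 p2 t => ?_, fun w p1 p2 => ?_⟩
  · rw [← h3, c'.eq, ← End.mul_apply, mul_Ex' (h.y_op _)]; rfl
  · rw [← h3, ← End.mul_apply, ← mul_assoc, g_pF (h.y_mem (m.2 ⟨p1, p2⟩) (b1 _ (m.2 ⟨p1, p2⟩)).2.1 t)]
  · rw [tr_idem iP, Nat.cast_eq_one, finrank_eq_one_iff_of_nonzero' (⟨v, v, h3⟩ : LinearMap.range _)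
      fun e => v0 (congrArg Subtype.val e)] at h2
    exact (h2 ⟨w, w, by rw [End.mul_apply, Ex_apply p1, pF_apply (h.fix_gen cl fun γ d => p2 γ (m.1 d).1 (m.1 d).2)]⟩).imp
      fun c e => (congrArg Subtype.val e).symm

theorem orbit {j : ι} (hj : S.τ j = j) (e : R.pair (R.simple j) β = -1) (ha : a ≠ 0) :
    ∃ C : Finset K, C.card = q - 1 ∧ ∀ b ∈ C, b ≠ 0 ∧ tr ((E β) b) = tr ((E β) a) := by
  refine ⟨((univ.filter fun t => φ t = t).erase 0).image (a * ·), by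
    rw [card_image_of_injective _ (mul_right_injective₀ ha), card_erase_of_mem (by simp), h.fix], ?_⟩
  simp only [forall_mem_image, mem_erase, mem_filter, mem_univ, true_and]
  rintro c ⟨c0, hc⟩
  exact ⟨mul_ne_zero ha c0, tr_semi (semi_Ex (g := ⟨X.h (R.simple j) c⁻¹, X.H_le_grp (X.h_mem_H _ (inv_ne_zero c0)), by
    rw [S.s_h, hj, h.g, map_inv₀, hc]⟩) c0 (fun t => h.conj_y (by simp [X.h_conj _ _ (inv_ne_zero c0), e])) a)⟩

theorem deg_tw (hψ : ψ ≠ 1) (hβ : σ β = β) (h1 : R.ht β = 1) {j : ι} (hj : S.τ j = j) (e : R.pair (R.simple j) β = -1) {n : ℕ}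
    (hn : (univ.filter fun γ => R.pos γ ∧ R.pair β γ = 1).card = n) (c : finrank ℂ V < 2 * (q - 1) * q ^ n) (ha : a ≠ 0)
    (h2 : (E β) a ≠ 0) : ∃ v, Lw ρ ψ h β a v := by
  obtain ⟨m, a1, a2⟩ := lw_of_tr (ρ := ρ) h hψ hβ h1 ha
  obtain ⟨C, c1, c2⟩ := orbit (ρ := ρ) (ψ := ψ) h hj e ha
  have m0 : m ≠ 0 := fun d => h2 (eq_zero_of_tr (Ex_idem (h.y_op β) a) (by simp [a1, d]))
  refine a2 (by_contra fun m1 => c.not_ge ?_)
  choose N hN using fun b => (exists_tr (Ex_idem (ρ := ρ) (ψ := ψ) (h.y_op β) b)).imp fun _ h => h.1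
  have := tr_sum (ρ := ρ) hψ (h.y_op β) 1
  simp only [mul_one, hN, LinearMap.trace_one] at this
  norm_cast at this
  rw [this, ← c1, mul_comm 2, mul_assoc]
  refine (card_nsmul_le_sum C N _ fun b d => ?_).trans (sum_le_sum_of_subset (subset_univ C))
  have := (c2 b d).2
  rw [a1, hN, hn] at this
  norm_cast at this
  rw [this, mul_comm]
  exact Nat.mul_le_mul_left _ (by omega)

theorem vec_tw (hψ : ψ ≠ 1) (hf : ∀ g, ρ g = 1 → g = 1) (h1 : R.ht β = 1) {j : ι} (hj : S.τ j = j) (e : R.pair (R.simple j) β = -1)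
    (hβ : σ β = β) (hL : ∀ a, a ≠ 0 → (E β) a ≠ 0 → ∃ v, Lw ρ ψ h β a v ∧ ∀ δ, R.pos δ → δ ≠ β → ∀ t, ρ (h.y δ t) v = v) {g : S.Fix}
    {w : Equiv.Perm Φ} (hw : X.Rep g w) (h2 : ∀ r, w r ≠ w β → R.ht (w β) ≤ R.ht (w r) → R.pos r) :
    ∃ C : Finset K, C.card = q - 1 ∧ ∀ a ∈ C, a ≠ 0 ∧ ∃ v, v ≠ 0 ∧ (∀ t, ρ (h.y (w β) t) v = ψ (a * t) • v) ∧
      ∀ k : S.Fix, (k : G) ∈ X.gen {δ | δ ≠ w β ∧ R.ht (w β) ≤ R.ht δ} → ρ k v = v := by
  obtain ⟨a, a0, ha⟩ : ∃ a, a ≠ 0 ∧ (E β) a ≠ 0 := by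
    by_contra! c
    obtain ⟨t, ht⟩ := h.ex_ne β
    have := sum_Ex (ρ := ρ) hψ (h.y_op β)
    rw [sum_eq_single 0 (fun a _ => c a) (by simp)] at this
    exact ht (hf _ (by simpa [this] using mul_Ex (ρ := ρ) (ψ := ψ) (h.y_op β) 0 t))
  obtain ⟨C, c1, c2⟩ := orbit (ρ := ρ) (ψ := ψ) h hj e a0
  obtain ⟨c, hc⟩ := hw.conj_x β
  refine ⟨C.image (· / c), by rw [card_image_of_injective _ fun _ _ => (div_left_inj' c.ne_zero).1, c1], ?_⟩
  simp only [forall_mem_image]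
  intro b hb
  obtain ⟨v, L, fx⟩ := hL b (c2 b hb).1 fun d => ha (eq_zero_of_tr (Ex_idem (h.y_op β) a) (by simp [← (c2 b hb).2, d]))
  refine ⟨div_ne_zero (c2 b hb).1 c.ne_zero, ρ g v, apply_ne L.ne g, fun t => ?_, fun k hk => ?_⟩
  · rw [← mul_div_cancel₀ t c.ne_zero, conj_apply (h.conj_y (hc _)), L.eig, map_smul]
    congr 2; field_simp
  refine (conj_apply (a := g⁻¹ * k * g⁻¹⁻¹) (by group) v).trans (congrArg _ (h.fix_gen (A := {δ | R.pos δ ∧ δ ≠ β})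
    (fun r b => ⟨b.1, ⟨S.ρ_pos' b.1, fun d => b.2 ((σ).injective (d.trans hβ.symm))⟩, fun s d f => ?_⟩) (fun r b => fx r b.1 b.2) _
      (hw.inv.conj_mem_gen (fun r b => ?_) hk)))
  · have := b.1.ht_pos
    have := d.1.ht_pos
    exact ⟨(R.pos_iff_ht _).2 (by rw [ht_refl, f]; omega), fun c => by have := congrArg R.ht c; rw [ht_refl, f] at this; omega⟩
  · exact ⟨h2 _ (by simpa using b.1) (by simpa using b.2), fun d => b.1 (by simp [← d])⟩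

end Cfsg.Agent.H14.Dg
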