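import Cfsg.Agent.H14.Dg10
import Cfsg.Agent.H14.Dg11
import Cfsg.Agent.H14.Dg17
import Cfsg.Agent.H15.TwIE
import Cfsg.Agent.H4.Integral

/-! The minimal degree of the twisted groups of type `E₆`. -/

set_option autoImplicit false
set_option linter.style.haveILetI false

namespace Cfsg.Agent.H14.Dg

open Cfsg.Lie Cfsg.Lie.ChevalleyDatum Module Finset H15

theorem not_dvd_ev' {c a d : ℤ} (l : List ℤ) (h : 700 ≤ a) (hl : ∀ x ∈ l, |x| ≤ 340) (h3 : 0 < c) (h4 : c < 100)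
    (hd : (a - 1) * a ^ l.length ≤ d) : ¬ d ∣ c * a ^ l.length + l.foldr (fun c s => c + a * s) 0 := fun e => by
  have h5 := abs_ev (by omega : 2 ≤ a) l hl (by norm_num)
  generalize l.foldr (fun c s => c + a * s) 0 = S at *
  have h6 : 0 < a ^ l.length := pow_pos (by omega) _
  generalize a ^ l.length = A at *
  have h7 : |S| < A := lt_of_mul_lt_mul_left (a := a) (by nlinarith) (by omega)
  rw [abs_lt] at h7
  have := Int.le_of_dvd (by nlinarith) e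
  nlinarith

theorem arith_T6 {p m a d j : ℕ} (hp : p.Prime) (ha : a = p ^ m) (h2 : 2 ≤ a) (hj : 0 < j) (hj' : j ≤ 2)
    (h : d + j = a * (a ^ 6 - a ^ 3 + 1) * (a ^ 4 + 1))
    (hd : d ∣ a ^ 36 * ((a ^ 2 - 1) * (a ^ 5 + 1) * (a ^ 6 - 1) * (a ^ 8 - 1) * (a ^ 9 + 1) * (a ^ 12 - 1))) : False := by
  by_cases c : a < 700
  · exact small_spec (P := fun a j => False)
      (G := fun a => a ^ 36 * ((a ^ 2 - 1) * (a ^ 5 + 1) * (a ^ 6 - 1) * (a ^ 8 - 1) * (a ^ 9 + 1) * (a ^ 12 - 1)))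
      (D := fun a => a * (a ^ 6 - a ^ 3 + 1) * (a ^ 4 + 1)) (r := 2) (B := 7) (by decide +kernel) h2 c hj hj' h hd
  have h1 : ∀ k, 1 ≤ a ^ k := fun k => Nat.one_le_pow _ _ (by omega)
  have h3 : a ^ 3 ≤ a ^ 6 := Nat.pow_le_pow_right (by omega) (by omega)
  have e := dvd_red hp ha (h.trans (by rw [mul_assoc])) hj (by omega) hd
  zify [h1, h3] at e h c
  generalize (a : ℤ) = a at *
  obtain ⟨b, rfl⟩ : ∃ b, a = b + 700 := ⟨a - 700, by ring⟩
  have hb : 0 ≤ b := by omega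
  have k : ∀ a, a = b + 700 → (a - 1) * a ^ 10 + 2 ≤ a * (a ^ 6 - a ^ 3 + 1) * (a ^ 4 + 1) := by
    rintro _ rfl
    rw [← sub_nonneg]
    ring_nf
    positivity
  have := k _ rfl
  generalize ha : b + 700 = a at *
  interval_cases j
  · refine not_dvd_ev' (a := a) (c := 1) [-22, 48, -40, 12, -6, 17, -15, 31, -47, 29] (by omega) (by decide) (by norm_num) (by norm_num)
      (by show _ * a ^ 10 ≤ _; omega) ((dvd_sub e (dvd_mul_right _ (a ^ 31 - a ^ 29 + a ^ 28 - a ^ 27 - 2 * a ^ 24 + 2 * a ^ 23 - a ^ 22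
        + 2 * a ^ 20 - 3 * a ^ 19 + a ^ 18 + 3 * a ^ 17 - 3 * a ^ 16 + a ^ 15 + a ^ 14 - 4 * a ^ 13 + 6 * a ^ 12 - 4 * a ^ 11 - 3 * a ^ 10
        + 10 * a ^ 9 - 11 * a ^ 8 + 5 * a ^ 7 + 8 * a ^ 6 - 17 * a ^ 5 + 15 * a ^ 4 - 2 * a ^ 3 - 14 * a ^ 2 + 25 * a - 23))).trans
          (dvd_of_eq ?_))
    rw [eq_sub_of_add_eq h]
    simp only [List.foldr, List.length]; ring
  · refine not_dvd_ev' (a := a) (c := 54) [166, -336, 324, -126, -6, 0, 50, -170, 268, -224] (by omega) (by decide) (by norm_num)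
      (by norm_num) (by show _ * a ^ 10 ≤ _; omega) ((dvd_sub (dvd_mul_right _ (2 * a ^ 31 - 2 * a ^ 29 + 2 * a ^ 28 - 2 * a ^ 27
        - 4 * a ^ 24 + 4 * a ^ 23 - 2 * a ^ 22 + 6 * a ^ 20 - 6 * a ^ 19 + 10 * a ^ 17 - 10 * a ^ 16 + 6 * a ^ 14 - 18 * a ^ 13 + 20 * a ^ 12
        - 10 * a ^ 11 - 14 * a ^ 10 + 44 * a ^ 9 - 42 * a ^ 8 + 12 * a ^ 7 + 48 * a ^ 6 - 80 * a ^ 5 + 52 * a ^ 4 + 14 * a ^ 3 - 98 * a ^ 2
        + 126 * a - 84)) e).trans (dvd_of_eq ?_))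
    rw [eq_sub_of_add_eq h]
    simp only [List.foldr, List.length]; ring

set_option synthInstance.maxSize 1000 in
set_option synthInstance.maxHeartbeats 200000 in
theorem chkT6 : ∀ β : Fin 72, 0 < htD chevE6 β → morE6.ρ β = β → ∃ Y ∈ ([[], [40, 43], [39], [44, 48, 50], [44, 48, 50, 51],
    [41, 45, 58, 59], [49, 52, 60, 61, 62], [49, 54, 60, 61, 63, 64], [52, 55, 60, 62, 63, 66, 67, 68],
      [54, 55, 60, 64, 65, 66, 67, 68, 69], [54, 55, 63, 64, 65, 66, 67, 68, 69, 70]] : List (List (Fin 72))),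
        ((Y.length : ℤ) + 1 = htD chevE6 β ∧ Y.Nodup) ∧ (∀ γ ∈ Y, 0 < htD chevE6 γ ∧ (∃ δ ∈ Y, morE6.ρ γ = δ) ∧ tabE6.pr 6 β γ = 1 ∧
          htD chevE6 γ < htD chevE6 β) ∧ ∀ γ ∈ Y, ∀ δ ∈ Y, 0 ≤ tabE6.pr 6 γ δ := by
  decide +kernel

theorem chkT6' : ∀ β : Fin 72, 0 < htD chevE6 β → morE6.ρ β = β → β ≠ 46 → ∃ w ∈ ([[], [2], [0], [0, 2], [1, 0, 2], [3, 2], [0, 3, 2],
    [1, 0, 3, 2], [2, 1, 0, 3, 2], [1, 2, 1, 0, 3, 2], [0, 1, 2, 1, 0, 3, 2]] : List (List (Fin 4))),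
      wrefl chevE6 ((w.flatMap (![[1], [3], [2, 4], [0, 5]] : Fin 4 → List (Fin 6))).map Fin.val) (39 : Fin 72) = β ∧ ∀ r : Fin 72,
        wrefl chevE6 ((w.flatMap (![[1], [3], [2, 4], [0, 5]] : Fin 4 → List (Fin 6))).map Fin.val) r ≠ β →
          htD chevE6 β ≤ htD chevE6 (wrefl chevE6 ((w.flatMap (![[1], [3], [2, 4], [0, 5]] : Fin 4 → List (Fin 6))).map Fin.val) r) →
            0 < htD chevE6 r := by
  decide +kernel

open scoped Classical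

theorem ht6' (r : Fin 72) : R6.ht r = htD chevE6 r := ht_eq goodE6 (slE6 _) r

variable {K : Type*} [Field K] [Fintype K] {q : ℕ} {S : TwO (X6 K) (Fin 4)} (h : H15.IsE6 S q)
include h

theorem tv6 : Tv S.toTw (S.g 0) q where
  hl := slE6 _
  g := fun i t => by rw [h.g, h.g]
  φφ := h.gg 0 0
  ττ := by rw [h.τ]; decide
  car := by simp only [h.τ, car6]; decide
  orth := fun r => by
    rw [Fin.ext_iff, pair6, show S.ρ r = Fin.ofNat 72 (morE6.ρ r) from Fin.ext (by rw [h.ρ_val]; revert r; decide +kernel)]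
    revert r; decide +kernel
  fix := by
    rw [← card_fix (h.g 0) (one_le_two.trans h.hq) h.hK, Nat.card_eq_fintype_card, Fintype.card_subtype]
    simp only [h.g]
  card := h.hK
  two := h.hq

theorem rep_word (l : List (Fin 4)) : ∃ g : S.Fix, (X6 K).Rep g (R6.wp (l.flatMap ![[1], [3], [2, 4], [0, 5]])) := by
  induction l with
  | nil => exact ⟨1, (X6 K).rep_one⟩
  | cons k l ih =>
    obtain ⟨g, hg⟩ := ih
    exact ⟨⟨_, S.nJ_mem_Fix k⟩ * g, by rw [List.flatMap_cons, RS.wp_append, ← h.wJ_eq']; exact (S.rep_nJ k).mul hg⟩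

theorem degree_T6 {k : ℕ} {ρ : Representation ℂ S.Fix (Fin k → ℂ)} (hρ : ρ.IsIrreducible) (hk : 2 ≤ k) (hq : IsPrimePow q) :
    q * (q ^ 6 - q ^ 3 + 1) * (q ^ 4 + 1) ≤ k := by
  have e : S.T = S.Fix := le_antisymm S.T_le_Fix h.Fix_le
  haveI : Finite S.Fix := inferInstance
  haveI := Fintype.ofFinite S.Fix
  haveI : IsSimpleGroup S.Fix := e ▸ (S.simple h.irreducible h.perfect h.core 0).1
  have t := tv6 h
  obtain ⟨ψ, hψ⟩ := (AddChar.exists_apply_ne_zero (a := (1 : K))).2 one_ne_zero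
  replace hψ : ψ ≠ 1 := fun e => hψ (by simp [e])
  obtain ⟨b, rfl⟩ := Nat.exists_eq_add_of_le' h.hq
  have b1 : (b + 2) ^ 6 - (b + 2) ^ 3 = b ^ 6 + 12 * b ^ 5 + 60 * b ^ 4 + 159 * b ^ 3 + 234 * b ^ 2 + 180 * b + 56 :=
    Nat.sub_eq_of_eq_add (by ring)
  refine not_lt.1 fun c => ?_
  have hσ : ∀ r : Fin 72, S.ρ r = r ↔ morE6.ρ r = r := fun r => by rw [Fin.ext_iff, h.ρ_val]
  have L0 : ∀ i j : Fin 6, τ6 i = i → τ6 j = j → carE6 j i = -1 → ∀ a, a ≠ 0 → Ex ρ ψ (t.y (R6.simple i)) a ≠ 0 →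
      ∃ v, Lw ρ ψ t (R6.simple i) a v := fun i j a1 a2 a3 a => deg_tw t hψ (by rw [S.ρ_simple, h.τ, a1]) (R6.ht_simple i)
        (by rw [h.τ, a2]) ((R6.pair_simple_simple j i).trans ((car6 j i).trans a3)) (n := 10) (by
          simp only [R6.pos_iff_ht, ht6', pair6, simple6]
          clear a3; revert i; decide +kernel) (by
            rw [finrank_fin_fun, show b + 2 - 1 = b + 1 from rfl]
            refine c.trans_le ?_
            rw [b1]; ring_nf; omega)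
  have D : ∀ i : Fin 6, τ6 i = i → Dc S.toTw (R6.simple i) := by
    simp only [Dc, R6.pos_iff_ht, ht6', pair6, simple6, hσ]
    decide +kernel
  have l : ∀ i : Fin 6, τ6 i = i → S.ρ (R6.simple i) = R6.simple i := fun i a => by rw [S.ρ_simple, h.τ, a]
  have L1 : ∀ a v, Lw ρ ψ t (R6.simple 1) a v → ∀ δ, R6.pos δ → δ ≠ R6.simple 1 → ∀ u, ρ (t.y δ u) v = v := fun a v L δ =>
    L.fix_all (l 1 rfl) (R6.ht_simple 1) (D 1 rfl) fun δ a1 a2 a3 => Or.inl (by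
      revert δ
      simp only [R6.pos_iff_ht, ht6', pair6, simple6, hσ]
      decide +kernel)
  have L3 : ∀ a v, a ≠ 0 → Lw ρ ψ t (R6.simple 3) a v → ∀ δ, R6.pos δ → δ ≠ R6.simple 3 → ∀ u, ρ (t.y δ u) v = v := fun a v a0 L δ =>
    L.fix_all (l 3 rfl) (R6.ht_simple 3) (D 3 rfl) fun δ a1 a2 a3 => (show _ ∨ δ = R6.simple 1 by
      revert δ
      simp only [R6.pos_iff_ht, ht6', pair6, simple6, hσ]
      decide +kernel).imp_right (by
        rintro rfl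
        refine ⟨R6.ht_simple 1, fun b1 b2 => ?_⟩
        obtain ⟨b, hb⟩ := eig_of_Ln hψ (t.y_op _) L.ne b2
        by_cases b0 : b = 0
        · simp [hb, b0]
        obtain ⟨w, hw⟩ := L0 1 3 rfl rfl rfl b b0 fun e => L.ne (by rw [← Ex_apply hb, e]; rfl)
        obtain ⟨d, hd⟩ := hw.uniq v hb b1
        exact absurd (eq_zero_of_eig hψ a0 fun u => by
          rw [← L.eig, hd, map_smul, L1 b w hw _ (R6.pos_simple 3) fun e => absurd (R6.simple_injective e) (by decide)]) L.ne)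
  have hf : ∀ g, ρ g = 1 → g = 1 := fun g a => by_contra fun b => H15.ne_of_simple hρ hk b (by simp [Representation.character, a])
  obtain ⟨z, -, hz⟩ := t.chain (ρ := ρ) hψ (fun β a1 a2 => by
    obtain ⟨Y, -, a3⟩ := chkT6 β (ht6' β ▸ a1.ht_pos) ((hσ β).1 a2)
    simp only [← ht6', ← pair6, ← R6.pos_iff_ht] at a3
    refine ⟨Y.toFinset, by rw [List.toFinset_card_of_nodup a3.1.2, a3.1.1], ?_⟩
    simp only [List.mem_toFinset]
    refine ⟨fun γ d => ⟨(a3.2.1 γ d).1, ?_, (a3.2.1 γ d).2.2⟩, a3.2.2⟩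
    obtain ⟨δ, d, e⟩ := (a3.2.1 γ d).2.1
    rwa [show S.ρ γ = δ from Fin.ext ((h.ρ_val γ).trans e)]) (fun β a1 a2 => by
    by_cases d : β = R6.simple 1
    · subst d
      simpa only [Equiv.Perm.one_apply] using vec_tw t hψ hf (R6.ht_simple 1) (j := 3) (h.τ_eq 3) ((R6.pair_simple_simple 3 1).trans (car6 3 1)) (l 1 rfl)
        (fun a a0 e => (L0 1 3 rfl rfl rfl a a0 e).imp fun v L => ⟨L, L1 a v L⟩) (g := 1) (w := 1) (X6 K).rep_one fun r _ e =>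
          (R6.pos_iff_ht r).2 (lt_of_lt_of_le (by simp) e)
    obtain ⟨w, -, a3, a4⟩ := chkT6' β (ht6' β ▸ a1.ht_pos) ((hσ β).1 a2) fun e => d (e.trans (simple6 1).symm)
    simp only [← wp6, ← ht6', ← R6.pos_iff_ht, ne_eq, Fin.val_inj] at a3 a4
    rw [show (39 : Fin 72) = R6.simple 3 from (simple6 3).symm] at a3
    obtain ⟨g, hg⟩ := rep_word h w
    subst a3
    exact vec_tw t hψ hf (R6.ht_simple 3) (j := 1) (h.τ_eq 1) ((R6.pair_simple_simple 1 3).trans (car6 1 3)) (l 3 rfl)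
      (fun a a0 e => (L0 3 1 rfl rfl rfl a a0 e).imp fun v L => ⟨L, L3 a v a0 L⟩) hg a4) (univ.filter R6.pos : Finset (Fin 72)) (up_pos goodE6)
  have e2 : ∀ f : ℕ → ℕ, ∑ β ∈ univ.filter R6.pos, (if S.ρ β = β then f (R6.ht β - 1).toNat else 0) =
      (([0, 2, 0, 1, 3, 4, 4, 5, 6, 8, 9, 10] : List ℕ).map f).sum := fun f => by
    rw [← (by decide +kernel : ((List.finRange 72).filter fun r : Fin 72 => 0 < htD chevE6 r.val ∧ morE6.ρ r = r).map
      (fun r : Fin 72 => (htD chevE6 r.val - 1).toNat) = [0, 2, 0, 1, 3, 4, 4, 5, 6, 8, 9, 10]), List.map_map,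
      ← List.sum_toFinset _ ((List.nodup_finRange _).filter _), ← sum_filter]
    exact sum_congr (by ext; simp [R6.pos_iff_ht, ht6', hσ]) fun _ _ => by simp [ht6']
  replace hz : z + (([0, 2, 0, 1, 3, 4, 4, 5, 6, 8, 9, 10] : List ℕ).map fun k => (b + 2 - 1) * (b + 2) ^ k).sum ≤ k := by
    rw [← e2]
    convert hz
    exacts [rfl, (finrank_fin_fun ℂ).symm]
  obtain ⟨j, hj⟩ := Nat.exists_eq_add_of_le c.le
  obtain ⟨p, m, hp, -, hm⟩ := (isPrimePow_nat_iff _).1 hq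
  refine arith_T6 hp hm.symm h.hq (by omega) (Nat.le_of_add_le_add_left (hj.ge.trans (le_trans ?_ (Nat.add_le_add_right
    (le_of_add_le_right hz) 2)))) hj.symm ((H4.Cfsg.IsIrrCharacter.degree_dvd_card ⟨k, ρ, hρ, rfl⟩ (by simp)).trans
      ((Dvd.intro_left _ (e ▸ h.card)).trans (by simp only [mul_assoc, dvd_refl])))
  rw [b1, show b + 2 - 1 = b + 1 from rfl]
  simp only [List.map, List.sum_cons, List.sum_nil]
  exact le_of_eq (by ring)

end Cfsg.Agent.H14.Dg
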