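import Cfsg.Agent.H14.Mu3
import Cfsg.Agent.H14.Cent2

/-! Splitting central extensions with an explicit complement. -/

set_option autoImplicit false
set_option linter.style.haveILetI false

namespace Cfsg.Agent.H14.Mu

open Cfsg.Agent.H15 Cfsg.Agent.H27 Subgroup
open scoped commutatorElement

section abstract
variable {G : Type*} [Group G] {Γ : Type*} [Group Γ] {σ : Γ →* G}

structure SpD (σ : Γ →* G) (N A : Subgroup G) (D : Subgroup Γ) : Prop where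
  map : D.map σ = A
  inj : ∀ d ∈ D, σ d = 1 → d = 1
  conj : ∀ g, σ g ∈ N → ∀ d ∈ D, g * d * g⁻¹ ∈ D

variable {N U K A A' : Subgroup G} {D : Subgroup Γ}

theorem SpD.splt (h : SpD σ N A D) : Splt σ N A := ⟨D, h.map, h.inj, h.conj⟩

theorem SpD.ext2 (h : SpD σ N A D) {d : Γ} (h2 : d * d = 1) (hd : σ d ∈ N) (hd' : σ d ∉ A)
    (hA : ∀ y, y ∈ A' ↔ y ∈ A ∨ y * (σ d)⁻¹ ∈ A) (hN : ∀ n ∈ N, ∃ u ∈ U, ∃ k ∈ K, n = u * k) (hUN : U ≤ N)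
    (hs : Function.Surjective σ) (h3 : ∀ g, σ g ∈ U → ⁅g, d⁆ ∈ D) (h4 : ∀ g, σ g ∈ K → Commute g d) :
    ∃ D', SpD σ N A' D' ∧ D ≤ D' ∧ d ∈ D' := by
  have i : d⁻¹ = d := inv_eq_of_mul_eq_one_right h2
  have m : ∀ x ∈ D, σ x ∈ A := fun x hx => h.map.le ⟨x, hx, rfl⟩
  let D' : Subgroup Γ :=
    { carrier := {x | x ∈ D ∨ x * d⁻¹ ∈ D}
      one_mem' := Or.inl (one_mem _)
      mul_mem' := by
        rintro x y (hx | hx) (hy | hy)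
        · exact Or.inl (mul_mem hx hy)
        · exact Or.inr (mul_assoc x y _ ▸ mul_mem hx hy)
        · exact Or.inr (by simpa [mul_assoc] using mul_mem hx (h.conj d hd y hy))
        · refine Or.inl ?_
          have := mul_mem hx (h.conj d hd _ hy)
          rwa [show x * d⁻¹ * (d * (y * d⁻¹) * d⁻¹) = x * y * (d * d)⁻¹ by group, h2, inv_one, mul_one] at this
      inv_mem' := by
        rintro x (hx | hx)
        · exact Or.inl (inv_mem hx)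
        · refine Or.inr ?_
          have := h.conj d hd _ (inv_mem hx)
          rwa [show d * (x * d⁻¹)⁻¹ * d⁻¹ = d * d * (x⁻¹ * d⁻¹) by group, h2, one_mul] at this }
  refine ⟨D', ⟨le_antisymm ?_ fun y hy => ?_, ?_, ?_⟩, fun _ => Or.inl, Or.inr (by simp)⟩
  · rintro _ ⟨x, hx | hx, rfl⟩
    · exact (hA _).2 (Or.inl (m x hx))
    · exact (hA _).2 (Or.inr (by simpa using m _ hx))
  · rcases (hA y).1 hy with e | e
    · obtain ⟨x, hx, rfl⟩ := h.map.ge e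
      exact ⟨x, Or.inl hx, rfl⟩
    · obtain ⟨x, hx, e'⟩ := h.map.ge e
      exact ⟨x * d, Or.inr (by simpa using hx), by simp [e']⟩
  · rintro x (hx | hx) e
    · exact h.inj x hx e
    · exact absurd (by simpa [e] using m _ hx) hd'
  · rintro g hg x (hx | hx)
    · exact Or.inl (h.conj g hg x hx)
    · obtain ⟨u, hu, k, hk, e⟩ := hN _ hg
      obtain ⟨a, rfl⟩ := hs u
      have h5 := (h4 (a⁻¹ * g) (by simpa [e] using hk)).eq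
      refine Or.inr ?_
      have := mul_mem (h.conj g hg _ hx) (h3 a hu)
      rwa [show g * (x * d⁻¹) * g⁻¹ * ⁅a, d⁆ = g * x * (d⁻¹ * (a⁻¹ * g)⁻¹ * d) * a⁻¹ * d⁻¹ by group,
        show d⁻¹ * (a⁻¹ * g)⁻¹ * d = (a⁻¹ * g)⁻¹ by rw [← mul_inv_rev, h5]; group,
        show g * x * (a⁻¹ * g)⁻¹ * a⁻¹ * d⁻¹ = g * x * g⁻¹ * d⁻¹ by group] at this

theorem SpD.step (hs : Function.Surjective σ) (hc : σ.ker ≤ center Γ) (h : SpD σ N A D) (hAA : A ≤ A') (hA'U : A' ≤ U)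
    (hUN : U ≤ N) (hN : ∀ n ∈ N, ∃ u ∈ U, ∃ k ∈ K, n = u * k) (hNA : ∀ n ∈ N, ∀ u ∈ A', n * u * n⁻¹ ∈ A')
    (hD' : ∀ a b : Γ, σ a ∈ U → σ b ∈ A' → ⁅a, b⁆ ∈ D) {t : G} (ht : t ∈ N) (htK : ∀ k ∈ K, Commute t k)
    (hsurj : ∀ y ∈ A', ∃ y0 ∈ A', y * ⁅t, y0⁆⁻¹ ∈ A) (hinj : ∀ y ∈ A', ⁅t, y⁆ ∈ A → y ∈ A) : Splt σ N A' := by
  obtain ⟨h1, h2, h3⟩ := h
  obtain ⟨s, rfl⟩ := hs t
  have hsA : ∀ b : Γ, σ b ∈ A' → σ ⁅s, b⁆ ∈ A' := fun b hb => by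
    rw [map_commutatorElement, commutatorElement_def]
    exact mul_mem (hNA _ ht _ hb) (inv_mem hb)
  let D' : Subgroup Γ :=
    { carrier := {x | ∃ d ∈ D, ∃ b, σ b ∈ A' ∧ x = d * ⁅s, b⁆}
      one_mem' := ⟨1, one_mem _, 1, by simp, by simp⟩
      mul_mem' := by
        rintro _ _ ⟨d, hd, b, hb, rfl⟩ ⟨d', hd', b', hb', rfl⟩
        refine ⟨d * (⁅s, b⁆ * d' * ⁅s, b⁆⁻¹) * (⁅s, b⁆ * ⁅b, ⁅s, b'⁆⁆⁻¹ * ⁅s, b⁆⁻¹),
          mul_mem (mul_mem hd (h3 _ (hUN (hA'U (hsA b hb))) _ hd'))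
            (h3 _ (hUN (hA'U (hsA b hb))) _ (inv_mem (hD' _ _ (hA'U hb) (hsA b' hb')))),
          b * b', by simpa using mul_mem hb hb', ?_⟩
        simp only [commutatorElement_def]; group
      inv_mem' := by
        rintro _ ⟨d, hd, b, hb, rfl⟩
        refine ⟨(⁅s, b⁆⁻¹ * d⁻¹ * ⁅s, b⁆⁻¹⁻¹) * ⁅b, ⁅s, b⁻¹⁆⁆,
          mul_mem (h3 _ (by rw [map_inv]; exact inv_mem (hUN (hA'U (hsA b hb)))) _ (inv_mem hd))
            (hD' _ _ (hA'U hb) (hsA b⁻¹ (by simpa using hb))), b⁻¹, by simpa using hb, ?_⟩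
        simp only [commutatorElement_def]; group }
  refine ⟨D', le_antisymm ?_ ?_, ?_, ?_⟩
  · rintro _ ⟨_, ⟨d, hd, b, hb, rfl⟩, rfl⟩
    rw [map_mul]
    exact mul_mem (hAA (h1.le ⟨d, hd, rfl⟩)) (hsA b hb)
  · intro y hy
    obtain ⟨y0, hy0, e⟩ := hsurj y hy
    obtain ⟨b, rfl⟩ := hs y0
    obtain ⟨d, hd, e'⟩ := h1.ge e
    exact ⟨_, ⟨d, hd, b, hy0, rfl⟩, by
      rw [map_mul, e', map_commutatorElement, inv_mul_cancel_right]⟩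
  · rintro _ ⟨d, hd, b, hb, rfl⟩ e
    have hbA : σ b ∈ A := by
      refine hinj _ hb ?_
      rw [map_mul, mul_eq_one_iff_inv_eq, map_commutatorElement] at e
      rw [← e]; exact inv_mem (h1.le ⟨d, hd, rfl⟩)
    obtain ⟨d', hd', e'⟩ := h1.ge hbA
    refine h2 _ (mul_mem hd ?_) e
    rw [← comm_congr hc rfl e', commutatorElement_def]
    exact mul_mem (h3 _ ht _ hd') (inv_mem hd')
  · rintro g hg _ ⟨d, hd, b, hb, rfl⟩
    obtain ⟨u, hu, k, hk, e⟩ := hN _ hg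
    obtain ⟨a, rfl⟩ := hs u
    have hk' : σ (a⁻¹ * g) = k := by simp [e]
    have hkN : k ∈ N := by rw [← hk', map_mul, map_inv]; exact mul_mem (inv_mem (hUN hu)) hg
    set c := a⁻¹ * g with hcdef
    have e1 : c * ⁅s, b⁆ * c⁻¹ = ⁅s, c * b * c⁻¹⁆ := by
      have : ⁅c * s * c⁻¹, c * b * c⁻¹⁆ = ⁅s, c * b * c⁻¹⁆ := by
        refine comm_congr hc ?_ rfl
        rw [map_mul, map_mul, map_inv, hk', ← (htK k hk).eq]; simp
      rw [← this]; simp only [commutatorElement_def]; group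
    have hb' : σ (c * b * c⁻¹) ∈ A' := by
      rw [map_mul, map_mul, map_inv, hk']; exact hNA _ hkN _ hb
    refine ⟨g * d * g⁻¹ * ⁅a, ⁅s, c * b * c⁻¹⁆⁆, mul_mem (h3 g hg d hd) (hD' _ _ hu (hsA _ hb')),
      c * b * c⁻¹, hb', ?_⟩
    rw [← e1, hcdef]; simp only [commutatorElement_def]; group

variable {β : G → G → Γ}

theorem SpD.pair_eq (h : SpD σ N A D) {N' U A A' : Subgroup G} (P : Pairing σ N' U A A' β) {a b : Γ}
    (h1 : ⁅a, b⁆ * (β (σ a) (σ b))⁻¹ ∈ D) (h2 : ⁅a, b⁆ ∈ D) : β (σ a) (σ b) = 1 :=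
  h.inj _ (inv_mem_iff.1 ((mul_mem_cancel_left h2).1 h1)) (P.ker _ _)

theorem pairing_mono (P : Pairing σ N U A A' β) {N₁ A₁ A₁' : Subgroup G} (h1 : N₁ ≤ N) (h2 : A₁ ≤ A) (h3 : A₁' ≤ A') :
    Pairing σ N₁ U A₁ A₁' β :=
  ⟨P.ker, fun g hg g' hg' y hy => P.mul_left g hg g' hg' y (h3 hy),
    fun g hg y hy y' hy' => P.mul_right g hg y (h3 hy) y' (h3 hy'), fun g hg y hy => P.triv g hg y (h2 hy),
    fun n hn g hg y hy => P.conj n (h1 hn) g hg y (h3 hy), fun a b ha hb => P.comm a b ha (h3 hb)⟩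

theorem le_lk (hs : Function.Surjective σ) (P : Pairing σ N U A A' β) (h1 : A ≤ A') (h2 : A' ≤ U) : A ≤ lk P :=
  fun g hg => ⟨h2 (h1 hg), fun y hy => by simpa [P.triv y (h2 hy) g hg] using P.skew hs h2 (h1 hg) hy⟩

theorem le_lk_of_dec (P : Pairing σ N U A A' β) (h1 : A ≤ A') {C E : Subgroup G} (hC : C ≤ A') (hE : E ≤ U)
    (h2 : ∀ y ∈ A', ∃ a ∈ A, ∃ x ∈ C, y = a * x) (h3 : ∀ g ∈ E, ∀ x ∈ C, β g x = 1) : E ≤ lk P :=
  fun g hg => ⟨hE hg, fun y hy => by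
    obtain ⟨a, ha, x, hx, rfl⟩ := h2 y hy
    rw [P.mul_right g (hE hg) a (h1 ha) x (hC hx), P.triv g (hE hg) a ha, h3 g hg x hx, one_mul]⟩

end abstract

variable {ι Φ : Type} [Fintype ι] [DecidableEq ι] {R : RS ι Φ} {K : Type*} [Field K] {G : Type*} [Group G]
variable {X : RG R K G} {κ : Type} [Finite Φ] {S : TwO X κ} {lv : Φ → ℕ}

variable (S) in
abbrev CO (lv : Φ → ℕ) (j : ℕ) : Subgroup S.T := (X.gen (LO R lv j)).subgroupOf S.T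

omit [Finite Φ] in
theorem AL_mono {i j : ℕ} (h : i ≤ j) : AL S lv i ≤ AL S lv j := fun _ hy => X.gen_mono (LS_mono lv h) hy

omit [Finite Φ] in
theorem CO_le {i j : ℕ} (h : i < j) : CO S lv i ≤ AL S lv j :=
  fun _ hy => X.gen_mono (T := LS R lv j) (fun _ hr => ⟨hr.1, hr.2.trans_lt h⟩) hy

theorem Lv.dec (h : Lv X lv) (hF : S.Fix ≤ S.T) (hρ : ∀ r, lv (S.ρ r) = lv r) {j : ℕ}
    (hO : ∀ r ∈ LO R lv j, ∀ s ∈ LO R lv j, R.comb r s ⊆ LO R lv j) :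
    ∀ y ∈ AL S lv (j + 1), ∃ a ∈ AL S lv j, ∃ x ∈ CO S lv j, y = a * x := fun y hy => by
  obtain ⟨a, ha, b, hb, e⟩ := X.exists_mul_of_union RS.htv (fun r hr => hr.1.ht_pos) (h.closed (j + 1))
    (LS_succ lv j).symm hy
  obtain ⟨h1, h2⟩ := S.fix_of_mul (X.gen_le_grp _) (X.gen_le_grp _) (fun y h1 h2 => by
    have := X.mem_gen_inter RS.htv RS.htv (fun r hr => hr.1.ht_pos) (h.closed j) (fun r hr => hr.1.ht_pos) hO h1 h2
    rwa [show LS R lv j ∩ LO R lv j = ∅ from Set.eq_empty_of_forall_notMem fun r hr => hr.1.2.ne hr.2.2,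
      X.gen_empty] at this) ha hb
    (S.s_mem_gen (B := LS R lv j) (fun r hr => ⟨S.ρ_pos' hr.1, (hρ r).trans_lt hr.2⟩) ha)
    (S.s_mem_gen (B := LO R lv j) (fun r hr => ⟨S.ρ_pos' hr.1, (hρ r).trans hr.2⟩) hb) (e ▸ S.T_le_Fix y.2)
  exact ⟨⟨a, hF h1⟩, ha, ⟨b, hF h2⟩, hb, Subtype.ext e⟩

theorem BT_dec : ∀ n ∈ BT S, ∃ u ∈ UT S, ∃ k ∈ HT S, n = u * k := fun n hn =>
  let ⟨u, hu, h1, y, hy, h2, e⟩ := S.exists_B hn n.2
  ⟨⟨u, h1⟩, hu, ⟨y, h2⟩, hy, Subtype.ext e⟩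

variable {Γ : Type*} [Group Γ] {σ : Γ →* S.T}

theorem Lv.comm_mem (h : Lv X lv) (hs : Function.Surjective σ) (hc : σ.ker ≤ center Γ) {j : ℕ} {D : Subgroup Γ}
    (hD : SpD σ (BT S) (AL S lv j) D) (hβ : ∀ β (P : Pairing σ (BT S) (UT S) (AL S lv j) (AL S lv (j + 1)) β),
      (∀ a b, σ a ∈ UT S → σ b ∈ AL S lv (j + 1) → ⁅a, b⁆ ∈ D → β (σ a) (σ b) = 1) → ∀ a : Blk S, a.pos → a.sg ≤ lk P)
    (a b : Γ) (ha : σ a ∈ UT S) (hb : σ b ∈ AL S lv (j + 1)) : ⁅a, b⁆ ∈ D := by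
  obtain ⟨β, P, h1⟩ := exists_pairing hs hc hD.map hD.inj hD.conj (AL_mono (Nat.le_succ j)) (AL_le_U _ _)
    (fun _ hy => X.U_le_B hy) BT_U (h.BT_A _) fun g hg y hy => h.comm j hg hy
  simpa [(U_le_of_sg (hβ β P fun a b ha hb => hD.pair_eq P (h1 a b ha hb)) ha).2 _ hb] using h1 a b ha hb

theorem Fp.surj [Finite S.T] {t : S.T} (ht : t ∈ HT S) {A : Set Φ} (hf : Fp X t A) (ha : ∀ r ∈ A, R.pos r)
    (hA : ∀ r ∈ A, ∀ s ∈ A, R.comb r s ⊆ A) : ∀ g ∈ (X.gen A).subgroupOf S.T, ∃ g0 ∈ (X.gen A).subgroupOf S.T, g = ⁅t, g0⁆ :=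
  fun g hg => by
    obtain ⟨g0, h4, h5⟩ := surj_of_inj (A := ⊥) (A' := (X.gen A).subgroupOf S.T) (t := t)
      (fun _ => X.H_conj_mem_gen ht) (by simp) (by simp) (fun y hy hc => Subtype.ext (by
        have := hf.mem (A := ∅) ht (by rwa [Set.empty_union]) (by simp) (by simpa using hA) (by simp)
          (y := y) (by rw [Set.empty_union]; exact hy) (by rw [X.gen_empty]; exact congrArg Subtype.val hc)
        rwa [X.gen_empty] at this)) g hg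
    exact ⟨g0, h4, mul_inv_eq_one.1 (mem_bot.1 h5)⟩

theorem Lv.sep1 [Finite S.T] (h : Lv X lv) {j : ℕ} {β : S.T → S.T → Γ} {U : Subgroup S.T}
    (P : Pairing σ (BT S) U (AL S lv j) (AL S lv (j + 1)) β) {t : S.T} (ht : t ∈ HT S) (hf : Fp X t (LO R lv j))
    {g : S.T} (hg : g ∈ U) (e : t * g * t⁻¹ = g) : g ∈ lk P := ⟨hg, fun y hy => by
  obtain ⟨y0, h3, h4⟩ := h.surj ht hf y hy
  have h5 := h.BT_A _ t (X.H_le_B ht) _ h3
  have := P.mul_right g hg _ (AL_mono (Nat.le_succ j) h4) _ (mul_mem h5 (inv_mem h3))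
  rw [P.triv _ hg _ h4, one_mul, ← commutatorElement_def, inv_mul_cancel_right] at this
  rw [this]
  exact P.right_of_fix (X.H_le_B ht) hg h3 h5 e⟩

theorem Lv.sep2 (h : Lv X lv) {j : ℕ} {β : S.T → S.T → Γ}
    (P : Pairing σ (BT S) (UT S) (AL S lv j) (AL S lv (j + 1)) β) {t : S.T} (ht : t ∈ HT S) (hf : Fx X t (LO R lv j))
    {g : S.T} (hg : g ∈ UT S) : ⁅t, g⁆ ∈ lk P := by
  have h7 := BT_U t (X.H_le_B ht) g hg
  refine ⟨mul_mem h7 (inv_mem hg), fun y hy => ?_⟩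
  have h8 : ⁅t, y⁆ ∈ AL S lv j := h.fix ht hf hy
  have h9 := P.conj t (X.H_le_B ht) g hg y hy
  rw [show t * y * t⁻¹ = ⁅t, y⁆ * y by group, P.mul_right _ h7 _ (AL_mono (Nat.le_succ j) h8) _ hy, P.triv _ h7 _ h8,
    one_mul] at h9
  rw [commutatorElement_def, P.mul_left _ h7 _ (inv_mem hg) _ hy, h9, P.inv_left hg hy, mul_inv_cancel]

theorem trans_cj {n : S.T} (hn : (n : G) ∈ X.N) {A B : Subgroup S.T} (h : Cj n A B)
    (h1 : ∀ g ∈ A, ∀ g' ∈ A, g ≠ 1 → g' ≠ 1 → ∃ t ∈ HT S, g' = t * g * t⁻¹) :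
    ∀ g ∈ B, ∀ g' ∈ B, g ≠ 1 → g' ≠ 1 → ∃ t ∈ HT S, g' = t * g * t⁻¹ := fun g hg g' hg' a b => by
  obtain ⟨t, ht, e⟩ := h1 _ (h.inv.mem hg) _ (h.inv.mem hg') (mt conj_eq_one_iff.1 a) (mt conj_eq_one_iff.1 b)
  refine ⟨n * t * n⁻¹, X.conj_mem_H hn ht, ?_⟩
  calc g' = n * (n⁻¹ * g' * n⁻¹⁻¹) * n⁻¹ := by group
    _ = _ := by rw [e]; group

end Cfsg.Agent.H14.Mu
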