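import Cfsg.Agent.H14.Mu6
import Cfsg.Agent.H14.Mu7

/-! The Schur multiplier of the triality group over the field with eight elements. -/

set_option autoImplicit false
set_option linter.style.haveILetI false

namespace Cfsg.Agent.H14.Mu

open Cfsg.Agent.H15 Cfsg.Agent.H27 Subgroup Cfsg.Lie Cfsg.Lie.ChevalleyDatum
open scoped commutatorElement

theorem Nod.st_h {ι Φ : Type} [Fintype ι] [DecidableEq ι] {R : RS ι Φ} {K : Type*} [Field K] {G : Type*} [Group G]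
    {X : RG R K G} {F : Type*} [Field F] {κ : Type} [Finite Φ] {S : TwO X κ} {k : κ} {D : H29.StData F G}
    (h : Nod S k D) (w : F) : ((h.st.h w : S.T) : G) = D.h w := (stMap_h h.st S.T.subtype w).symm

variable {K : Type*} [Field K] [Fintype K] [CharP K 2] {S : TwO (X4 K) (Fin 2)}

abbrev lD : Fin 24 → ℕ := fun r => lvD r

omit [Fintype K] in
theorem glD_eq {v w : List ℕ} (h : decide ((∀ r ∈ v ++ w, r < chevD4.nroots) ∧ wmat chevD4 v = wmat chevD4 w) = true) :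
    gl goodD4 K v = gl goodD4 K w := gl_eq goodD4 bridgeD4 (by decide) h

omit [Fintype K] [CharP K 2] in
theorem glD_mem {j : ℕ} (L : List (Fin 24)) (h : ∀ r ∈ L, lvD r = j) (hj : j < 6) :
    gl goodD4 K (L.map Fin.val) ∈ (X4 K).gen (LO R4 lD j) :=
  (gl_map goodD4 L : gl goodD4 K _ = _) ▸ (X4 K).prodL_mem (S := LO R4 lD j) (fun r hr => ⟨(posD r).2 (h r hr ▸ hj), h r hr⟩) 1

omit [Fintype K] in
theorem glD_ne (r : Fin 24) : gl goodD4 K [r.val] ≠ 1 := by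
  rw [show gl goodD4 K [r.val] = _ from gl_cons goodD4 r [], gl_nil, mul_one]
  exact fun e => one_ne_zero ((goodD4.rg K).x_eq_one_iff.1 e)

variable (h : H15.IsD4 S 2)
include h

omit [CharP K 2] in
theorem cjD {n : S.T} {k : Fin 2} (hn : (X4 K).Rep n (S.wJ k)) {i j : ℕ} (hi : i < 6) (hj : j < 6)
    (e : ∀ r : Fin 24, lvD r = i ↔ lvD (wrefl chevD4 (![[1], [0, 2, 3]] k) r) = j) : Cj n (CO S lD i) (CO S lD j) := by
  have e1 : ∀ r : Fin 24, lvD r = i ↔ lvD (S.wJ k r) = j := fun r => by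
    rw [h.wJ_eq', wp4, e]; fin_cases k <;> rfl
  have : S.wJ k '' LO R4 lD i = LO R4 lD j := by
    ext s
    obtain ⟨r, rfl⟩ := (S.wJ k).surjective s
    rw [(S.wJ k).injective.mem_set_image]
    exact ⟨fun a => ⟨(posD _).2 (((e1 r).1 a.2).trans_lt hj), (e1 r).1 a.2⟩,
      fun a => ⟨(posD _).2 (((e1 r).2 a.2).trans_lt hi), (e1 r).2 a.2⟩⟩
  rw [CO, CO, ← this]; exact cj_gen hn _

omit [CharP K 2] in
theorem bsD (k : Fin 2) : (bs S k).sg = CO S lD (![4, 5] k) := by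
  rw [Blk.sg, bs_set]
  congr 2
  ext r
  exact ⟨fun a => ⟨a.1, (PJD h k r).1 a⟩, fun a => (PJD h k r).2 a.2⟩

omit [CharP K 2] in
theorem blkD {M : Subgroup S.T} (hM : ∀ i < 6, CO S lD i ≤ M) (a : Blk S) (ha : a.pos) : a.sg ≤ M := by
  obtain ⟨r, hr⟩ := set_nonempty a
  have h1 := (posD r).1 (ha r hr)
  refine le_trans (fun y hy => (X4 K).gen_mono (fun s hs => ?_) hy) (hM _ h1)
  exact ⟨ha s hs, (set_eq_fiber (bk := lD) (wJD h) (fun k r hr s => by rw [PJD h] at hr ⊢; rw [lD, lD, hr]) a hr).le hs⟩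

theorem long2 : ∀ g ∈ (bs S 0).sg, ∀ g' ∈ (bs S 0).sg, g ≠ 1 → g' ≠ 1 → g = g' := by
  have : ∀ g ∈ (bs S 0).sg, g ≠ 1 → (g : GL chevD4.Idx K) = (X4 K).x (R4.simple 1) 1 := fun g hg h1 => by
    obtain ⟨t, ht, e⟩ := (h.P0 _).1 (mem_bs.1 hg)
    rcases eq_zero_or_one_of_sq_eq_self ht with rfl | rfl
    · exact absurd (Subtype.ext (by simpa using e)) h1
    · exact e
  exact fun g hg g' hg' a b => Subtype.ext ((this g hg a).trans (this g' hg' b).symm)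

set_option maxHeartbeats 1000000 in
theorem closedAt_D42 : ClosedAt 2 S.T := by
  haveI := h.finite
  have L : Lv (X4 K) lD := lv_D4
  obtain ⟨n0, mn0, N0, r0⟩ := exists_nk (S := S) 0
  obtain ⟨n1, -, N1, r1⟩ := exists_nk (S := S) 1
  have j41 : Cj n1 (CO S lD 4) (CO S lD 1) := cjD h r1 (by decide) (by decide) (by decide +kernel)
  have j14 : Cj n1 (CO S lD 1) (CO S lD 4) := cjD h r1 (by decide) (by decide) (by decide +kernel)
  have j10 : Cj n0 (CO S lD 1) (CO S lD 0) := cjD h r0 (by decide) (by decide) (by decide +kernel)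
  have j01 : Cj n0 (CO S lD 0) (CO S lD 1) := cjD h r0 (by decide) (by decide) (by decide +kernel)
  have j53 : Cj n0 (CO S lD 5) (CO S lD 3) := cjD h r0 (by decide) (by decide) (by decide +kernel)
  have j35 : Cj n0 (CO S lD 3) (CO S lD 5) := cjD h r0 (by decide) (by decide) (by decide +kernel)
  have j22 : Cj n0 (CO S lD 2) (CO S lD 2) := cjD h r0 (by decide) (by decide) (by decide +kernel)
  have j32 : Cj n1 (CO S lD 3) (CO S lD 2) := cjD h r1 (by decide) (by decide) (by decide +kernel)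
  have b4 : (bs S 0).sg = CO S lD 4 := bsD h 0
  have b5 : (bs S 1).sg = CO S lD 5 := bsD h 1
  have two : ∀ {n : S.T} {A B : Subgroup S.T}, Cj n A B → (∀ g ∈ A, ∀ g' ∈ A, g ≠ 1 → g' ≠ 1 → g = g') →
      ∀ g ∈ B, ∀ g' ∈ B, g ≠ 1 → g' ≠ 1 → g = g' := fun c e g hg g' hg' a b => by
    simpa using e _ (c.inv.mem hg) _ (c.inv.mem hg') (mt conj_eq_one_iff.1 a) (mt conj_eq_one_iff.1 b)
  have t4 := b4 ▸ long2 h
  have t1 := two j41 t4
  have t0 := two j10 t1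
  have cen : ∀ {A : Subgroup S.T}, (∀ g ∈ A, ∀ g' ∈ A, g ≠ 1 → g' ≠ 1 → g = g') → ∀ t : S.T, Cj t A A → ∀ g ∈ A,
      t * g * t⁻¹ = g := fun e t c g hg => by
    by_cases a : g = 1
    · simp [a]
    · exact e _ (c.mem hg) _ hg (mt conj_eq_one_iff.1 a) a
  have HC : ∀ t ∈ HT S, ∀ i, Cj t (CO S lD i) (CO S lD i) := fun t ht i => by
    simpa using cj_gen ((X4 K).rep_H ht) (LO R4 lD i)
  let y0 : S.T := ⟨_, h.gl_mem (w := [23]) (by decide +kernel)⟩
  let y1 : S.T := ⟨_, h.gl_mem (w := [22]) (by decide +kernel)⟩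
  let y4 : S.T := ⟨_, h.gl_mem (w := [14]) (by decide +kernel)⟩
  let u : S.T := ⟨_, h.gl_mem (w := [19, 16, 15]) (by decide +kernel)⟩
  let v : S.T := ⟨_, h.gl_mem (w := [17, 20, 21]) (by decide +kernel)⟩
  let x : S.T := ⟨_, h.gl_mem (w := [18, 13, 12]) (by decide +kernel)⟩
  have c0 : y0 ∈ CO S lD 0 := glD_mem [23] (by decide +kernel) (by decide)
  have c1 : y1 ∈ CO S lD 1 := glD_mem [22] (by decide +kernel) (by decide)
  have c4 : y4 ∈ CO S lD 4 := glD_mem [14] (by decide +kernel) (by decide)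
  have c3 : u ∈ CO S lD 3 := glD_mem [19, 16, 15] (by decide +kernel) (by decide)
  have c2 : v ∈ CO S lD 2 := glD_mem [17, 20, 21] (by decide +kernel) (by decide)
  have c5 : x ∈ CO S lD 5 := glD_mem [18, 13, 12] (by decide +kernel) (by decide)
  have z0 : y0 ≠ 1 := fun e => glD_ne 23 (congrArg Subtype.val e)
  have z1 : y1 ≠ 1 := fun e => glD_ne 22 (congrArg Subtype.val e)
  have z4 : y4 ≠ 1 := fun e => glD_ne 14 (congrArg Subtype.val e)
  have ce : ∀ {a b c : S.T}, a * b = c * (b * a) → ⁅a, b⁆ = c := fun e => by rw [commutatorElement_def, e]; group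
  have e1 : ⁅y4, y1⁆ = y0 := ce (Subtype.ext (by
    simp only [coe_mul, y0, y1, y4, ← gl_append]; exact glD_eq (by decide +kernel)))
  have e2 : ⁅u, v⁆ = y0 := ce (Subtype.ext (by
    simp only [coe_mul, y0, u, v, ← gl_append]; exact glD_eq (by decide +kernel)))
  have e3 : ⁅x, y4⁆ = u * v * y1 := ce (Subtype.ext (by
    simp only [coe_mul, y1, y4, u, v, x, ← gl_append]; exact glD_eq (by decide +kernel)))
  have e4 : y4 * y4 = 1 := Subtype.ext (by
    simp only [coe_mul, y4, ← gl_append]; exact (glD_eq (w := []) (by decide +kernel)))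
  have k1 : Commute y4 u := Subtype.ext (by simp only [coe_mul, y4, u, ← gl_append]; exact glD_eq (by decide +kernel))
  have k2 : Commute y4 v := Subtype.ext (by simp only [coe_mul, y4, v, ← gl_append]; exact glD_eq (by decide +kernel))
  have k3 : Commute y1 u := Subtype.ext (by simp only [coe_mul, y1, u, ← gl_append]; exact glD_eq (by decide +kernel))
  have k4 : Commute y1 v := Subtype.ext (by simp only [coe_mul, y1, v, ← gl_append]; exact glD_eq (by decide +kernel))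
  have z3 : u ≠ 1 := fun e => z0 (by rw [← e2, e]; simp)
  have hρ : ∀ r, lD (S.ρ r) = lD r := fun r => by
    rw [lD, h.ρ_val]; revert r; decide +kernel
  have hO : ∀ j, ∀ r ∈ LO R4 lD j, ∀ s ∈ LO R4 lD j, R4.comb r s ⊆ LO R4 lD j := fun j r hr s hs k hk => by
    have a1 : 0 ≤ R4.pair r s := by
      rw [pair4]
      exact (by decide +kernel : ∀ r s : Fin 24, lvD r = lvD s → 0 ≤ tabD4.pr 4 r s) r s (hr.2.trans hs.2.symm)
    have := (RS.comb_sl (R := R4) (slD4 _) (RS.ne_neg_of_f RS.htv (add_pos hr.1.ht_pos hs.1.ht_pos)) hk).1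
    omega
  have dec := fun j => L.dec h.Fix_le hρ (hO j)
  have dec2 : ∀ {j} {y : S.T}, y ∈ CO S lD j → (∀ g ∈ CO S lD j, ∀ g' ∈ CO S lD j, g ≠ 1 → g' ≠ 1 → g = g') → y ≠ 1 →
      y ∉ AL S lD j ∧ ∀ g, g ∈ AL S lD (j + 1) ↔ g ∈ AL S lD j ∨ g * y⁻¹ ∈ AL S lD j := fun {j y} hy t a => by
    refine ⟨fun c => a (Subtype.ext ?_), fun g => ⟨fun hg => ?_, fun hg => hg.elim (AL_mono (Nat.le_succ j) ·) fun c =>
      (mul_mem_cancel_right (inv_mem (CO_le (Nat.lt_succ_self j) hy))).1 (AL_mono (Nat.le_succ j) c)⟩⟩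
    · have := (X4 K).mem_gen_inter RS.htv RS.htv (fun r hr => hr.1.ht_pos) (L.closed j) (fun r hr => hr.1.ht_pos)
        (hO j) c hy
      rwa [show LS R4 lD j ∩ LO R4 lD j = ∅ from Set.eq_empty_of_forall_notMem fun r hr => hr.1.2.ne hr.2.2,
        RG0.gen_empty] at this
    · obtain ⟨b, hb, z, hz, rfl⟩ := dec j g hg
      by_cases c : z = 1
      · exact Or.inl (by simpa [c] using hb)
      · exact Or.inr (by simpa [t z hz y hy c a] using hb)
  obtain ⟨t, ht⟩ := IsCyclic.exists_generator (α := Kˣ)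
  obtain ⟨c, ⟨H0, T0⟩, ec⟩ := torD h t ![1, 0, 0, 0]
  have fx : ∀ j, j = 0 ∨ j = 1 ∨ j = 4 → Fx (X4 K) (tor4 K c) (LO R4 lD j) := fun j hj r hr => tor_fx goodD4 ((ec r).trans (by
    rw [← orderOf_dvd_iff_zpow_eq_one, orderOf_eq_card_of_forall_mem_zpowers ht, Nat.card_units, Nat.card_eq_fintype_card, h.hK]
    exact (by decide +kernel : ∀ r : Fin 24, lvD r = 0 ∨ lvD r = 1 ∨ lvD r = 4 → ((2 ^ 3 - 1 : ℕ) : ℤ) ∣ exD ![1, 0, 0, 0] r +
      (2 : ℕ) * (exD (![1, 0, 0, 0] ∘ τ4 ∘ τ4) r + (2 : ℕ) * exD (![1, 0, 0, 0] ∘ τ4) r)) r (hr.2.symm ▸ hj :)))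
  have fp : ∀ j, j = 2 ∨ j = 3 ∨ j = 5 → Fp (X4 K) (tor4 K c) (LO R4 lD j) := fun j hj r hr => tor_conj_ne goodD4 ((ec r).trans_ne (by
    rw [Ne, ← orderOf_dvd_iff_zpow_eq_one, orderOf_eq_card_of_forall_mem_zpowers ht, Nat.card_units, Nat.card_eq_fintype_card, h.hK]
    exact (by decide +kernel : ∀ r : Fin 24, lvD r = 2 ∨ lvD r = 3 ∨ lvD r = 5 → ¬ ((2 ^ 3 - 1 : ℕ) : ℤ) ∣ exD ![1, 0, 0, 0] r +
      (2 : ℕ) * (exD (![1, 0, 0, 0] ∘ τ4 ∘ τ4) r + (2 : ℕ) * exD (![1, 0, 0, 0] ∘ τ4) r)) r (hr.2.symm ▸ hj :)))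
  obtain ⟨t0', et⟩ : ∃ t : S.T, (t : GL chevD4.Idx K) = tor4 K c := ⟨⟨_, T0⟩, rfl⟩
  rw [← et] at fx fp H0
  replace T0 := t0'.2
  clear_value y0 y1 y4 u v x
  have CU : ∀ i, CO S lD i ≤ UT S := fun i => (CO_le (Nat.lt_succ_self i)).trans (AL_le_U _ _)
  obtain ⟨D, hx, hD⟩ : ∃ D : H29.StData K S.T, (∀ g, g ∈ CO S lD 5 ↔ ∃ t, D.x t = g) ∧ ∀ w, w ≠ 0 → D.h w ∈ HT S :=
    ⟨(nodD h).st, b5 ▸ (nodD h).mem_x, fun w w0 => by
      rw [HT, mem_subgroupOf, Nod.st_h, stMul_h, stMul_h, stOne_h, stOne_h, stOne_h]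
      exact mul_mem ((X4 K).h_mem_H _ w0) (mul_mem ((X4 K).h_mem_H _ ((map_ne_zero _).2 w0))
        ((X4 K).h_mem_H _ ((map_ne_zero _).2 w0)))⟩
  have tr5 : ∀ g ∈ CO S lD 5, ∀ g' ∈ CO S lD 5, g ≠ 1 → g' ≠ 1 → ∃ t ∈ HT S, g' = t * g * t⁻¹ := fun g hg g' hg' a a' => by
    obtain ⟨s, rfl⟩ := (hx g).1 hg
    obtain ⟨s', rfl⟩ := (hx g').1 hg'
    have s0 : s ≠ 0 := fun e => a (e ▸ H29.StData.x_zero _)
    have s1 : s' ≠ 0 := fun e => a' (e ▸ H29.StData.x_zero _)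
    obtain ⟨w, hw⟩ := (bijective_frobenius K 2).2 (s' / s)
    have w0 : w ≠ 0 := fun e => by rw [e, map_zero] at hw; exact div_ne_zero s1 s0 hw.symm
    exact ⟨_, hD w w0, by rw [st_hx _ w0, ← frobenius_def, hw, div_mul_cancel₀ _ s0]⟩
  have QQ : ∀ g ∈ AL S lD 5, ∀ y ∈ AL S lD 5, ⁅g, y⁆ ∈ AL S lD 1 := fun g hg y hy => by
    have a : ∀ r ∈ LS R4 lD 5, ∀ s ∈ LS R4 lD 5, s ≠ R4.neg r ∧ R4.comb r s ⊆ LS R4 lD 1 := fun r hr s hs =>
      ⟨RS.ne_neg_of_f RS.htv (add_pos hr.1.ht_pos hs.1.ht_pos), fun k hk => ⟨RS.comb_pos hk hr.1 hs.1, by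
        have b1 : ∀ r : Fin 24, (lvD r < 5 → 1 ≤ (([(1, 0), (2, 1), (1, 2), (1, 3)] : List (ℤ × Fin 4)).map
          fun p => p.1 * chevD4.cartan p.2 r).sum) ∧ (2 ≤ (([(1, 0), (2, 1), (1, 2), (1, 3)] : List (ℤ × Fin 4)).map
          fun p => p.1 * chevD4.cartan p.2 r).sum → lvD r < 1) := by decide +kernel
        have b2 := fL_apply goodD4 ([(1, 0), (2, 1), (1, 2), (1, 3)] : List (ℤ × Fin 4))
        have b3 := (b1 r).1 hr.2
        have b4 := (b1 s).1 hs.2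
        have := RS.comb_f_ge _ hk ((zero_le_one.trans b3).trans_eq (b2 r).symm) ((zero_le_one.trans b4).trans_eq (b2 s).symm)
        exact (b1 k).2 ((add_le_add (b3.trans_eq (b2 r).symm) (b4.trans_eq (b2 s).symm)).trans (this.trans_eq (b2 k)))⟩⟩
    have a' := fun r hr s hs => a r hr s (LS_mono lD (by decide : 1 ≤ 5) hs)
    have := (X4 K).commutator_mem_gen a' a' a (inv_mem hg) (inv_mem hy)
    rwa [inv_inv, inv_inv] at this
  refine closedAt_of_spl 2 fun Γ _ _ σ hs hc _ => ?_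
  have cl4 := b4 ▸ clD h hs hc 0
  have cl5 := b5 ▸ clD h hs hc 1
  have cl1 := cl4.cj hs (fun _ => j14.mem) fun _ => j14.mem
  have cl0 := cl1.cj hs (fun _ => j01.mem) fun _ => j01.mem
  have cl3 := cl5.cj hs (fun _ => j35.mem) fun _ => j35.mem
  have cl2 := cl3.cj hs (fun _ => j32.inv.mem) fun _ => j32.inv.mem
  have s1 : ∀ {j β} (P : Pairing σ (BT S) (UT S) (AL S lD j) (AL S lD (j + 1)) β), (j = 2 ∨ j = 3 ∨ j = 5) →
      CO S lD 4 ≤ lk P := fun P hj g hg => L.sep1 P (t := t0') H0 (fp _ hj) (CU _ hg) (cen t4 _ (HC _ H0 _) g hg)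
  have s2 : ∀ {j β} (P : Pairing σ (BT S) (UT S) (AL S lD j) (AL S lD (j + 1)) β), (j = 0 ∨ j = 1 ∨ j = 4) →
      ∀ i, (i = 2 ∨ i = 3 ∨ i = 5) → CO S lD i ≤ lk P := fun P hj i hi g hg => by
    obtain ⟨g0, a, rfl⟩ := (fp i hi).surj (t := t0') H0 (fun r hr => hr.1) (hO i) g hg
    exact L.sep2 P H0 (fx _ hj) (CU _ a)
  have s3 : ∀ {j β} (P : Pairing σ (BT S) (UT S) (AL S lD j) (AL S lD (j + 1)) β) i, i < j → CO S lD i ≤ lk P :=
    fun P i hi => (CO_le hi).trans (le_lk hs P (AL_mono (Nat.le_succ _)) (AL_le_U _ _))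
  have s4 : ∀ {j β} (P : Pairing σ (BT S) (UT S) (AL S lD j) (AL S lD (j + 1)) β) i,
      (∀ g ∈ CO S lD i, ∀ y ∈ CO S lD j, β g y = 1) → CO S lD i ≤ lk P := fun P i =>
    le_lk_of_dec P (AL_mono (Nat.le_succ _)) (CO_le (Nat.lt_succ_self _)) (CU i) (dec _)
  have s5 : ∀ {j β} (P : Pairing σ (BT S) (UT S) (AL S lD j) (AL S lD (j + 1)) β) i,
      CL σ (CO S lD i) (CO S lD j) → CO S lD i ≤ lk P := fun P i c => s4 P i (c.pairing hs P (CU i) (CO_le (Nat.lt_succ_self _)))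
  obtain ⟨b, hb⟩ := hs y4
  obtain ⟨c', hc'⟩ := hs y1
  obtain ⟨u', hu⟩ := hs u
  obtain ⟨v', hv⟩ := hs v
  obtain ⟨m0, rfl⟩ := hs n0
  obtain ⟨m1, rfl⟩ := hs n1
  have d0 : σ ⁅b, c'⁆ = y0 := by rw [map_commutatorElement, hb, hc', e1]
  have clθ : ∀ {i} {y : S.T}, y ∈ CO S lD i → (∀ g ∈ CO S lD i, ∀ g' ∈ CO S lD i, g ≠ 1 → g' ≠ 1 → g = g') → y ≠ 1 →
      Commute y u → Commute y v → CL σ (CO S lD i) (CO S lD 0) := fun {i y} a1 a2 a3 a4 a5 p q hp hq => by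
    by_cases e : σ p = 1
    · exact (ker_comm hc e q).symm
    by_cases e' : σ q = 1
    · exact ker_comm hc e' p
    have := commute_comm_of_ker hc (c := p) (a := u') (b := v') (by rwa [a2 _ hp y a1 e a3, hu]) (by rwa [a2 _ hp y a1 e a3, hv])
    rwa [← commutatorElement_eq_one_iff_commute, comm_congr hc rfl (b' := q)
      (by rw [map_commutatorElement, hu, hv, e2, t0 _ hq _ c0 e' z0]), commutatorElement_eq_one_iff_commute] at this
  have cl40 := clθ c4 t4 z4 k1 k2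
  have cl10 := clθ c1 t1 z1 k3 k4
  have d2 : ⁅b, c'⁆ * ⁅b, c'⁆ = 1 := by
    have a1 := (cl40 b ⁅b, c'⁆ (hb ▸ c4) (d0 ▸ c0)).eq
    have a2 := ker_comm hc (show σ (b * b) = 1 by rw [map_mul, hb, e4]) c'
    calc _ = b * ⁅b, c'⁆ * b⁻¹ * ⁅b, c'⁆ := by rw [a1]; group
      _ = ⁅b * b, c'⁆ := by group
      _ = 1 := commutatorElement_eq_one_iff_commute.2 a2.symm
  have dH : ∀ g, σ g ∈ HT S → Commute g ⁅b, c'⁆ := fun g hg => by
    have := comm_congr hc (a := g * b * g⁻¹) (b := g * c' * g⁻¹) (a' := b) (b' := c')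
      (by simpa [hb] using cen t4 _ (HC _ hg _) _ c4) (by simpa [hc'] using cen t1 _ (HC _ hg _) _ c1)
    exact mul_inv_eq_iff_eq_mul.1 ((show _ = ⁅g * b * g⁻¹, g * c' * g⁻¹⁆ by group).trans this)
  have ext : ∀ {j D} {m : Γ}, SpD σ (BT S) (AL S lD j) D → ((σ m : S.T) : GL chevD4.Idx K) ∈ (X4 K).N →
      Cj (σ m) (CO S lD 0) (CO S lD j) → (∀ g ∈ CO S lD j, ∀ g' ∈ CO S lD j, g ≠ 1 → g' ≠ 1 → g = g') →
      (∀ β (P : Pairing σ (BT S) (UT S) (AL S lD j) (AL S lD (j + 1)) β),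
        (∀ a b, σ a ∈ UT S → σ b ∈ AL S lD (j + 1) → ⁅a, b⁆ ∈ D → β (σ a) (σ b) = 1) → ∀ i < 6, CO S lD i ≤ lk P) →
      ∃ D', SpD σ (BT S) (AL S lD (j + 1)) D' ∧ D ≤ D' ∧ m * ⁅b, c'⁆ * m⁻¹ ∈ D' := fun {j D m} hD hm cj tj hβ => by
    have a1 : σ (m * ⁅b, c'⁆ * m⁻¹) ∈ CO S lD j := by simpa [d0] using cj.mem c0
    have a2 := dec2 a1 tj (by simpa [d0] using z0)
    refine hD.ext2 (by rw [conj_mul, d2]; simp) ((X4 K).U_le_B (CU _ a1)) a2.1 a2.2 BT_dec (fun _ hy => (X4 K).U_le_B hy) hs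
      (fun g hg => L.comm_mem hs hc hD (fun β P a => blkD h (hβ β P a)) _ _ hg (CO_le (Nat.lt_succ_self j) a1)) fun g hg => ?_
    have := (dH (m⁻¹ * g * m⁻¹⁻¹) (by
      rw [map_mul, map_mul, map_inv, map_inv, map_inv]; exact (X4 K).conj_mem_H (inv_mem hm) hg)).conj m
    simpa [mul_assoc] using this
  obtain ⟨D1, S1, -, m1'⟩ := ext (j := 0) (m := 1) (D := ⊥) ⟨by simp [AL, LS], by simp, by simp⟩ (by simp)
    (by simpa using Cj.one _) t0 fun β P _ i hi => by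
      interval_cases i
      exacts [s5 P _ cl0, s5 P _ cl10, s2 P (by simp) _ (by simp), s2 P (by simp) _ (by simp), s5 P _ cl40,
        s2 P (by simp) _ (by simp)]
  rw [one_mul, inv_one, mul_one] at m1'
  have key : ∀ p q, σ p ∈ CO S lD 3 → σ q ∈ CO S lD 2 → ⁅p, q⁆ ∈ D1 := by
    obtain ⟨β, P, hP⟩ := exists_pairing hs hc S1.map S1.inj S1.conj (U := AL S lD 5) (A' := AL S lD 5) (AL_mono (by decide)) le_rfl
      ((AL_le_U _ _).trans fun _ hy => (X4 K).U_le_B hy) (L.BT_A _) (L.BT_A _) QQ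
    have q4 := CO_le (j := 5) (by decide) c4
    have q1 := CO_le (j := 5) (by decide) c1
    have a1 : β y4 y1 = 1 := hb ▸ hc' ▸ S1.pair_eq P (hP b c' (hb ▸ q4) (hc' ▸ q1)) m1'
    have a2 : ∀ y ∈ AL S lD 2, β y4 y = 1 := fun y hy => ((dec2 c1 t1 z1).2 y).1 hy |>.elim (P.triv _ q4 _) fun e => by
      have := P.mul_right _ q4 _ (AL_mono (by decide) e) _ q1
      rwa [P.triv _ q4 _ e, a1, one_mul, inv_mul_cancel_right] at this
    have P3 := pairing_mono P le_rfl le_rfl (AL_mono (by decide : 3 ≤ 5))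
    have a3 : y4 ∈ lk P3 := ⟨q4, fun y hy => by
      obtain ⟨y', a, e⟩ := L.surj (t := t0') H0 (fp 2 (by simp)) y hy
      have a' := L.BT_A _ t0' ((X4 K).H_le_B H0) _ a
      have := P3.mul_right _ q4 _ (AL_mono (by decide) e) _ (mul_mem a' (inv_mem a))
      rw [a2 _ e, one_mul, ← commutatorElement_def, inv_mul_cancel_right] at this
      rw [this]
      exact P3.right_of_fix ((X4 K).H_le_B H0) q4 a a' (cen t4 _ (HC _ H0 _) _ c4)⟩
    have a4 : u * v * y1 ∈ lk P3 := e3 ▸ mul_mem (conj_mem_lk P3 (L.BT_A _) (L.BT_A _) ((X4 K).U_le_B (CU _ c5)) a3) (inv_mem a3)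
    have P2 := pairing_mono P (N₁ := HT S) (fun _ hy => (X4 K).H_le_B hy) bot_le (CO_le (by decide : 2 < 5))
    have a5 : y1 ∈ lk P2 := ⟨q1, fun y hy => by
      obtain ⟨y', a, rfl⟩ := (fp 2 (by simp)).surj (t := t0') H0 (fun r hr => hr.1) (hO 2) y hy
      exact P2.right_of_fix H0 q1 a ((HC _ H0 _).mem a) (cen t1 _ (HC _ H0 _) _ c1)⟩
    have a6 : v ∈ lk P2 := ⟨CO_le (by decide) c2, cl2.pairing hs P2 (CO_le (by decide)) le_rfl v c2⟩
    have a7 : u ∈ lk P2 := (mul_mem_cancel_right a6).1 ((mul_mem_cancel_right a5).1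
      ⟨a4.1, fun y hy => a4.2 y (CO_le (by decide) hy)⟩)
    intro p q hp hq
    have a8 : σ p ∈ lk P2 := by
      by_cases e : σ p = 1
      · exact e ▸ one_mem _
      obtain ⟨t, ht, e'⟩ := trans_cj N0 j53 tr5 u c3 _ hp z3 e
      exact e' ▸ conj_mem_lk P2 (fun n hn => L.BT_A _ n ((X4 K).H_le_B hn)) (fun n hn _ => (HC n hn _).mem) ht a7
    simpa [a8.2 _ hq] using hP p q (CO_le (by decide) hp) (CO_le (by decide) hq)
  obtain ⟨D2, S2, le2, m2⟩ := ext (j := 1) (m := m0) S1 N0 j01 t1 fun β P hP i hi => by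
    interval_cases i
    exacts [s3 P _ (by simp), s5 P _ cl1, s2 P (by simp) _ (by simp), s2 P (by simp) _ (by simp), s4 P _ fun g hg y hy => by
      by_cases e : g = 1
      · exact e ▸ P.one_left (CO_le (by simp) hy)
      by_cases e' : y = 1
      · exact e' ▸ P.one_right (CU _ hg)
      rw [t4 g hg _ c4 e z4, t1 y hy _ c1 e' z1, ← hb, ← hc']
      exact hP b c' (hb ▸ CU _ c4) (hc' ▸ CO_le (by simp) c1) m1', s2 P (by simp) _ (by simp)]
  have S3 : Splt σ (BT S) (AL S lD 3) := S2.step hs hc (AL_mono (by decide)) (AL_le_U _ _) (fun _ hy => (X4 K).U_le_B hy)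
    BT_dec (L.BT_A _) (L.comm_mem hs hc S2 fun β P hP => blkD h fun i hi => by
      have a1 : ∀ i, (∀ p q, σ p ∈ CO S lD i → σ q ∈ CO S lD 2 → ⁅p, q⁆ ∈ D2) → CO S lD i ≤ lk P := fun i a =>
        s4 P i fun g hg y hy => by
          obtain ⟨p, rfl⟩ := hs g
          obtain ⟨q, rfl⟩ := hs y
          exact hP p q (CU _ hg) (CO_le (by simp) hy) (a p q hg hy)
      interval_cases i
      exacts [s3 P _ (by simp), s3 P _ (by simp), s5 P _ cl2, a1 _ fun p q a b => le2 (key p q a b), s1 P (by simp),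
        a1 _ fun p q a b' => by
          have a2 := key (m0⁻¹ * p * m0) (m0⁻¹ * q * m0) (by rw [map_mul, map_mul, map_inv]; exact j35.mem' a)
            (by rw [map_mul, map_mul, map_inv]; exact j22.mem' b')
          rw [show ⁅p, q⁆ = m0 * ⁅m0⁻¹ * p * m0, m0⁻¹ * q * m0⁆ * m0⁻¹ by group]
          rcases ((dec2 c0 t0 z0).2 _).1 (S1.map.le ⟨_, a2, rfl⟩) with e | e
          · rw [S1.inj _ a2 (by simpa [AL, LS] using e)]; simp
          · rw [mul_inv_eq_one.1 (S1.inj _ (mul_mem a2 (inv_mem m1')) (by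
              rw [map_mul, map_inv, d0]; simpa [AL, LS] using e))]; exact m2])
    (t := t0') ((X4 K).H_le_B H0) (fun k hk => Subtype.ext (H_commute H0 hk).eq) (L.surj H0 (fp 2 (by simp)))
    fun y hy hc => L.inj H0 (fp 2 (by simp)) hy hc
  refine spl_of_steps (fun r => (posD r).1) fun j hj hS => ?_
  interval_cases j
  · exact S1.splt
  · exact S2.splt
  · exact S3
  · refine L.step hs hc hS ⟨_, H0, T0, fp 3 (by simp)⟩ fun β P => blkD h fun i hi => ?_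
    suffices CO S lD 5 ≤ lk P by
      interval_cases i
      exacts [s3 P _ (by simp), s3 P _ (by simp), s3 P _ (by simp), s5 P _ cl3, s1 P (by simp), this]
    refine s4 P _ fun g hg y hy => ?_
    have m : ∀ s, D.x s ∈ CO S lD 5 := fun s => (hx _).2 ⟨s, rfl⟩
    have m' : ∀ s, σ m0 * D.x s * (σ m0)⁻¹ ∈ AL S lD 4 := fun s => CO_le (by decide) (j53.mem (m s))
    letI := kerCommGroup hc
    obtain ⟨b, hb⟩ := P.exists_biadd hc D.x (fun s => σ m0 * D.x s * (σ m0)⁻¹)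
      (fun s s' t => by rw [D.x_add, P.mul_left _ (CU _ (m _)) _ (CU _ (m _)) _ (m' _)])
      (fun s t t' => by rw [D.x_add, ← conj_mul, P.mul_right _ (CU _ (m _)) _ (m' _) _ (m' _)])
    obtain ⟨s, rfl⟩ := (hx g).1 hg
    obtain ⟨t, e⟩ := (hx _).1 (j53.mem' hy)
    rw [show y = σ m0 * D.x t * (σ m0)⁻¹ by rw [e]; group, ← hb, tensor_lemma_all b {s | ∃ a, a ≠ 0 ∧ s = (a ^ 2, a ^ 2)}]
    · rfl
    · rintro _ ⟨a, ha, rfl⟩ s t
      refine Additive.toMul.injective (Subtype.ext ?_)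
      have e1 : (bs S 0).sg ⊔ (bs S 0).neg.sg ≤ centralizer {D.h a} := sup_le (fun g hg => mem_centralizer_singleton_iff.2
        (mul_inv_eq_iff_eq_mul.1 (cen t4 _ (HC _ (hD a ha) _) g (b4 ▸ hg))).symm) fun g hg => by
          obtain ⟨n, -, -, c⟩ := exists_cj (bs S 0).neg
          exact mem_centralizer_singleton_iff.2 (mul_inv_eq_iff_eq_mul.1 (cen (two c (long2 h)) _
            (by simpa [Blk.sg] using cj_gen ((X4 K).rep_H (hD a ha)) (bs S 0).neg.set) g hg)).symm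
      have e2 : D.h a * σ m0 = σ m0 * D.h a := (mem_centralizer_singleton_iff.1 (e1 mn0)).symm
      rw [hb, hb, ← P.conj _ ((X4 K).H_le_B (hD a ha)) _ (CU _ (m s)) _ (m' t), ← st_hx D ha, ← st_hx D ha]
      congr 1
      rw [show D.h a * (σ m0 * D.x t * (σ m0)⁻¹) * (D.h a)⁻¹ = D.h a * σ m0 * D.x t * (D.h a * σ m0)⁻¹ by group, e2]; group
    · intro φ
      by_contra! e
      have := card_le_of_hom_inv φ {1} fun w w0 => by
        obtain ⟨a, rfl⟩ := (bijective_frobenius K 2).2 w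
        simpa [frobenius_def] using e _ ⟨a, fun c => w0 (by simp [c]), rfl⟩
      rw [h.hK] at this; simp at this
  · obtain ⟨D', a1, a2, a3⟩ := hS
    obtain ⟨_, a, -⟩ := ext (m := m1 * m0) ⟨a1, a2, a3⟩ (by simpa using mul_mem N1 N0) (by simpa using j14.mul j01) t4
      fun β P _ i hi => by
        interval_cases i
        exacts [s3 P _ (by simp), s3 P _ (by simp), s3 P _ (by simp), s3 P _ (by simp), s5 P _ cl4, s2 P (by simp) _ (by simp)]
    exact a.splt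
  · refine L.step hs hc hS ⟨_, H0, T0, fp 5 (by simp)⟩ fun β P => blkD h fun i hi => ?_
    interval_cases i
    exacts [s3 P _ (by simp), s3 P _ (by simp), s3 P _ (by simp), s3 P _ (by simp), s3 P _ (by simp), s5 P _ cl5]

omit [CharP K 2] h in
theorem schur_D4 {q : ℕ} (h : H15.IsD4 S q) : HasCyclicSchurMultiplier S.T 1 := by
  haveI := h.finite
  obtain ⟨p, hp⟩ := CharP.exists K
  haveI := Fact.mk (CharP.char_is_prime K p)
  refine hasSchur_one_of_closed fun r hr => ?_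
  by_cases e : r = p
  · subst e
    by_cases h2 : q = 2
    · subst h2
      obtain rfl : r = 2 := (Nat.prime_dvd_prime_iff_eq hr Nat.prime_two).1 (hr.dvd_of_dvd_pow (n := 3)
        (h.hK ▸ (prime_dvd_char_iff_dvd_card r).1 (by rw [ringChar.eq K r])))
      exact closedAt_D42 h
    · exact closedAt_D4 h h2 r
  · exact closedAt_D4' h p hr e

end Cfsg.Agent.H14.Mu
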