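import Cfsg.Agent.H14.Dg1
import Cfsg.Agent.H14.Mu8
import Cfsg.Agent.H15.Sf10
import Cfsg.Agent.H4.Integral

/-! The minimal degree of the triality groups. -/

set_option autoImplicit false
set_option linter.style.haveILetI false

namespace Cfsg.Agent.H14.Dg

open Cfsg.Agent.H15 Cfsg.Agent.H27 Subgroup Cfsg.Lie Cfsg.Lie.ChevalleyDatum Mu
open scoped commutatorElement Classical

theorem card_of_dec {G : Type*} [Group G] {A B C : Subgroup G} (hA : A ≤ B) (hC : C ≤ B)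
    (h : ∀ y ∈ B, ∃ a ∈ A, ∃ x ∈ C, y = a * x) (h' : ∀ y ∈ A, y ∈ C → y = 1) : Nat.card B = Nat.card A * Nat.card C := by
  rw [← Nat.card_prod]
  refine (Nat.card_congr (Equiv.ofBijective (fun p : A × C => (⟨p.1 * p.2, mul_mem (hA p.1.2) (hC p.2.2)⟩ : B))
    ⟨fun p p' e => ?_, fun y => ?_⟩)).symm
  · have e1 : (p.1 : G) * p.2 = p'.1 * p'.2 := congrArg Subtype.val e
    have e2 := h' ((p'.1 : G)⁻¹ * p.1) (mul_mem (inv_mem p'.1.2) p.1.2) (by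
      rw [show (p'.1 : G)⁻¹ * p.1 = p'.2 * (p.2 : G)⁻¹ by rw [inv_mul_eq_iff_eq_mul, ← mul_assoc, ← e1]; simp]
      exact mul_mem p'.2.2 (inv_mem p.2.2))
    rw [inv_mul_eq_one] at e2
    exact Prod.ext (Subtype.ext e2.symm) (Subtype.ext (mul_left_cancel (e1.trans (by rw [e2]))))
  · obtain ⟨a, ha, x, hx, e⟩ := h y y.2
    exact ⟨(⟨a, ha⟩, ⟨x, hx⟩), Subtype.ext e.symm⟩

theorem card_cj {G : Type*} [Group G] {A B : Subgroup G} {n : G} (h : Cj n A B) : Nat.card A = Nat.card B :=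
  Nat.card_congr ((MulAut.conj n).toEquiv.subtypeEquiv h)

theorem arith_D4 {q b m k : ℕ} (hq : 2 ≤ q) (hm : 1 ≤ m) (h : k = b + (q * q - 1) * q ^ 3 * m) (hb : m = 1 → q - 1 ≤ b)
    (hd : k ∣ q ^ 12 * (q ^ 2 - 1) * (q ^ 6 - 1) * (q ^ 8 + q ^ 4 + 1)) : q * (q ^ 4 - q ^ 2 + 1) ≤ k := by
  have a1 : 1 ≤ q * q := by nlinarith
  have a2 : q ^ 2 ≤ q ^ 4 := Nat.pow_le_pow_right (by omega) (by omega)
  have a3 : 1 ≤ q ^ 2 := Nat.one_le_pow _ _ (by omega)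
  have a4 : 1 ≤ q ^ 6 := Nat.one_le_pow _ _ (by omega)
  zify [a1, a2, a3, a4, show 1 ≤ q by omega] at *
  have b1 : (2 : ℤ) * q ≤ q ^ 2 := by nlinarith
  have b2 : (2 : ℤ) * q ^ 2 ≤ q ^ 3 := by nlinarith
  have b3 : (2 : ℤ) * q ^ 3 ≤ q ^ 4 := by nlinarith
  have b4 : (2 : ℤ) * q ^ 4 ≤ q ^ 5 := by nlinarith
  by_contra! c
  obtain e : (m : ℤ) = 1 := by
    by_contra e
    have : (2 : ℤ) ≤ m := by omega
    nlinarith [mul_le_mul_of_nonneg_left this (show (0 : ℤ) ≤ (q * q - 1) * q ^ 3 by nlinarith), Int.natCast_nonneg b]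
  have e1 : (b : ℤ) = q - 1 := le_antisymm (by rw [e] at h; nlinarith) (hb e)
  have e2 : (q ^ 4 + q ^ 3 + 1 : ℤ) ∣ q ^ 12 * ((q ^ 4 + q ^ 3 + 1) * (q ^ 11 + q ^ 6 - 2 * q ^ 5 + q ^ 4 + q - 3) +
      (3 * q ^ 3 - 2 * q + 2)) := by
    refine (mul_dvd_mul_iff_left (show (q : ℤ) - 1 ≠ 0 by omega)).1 ?_
    exact (dvd_of_eq (by rw [h, e, e1]; ring)).trans (hd.trans (dvd_of_eq (by ring)))
  have e3 := (IsCoprime.pow_right (⟨1, -(q ^ 3 + q ^ 2), by ring⟩ : IsCoprime (q ^ 4 + q ^ 3 + 1 : ℤ) q)).dvd_of_dvd_mul_left e2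
  have := Int.le_of_dvd (by nlinarith) ((dvd_add_right (dvd_mul_right _ _)).1 e3)
  nlinarith

variable {K : Type*} [Field K] [Fintype K] {q : ℕ}

theorem exists_ne_frob (hq : 2 ≤ q) (hK : Fintype.card K = q ^ 3) {a b c : K} (h : ∀ t : K, a * t + b * t ^ q + c * (t ^ q) ^ q = 0) :
    a = 0 ∧ b = 0 ∧ c = 0 := by
  have a1 : q < q * q := by nlinarith
  have := Polynomial.eq_zero_of_natDegree_lt_card_of_eval_eq_zero (Polynomial.monomial 1 a + Polynomial.monomial q b +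
    Polynomial.monomial (q * q) c) Function.injective_id (fun t => by simpa [pow_mul] using h t) (by
      refine lt_of_le_of_lt (b := q * q) ?_ (by rw [hK]; nlinarith)
      refine Polynomial.natDegree_add_le_of_degree_le (Polynomial.natDegree_add_le_of_degree_le ?_ ?_) ?_ <;>
        refine (Polynomial.natDegree_monomial_le _).trans (by omega))
  refine ⟨?_, ?_, ?_⟩
  · simpa [Polynomial.coeff_monomial, show q ≠ 1 by omega, show q * q ≠ 1 by omega] using congrArg (·.coeff 1) this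
  · simpa [Polynomial.coeff_monomial, show 1 ≠ q by omega, a1.ne'] using congrArg (·.coeff q) this
  · simpa [Polynomial.coeff_monomial, show 1 ≠ q * q by omega, a1.ne] using congrArg (·.coeff (q * q)) this

omit [Fintype K] in
theorem le_lev4 : (X4 K).gen (LS R4 lD 5) ≤ lev (X4 K) f4 1 := gen_le_lev fun r hr =>
  (by decide +kernel : ∀ r : Fin 24, lvD r < 5 → 1 ≤ (chevD4.coroot.getD r #[]).getD 1 0) r hr.2 |>.trans_eq (f4_val r).symm

theorem f4_one {r : Fin 24} (h : 0 < lvD r ∧ lvD r < 5) : f4 (R4.vec r) = 1 := (f4_val r).trans (by revert r; decide +kernel)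

omit [Fintype K] in
theorem cf_LS {r : Fin 24} {j : ℕ} (h : 0 < lvD r ∧ lvD r < 5) (hj : j ≤ lvD r) {g} (hg : g ∈ (X4 K).gen (LS R4 lD j)) :
    cf (X4 K) f4 r g = 0 := cf_zero (f4_one h ▸ one_pos) (fun k hk => f4_one h ▸ ((by decide +kernel : ∀ r : Fin 24,
      lvD r < 5 → 1 ≤ (chevD4.coroot.getD r #[]).getD 1 0) k (hk.2.trans_le (hj.trans h.2.le))).trans_eq (f4_val k).symm)
    (fun c => c.2.not_ge hj) hg

omit [Fintype K] in
theorem cf_U {r : Fin 24} (h : 0 < lvD r ∧ lvD r < 5) {x g} (hx : x ∈ (X4 K).U) (hg : g ∈ (X4 K).gen (LS R4 lD (lvD r + 1))) :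
    cf (X4 K) f4 r (x * g * x⁻¹) = cf (X4 K) f4 r g := by
  have := lv_D4.comm _ hx hg
  rw [show x * g * x⁻¹ = ⁅x, g⁆ * g by group, cf_mul (f4_one h ▸ one_pos) (f4_one h ▸ le_lev4 ((X4 K).gen_mono (LS_mono _ h.2.le) this))
    (f4_one h ▸ le_lev4 ((X4 K).gen_mono (LS_mono _ h.2) hg)), cf_LS h le_rfl this, zero_add]

omit [Fintype K] in
theorem cf22 (t u v : K) {g} (hg : g ∈ (X4 K).gen (LS R4 lD 3)) : ∀ x, x = (X4 K).x 18 t * ((X4 K).x 13 u * (X4 K).x 12 v) →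
    cf (X4 K) f4 22 (x * g * x⁻¹) = cf (X4 K) f4 22 g + ((X4 K).η 18 17 * cf (X4 K) f4 17 g * t +
      (X4 K).η 13 20 * cf (X4 K) f4 20 g * u + (X4 K).η 12 21 * cf (X4 K) f4 21 g * v) := by
  rintro _ rfl
  have a : ∀ r : Fin 24, lvD r = 5 → ∀ t, (X4 K).x r t ∈ (X4 K).U := fun r hr => (X4 K).x_mem_U ((posD r).2 (by omega))
  have b1 := lv_D4.conj 3 ((X4 K).U_le_B (a 12 (by decide +kernel) v)) hg
  have b2 := lv_D4.conj 3 ((X4 K).U_le_B (a 13 (by decide +kernel) u)) b1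
  have c : ∀ {g}, g ∈ (X4 K).gen (LS R4 lD 3) → g ∈ lev (X4 K) f4 1 := fun h => le_lev4 ((X4 K).gen_mono (LS_mono _ (by decide)) h)
  rw [mul_inv_rev, mul_inv_rev, show ∀ a b c : GL chevD4.Idx K, a * (b * c) * g * (c⁻¹ * b⁻¹ * a⁻¹) = a * (b * (c * g * c⁻¹) * b⁻¹) * a⁻¹
    from fun _ _ _ => by group, conj4' 17 (by decide +kernel) _ (c b2), conj4' 20 (by decide +kernel) _ (c b1),
    conj4' 21 (by decide +kernel) _ (c hg), cf_U (r := 17) (by decide +kernel) (a 13 (by decide +kernel) u) b1,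
    cf_U (r := 17) (by decide +kernel) (a 12 (by decide +kernel) v) hg, cf_U (r := 20) (by decide +kernel) (a 12 (by decide +kernel) v) hg]
  ring

variable {S : TwO (X4 K) (Fin 2)} (h : H15.IsD4 S q)
include h

theorem cjD' {n : S.T} {k : Fin 2} (hn : (X4 K).Rep n (S.wJ k)) {i j : ℕ} (hi : i < 6) (hj : j < 6)
    (e : ∀ r : Fin 24, lvD r = i ↔ lvD (wrefl chevD4 (![[1], [0, 2, 3]] k) r) = j) : Cj n (CO S lD i) (CO S lD j) := by
  have e1 : ∀ r : Fin 24, lvD r = i ↔ lvD (S.wJ k r) = j := fun r => by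
    rw [h.wJ_eq', wp4, e]; fin_cases k <;> rfl
  have : S.wJ k '' LO R4 lD i = LO R4 lD j := by
    ext s
    obtain ⟨r, rfl⟩ := (S.wJ k).surjective s
    rw [(S.wJ k).injective.mem_set_image]
    exact ⟨fun a => ⟨(posD _).2 (((e1 r).1 a.2).trans_lt hj), (e1 r).1 a.2⟩,
      fun a => ⟨(posD _).2 (((e1 r).2 a.2).trans_lt hi), (e1 r).2 a.2⟩⟩
  rw [CO, CO, ← this]; exact cj_gen hn _

theorem bsD' (k : Fin 2) : (bs S k).sg = CO S lD (![4, 5] k) := by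
  rw [Blk.sg, bs_set]
  congr 2
  ext r
  exact ⟨fun a => ⟨a.1, (PJD h k r).1 a⟩, fun a => (PJD h k r).2 a.2⟩

omit h [Fintype K] in
theorem mem_CO {j : ℕ} {r : Fin 24} (e : ∀ s : Fin 24, lvD s = j ↔ s = r) (hj : j < 6) {g : S.T} :
    g ∈ CO S lD j ↔ ∃ t, (g : GL chevD4.Idx K) = (X4 K).x r t := by
  rw [← (X4 K).mem_gen_singleton, show {r} = LO R4 lD j from Set.ext fun s =>
    ⟨fun a => ⟨(posD s).2 (((e s).2 a).trans_lt hj), (e s).2 a⟩, fun a => (e s).1 a.2⟩]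
  rfl

omit h [Fintype K] in
theorem closed_LO (j : ℕ) : ∀ r ∈ LO R4 lD j, ∀ s ∈ LO R4 lD j, R4.comb r s ⊆ LO R4 lD j := fun r hr s hs k hk => by
  have a1 : 0 ≤ R4.pair r s := by
    rw [pair4]
    exact (by decide +kernel : ∀ r s : Fin 24, lvD r = lvD s → 0 ≤ tabD4.pr 4 r s) r s (hr.2.trans hs.2.symm)
  have := (RS.comb_sl (R := R4) (slD4 _) (RS.ne_neg_of_f RS.htv (add_pos hr.1.ht_pos hs.1.ht_pos)) hk).1
  omega

theorem decD (j : ℕ) : ∀ y ∈ AL S lD (j + 1), ∃ a ∈ AL S lD j, ∃ x ∈ CO S lD j, y = a * x :=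
  lv_D4.dec h.Fix_le (fun r => by rw [h.ρ_val]; revert r; decide +kernel) (closed_LO j)

theorem card_AL (j : ℕ) : Nat.card (AL S lD (j + 1)) = Nat.card (AL S lD j) * Nat.card (CO S lD j) :=
  card_of_dec (AL_mono (Nat.le_succ j)) (CO_le (Nat.lt_succ_self j)) (decD h j) fun y c hy => Subtype.ext (by
    have := (X4 K).mem_gen_inter RS.htv RS.htv (fun r hr => hr.1.ht_pos) ((lv_D4 (K := K)).closed j) (fun r hr => hr.1.ht_pos)
      (closed_LO j) c hy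
    rwa [show LS R4 lD j ∩ LO R4 lD j = ∅ from Set.eq_empty_of_forall_notMem fun r hr => hr.1.2.ne hr.2.2,
      RG0.gen_empty] at this)

theorem card_bs (k : Fin 2) : Nat.card (CO S lD (![4, 5] k)) = ![q, q ^ 3] k := by
  rw [← bsD' h, ← h.card_XP k, ← Nat.card_congr (subgroupOfEquivOfLe (S.XP_le k)).toEquiv]
  congr 3; ext g; exact mem_bs

theorem trans4 : ∀ g ∈ CO S lD 4, ∀ g' ∈ CO S lD 4, g ≠ 1 → g' ≠ 1 → ∃ t ∈ HT S, g' = t * g * t⁻¹ := fun g hg g' hg' a a' => by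
  obtain ⟨s, hs, e⟩ := (h.P0 _).1 (mem_bs.1 ((bsD' h 0).ge hg))
  obtain ⟨s', hs', e'⟩ := (h.P0 _).1 (mem_bs.1 ((bsD' h 0).ge hg'))
  have s0 : s ≠ 0 := fun c => a (Subtype.ext (by simpa [c] using e))
  have s1 : s' ≠ 0 := fun c => a' (Subtype.ext (by simpa [c] using e'))
  obtain ⟨p, rfl⟩ := Nat.exists_eq_add_of_le' (one_le_two.trans h.hq)
  obtain ⟨t, ht⟩ := exists_pow_eq (a := p) (b := 1 + (p + 1) * (1 + (p + 1))) (s := Units.mk0 _ (div_ne_zero s0 s1))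
    (by rw [h.hK]; exact Nat.sub_eq_of_eq_add (by ring)) (Units.ext (by
      rw [pow_succ, mul_left_eq_self₀] at hs hs'
      simp [div_pow, hs.resolve_right s0, hs'.resolve_right s1]))
  obtain ⟨c, ⟨H0, T0⟩, ec⟩ := torD h t ![1, 0, 0, 0]
  refine ⟨⟨_, T0⟩, H0, Subtype.ext ?_⟩
  rw [coe_mul, coe_mul, coe_inv, e, e', simple4]
  refine ((H15.tor_conj goodD4 c (14 : Fin 24) s).trans (congrArg _ ?_)).symm
  erw [ec 14]
  rw [show exD ![1, 0, 0, 0] (14 : Fin 24) = -1 by decide +kernel, show exD (![1, 0, 0, 0] ∘ τ4 ∘ τ4) (14 : Fin 24) = -1 by decide +kernel,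
    show exD (![1, 0, 0, 0] ∘ τ4) (14 : Fin 24) = -1 by decide +kernel, show (-1 + ((p + 1 : ℕ) : ℤ) * (-1 + (p + 1 : ℕ) * -1)) =
    -((1 + (p + 1) * (1 + (p + 1)) : ℕ) : ℤ) by push_cast; ring, zpow_neg, zpow_natCast, ht]
  simp [s0]

theorem long1 : ∃ c : K, c ≠ 0 ∧ (∀ t, (X4 K).x 22 t ∈ S.T ↔ (t / c) ^ q = t / c) ∧
    ∀ t, (X4 K).x 23 t ∈ S.T → (t / c) ^ q = t / c := by
  have key : ∀ (k : Fin 2) (r s : Fin 24) (c : K), c ≠ 0 → S.wJ k r = s → (∀ t, (X4 K).x r t ∈ S.T ↔ (t / c) ^ q = t / c) →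
      ∃ c' : K, c' ≠ 0 ∧ ∀ t, (X4 K).x s t ∈ S.T ↔ (t / c') ^ q = t / c' := fun k r s c c0 e a => by
    obtain ⟨d, hd⟩ := (S.rep_nJ k).conj_x r
    refine ⟨d * c, by simp [c0], fun t => ?_⟩
    rw [← div_div, ← a, ← e, show t = d * (t / d) by field_simp, ← hd, mul_mem_cancel_right (inv_mem (S.nJ_mem_T k)),
      mul_mem_cancel_left (S.nJ_mem_T k), mul_div_cancel_left₀ _ d.ne_zero]
  have a0 : ∀ t, (X4 K).x (R4.simple 1) t ∈ S.T ↔ (t / 1) ^ q = t / 1 := fun t => by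
    rw [x_mem_iff h.J0 (h.τ_eq 1), div_one, ← h.g 1]; rfl
  obtain ⟨c, c0, a1⟩ := key 1 _ 22 1 one_ne_zero (by
    rw [h.wJ_eq', simple4]; exact Fin.ext ((wp4 _ _).trans (by decide +kernel))) a0
  obtain ⟨d, d0, a2⟩ := key 0 _ 23 c c0 (by rw [h.wJ_eq']; exact Fin.ext ((wp4 _ _).trans (by decide +kernel))) a1
  have a3 := mul_mem ((a1 c).2 (by simp [c0])) ((a0 1).2 (by simp))
  rw [comm4, mul_mem_cancel_left (mul_mem ((a0 1).2 (by simp)) ((a1 c).2 (by simp [c0]))), a2, ← h.g 0] at a3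
  refine ⟨c, c0, a1, fun t ht => ?_⟩
  rw [a2, ← h.g 0] at ht
  rw [← h.g 0, show t / c = -(t / d / (-1 * 1 * c / d)) by field_simp, map_neg, map_div₀, ht, a3]

theorem mem_N {g : S.T} (hg : g ∈ AL S lD 2) : ∃ a b, (X4 K).x 23 a ∈ S.T ∧ (X4 K).x 22 b ∈ S.T ∧
    (g : GL chevD4.Idx K) = (X4 K).x 22 b * (X4 K).x 23 a ∧ cf (X4 K) f4 22 g = b := by
  obtain ⟨z, hz, y, hy, rfl⟩ := decD h 1 g hg
  obtain ⟨o, h1, z', hz', rfl⟩ := decD h 0 z hz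
  obtain rfl : o = 1 := Subtype.ext (by simpa [AL, LS, mem_subgroupOf] using h1)
  obtain ⟨a, ha⟩ := (mem_CO (r := 23) (by decide +kernel) (by decide)).1 hz'
  obtain ⟨b, hb⟩ := (mem_CO (r := 22) (by decide +kernel) (by decide)).1 hy
  have e := f4_one (r := 22) (by decide +kernel)
  refine ⟨a, b, ha ▸ z'.2, hb ▸ y.2, ?_, ?_⟩
  · rw [one_mul, coe_mul, ha, hb]; exact ((X4 K).commute_sl (slD4 _) (by rw [pair4]; decide +kernel) _ _).eq
  · rw [coe_mul, cf_mul (e ▸ one_pos) (e ▸ le_lev4 (AL_mono (by decide) hz)) (e ▸ le_lev4 (CO_le (by decide) hy)),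
      cf_LS (r := 22) (j := 1) (by decide +kernel) (by decide +kernel) (mem_subgroupOf.1 hz), hb, cf_x (e ▸ one_pos), zero_add]

theorem conj_N : ∀ g ∈ AL S lD 2, ∀ g' ∈ AL S lD 2, g ≠ 1 → g' ≠ 1 → IsConj g g' := by
  obtain ⟨n0, -, -, r0⟩ := exists_nk (S := S) 0
  obtain ⟨n1, -, -, r1⟩ := exists_nk (S := S) 1
  have j14 : Cj n1 (CO S lD 1) (CO S lD 4) := cjD' h r1 (by decide) (by decide) (by decide +kernel)
  have j01 : Cj n0 (CO S lD 0) (CO S lD 1) := cjD' h r0 (by decide) (by decide) (by decide +kernel)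
  obtain ⟨c, c0, a1, a2⟩ := long1 h
  suffices H : ∀ g ∈ AL S lD 2, g ≠ 1 → ∃ y ∈ CO S lD 4, y ≠ 1 ∧ IsConj g y from fun g hg g' hg' e e' => by
    obtain ⟨y, b1, b2, b3⟩ := H g hg e
    obtain ⟨y', c1, c2, c3⟩ := H g' hg' e'
    obtain ⟨t, -, rfl⟩ := trans4 h y b1 y' c1 b2 c2
    exact b3.trans ((isConj_iff.2 ⟨t, rfl⟩).trans c3.symm)
  intro g hg e
  obtain ⟨a, b, b1, b2, b3, -⟩ := mem_N h hg
  by_cases b0 : b = 0
  · exact ⟨_, (j14.mul j01).mem ((mem_CO (r := 23) (by decide +kernel) (by decide)).2 ⟨a, by simpa [b0] using b3⟩),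
      mt conj_eq_one_iff.1 e, isConj_iff.2 ⟨_, rfl⟩⟩
  have b4 : (X4 K).x (R4.simple 1) (-a / b) ∈ S.T := (x_mem_iff h.J0 (h.τ_eq 1) _).2 (show S.g 1 _ = _ by
    rw [show -a / b = -(a / c / (b / c)) by field_simp, map_neg, map_div₀, h.g, h.g, a2 a b1, (a1 b).1 b2]; rfl)
  have b5 : (⟨_, b4⟩ : S.T) * g * (⟨_, b4⟩ : S.T)⁻¹ = ⟨_, b2⟩ := Subtype.ext (by
    rw [coe_mul, coe_mul, coe_inv, mul_inv_eq_iff_eq_mul, comm4, b3, mul_assoc]
    congr 3; field_simp)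
  refine ⟨_, j14.mem ((mem_CO (r := 22) (by decide +kernel) (by decide)).2 ⟨b, rfl⟩ : (⟨_, b2⟩ : S.T) ∈ _),
    mt conj_eq_one_iff.1 fun e => b0 ((X4 K).x_eq_one_iff.1 (congrArg Subtype.val e)), ?_⟩
  exact (isConj_iff.2 ⟨_, b5⟩).trans (isConj_iff.2 ⟨_, rfl⟩)

theorem nondeg {c : K} (a1 : ∀ t, (X4 K).x 22 t ∈ S.T ↔ (t / c) ^ q = t / c) (c0 : c ≠ 0) {ψ : AddChar K ℂ} (hψ : ψ c ≠ 1)
    {a : S.T} (ha : a ∈ AL S lD 3) (hn : a ∉ AL S lD 2) : ∃ x ∈ UT S, ψ (cf (X4 K) f4 22 ↑(a⁻¹ * (x * a * x⁻¹))) ≠ 1 := by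
  have e := f4_one (r := 22) (by decide +kernel)
  replace ha : (a : GL chevD4.Idx K) ∈ (X4 K).gen (LS R4 lD 3) := ha
  have hx := fun t => (h.mem_XP t).1
  have hA : ∀ {g}, g ∈ (X4 K).gen (LS R4 lD 3) → g ∈ lev (X4 K) f4 (f4 (R4.vec 22)) := fun h =>
    e ▸ le_lev4 ((X4 K).gen_mono (LS_mono _ (by decide)) h)
  have key : ∀ t, cf (X4 K) f4 22 ↑(a⁻¹ * ((⟨_, S.XP_le _ (hx t)⟩ : S.T) * a * (⟨_, S.XP_le _ (hx t)⟩ : S.T)⁻¹)) =
      (X4 K).η 18 17 * cf (X4 K) f4 17 a * t + (X4 K).η 13 20 * cf (X4 K) f4 20 a * S.g 0 t +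
        (X4 K).η 12 21 * cf (X4 K) f4 21 a * S.g 0 (S.g 0 t) := fun t => by
    rw [coe_mul, coe_mul, coe_mul, coe_inv, coe_inv, cf_mul (e ▸ one_pos) (inv_mem (hA ha))
      (hA (lv_D4.conj 3 ((X4 K).U_le_B (S.XP_le_U _ (hx t))) ha)), cf22 _ _ _ ha _ rfl, cf_inv (e ▸ one_pos) (hA ha)]
    ring
  obtain ⟨t, ht⟩ : ∃ t, (X4 K).η 18 17 * cf (X4 K) f4 17 a * t + (X4 K).η 13 20 * cf (X4 K) f4 20 a * S.g 0 t +
      (X4 K).η 12 21 * cf (X4 K) f4 21 a * S.g 0 (S.g 0 t) ≠ 0 := by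
    by_contra! c
    simp only [h.g] at c
    obtain ⟨b1, b2, b3⟩ := exists_ne_frob h.hq h.hK c
    simp only [mul_eq_zero, (X4 K).η_cast_ne, false_or] at b1 b2 b3
    refine hn (mem_gen_of_cf (f := f4) one_pos (fun r hr => ((by decide +kernel : ∀ r : Fin 24, lvD r < 3 →
      1 ≤ (chevD4.coroot.getD r #[]).getD 1 0) r hr.2).trans_eq (f4_val r).symm) ((lv_D4 (K := K)).closed 3) ha fun r hr hr' => ?_)
    rcases (by decide +kernel : ∀ r : Fin 24, lvD r < 3 → ¬ lvD r < 2 → r = 17 ∨ r = 20 ∨ r = 21) r hr.2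
      (fun c => hr' ⟨hr.1, c⟩) with rfl | rfl | rfl
    exacts [⟨f4_one (by decide +kernel), b1⟩, ⟨f4_one (by decide +kernel), b2⟩, ⟨f4_one (by decide +kernel), b3⟩]
  obtain ⟨_, b, -, b2, -, b4⟩ := mem_N h (g := a⁻¹ * ((⟨_, S.XP_le _ (hx t)⟩ : S.T) * a * (⟨_, S.XP_le _ (hx t)⟩ : S.T)⁻¹)) (by
    have := inv_mem (lv_D4.comm 2 (S.XP_le_U _ (hx t)) (inv_mem ha))
    simpa [AL, mem_subgroupOf, commutatorElement_def, mul_assoc] using this)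
  rw [key] at b4
  rw [a1, ← h.g 0] at b2
  rw [b4] at ht
  refine ⟨⟨_, S.XP_le _ (hx ((b / c)⁻¹ * t))⟩, S.XP_le_U _ (hx _), ?_⟩
  rw [key]
  simp only [map_mul, map_inv₀, b2]
  convert hψ using 2
  rw [inv_div]
  linear_combination c / b * b4 + div_mul_cancel₀ c ht

theorem vec_D4 [Fintype S.T] {V : Type*} [AddCommGroup V] [Module ℂ V] [FiniteDimensional ℂ V] {ρ : Representation ℂ S.T V}
    {v : V} (hv : v ≠ 0) {c : K} (a1 : (X4 K).x 22 c ∈ S.T) {ψ : AddChar K ℂ} (hψ : ψ c ≠ 1)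
    (h1 : ∀ a ∈ AL S lD 3, ρ a v = ψ (cf (X4 K) f4 22 a) • v)
    (h2 : ∀ g : S.T, (∀ a ∈ AL S lD 3, g * a * g⁻¹ ∈ AL S lD 3 ∧ cf (X4 K) f4 22 ↑(g * a * g⁻¹) = cf (X4 K) f4 22 a) → g ∈ Ln ρ v) :
    ∃ w, w ≠ 0 ∧ CO S lD 0 ≤ Fv ρ w ∧ CO S lD 4 ≤ Fv ρ w ∧ CO S lD 1 ≤ Ln ρ w ∧ ¬ CO S lD 1 ≤ Fv ρ w := by
  have L : Lv (X4 K) lD := lv_D4
  have e := f4_one (r := 22) (by decide +kernel)
  have hA : ∀ {g}, g ∈ (X4 K).gen (LS R4 lD 3) → g ∈ lev (X4 K) f4 (f4 (R4.vec 22)) := fun h =>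
    e ▸ le_lev4 ((X4 K).gen_mono (LS_mono _ (by decide)) h)
  have CU : ∀ i, CO S lD i ≤ UT S := fun i => (CO_le (Nat.lt_succ_self i)).trans (AL_le_U _ _)
  have hQ : AL S lD 5 ≤ Ln ρ v := fun g hg => h2 g fun a ha =>
    ⟨L.BT_A _ g ((X4 K).U_le_B (AL_le_U _ _ hg)) a ha, cf_conj (e ▸ one_pos) (le_lev4 hg) (hA ha)⟩
  have hH : ∀ t ∈ HT S, Fx (X4 K) t (LO R4 lD 1) → ∀ j < 5, Fp (X4 K) t (LO R4 lD j) → CO S lD j ≤ Fv ρ v :=
    fun t ht a j hj b g hg => by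
      obtain ⟨g0, a', rfl⟩ := b.surj ht (fun r hr => hr.1) (closed_LO j) g hg
      exact comm_mem_Fv (h2 t fun y hy => ⟨L.BT_A _ t ((X4 K).H_le_B ht) y hy, (cf_H (e ▸ one_pos) ht
        (a 22 ⟨(posD _).2 (by decide +kernel), by decide +kernel⟩) (hA hy)).trans (one_mul _)⟩) (hQ (CO_le hj a'))
  have c1 : (⟨_, a1⟩ : S.T) ∈ CO S lD 1 := (mem_CO (r := 22) (by decide +kernel) (by decide)).2 ⟨c, rfl⟩
  have z0 : ∀ g ∈ AL S lD 3, cf (X4 K) f4 22 g = 0 → g ∈ Fv ρ v := fun g hg a => (h1 g hg).trans (by simp [a])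
  have z1 : ∀ x ∈ UT S, x * ⟨_, a1⟩ * x⁻¹ ∉ Fv ρ v := fun x hx a => hψ (smul_left_injective ℂ hv (by
    have := (h1 _ (L.BT_A _ x ((X4 K).U_le_B hx) _ (CO_le (by decide) c1))).symm.trans a
    rw [coe_mul, coe_mul, coe_inv, cf_U (r := 22) (by decide +kernel) (mem_subgroupOf.1 hx)
      (mem_subgroupOf.1 (CO_le (j := 2) (by decide) c1)), cf_x (e ▸ one_pos)] at this
    simpa using this))
  suffices H : ∃ x ∈ UT S, ∀ y ∈ CO S lD 4, x * y * x⁻¹ ∈ Fv ρ v by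
    obtain ⟨x, hx, H⟩ := H
    have b1 : ∀ g, g ∈ Fv ρ (ρ x⁻¹ v) ↔ x * g * x⁻¹ ∈ Fv ρ v := fun g => by
      rw [← mem_Fv_conj (n := x⁻¹) (v := v)]; simp [mul_assoc]
    refine ⟨ρ x⁻¹ v, apply_ne hv _, fun g hg => (b1 g).2 ?_, fun g hg => (b1 g).2 (H g hg), fun g hg => ?_,
      fun a => z1 x hx ((b1 _).1 (a c1))⟩
    · have := L.BT_A 1 x ((X4 K).U_le_B hx) _ (CO_le (by decide) hg)
      exact z0 _ (AL_mono (by decide) this) (cf_LS (by decide +kernel) (by decide +kernel) this)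
    · simpa [mul_assoc] using (mem_Ln_conj (n := x⁻¹)).2 (hQ (L.BT_A 5 x ((X4 K).U_le_B hx) _ (CO_le (by decide) hg)))
  by_cases q2 : q ≠ 2
  · obtain ⟨t, a, b, fx, fp⟩ := sepD h q2 (ctD 1 4)
    have := (certD 1 (by decide) 4 (by decide) (by decide)).resolve_right (by simp)
    exact ⟨1, one_mem _, fun y hy => by
      simpa using hH ⟨t, b⟩ a (fx _ fun r hr => this.1 r hr.2) 4 (by decide) (fp _ fun r hr => this.2 r hr.2) hy⟩
  obtain rfl := not_not.1 q2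
  haveI : CharP K 2 := by
    obtain ⟨p, hp⟩ := CharP.exists K
    haveI := Fact.mk (CharP.char_is_prime K p)
    rwa [(Nat.prime_dvd_prime_iff_eq Fact.out Nat.prime_two).1 ((Fact.out : p.Prime).dvd_of_dvd_pow (n := 3)
      (h.hK ▸ (prime_dvd_char_iff_dvd_card p).1 (by rw [ringChar.eq K p])))] at hp
  let y1 : S.T := ⟨_, h.gl_mem (w := [22]) (by decide +kernel)⟩
  let y4 : S.T := ⟨_, h.gl_mem (w := [14]) (by decide +kernel)⟩
  let u : S.T := ⟨_, h.gl_mem (w := [19, 16, 15]) (by decide +kernel)⟩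
  let u' : S.T := ⟨_, h.gl_mem (w := [17, 20, 21]) (by decide +kernel)⟩
  let x : S.T := ⟨_, h.gl_mem (w := [18, 13, 12]) (by decide +kernel)⟩
  have d1 : y1 ∈ CO S lD 1 := glD_mem [22] (by decide +kernel) (by decide)
  have c4 : y4 ∈ CO S lD 4 := glD_mem [14] (by decide +kernel) (by decide)
  have c3 : u ∈ CO S lD 3 := glD_mem [19, 16, 15] (by decide +kernel) (by decide)
  have c2 : u' ∈ CO S lD 2 := glD_mem [17, 20, 21] (by decide +kernel) (by decide)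
  have c5 : x ∈ CO S lD 5 := glD_mem [18, 13, 12] (by decide +kernel) (by decide)
  have z4 : y4 ≠ 1 := fun e => glD_ne 14 (congrArg Subtype.val e)
  have z5 : y1 ≠ 1 := fun e => glD_ne 22 (congrArg Subtype.val e)
  have e3 : x * y4 = u * (u' * (y1 * y4)) * x := Subtype.ext (by
    simp only [coe_mul, y1, y4, u, u', x, ← gl_append]; exact glD_eq (by decide +kernel))
  have e4 : y4 * y4 = 1 := Subtype.ext (by simp only [coe_mul, y4, ← gl_append]; exact (glD_eq (w := []) (by decide +kernel)))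
  have e5 : y1 * y1 = 1 := Subtype.ext (by simp only [coe_mul, y1, ← gl_append]; exact (glD_eq (w := []) (by decide +kernel)))
  have t4 := bsD h 0 ▸ long2 h
  suffices ∃ x ∈ UT S, x * y4 * x⁻¹ ∈ Fv ρ v from this.imp fun x a => ⟨a.1, fun y hy => by
    by_cases c : y = 1
    · simp [c]
    · exact t4 y4 c4 y hy z4 c ▸ a.2⟩
  by_cases c : y4 ∈ Fv ρ v
  · exact ⟨1, one_mem _, by simpa using c⟩
  have sg : ∀ y ∈ AL S lD 5, y * y = 1 → y ∉ Fv ρ v → ρ y v = -v := fun y hy a b => by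
    have := (isCh_ev hv).mul _ (hQ hy) _ (hQ hy)
    rw [a, (isCh_ev hv).one, eq_comm, mul_self_eq_one_iff] at this
    rw [ev_spec (hQ hy), this.resolve_left fun c => b (show ρ y v = v by rw [ev_spec (hQ hy), c, one_smul]), neg_one_smul]
  obtain ⟨n1, -, -, r1⟩ := exists_nk (S := S) 1
  have j14 : Cj n1 (CO S lD 1) (CO S lD 4) := cjD h r1 (by decide) (by decide) (by decide +kernel)
  have z6 : y1 = ⟨_, a1⟩ := by
    simpa using t4 _ (j14.mem d1) _ (j14.mem c1) (mt conj_eq_one_iff.1 z5) (mt conj_eq_one_iff.1 fun e => z1 1 (one_mem _) (by simp [e]))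
  obtain ⟨t, ht⟩ := IsCyclic.exists_generator (α := Kˣ)
  obtain ⟨d, ⟨H0, T0⟩, ec⟩ := torD h t ![1, 0, 0, 0]
  refine ⟨x, CU _ c5, ?_⟩
  rw [e3, mul_inv_cancel_right]
  refine mul_mem (hH ⟨_, T0⟩ H0 (fun r hr => tor_fx goodD4 ((ec r).trans ?_)) 3 (by decide)
    (fun r hr => tor_conj_ne goodD4 ((ec r).trans_ne ?_)) c3) (mul_mem (z0 _ (CO_le (by decide) c2) (cf_zero (e ▸ one_pos)
      (fun k hk => e ▸ (f4_one (by rw [show lvD k = 2 from hk.2]; decide)).ge) (fun a => absurd a.2 (by decide +kernel)) c2)) ?_)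
  · rw [← orderOf_dvd_iff_zpow_eq_one, orderOf_eq_card_of_forall_mem_zpowers ht, Nat.card_units, Nat.card_eq_fintype_card, h.hK]
    exact (by decide +kernel : ∀ r : Fin 24, lvD r = 1 → ((2 ^ 3 - 1 : ℕ) : ℤ) ∣ exD ![1, 0, 0, 0] r +
      (2 : ℕ) * (exD (![1, 0, 0, 0] ∘ τ4 ∘ τ4) r + (2 : ℕ) * exD (![1, 0, 0, 0] ∘ τ4) r)) r hr.2
  · rw [Ne, ← orderOf_dvd_iff_zpow_eq_one, orderOf_eq_card_of_forall_mem_zpowers ht, Nat.card_units, Nat.card_eq_fintype_card, h.hK]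
    exact (by decide +kernel : ∀ r : Fin 24, lvD r = 3 → ¬ ((2 ^ 3 - 1 : ℕ) : ℤ) ∣ exD ![1, 0, 0, 0] r +
      (2 : ℕ) * (exD (![1, 0, 0, 0] ∘ τ4 ∘ τ4) r + (2 : ℕ) * exD (![1, 0, 0, 0] ∘ τ4) r)) r hr.2
  · show ρ _ v = v
    rw [map_mul, Module.End.mul_apply, sg _ (CO_le (by decide) c4) e4 c, map_neg,
      sg _ (CO_le (by decide) d1) e5 (by simpa [z6] using z1 1 (one_mem _)), neg_neg]

theorem degree_D4 {k : ℕ} {ρ : Representation ℂ S.T (Fin k → ℂ)} (hρ : ρ.IsIrreducible) (hk : 2 ≤ k) :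
    q * (q ^ 4 - q ^ 2 + 1) ≤ k := by
  haveI := h.finite
  haveI := Fintype.ofFinite S.T
  haveI := (S.simple h.irreducible h.perfect h.core 0).1
  have L : Lv (X4 K) lD := lv_D4
  obtain ⟨n0, -, -, r0⟩ := exists_nk (S := S) 0
  obtain ⟨n1, -, -, r1⟩ := exists_nk (S := S) 1
  have j41 : Cj n1 (CO S lD 4) (CO S lD 1) := cjD' h r1 (by decide) (by decide) (by decide +kernel)
  have j14 : Cj n1 (CO S lD 1) (CO S lD 4) := cjD' h r1 (by decide) (by decide) (by decide +kernel)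
  have j00 : Cj n1 (CO S lD 0) (CO S lD 0) := cjD' h r1 (by decide) (by decide) (by decide +kernel)
  have j10 : Cj n0 (CO S lD 1) (CO S lD 0) := cjD' h r0 (by decide) (by decide) (by decide +kernel)
  have j53 : Cj n0 (CO S lD 5) (CO S lD 3) := cjD' h r0 (by decide) (by decide) (by decide +kernel)
  have j32 : Cj n1 (CO S lD 3) (CO S lD 2) := cjD' h r1 (by decide) (by decide) (by decide +kernel)
  have k4 : Nat.card (CO S lD 4) = q := card_bs h 0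
  have k2 : Nat.card (AL S lD 2) = q * q := by
    rw [card_AL h, card_AL h, ← card_cj j10, ← card_cj j41, k4]; simp [AL, LS]
  obtain ⟨c, c0, a1, -⟩ := long1 h
  obtain ⟨ψ, hψ⟩ := AddChar.exists_apply_ne_zero.2 c0
  have e := f4_one (r := 22) (by decide +kernel)
  have a2 := (a1 c).2 (by simp [c0])
  have hl : IsCh (AL S lD 3) fun g => ψ (cf (X4 K) f4 22 g) := ⟨by simp [cf_one (e ▸ one_pos)], fun a ha b hb => by
    rw [coe_mul, cf_mul (e ▸ one_pos) (e ▸ le_lev4 (AL_mono (by decide) ha)) (e ▸ le_lev4 (AL_mono (by decide) hb)),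
      AddChar.map_add_eq_mul]⟩
  obtain ⟨b, m, hm, hb, h1, h2⟩ := deg_split hρ hk hl (AL_mono (by decide)) (conj_N h) (y := ⟨_, a2⟩)
    (CO_le (by decide) ((mem_CO (r := 22) (j := 1) (by decide +kernel) (by decide)).2 ⟨c, rfl⟩))
    (by simpa [cf_x (e ▸ one_pos)] using hψ) (fun a ha hn => by
      obtain ⟨x, hx, e'⟩ := nondeg h a1 c0 hψ ha hn
      refine ⟨x, fun y hy => ⟨L.BT_A _ x ((X4 K).U_le_B hx) y hy, congrArg ψ (cf_U (r := 22) (by decide +kernel) hx hy)⟩, ?_, e'⟩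
      have := inv_mem (L.comm 2 hx (inv_mem ha))
      simpa [AL, mem_subgroupOf, commutatorElement_def, mul_assoc] using this)
    (s := q ^ 3) (by rw [card_AL h, ← card_cj j32, ← card_cj j53]; exact congrArg _ (card_bs h 1))
  refine arith_D4 h.hq hm (k2 ▸ h2) (fun m1 => ?_) (h.card ▸ H4.Cfsg.IsIrrCharacter.degree_dvd_card ⟨k, ρ, hρ, rfl⟩ (by simp))
  obtain ⟨v, hv, b1, b2⟩ := exists_line (pj_idem hl) (h1.trans (by simp [m1]))
  obtain ⟨w, hw, d0, d4, d1, d2⟩ := vec_D4 h hv a2 hψ (fun a ha => by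
    rw [← b1, ← Module.End.mul_apply, mul_pj hl ha]; rfl) fun g hg => ⟨_, b2 _ (pj_conj fun a ha => ⟨(hg a ha).1, congrArg ψ (hg a ha).2⟩)⟩
  obtain ⟨r, n, hn, -, -, b3⟩ := fix_split (ρ := ρ) (N := AL S lD 2) (C := CO S lD 4)
    (fun g hg => L.BT_A _ g ((X4 K).U_le_B (AL_le_U _ _ (CO_le (Nat.lt_succ_self _) hg))))
    (fun g hg g' hg' a a' => (trans4 h g hg g' hg' a a').imp fun t b => ⟨L.BT_A _ t ((X4 K).H_le_B b.1), b.2⟩)
    (apply_ne hw n1) (fun g hg => by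
      obtain ⟨z, hz, y, hy, rfl⟩ := decD h 1 g hg
      obtain ⟨o, h1, z', hz', rfl⟩ := decD h 0 z hz
      obtain rfl : o = 1 := Subtype.ext (by simpa [AL, LS, mem_subgroupOf] using h1)
      refine mul_mem ?_ ?_
      · simpa [mul_assoc] using (mem_Fv_conj (n := n1)).2 (d0 (j00.mem' hz'))
      · simpa [mul_assoc] using (mem_Fv_conj (n := n1)).2 (d4 (j41.mem' hy)))
    (fun g hg => by simpa [mul_assoc] using (mem_Ln_conj (n := n1)).2 (d1 (j14.mem' hg)))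
    fun a => d2 fun g hg => mem_Fv_conj.1 (a (j14.mem hg))
  rw [hb, k4, ← Nat.cast_one, ← Nat.cast_sub (one_le_two.trans h.hq)] at b3
  norm_cast at b3
  exact b3 ▸ le_add_left (Nat.le_mul_of_pos_right _ hn)

end Cfsg.Agent.H14.Dg
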