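import Cfsg.Agent.H14.Dg1

/-! Eigenprojections of one-parameter subgroups. -/

set_option autoImplicit false
set_option linter.unusedSectionVars false

namespace Cfsg.Agent.H14.Dg

open Module Finset H26.RD
open scoped Classical

variable {G : Type*} [Group G] {V : Type*} [AddCommGroup V] [Module ℂ V] [FiniteDimensional ℂ V]
variable {F : Type*} [Field F] [Fintype F]

local notation "tr" => LinearMap.trace ℂ V
local notation "q" => Fintype.card F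

theorem idem_mul {P Q : End ℂ V} (hP : P * P = P) (hQ : Q * Q = Q) (h : Commute P Q) : P * Q * (P * Q) = P * Q := by
  rw [mul_assoc, ← mul_assoc Q, ← h.eq, mul_assoc, hQ, ← mul_assoc, hP]

theorem idem_sub {P : End ℂ V} (hP : P * P = P) : (1 - P) * (1 - P) = 1 - P := by simp [mul_sub, sub_mul, hP]

theorem exists_tr' {P T : End ℂ V} (hP : P * P = P) (hT : T * T = T) (h : Commute P T) :
    ∃ n n' : ℕ, tr (P * T) = n ∧ tr T = n + n' := by
  obtain ⟨n, hn, -⟩ := exists_tr (idem_mul hP hT h)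
  obtain ⟨n', hn', -⟩ := exists_tr (idem_mul (idem_sub hP) hT ((Commute.one_left T).sub_left h))
  exact ⟨n, n', hn, by rw [← hn, ← hn', ← map_add, ← add_mul]; simp⟩

theorem tr_three {A T : End ℂ V} (hT : T * T = T) (hA : Commute A T) (h3 : A * (A * (A * T)) = T) :
    ∃ n : ℕ, tr T + tr (A * T) + tr (A * (A * T)) = 3 * n := by
  have e1 : T * (A * T) = A * T := by rw [← mul_assoc, ← hA.eq, mul_assoc, hT]
  have e2 : T * (A * (A * T)) = A * (A * T) := by rw [← mul_assoc, ← hA.eq, mul_assoc, e1]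
  obtain ⟨n, hn, -⟩ := exists_tr (P := (3 : ℂ)⁻¹ • (T + A * T + A * (A * T))) (by
    simp only [smul_mul_assoc, mul_smul_comm, add_mul, mul_add, mul_assoc, e1, e2, hT, h3]
    module)
  exact ⟨n, by rw [← hn]; simp; ring⟩

variable {ρ : Representation ℂ G V}

theorem tr_semi {g : G} {A B : End ℂ V} (h : SemiconjBy (ρ g) A B) : tr A = tr B := by
  have : A = ρ g⁻¹ * (B * ρ g) := by rw [← h.eq, ← mul_assoc, ← map_mul]; simp
  rw [this, LinearMap.trace_mul_comm, mul_assoc, ← map_mul]; simp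

theorem semi_rho (g a : G) : SemiconjBy (ρ g) (ρ a) (ρ (g * a * g⁻¹)) := by simp [SemiconjBy, ← map_mul]

theorem tr_hom {C : Type*} [Group C] [Fintype C] (φ : C →* G) {T : End ℂ V} (hT : T * T = T) (h : ∀ c, Commute (ρ (φ c)) T) :
    ∃ n n' : ℕ, ∑ c, tr (ρ (φ c) * T) = Fintype.card C * n ∧ tr T = n + n' := by
  obtain ⟨n, n', a, b⟩ := exists_tr' (pj_idem (ρ := ρ.comp φ) (isCh_one ⊤)) hT (pj_comm fun c _ => (h c).symm).symm
  refine ⟨n, n', ?_, b⟩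
  rw [← a, ← Nat.card_eq_fintype_card, ← Subgroup.card_top, tr_pj, ← Subgroup.topEquiv.toEquiv.sum_comp]
  simp

variable (ρ) (ψ : AddChar F ℂ)

/-- the projection onto an eigenspace of a one-parameter subgroup -/
noncomputable def Ex (x : F → G) (a : F) : End ℂ V := (q : ℂ)⁻¹ • ∑ t, ψ (-(a * t)) • ρ (x t)

/-- a one-parameter subgroup -/
def OP (x : F → G) : Prop := ∀ s t, x (s + t) = x s * x t

variable {ρ ψ} {x y : F → G}

theorem qne : (q : ℂ) ≠ 0 := Nat.cast_ne_zero.2 Fintype.card_ne_zero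

theorem OP.zero (h : OP x) : x 0 = 1 := by simpa using h 0 0

theorem OP.neg (h : OP x) (t : F) : x (-t) = (x t)⁻¹ := eq_inv_of_mul_eq_one_left (by rw [← h, neg_add_cancel, h.zero])

theorem Ex_mul_of {a : F} {T : End ℂ V} (h : ∀ t, ρ (x t) * T = ψ (a * t) • T) : Ex ρ ψ x a * T = T := by
  simp [Ex, sum_mul, h, smul_smul, ← AddChar.map_add_eq_mul, ← Nat.cast_smul_eq_nsmul ℂ, qne]

theorem Ex_apply {a : F} {v : V} (h : ∀ t, ρ (x t) v = ψ (a * t) • v) : Ex ρ ψ x a v = v := by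
  simp [Ex, h, smul_smul, ← AddChar.map_add_eq_mul, ← Nat.cast_smul_eq_nsmul ℂ, qne]

theorem mul_Ex (h : OP x) (a s : F) : ρ (x s) * Ex ρ ψ x a = ψ (a * s) • Ex ρ ψ x a := by
  rw [Ex, mul_smul_comm, smul_comm (ψ _)]
  congr 1
  rw [mul_sum, smul_sum, ← Equiv.sum_comp (Equiv.addLeft s) fun t => ψ (a * s) • ψ (-(a * t)) • ρ (x t)]
  exact sum_congr rfl fun t _ => by simp [h s t, smul_smul, ← AddChar.map_add_eq_mul, mul_add]

theorem mul_Ex' (h : OP x) (a s : F) (T : End ℂ V) : ρ (x s) * (Ex ρ ψ x a * T) = ψ (a * s) • (Ex ρ ψ x a * T) := by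
  rw [← mul_assoc, mul_Ex h, smul_mul_assoc]

theorem Ex_idem (h : OP x) (a : F) : Ex ρ ψ x a * Ex ρ ψ x a = Ex ρ ψ x a := Ex_mul_of (mul_Ex h a)

theorem sum_Ex (hψ : ψ ≠ 1) (h : OP x) : ∑ a, Ex ρ ψ x a = 1 := by
  simp only [Ex, ← smul_sum]
  rw [sum_comm]
  simp only [← sum_smul, ← mul_neg, AddChar.sum_mulShift _ (AddChar.IsPrimitive.of_ne_one hψ)]
  simp [h.zero, smul_smul, qne]

theorem comm_Ex {T : End ℂ V} (h : ∀ t, Commute T (ρ (x t))) (a : F) : Commute T (Ex ρ ψ x a) :=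
  (Commute.sum_right _ _ _ fun t _ => (h t).smul_right _).smul_right _

theorem comm_Ex' {g : G} (h : ∀ t, Commute g (x t)) (a : F) : Commute (ρ g) (Ex ρ ψ x a) :=
  comm_Ex (fun t => (h t).map ρ) a

theorem comm_ExEx (h : ∀ s t, Commute (x s) (y t)) (a b : F) : Commute (Ex ρ ψ x a) (Ex ρ ψ y b) :=
  (comm_Ex (fun s => (comm_Ex' (h s) b).symm) a).symm

theorem shear {g : G} {T T' : End ℂ V} {c d : F} (hc : c ≠ 0) (hg : SemiconjBy (ρ g) T T')
    (h : ∀ t, ρ (g * x t * g⁻¹) * T' = ψ (d * t) • (ρ (y (c * t)) * T')) (a : F) :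
    SemiconjBy (ρ g) (Ex ρ ψ x (a * c + d) * T) (Ex ρ ψ y a * T') := by
  have : ∀ t, ρ g * (ρ (x t) * T) = ψ (d * t) • (ρ (y (c * t)) * T' * ρ g) := fun t => by
    rw [← smul_mul_assoc, ← h, mul_assoc, ← hg.eq, ← mul_assoc, ← mul_assoc, ← map_mul, ← map_mul]; simp
  simp only [SemiconjBy, Ex, smul_mul_assoc, mul_smul_comm, sum_mul, mul_sum, this, smul_smul, ← AddChar.map_add_eq_mul]
  rw [← Equiv.sum_comp (Equiv.mulLeft₀ c hc) fun t => ψ (-(a * t)) • (ρ (y t) * T' * ρ g)]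
  congr 1
  exact sum_congr rfl fun t _ => by rw [Equiv.mulLeft₀_apply]; ring_nf

theorem semi_Ex {g : G} {c : F} (hc : c ≠ 0) (h : ∀ t, g * x t * g⁻¹ = y (c * t)) (a : F) :
    SemiconjBy (ρ g) (Ex ρ ψ x (a * c)) (Ex ρ ψ y a) := by
  simpa using shear (ψ := ψ) (x := x) (y := y) (d := 0) hc (SemiconjBy.one_right (ρ g)) (by simp [h]) a

theorem semi_Ex0 {g : G} {c : F} (hc : c ≠ 0) (h : ∀ t, g * x t * g⁻¹ = y (c * t)) :
    SemiconjBy (ρ g) (Ex ρ ψ x 0) (Ex ρ ψ y 0) := by simpa using semi_Ex (ρ := ρ) (ψ := ψ) hc h 0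

theorem comm_shear {g : G} {T : End ℂ V} (hg : Commute (ρ g) T) (h : ∀ t, ρ (g * x t * g⁻¹) * T = ρ (x t) * T) (a : F) :
    Commute (ρ g) (Ex ρ ψ x a * T) := by
  simpa [Commute] using shear (ψ := ψ) (x := x) (y := x) (d := 0) one_ne_zero hg (by simp [h, -map_mul]) a

theorem tr_sum (hψ : ψ ≠ 1) (h : OP x) (T : End ℂ V) : tr T = ∑ a, tr (Ex ρ ψ x a * T) := by
  rw [← map_sum, ← sum_mul, sum_Ex hψ h, one_mul]

theorem heis (hψ : ψ ≠ 1) (h : OP x) {T : End ℂ V} (hT : ∀ d, ∃ g, Commute (ρ g) T ∧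
    ∀ t, ρ (g * x t * g⁻¹) * T = ψ (d * t) • (ρ (x t) * T)) (a : F) : tr T = q * tr (Ex ρ ψ x a * T) := by
  have : ∀ b, tr (Ex ρ ψ x b * T) = tr (Ex ρ ψ x a * T) := fun b => by
    obtain ⟨g, h1, h2⟩ := hT (b - a)
    have := tr_semi (shear (ψ := ψ) (x := x) (y := x) (T := T) (T' := T) (d := b - a) one_ne_zero h1
      (fun t => by rw [one_mul]; exact h2 t) a)
    rwa [mul_one, add_sub_cancel] at this
  rw [tr_sum (ρ := ρ) hψ h T]
  simp [this]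

theorem tr_scale {T : End ℂ V} (hT : ∀ c : F, c ≠ 0 → ∃ g, Commute (ρ g) T ∧ ∀ t, g * x t * g⁻¹ = x (c * t)) {a b : F}
    (ha : a ≠ 0) (hb : b ≠ 0) : tr (Ex ρ ψ x a * T) = tr (Ex ρ ψ x b * T) := by
  obtain ⟨g, h1, h2⟩ := hT _ (div_ne_zero ha hb)
  simpa [mul_div_cancel₀ _ hb] using tr_semi ((semi_Ex (ψ := ψ) (div_ne_zero ha hb) h2 b).mul_right h1)

theorem scale (hψ : ψ ≠ 1) (h : OP x) {T : End ℂ V}
    (hT : ∀ c : F, c ≠ 0 → ∃ g, Commute (ρ g) T ∧ ∀ t, g * x t * g⁻¹ = x (c * t)) {a : F} (ha : a ≠ 0) :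
    tr T = tr (Ex ρ ψ x 0 * T) + (q - 1) * tr (Ex ρ ψ x a * T) := by
  rw [tr_sum (ρ := ρ) hψ h T, ← add_sum_erase _ _ (mem_univ 0), sum_congr rfl fun b hb => tr_scale hT (ne_of_mem_erase hb) ha]
  simp [Nat.cast_sub Fintype.card_pos]

theorem tr_fpf (h : OP x) {T : End ℂ V} (hT : ∀ t, Commute (ρ (x t)) T) {g : G} {c : F} (hc : c ≠ 1)
    (hg : ∀ t, g⁻¹ * x t * g = x (c * t)) : tr (Ex ρ ψ x 0 * T * ρ g) = tr (T * ρ g) := by
  have : ∀ t, tr (ρ (x t) * (T * ρ g)) = tr (T * ρ g) := fun t => by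
    have e := tr_semi (SemiconjBy.mul_right (hT (t / (c - 1))) (semi_rho (x (t / (c - 1))) g))
    rw [show x (t / (c - 1)) * g * (x (t / (c - 1)))⁻¹ = g * (g⁻¹ * x (t / (c - 1)) * g * (x (t / (c - 1)))⁻¹) by group, hg,
      ← h.neg, ← h, show c * (t / (c - 1)) + -(t / (c - 1)) = t by field_simp [sub_ne_zero.2 hc]; ring] at e
    rw [LinearMap.trace_mul_comm, mul_assoc, ← map_mul, e]
  simp [Ex, sum_mul, mul_assoc, this, qne]

theorem eq_one_of_tr [Finite G] [IsSimpleGroup G] {k : ℕ} {ρ : Representation ℂ G (Fin k → ℂ)} (hρ : ρ.IsIrreducible) (hk : 2 ≤ k)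
    (h : OP x) (h1 : x 1 ≠ 1) : LinearMap.trace ℂ _ (1 - Ex ρ ψ x 0) ≠ 0 := fun e => by
  have := mul_Ex (ρ := ρ) (ψ := ψ) h 0 1
  rw [← sub_eq_zero.1 (eq_zero_of_tr (idem_sub (Ex_idem h 0)) e)] at this
  exact H15.ne_of_simple hρ hk h1 (by simp [Representation.character, show ρ (x 1) = 1 by simpa using this])

end Cfsg.Agent.H14.Dg
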