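import Cfsg.Agent.H14.Dg3
import Cfsg.Agent.H15.Sf7
import Cfsg.Agent.H15.TwG2

/-! Relations in the groups of type `G₂`. -/

set_option autoImplicit false
set_option linter.unusedSectionVars false

namespace Cfsg.Agent.H14.Dg

open Cfsg.Agent.H15 Cfsg.Lie Cfsg.Lie.ChevalleyDatum Subgroup

variable {F : Type*} [Field F]

variable (F) in
/-- the root group structure -/
noncomputable def YG : RG RG2 F (chevG2.group F) := goodG2.rgD F

local notation "x" => RG0.x (RG.toRG0 (YG F))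
local notation "n" => RG0.n (RG.toRG0 (YG F))

theorem opG (r : Fin 12) : OP (x r) := (YG F).x_add r

theorem cmP {a b : Fin 12} {p : ℕ} (hp : (p : F) = 0) (h : decide (CommP chevG2 p a b ∨ a = b) = true) (t u : F) :
    Commute (x a t) (x b u) := by
  rcases of_decide_eq_true h with h | rfl
  · have := h.commute goodG2.chev_rg hp t u
    rw [xG, xG] at this
    exact Subtype.ext this.eq
  · exact ((opG a t u).symm.trans (add_comm t u ▸ opG a u t) :)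

theorem cmG {a b : Fin 12} (h : decide (CommP chevG2 0 a b ∨ a = b) = true) (t u : F) : Commute (x a t) (x b u) :=
  cmP Nat.cast_zero h t u

theorem cj1 {a b k : Fin 12} {c : ℤ} {p : ℕ} (hp : (p : F) = 0) (h : decide ((b ≠ a ∧ (b : ℕ) ≠ chevG2.neg a ∧
    redL p (chevG2.commTerms a b) = [(k.val, c, 1, 1)]) ∧ (CommP chevG2 p a k ∨ a = k)) = true) (t u : F) :
    x a t * x b u * (x a t)⁻¹ = x b u * x k (c * t * u) := by
  obtain ⟨⟨h1, h2, h3⟩, h4⟩ := of_decide_eq_true h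
  have := commG ⟨h1, h2, rfl⟩ t u
  rw [← wordX_redL _ hp, h3] at this
  simp only [wordX, List.map, List.prod_cons, List.prod_nil, xG, mul_one, pow_one] at this
  rw [mul_inv_eq_iff_eq_mul, mul_assoc, ← (cmP hp (decide_eq_true h4) t _).eq, ← mul_assoc,
    show x b u * x a t = x a t * x b u * x k (c * -t * u) from Subtype.ext this, mul_assoc, ← opG]
  simp

theorem c76 (t u : F) : x 6 u * x 7 t * (x 6 u)⁻¹ = x 7 t * (x 6 u * (x 8 (t * u) *
    (x 9 (t ^ 2 * u) * (x 10 (-(t ^ 3 * u)) * x 11 (-(t ^ 3 * u ^ 2))))) * (x 6 u)⁻¹) := by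
  rw [show x 6 u * x 7 t = x 7 t * x 6 u * (x 8 (t * u) * (x 9 (t ^ 2 * u) * (x 10 (-(t ^ 3 * u)) * x 11 (-(t ^ 3 * u ^ 2))))) from
    Subtype.ext (commG_pos t u)]
  group

variable (F) in
/-- the torus -/
noncomputable def tG : Fˣ × Fˣ →* chevG2.group F :=
  ((torG F).comp (MonoidHom.mk' (fun p => ![p.2, p.1 * p.2]) fun a b => by
    ext i; fin_cases i <;> simp [mul_mul_mul_comm])).codRestrict _ fun _ =>
      goodG2.grp_eq F ▸ ((XG F).H_le_grp (torG_range.le ⟨_, rfl⟩) : _ ∈ (goodG2.rg F).grp)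

/-- the roots as characters of the torus -/
def lam (r : Fin 12) (p : Fˣ × Fˣ) : Fˣ := ![(p.1 * p.2)⁻¹, p.1 / p.2 ^ 2, p.2⁻¹, p.1⁻¹, p.1 / p.2, p.2 / p.1 ^ 2,
  p.1 ^ 2 / p.2, p.2 / p.1, p.1, p.2, p.2 ^ 2 / p.1, p.1 * p.2] r

theorem tG_conj (p : Fˣ × Fˣ) (r : Fin 12) (t : F) : tG F p * x r t * (tG F p)⁻¹ = x r (lam r p * t) := by
  refine Subtype.ext ((tor_conj goodG2 ![p.2, p.1 * p.2] r t).trans (congrArg (fun c : Fˣ => (XG F).x r (c * t)) ?_))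
  show ∏ i : Fin 2, ![p.2, p.1 * p.2] i ^ chevG2.cartan i r = _
  rw [Fin.prod_univ_two, (by decide +kernel : ∀ r : Fin 12, chevG2.cartan (0 : Fin 2) r = ![0, -3, -1, 1, -2, 3, -3, 2, -1, 1, 3, 0] r) r,
    (by decide +kernel : ∀ r : Fin 12, chevG2.cartan (1 : Fin 2) r = ![-1, 1, 0, -1, 1, -2, 2, -1, 1, 0, -1, 1] r) r]
  ext
  fin_cases r <;> simp [lam, zpow_ofNat] <;> field_simp

theorem tG_conj' (p : Fˣ × Fˣ) (r : Fin 12) (t : F) : (tG F p)⁻¹ * x r t * tG F p = x r ((lam r p)⁻¹ * t) := by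
  rw [mul_assoc, inv_mul_eq_iff_eq_mul, ← eq_mul_inv_iff_mul_eq, tG_conj]; simp

theorem mem_HG {g : chevG2.group F} : g ∈ (YG F).H ↔ ∃ p, tG F p = g := by
  rw [show (YG F).H = _ from goodG2.rgD_H F, mem_subgroupOf]
  refine ⟨fun h => ?_, by rintro ⟨p, rfl⟩; exact torG_range.le ⟨_, rfl⟩⟩
  obtain ⟨c, e⟩ := torG_range.ge h
  exact ⟨(c 1 / c 0, c 0), Subtype.ext ((congrArg (torG F) (by ext i; fin_cases i <;> simp)).trans e)⟩

theorem eq_tG {g : chevG2.group F} (hg : g ∈ (YG F).H) {a b : Fˣ} {s t : F} (hs : s ≠ 0) (ht : t ≠ 0)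
    (h1 : g * x 8 s * g⁻¹ = x 8 (a * s)) (h2 : g * x 9 t * g⁻¹ = x 9 (b * t)) : g = tG F (a, b) := by
  obtain ⟨p, rfl⟩ := mem_HG.1 hg
  rw [tG_conj] at h1 h2
  exact congrArg _ (Prod.ext (Units.ext (mul_right_cancel₀ hs ((YG F).x_injective _ h1)))
    (Units.ext (mul_right_cancel₀ ht ((YG F).x_injective _ h2))))

theorem tG_inj : Function.Injective (tG F) := fun p p' e => by
  have h := fun r => (YG F).x_injective r ((tG_conj p r 1).symm.trans (e ▸ tG_conj p' r 1))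
  exact Prod.ext (Units.ext (by simpa [lam] using h 8)) (Units.ext (by simpa [lam] using h 9))

/-- the check of a reflection -/
abbrev Rf (r s k : Fin 12) : Prop :=
  decide (∀ i < chevG2.rank, chevG2.cartan i k = chevG2.cartan i s - chevG2.pairing r s * chevG2.cartan i r) = true

theorem nxG {r s k : Fin 12} (h : Rf r s k) {t : F} (ht : t ≠ 0) : ∃ c : F, c ≠ 0 ∧ ∀ u, n r t * x s u * (n r t)⁻¹ = x k (c * u) :=
  ⟨_, mul_ne_zero ((YG F).η_cast_ne r s) (zpow_ne_zero _ ht), fun u =>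
    (refl_eq_of_chk goodG2 h : RG2.refl r s = k) ▸ (YG F).n_conj r s t ht u⟩

theorem n_tG {r a b : Fin 12} (h1 : Rf r a 8) (h2 : Rf r b 9) (p : Fˣ × Fˣ) :
    n r 1 * tG F p * (n r 1)⁻¹ = tG F (lam a p, lam b p) := by
  obtain ⟨c, c0, hc⟩ := nxG (F := F) h1 one_ne_zero
  obtain ⟨d, d0, hd⟩ := nxG (F := F) h2 one_ne_zero
  refine eq_tG ((YG F).conj_mem_H ((YG F).n_mem_N r one_ne_zero) (mem_HG.2 ⟨p, rfl⟩)) (mul_ne_zero c0 one_ne_zero)
    (mul_ne_zero d0 one_ne_zero) ?_ ?_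
  · rw [← hc, mul_left_comm, ← hc, ← tG_conj]; group
  · rw [← hd, mul_left_comm, ← hd, ← tG_conj]; group

theorem negG' (r : Fin 12) : RG2.neg r = r.rev := Fin.ext ((goodG2.neg_eq r).trans (by revert r; decide +kernel))

theorem h_tG {r : Fin 12} (t : Fˣ) : (YG F).h r t = tG F (t ^ chevG2.pairing r 8, t ^ chevG2.pairing r 9) := by
  refine eq_tG ((YG F).h_mem_H r t.ne_zero) one_ne_zero one_ne_zero ?_ ?_ <;>
    rw [(YG F).h_conj _ _ t.ne_zero, Units.val_zpow_eq_zpow_val]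
  exacts [congrArg (fun c => x 8 (_ ^ c * 1)) (goodG2.pairing_eq r (8 : Fin 12)).symm,
    congrArg (fun c => x 9 (_ ^ c * 1)) (goodG2.pairing_eq r (9 : Fin 12)).symm]

theorem kill {e : Fˣ × Fˣ} {r : Fin 12} (h : lam r e ≠ 1) (c : F) : ∃ u, x r u * tG F e * (x r u)⁻¹ = tG F e * x r c := by
  have : ((lam r e)⁻¹ - 1 : F) ≠ 0 := sub_ne_zero.2 (by simpa using h)
  refine ⟨c / ((lam r e)⁻¹ - 1), ?_⟩
  rw [mul_assoc, ← inv_mul_eq_iff_eq_mul, ← mul_assoc, ← mul_assoc, tG_conj', ← (YG F).x_neg, ← opG]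
  congr 1; field_simp; ring

theorem eq_zero_neg {a b c : F} (h : x 0 c * x 5 a * x 1 b ∈ (YG F).B) : a = 0 ∧ c = 0 := by
  have p : ∀ r ∈ ([4, 5, 3, 2, 1, 0] : List (Fin 12)), ∀ t, x r t ∈ (YG F).V := fun r hr => (YG F).x_mem_V ((nposG r).1 hr)
  have e := (YG F).disj (-RS.htv) _ ((YG F).V_eq.le (mul_mem (mul_mem (p 0 (by simp) c) (p 5 (by simp) a)) (p 1 (by simp) b)))
    (sup_le_sup_right ((YG F).gen_mono fun r (hr : RG2.pos r) => show -RG2.ht r ≤ 0 from neg_nonpos.2 hr.ht_pos.le) _ h)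
  have e1 : Commute (x 1 1) (x 5 a) := by
    rw [show x 5 a = (x 0 c)⁻¹ * (x 1 b)⁻¹ by rw [← mul_inv_rev, eq_inv_iff_mul_eq_one, ← mul_assoc, mul_eq_one_comm, ← mul_assoc, e]]
    exact (cmG (by decide +kernel) _ _).inv_right.mul_right (cmG (by simp) _ _).inv_right
  have e2 := cj1 (F := F) (a := 1) (b := 5) (k := 0) (c := 1) Nat.cast_zero (by decide +kernel) 1 a
  rw [e1.eq, mul_inv_cancel_right, left_eq_mul, (YG F).x_eq_one_iff] at e2
  obtain rfl : a = 0 := by simpa using e2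
  have e3 : Commute (x 5 1) (x 1 b) := by
    rw [show x 1 b = (x 0 c)⁻¹ from eq_inv_of_mul_eq_one_right (by simpa using e)]
    exact (cmG (by decide +kernel) _ _).inv_right
  have e4 := cj1 (F := F) (a := 5) (b := 1) (k := 0) (c := -1) Nat.cast_zero (by decide +kernel) 1 b
  rw [e3.eq, mul_inv_cancel_right, left_eq_mul, (YG F).x_eq_one_iff] at e4
  obtain rfl : b = 0 := by simpa using e4
  exact ⟨rfl, by simpa [(YG F).x_eq_one_iff] using e⟩

theorem fuse {e : Fˣ × Fˣ} (h5 : lam 5 e ≠ 1) (h1 : lam 1 e ≠ 1) (h0 : lam 0 e ≠ 1) (h3 : e ^ 3 = 1) {t t' : F} (ht : t ≠ 0)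
    (ht' : t' ≠ 0) : IsConj (tG F e) (tG F e * n 6 t * n 10 t') := by
  have A : IsConj (tG F e) (tG F e * x 5 (-t⁻¹) * x 1 (-t'⁻¹)) := by
    obtain ⟨u, a⟩ := kill h1 (-t'⁻¹)
    obtain ⟨v, b⟩ := kill h5 (-t⁻¹)
    obtain ⟨w, c⟩ := kill h0 (v * -t'⁻¹)
    refine isConj_iff.2 ⟨x 0 w * x 5 v * x 1 u, ?_⟩
    have d : Commute (x 0 w) (x 5 (-t⁻¹) * (x 1 (-t'⁻¹) * x 0 ((-1 : ℤ) * v * -t'⁻¹))) :=
      (cmG (by decide +kernel) _ _).mul_right ((cmG (by decide +kernel) _ _).mul_right (cmG (by simp) _ _))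
    calc _ = x 0 w * (x 5 v * (x 1 u * tG F e * (x 1 u)⁻¹) * (x 5 v)⁻¹) * (x 0 w)⁻¹ := by group
      _ = x 0 w * (x 5 v * tG F e * (x 5 v)⁻¹ * (x 5 v * x 1 (-t'⁻¹) * (x 5 v)⁻¹)) * (x 0 w)⁻¹ := by rw [a]; group
      _ = x 0 w * tG F e * (x 0 w)⁻¹ * (x 0 w * (x 5 (-t⁻¹) * (x 1 (-t'⁻¹) * x 0 ((-1 : ℤ) * v * -t'⁻¹))) * (x 0 w)⁻¹) := by
        rw [b, cj1 (a := 5) (b := 1) (k := 0) (c := -1) Nat.cast_zero (by decide +kernel)]; group
      _ = _ := by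
        rw [c, d.eq, mul_inv_cancel_right, mul_assoc, mul_assoc, (cmG (a := 0) (by decide +kernel) _ _).left_comm,
          (cmG (a := 0) (by decide +kernel) _ _).left_comm, ← opG]
        simp [mul_assoc]
  have mv : ∀ {r s k : Fin 12}, Rf r s k → ∀ {t : F}, t ≠ 0 → ∃ c : F, c ≠ 0 ∧ ∀ u, n r t * x s u = x k (c * u) * n r t :=
    fun h _ ht => (nxG h ht).imp fun c a => ⟨a.1, fun u => mul_inv_eq_iff_eq_mul.1 (a.2 u)⟩
  have me : ∀ r u, tG F e * x r u = x r (lam r e * u) * tG F e := fun r u => mul_inv_eq_iff_eq_mul.1 (tG_conj e r u)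
  obtain ⟨c1, z1, k1⟩ := mv (r := 6) (s := 10) (k := 11) (by decide +kernel) ht
  obtain ⟨c2, z2, k2⟩ := mv (r := 6) (s := 11) (k := 10) (by decide +kernel) ht
  obtain ⟨c3, z3, k3⟩ := mv (r := 10) (s := 11) (k := 6) (by decide +kernel) ht'
  obtain ⟨c4, z4, k4⟩ := mv (r := 10) (s := 6) (k := 11) (by decide +kernel) ht'
  obtain ⟨c5, z5, k5⟩ := mv (r := 10) (s := 10) (k := 1) (by decide +kernel) ht'
  obtain ⟨c6, z6, k6⟩ := mv (r := 6) (s := 1) (k := 0) (by decide +kernel) ht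
  obtain ⟨c7, z7, k7⟩ := mv (r := 6) (s := 6) (k := 5) (by decide +kernel) ht
  obtain ⟨c8, z8, k8⟩ := mv (r := 10) (s := 1) (k := 10) (by decide +kernel) ht'
  have hN : tG F e * n 6 t * n 10 t' ∈ (YG F).N :=
    mul_mem (mul_mem ((YG F).H_le_N (mem_HG.2 ⟨e, rfl⟩)) ((YG F).n_mem_N _ ht)) ((YG F).n_mem_N _ ht')
  have hR := (((YG F).rep_H (mem_HG.2 ⟨e, rfl⟩)).mul ((YG F).rep_n 6 ht)).mul ((YG F).rep_n 10 ht')
  have c : ∀ a b, x 11 a * x 10 b = x 10 b * x 11 a := fun a b => (cmG (by decide +kernel) a b).eq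
  have c' : ∀ a b g, x 11 a * (x 10 b * g) = x 10 b * (x 11 a * g) := fun a b => (cmG (by decide +kernel) a b).left_comm
  have d : ∀ a b, x 6 a * x 10 b = x 10 b * x 11 (a * b) * x 6 a := fun a b => by
    simpa [mul_inv_eq_iff_eq_mul] using cj1 (F := F) (a := 6) (b := 10) (k := 11) (c := 1) Nat.cast_zero (by decide +kernel) a b
  have w6 : ∀ u, tG F e * n 6 t * n 10 t' * x 6 u = x 10 (lam 10 e * (c2 * (c4 * u))) * (tG F e * n 6 t * n 10 t') := fun u => by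
    rw [mul_assoc, k4, ← mul_assoc, mul_assoc (tG F e), k2, ← mul_assoc, me]; group
  have w1 : ∀ u, tG F e * n 6 t * n 10 t' * x 1 u = x 11 (lam 11 e * (c1 * (c8 * u))) * (tG F e * n 6 t * n 10 t') := fun u => by
    rw [mul_assoc, k8, ← mul_assoc, mul_assoc (tG F e), k1, ← mul_assoc, me]; group
  have w10 : ∀ u, tG F e * n 6 t * n 10 t' * x 10 u = x 0 (lam 0 e * (c6 * (c5 * u))) * (tG F e * n 6 t * n 10 t') := fun u => by
    rw [mul_assoc, k5, ← mul_assoc, mul_assoc (tG F e), k6, ← mul_assoc, me]; group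
  have w11 : ∀ u, tG F e * n 6 t * n 10 t' * x 11 u = x 5 (lam 5 e * (c7 * (c3 * u))) * (tG F e * n 6 t * n 10 t') := fun u => by
    rw [mul_assoc, k3, ← mul_assoc, mul_assoc (tG F e), k7, ← mul_assoc, me]; group
  have B : ∃ a1 a2 a3 a4, tG F e * x 5 (-t⁻¹) * x 1 (-t'⁻¹) =
      x 6 a1 * x 11 a2 * x 10 a3 * (tG F e * n 6 t * n 10 t') * x 11 a4 * x 10 (-t') := by
    refine ⟨lam 6 e * -t, lam 11 e * (c1 * -t'), lam 10 e * (c2 * (-t * -t')), -t / c3, ?_⟩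
    rw [show x 5 (-t⁻¹) = x 6 (-t) * n 6 t * x 6 (-t) by simp [RG0.n, negG', RG0.x_neg, mul_assoc],
      show x 1 (-t'⁻¹) = x 10 (-t') * n 10 t' * x 10 (-t') by simp [RG0.n, negG', RG0.x_neg, mul_assoc]]
    calc _ = tG F e * x 6 (-t) * n 6 t * (x 6 (-t) * x 10 (-t')) * n 10 t' * x 10 (-t') := by group
      _ = tG F e * x 6 (-t) * (n 6 t * x 10 (-t')) * x 11 (-t * -t') * (x 6 (c3 * (-t / c3)) * n 10 t') * x 10 (-t') := by
        rw [d, mul_div_cancel₀ _ z3]; group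
      _ = x 6 (lam 6 e * -t) * (tG F e * x 11 (c1 * -t')) * (n 6 t * x 11 (-t * -t')) * n 10 t' * x 11 (-t / c3) * x 10 (-t') := by
        rw [k1, ← k3, me]; group
      _ = x 6 (lam 6 e * -t) * x 11 (lam 11 e * (c1 * -t')) * (tG F e * x 10 (c2 * (-t * -t'))) * n 6 t * n 10 t' *
          x 11 (-t / c3) * x 10 (-t') := by rw [k2, me]; group
      _ = _ := by rw [me]; group
  have hH : (tG F e * n 6 t * n 10 t') * (tG F e * n 6 t * n 10 t') * (tG F e * n 6 t * n 10 t') ∈ (YG F).H := by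
    refine ((YG F).mem_H_iff_rep (mul_mem (mul_mem hN hN) hN)).2 ?_
    convert (hR.mul hR).mul hR
    have a : ∀ s : Fin 12, RG2.rP 6 s = ![1, 0, 2, 4, 3, 6, 5, 8, 7, 9, 11, 10] s := fun s =>
      refl_eq_of_chk goodG2 (by revert s; decide +kernel)
    have b : ∀ s : Fin 12, RG2.rP 10 s = ![5, 10, 7, 3, 9, 0, 11, 2, 8, 4, 1, 6] s := fun s =>
      refl_eq_of_chk goodG2 (by revert s; decide +kernel)
    ext s
    simp only [Equiv.Perm.mul_apply, a, b, Equiv.Perm.one_apply]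
    revert s; decide
  generalize tG F e * n 6 t * n 10 t' = W at *
  obtain ⟨a1, a2, a3, a4, B⟩ := B
  obtain ⟨D, C, A'⟩ : ∃ D C, IsConj (tG F e) (W * (x 10 D * x 11 C)) := by
    refine ⟨-t' + a3 + lam 10 e * (c2 * (c4 * a1)), a4 + -(a1 * -t') + a2, A.trans (isConj_iff.2
      ⟨(x 6 a1 * x 11 a2 * x 10 a3 * x 10 (lam 10 e * (c2 * (c4 * a1))))⁻¹, ?_⟩)⟩
    rw [B, inv_inv, mul_assoc, inv_mul_eq_iff_eq_mul]
    simp only [mul_assoc, mul_right_inj]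
    rw [← mul_assoc _ W, ← w6, mul_assoc, mul_right_inj, opG, opG, opG, opG, mul_assoc, mul_assoc, ← mul_assoc (x 6 a1) (x 10 _), d]
    simp only [mul_assoc, c, c', (cmG (a := 11) (b := 6) (by decide +kernel) _ _).left_comm, mul_right_inj]
    simp only [← opG 11 _]
    congr 1; ring
  have h4 : W * (x 10 D * x 11 C) * (W * (x 10 D * x 11 C)) * (W * (x 10 D * x 11 C)) = 1 := by
    obtain ⟨g, hg⟩ := isConj_iff.1 A'
    rw [← hg, conj_mul, conj_mul, ← map_mul, ← map_mul, ← pow_three', h3]; simp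
  obtain ⟨p, hp⟩ := mem_HG.1 hH
  have h6 := eq_zero_neg (a := lam 5 e * (c7 * (c3 * C))) (c := lam 0 e * (c6 * (c5 * D)))
    (b := lam 1 p * (C / (lam 11 e * (c1 * c8)))) (by
      have u : ∀ r ∈ ([7, 6, 8, 9, 10, 11] : List (Fin 12)), ∀ t, x r t ∈ (YG F).B := fun r hr => (YG F).x_mem_B ((posG r).1 hr)
      have e1 := w1 (C / (lam 11 e * (c1 * c8)))
      have e2 := w6 (D / (lam 10 e * (c2 * c4)))
      rw [show lam 11 e * (c1 * (c8 * (C / (lam 11 e * (c1 * c8))))) = C by field_simp] at e1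
      rw [show lam 10 e * (c2 * (c4 * (D / (lam 10 e * (c2 * c4))))) = D by field_simp] at e2
      rw [← tG_conj p, hp, ← mul_inv_eq_iff_eq_mul.2 (w10 D), ← mul_inv_eq_iff_eq_mul.2 (w11 C), eq_inv_mul_iff_mul_eq.2 e1]
      convert inv_mem (mul_mem (mul_mem ((YG F).H_le_B hH) (u 6 (by simp) (D / (lam 10 e * (c2 * c4)))))
        (mul_mem (u 10 (by simp) D) (u 11 (by simp) C))) using 1
      rw [eq_inv_mul_iff_mul_eq.2 e2, eq_inv_iff_mul_eq_one, ← h4]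
      nth_rewrite 3 [← c]
      group)
  obtain rfl : C = 0 := by simpa [z7, z3] using h6.1
  obtain rfl : D = 0 := by simpa [z6, z5] using h6.2
  simpa using A'

end Cfsg.Agent.H14.Dg
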