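import Cfsg.Agent.H14.Dg4

/-! The minimal degree of the groups of type `G₂` in characteristic other than three. -/

set_option autoImplicit false
set_option linter.unusedSectionVars false
set_option linter.style.haveILetI false

namespace Cfsg.Agent.H14.Dg

open Cfsg.Agent.H15 Cfsg.Lie Cfsg.Lie.ChevalleyDatum Subgroup Module Finset H26.RD
open scoped Classical commutatorElement

variable {F : Type*} [Field F] [Fintype F] {V : Type*} [AddCommGroup V] [Module ℂ V] [FiniteDimensional ℂ V]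
variable {ρ : Representation ℂ (chevG2.group F) V} {ψ : AddChar F ℂ}

local notation "x" => RG0.x (RG.toRG0 (YG F))
local notation "n" => RG0.n (RG.toRG0 (YG F))
local notation "tr" => LinearMap.trace ℂ V
local notation "q" => Fintype.card F
local notation "E" r => Ex ρ ψ (RG0.x (RG.toRG0 (YG F)) r)
local notation "τ" p => ρ (tG F p)

attribute [local irreducible] Ex

theorem line_apply {P S : End ℂ V} (h : P * P = P) (h1 : tr P = 1) {w : V} (hw : P w = w) (hS : Commute S P) :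
    S w = tr (P * S) • w := by
  have := LinearMap.congr_fun (rank_one h h1 S) w
  rwa [← hS.eq, mul_assoc, h, End.mul_apply, LinearMap.smul_apply, hw, LinearMap.trace_mul_comm] at this

theorem tx {p : Fˣ × Fˣ} {r : Fin 12} (h : lam r p = 1) (t : F) : Commute (tG F p) (x r t) :=
  mul_inv_eq_iff_eq_mul.1 (by simp [tG_conj, h])

variable (ρ) in
theorem tt (p p' : Fˣ × Fˣ) : Commute (τ p) (τ p') := ((Commute.all p p').map _).map ρ

variable (ρ ψ)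

theorem tE0 (p : Fˣ × Fˣ) (r : Fin 12) : Commute (τ p) ((E r) 0) := semi_Ex0 (lam r p).ne_zero (tG_conj p r)

theorem tE {p : Fˣ × Fˣ} {r : Fin 12} (h : lam r p = 1) (a : F) : Commute (τ p) ((E r) a) := comm_Ex' (tx h) a

theorem xE (r s : Fin 12) (t a : F) (h : decide (CommP chevG2 0 r s ∨ r = s) = true := by decide +kernel) :
    Commute (ρ (x r t)) ((E s) a) := comm_Ex' (cmG h t) a

theorem EE (r s : Fin 12) (a b : F) (h : decide (CommP chevG2 0 r s ∨ r = s) = true := by decide +kernel) :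
    Commute ((E r) a) ((E s) b) := comm_ExEx (cmG h) a b

theorem nE0 (r s k : Fin 12) (h : Rf r s k := by decide +kernel) : SemiconjBy (ρ (n r 1)) ((E s) 0) ((E k) 0) :=
  let ⟨_, a, b⟩ := nxG (F := F) h one_ne_zero; semi_Ex0 a b

theorem nE (r s k : Fin 12) (h : Rf r s k := by decide +kernel) :
    ∃ c : F, c ≠ 0 ∧ ∀ a, SemiconjBy (ρ (n r 1)) ((E s) (a * c)) ((E k) a) :=
  let ⟨c, a, b⟩ := nxG (F := F) h one_ne_zero; ⟨c, a, semi_Ex a b⟩

variable {ρ ψ}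

theorem sh610 (a u t : F) (S : End ℂ V) : ρ (x 6 u * x 10 t * (x 6 u)⁻¹) * ((E 11) a * S) =
    ψ (a * u * t) • (ρ (x 10 t) * ((E 11) a * S)) := by
  rw [cj1 (k := 11) (c := 1) Nat.cast_zero (by decide +kernel), map_mul, mul_assoc, mul_Ex' (opG 11), mul_smul_comm]
  simp [mul_assoc]

theorem x6E {u : F} {S : End ℂ V} (h : Commute (ρ (x 6 u)) S) (a : F) : Commute (ρ (x 6 u)) ((E 10) a * ((E 11) 0 * S)) :=
  comm_shear ((xE ρ ψ 6 11 _ _).mul_right h) (fun t => by simp [sh610, -map_mul]) a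

theorem sc11 {T : End ℂ V} (h : ∀ c, Commute (τ (c, 1)) T) (c : F) (hc : c ≠ 0) :
    ∃ g, Commute (ρ g) T ∧ ∀ t, g * x 11 t * g⁻¹ = x 11 (c * t) :=
  ⟨_, h (Units.mk0 c hc), fun t => by simp [tG_conj, lam]⟩

theorem sc10 {T : End ℂ V} (h : ∀ c, Commute (τ (c, 1)) T) (c : F) (hc : c ≠ 0) :
    ∃ g, Commute (ρ g) T ∧ ∀ t, g * x 10 t * g⁻¹ = x 10 (c * t) :=
  ⟨_, h (Units.mk0 c hc)⁻¹, fun t => by simp [tG_conj, lam]⟩

theorem sc6 {T : End ℂ V} (h : ∀ c, Commute (τ (1, c)) T) (c : F) (hc : c ≠ 0) :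
    ∃ g, Commute (ρ g) T ∧ ∀ t, g * x 6 t * g⁻¹ = x 6 (c * t) :=
  ⟨_, h (Units.mk0 c hc)⁻¹, fun t => by simp [tG_conj, lam]⟩

theorem long_split (hψ : ψ ≠ 1) {S : End ℂ V} (h1 : ∀ c, Commute (τ (c, 1)) S) (h2 : ∀ u, Commute (ρ (x 6 u)) S)
    (h3 : Commute (ρ (n 6 1)) S) : tr S = tr ((E 10) 0 * ((E 11) 0 * S)) + (q ^ 2 - 1) * tr ((E 10) 1 * ((E 11) 0 * S)) ∧
      tr S - tr ((E 11) 0 * S) = (q - 1) * q * tr ((E 10) 1 * ((E 11) 0 * S)) ∧
      tr ((E 10) 0 * ((E 11) 1 * S)) = tr ((E 10) 1 * ((E 11) 0 * S)) := by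
  have s1 := scale hψ (opG 11) (sc11 h1) one_ne_zero
  have s2 := heis (T := (E 11) 1 * S) hψ (opG 10) (fun d => ⟨x 6 d, (xE ρ ψ 6 11 _ _).mul_right (h2 d),
    fun t => by rw [sh610, one_mul]⟩) 0
  have a := sc10 (ρ := ρ) (T := (E 11) 0 * S) fun c => (tE0 ρ ψ (c, 1) 11).mul_right (h1 c)
  have s3 := scale hψ (opG 10) a one_ne_zero
  obtain ⟨c, c0, hc⟩ := nE ρ ψ 6 10 11
  have s4 := tr_semi ((hc 1).mul_right ((nE0 ρ ψ 6 11 10).mul_right h3))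
  rw [tr_scale a (mul_ne_zero one_ne_zero c0) one_ne_zero, (EE ρ ψ 11 10 _ _).left_comm] at s4
  rw [s2, ← s4] at s1
  refine ⟨?_, by rw [s1]; ring, s4.symm⟩
  rw [s1, s3]; ring

theorem sum_torus {M : Type*} [AddCommGroup M] {ω : Fˣ} (hω : ∀ z : Fˣ, z ^ 3 = 1 ↔ z = 1 ∨ z = ω ∨ z = ω ^ 2) (h1 : ω ≠ 1)
    (D : Fˣ × Fˣ → M) (h : ∀ p, lam 6 p ≠ 1 → lam 10 p ≠ 1 → lam 11 p ≠ 1 → D p = 0) :
    ∑ p, D p = ∑ z, D (z, z ^ 2) + ∑ z, D (z ^ 2, z) + ∑ z, D (z⁻¹, z) - 2 • (D 1 + D (ω, ω ^ 2) + D (ω ^ 2, ω)) := by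
  have h3 := (hω ω).2 (by simp)
  have h2 : ω ^ 2 ≠ 1 := fun e => h1 (by rwa [pow_succ, e, one_mul] at h3)
  have h4 : ω ≠ ω ^ 2 := fun e => h1 (by simpa [pow_two] using e.symm)
  have h5 : (ω ^ 2) ^ 2 = ω := by rw [← pow_mul, pow_succ, h3, one_mul]
  have key : ∀ p, D p = (if p.2 = p.1 ^ 2 then D p else 0) + (if p.1 = p.2 ^ 2 then D p else 0) + (if p.1 = p.2⁻¹ then D p else 0) -
      2 • ((if p = 1 then D p else 0) + (if p = (ω, ω ^ 2) then D p else 0) + if p = (ω ^ 2, ω) then D p else 0) := fun ⟨a, b⟩ => by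
    by_cases c : a ^ 3 = 1 ∧ b = a ^ 2
    · obtain ⟨c, rfl⟩ := c
      have e1 : a = (a ^ 2) ^ 2 := by rw [← pow_mul, pow_succ, c, one_mul]
      have e2 : a = (a ^ 2)⁻¹ := eq_inv_of_mul_eq_one_left (by rw [← pow_succ', c])
      rw [if_pos rfl, if_pos e1, if_pos e2]
      rcases (hω a).1 c with rfl | rfl | rfl <;> simp [Prod.ext_iff, two_smul, h1, h2, h4, h5, h1.symm, h2.symm, h4.symm]
    · rw [if_neg (c := (a, b) = 1) fun e => c (by rw [Prod.mk_eq_one] at e; simp [e.1, e.2]),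
        if_neg (c := (a, b) = (ω, ω ^ 2)) fun e => c (by rw [Prod.mk.injEq] at e; simp [e.1, e.2, h3]),
        if_neg (c := (a, b) = (ω ^ 2, ω)) fun e => c (by rw [Prod.mk.injEq] at e; simp [e.1, e.2, h5, hω])]
      split_ifs with c1 c2 c3 c4 c5 c6 c7
      any_goals simp
      all_goals simp only at *
      · exact absurd ⟨by rw [pow_succ', ← c1, c3, inv_mul_cancel], c1⟩ c
      · exact absurd ⟨by simpa [c1, ← pow_mul, pow_succ' a 3, eq_comm] using c2, c1⟩ c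
      · exact absurd ⟨by rw [pow_succ', ← c1, c4, inv_mul_cancel], c1⟩ c
      · have e : b ^ 3 = 1 := by rw [pow_succ, ← c5, c6, inv_mul_cancel]
        exact absurd ⟨by rw [c5, ← pow_mul, mul_comm, pow_mul, e, one_pow], by rw [c5, ← pow_mul, pow_succ, e, one_mul]⟩ c
      · exact h _ (fun e => c1 (div_eq_one.1 e).symm) (fun e => c5 (div_eq_one.1 e).symm) fun e => c7 (eq_inv_of_mul_eq_one_left e)
  rw [sum_congr rfl fun p _ => key p]
  simp only [sum_sub_distrib, sum_add_distrib, ← smul_sum, sum_ite_eq', mem_univ, if_true]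
  rw [Fintype.sum_prod_type, Fintype.sum_prod_type_right, Fintype.sum_prod_type_right]
  simp

theorem mv_apply {g a b : chevG2.group F} (h : g * a * g⁻¹ = b) (v : V) : ρ b (ρ g v) = ρ g (ρ a v) := by
  rw [← h, ← End.mul_apply, ← map_mul, inv_mul_cancel_right, map_mul, End.mul_apply]

theorem tr_coset {ω : Fˣ} (h1 : ω ≠ 1) (h3 : ω ^ 3 = 1) : ∃ a b : ℕ, ∑ p, tr (τ p) = (q - 1) ^ 2 * a ∧
    a + tr (τ (1, ω)) + tr (τ (1, ω) ^ 2) = 3 * b := by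
  haveI := Fintype.ofFinite (chevG2.group F)
  have h2 : ω ^ 2 ≠ 1 := fun e => h1 (by rwa [pow_succ, e, one_mul] at h3)
  have key : ∀ g ∈ (YG F).H, IsConj (tG F (1, ω)) (g * (n 6 1 * n 10 1)) := fun g hg => by
    obtain ⟨p, rfl⟩ := mem_HG.1 hg
    have := fuse (e := (1, ω)) (by simpa [lam]) (by simpa [lam]) (by simpa [lam]) (by simpa) (p.1 / (p.2 / ω)).ne_zero (p.2 / ω).ne_zero
    rw [(YG F).n_eq 6, (YG F).n_eq 10, h_tG, h_tG, ← mul_assoc, ← mul_assoc, mul_assoc _ (n 6 1),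
      mul_inv_eq_iff_eq_mul.1 (n_tG (r := 6) (a := 7) (b := 9) (by decide +kernel) (by decide +kernel) _), ← mul_assoc, ← map_mul,
      ← map_mul, mul_assoc, (by decide +kernel : chevG2.pairing (6 : Fin 12) 8 = 1), (by decide +kernel : chevG2.pairing (6 : Fin 12) 9 = 0),
      (by decide +kernel : chevG2.pairing (10 : Fin 12) 8 = 0), (by decide +kernel : chevG2.pairing (10 : Fin 12) 9 = 1)] at this
    convert this using 3
    ext <;> simp [lam]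
  have hN := mul_mem ((YG F).n_mem_N 6 one_ne_zero) ((YG F).n_mem_N 10 one_ne_zero)
  generalize n 6 1 * n 10 1 = g at *
  have g3 : g * (g * g) = 1 := by
    obtain ⟨c, hc⟩ := isConj_iff.1 (key 1 (one_mem _))
    rw [← one_mul g, ← hc, conj_mul, conj_mul, ← map_mul, ← map_mul, ← pow_three]; simp [h3, Prod.mk_one_one]
  have e := Equiv.ofBijective (fun p => (⟨tG F p, mem_HG.2 ⟨p, rfl⟩⟩ : (YG F).H))
    ⟨fun _ _ e => tG_inj (congrArg Subtype.val e), fun g => let ⟨p, e⟩ := mem_HG.1 g.2; ⟨p, Subtype.ext e⟩⟩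
  have hc : (Nat.card (YG F).H : ℂ) = (q - 1) ^ 2 := by
    rw [← Nat.card_congr e]; simp [Nat.cast_sub Fintype.card_pos, pow_two, Fintype.card_units]
  have i := pj_idem (ρ := ρ) (isCh_one (YG F).H)
  have c := pj_conj (ρ := ρ) (l := fun _ => 1) fun a ha => ⟨(YG F).conj_mem_H hN ha, rfl⟩
  obtain ⟨a, ha, -⟩ := exists_tr i
  obtain ⟨b, hb⟩ := tr_three i c (by rw [← mul_assoc, ← mul_assoc, ← map_mul, ← map_mul, mul_assoc, g3, map_one, one_mul])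
  have k : ∀ g y, (∀ h ∈ (YG F).H, IsConj y (h * g)) → tr (ρ g * pj ρ (YG F).H fun _ => 1) = tr (ρ y) := fun g y h => by
    refine mul_left_cancel₀ (card_ne (YG F).H) ?_
    rw [LinearMap.trace_mul_comm, tr_pj, sum_congr rfl fun a _ => show _ = tr (ρ y) by
      obtain ⟨c, hc⟩ := isConj_iff.1 (h a a.2)
      rw [← map_mul, ← hc, ← tr_semi (semi_rho c y)]; simp]
    simp
  refine ⟨a, b, ?_, ?_⟩
  · rw [← ha, ← hc, ← mul_one (pj _ _ _), tr_pj]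
    exact Fintype.sum_bijective (fun p => (⟨tG F p, mem_HG.2 ⟨p, rfl⟩⟩ : (YG F).H))
      ⟨fun _ _ e => tG_inj (congrArg Subtype.val e), fun g => let ⟨p, e⟩ := mem_HG.1 g.2; ⟨p, Subtype.ext e⟩⟩ _ _ (by simp)
  · rw [← hb, ha, k g _ key, ← mul_assoc, ← map_mul, k _ (tG F ((1, ω) ^ 2)) fun h hh => ?_]
    obtain ⟨c, hc⟩ := isConj_iff.1 (key _ (inv_mem hh))
    refine isConj_iff.2 ⟨h * c, ?_⟩
    rw [show ((1, ω) ^ 2 : Fˣ × Fˣ) = (1, ω)⁻¹ from eq_inv_of_mul_eq_one_left (by rw [← pow_succ]; simp [h3]), map_inv,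
      eq_inv_of_mul_eq_one_right g3, ← mul_inv_eq_iff_eq_mul.2 (show h * (h⁻¹ * g) = g * 1 by simp), ← hc]
    group

theorem exists_omega (h : q % 3 = 1) : ∃ ω : Fˣ, ω ≠ 1 ∧ ∀ z : Fˣ, z ^ 3 = 1 ↔ z = 1 ∨ z = ω ∨ z = ω ^ 2 := by
  obtain ⟨ω, hω⟩ := exists_prime_orderOf_dvd_card (G := Fˣ) 3 (by rw [Fintype.card_units]; omega)
  have h1 := pow_orderOf_eq_one ω
  refine ⟨ω, by rintro rfl; simp at hω, fun z => ⟨fun hz => ?_, ?_⟩⟩
  · obtain ⟨i, a, e⟩ := (IsPrimitiveRoot.coe_units_iff.2 (hω ▸ IsPrimitiveRoot.orderOf ω)).eq_pow_of_pow_eq_one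
      (ξ := (z : F)) (by simpa using congrArg Units.val hz)
    obtain rfl : ω ^ i = z := Units.ext (by simpa using e)
    interval_cases i <;> simp
  · rw [hω] at h1
    rintro (rfl | rfl | rfl)
    exacts [one_pow _, h1, by rw [← pow_mul, mul_comm, pow_mul, h1, one_pow]]

theorem deg_ne3 (hψ : ψ ≠ 1) (hf : tr (1 - (E 11) 0) ≠ 0) (h3 : (3 : F) ≠ 0) (hq : 4 < q) :
    q ^ 3 - 1 ≤ finrank ℂ V ∧ (q % 3 = 1 → q ^ 3 + 1 ≤ finrank ℂ V) := by
  haveI := Fintype.ofFinite (chevG2.group F)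
  obtain ⟨a₀, ha⟩ : ∃ a : Fˣ, a ^ 3 ≠ 1 := by
    by_contra! c
    have := Nat.le_of_dvd three_pos ((FiniteField.forall_pow_eq_one_iff F 3).1 c)
    omega
  have x6 : ∀ a u, Commute (ρ (x 6 u)) ((E 10) a * (E 11) 0) := fun a u => by simpa using x6E (Commute.one_right _) a
  have i0 := fun a => idem_mul (Ex_idem (opG 10) a) (Ex_idem (opG 11) 0) (EE ρ ψ 10 11 a 0)
  have iP := idem_mul (Ex_idem (opG 9) 0) (i0 1) ((EE ρ ψ 9 10 0 1).mul_right (EE ρ ψ 9 11 0 0))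
  have i6 := fun a => idem_mul (Ex_idem (ρ := ρ) (ψ := ψ) (opG 6) a) (i0 0) (comm_Ex (fun t => (x6 0 t).symm) a).symm
  have t0 : ∀ p, Commute (τ p) ((E 10) 0 * (E 11) 0) := fun p => (tE0 ρ ψ p 10).mul_right (tE0 ρ ψ p 11)
  have tP : ∀ p, lam 10 p = 1 → Commute (τ p) ((E 9) 0 * ((E 10) 1 * (E 11) 0)) := fun p h =>
    (tE0 ρ ψ p 9).mul_right ((tE ρ ψ h 1).mul_right (tE0 ρ ψ p 11))
  obtain ⟨b, hb, -⟩ := exists_tr (i0 0)
  obtain ⟨m, hm, -⟩ := exists_tr iP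
  have hν := heis (T := (E 10) 1 * (E 11) 0) hψ (opG 9) (fun d => ⟨x 7 (d / 3), (xE ρ ψ 7 10 _ _).mul_right (xE ρ ψ 7 11 _ _),
    fun t => by
      rw [cj1 (k := 10) (c := 3) Nat.cast_zero (by decide +kernel), map_mul, mul_assoc, mul_Ex' (opG 10), mul_smul_comm]
      simp [mul_div_cancel₀ _ h3]⟩) 0
  obtain ⟨s1, s2, -⟩ := long_split (ρ := ρ) hψ (fun _ => .one_right _) (fun _ => .one_right _) (.one_right _)
  simp only [mul_one, hb, hν, hm, LinearMap.trace_one] at s1 s2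
  have m1 : 1 ≤ m := Nat.one_le_iff_ne_zero.2 fun e => hf (by simpa [e] using s2)
  have a1 : 1 ≤ q ^ 2 := Nat.one_le_pow _ _ (by omega)
  rw [← Nat.cast_pow, ← Nat.cast_one, ← Nat.cast_sub a1] at s1
  norm_cast at s1
  have a2 : (q ^ 2 - 1) * q + q = q ^ 3 := by zify [a1]; ring
  have a3 : 2 * q + 1 ≤ q ^ 3 := by nlinarith
  rcases m1.eq_or_lt with rfl | m2
  swap
  · have : (q ^ 2 - 1) * q * 2 ≤ (q ^ 2 - 1) * (q * m) := by rw [← mul_assoc]; exact Nat.mul_le_mul_left _ m2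
    omega
  rw [Nat.cast_one] at hm
  obtain ⟨v, hv, e1, -⟩ := exists_line iP hm
  have v11 : ∀ t, ρ (x 11 t) v = v := fun t => by
    rw [← e1, ← End.mul_apply, (xE ρ ψ 11 9 _ _).left_comm, (xE ρ ψ 11 10 _ _).left_comm, mul_Ex (opG 11)]; simp
  have v10 : ∀ t, ρ (x 10 t) v = ψ t • v := fun t => by
    rw [← e1, ← End.mul_apply, (xE ρ ψ 10 9 _ _).left_comm, mul_Ex' (opG 10)]; simp
  have v6 : ∀ t, ρ (x 6 t) v = v := fun t => by
    have : (a₀ : F) ^ 3 - 1 ≠ 0 := sub_ne_zero.2 fun e => ha (Units.ext (by simpa using e))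
    have e := comm_mem_Fv (ρ := ρ) (v := v) ⟨_, line_apply iP hm e1 (tP (a₀ ^ 2, a₀) (by simp [lam]))⟩
      ⟨_, line_apply iP hm e1 ((xE ρ ψ 6 9 (t / (a₀ ^ 3 - 1)) 0).mul_right (x6 1 _))⟩
    rwa [commutatorElement_def, tG_conj, ← (YG F).x_neg, ← opG, show (lam 6 (a₀ ^ 2, a₀) : F) * (t / (a₀ ^ 3 - 1)) +
      -(t / (a₀ ^ 3 - 1)) = t by simp [lam]; field_simp; ring] at e
  obtain ⟨c1, z1, k1⟩ := nxG (F := F) (r := 7) (s := 6) (k := 10) (by decide +kernel) one_ne_zero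
  obtain ⟨c2, z2, k2⟩ := nxG (F := F) (r := 7) (s := 11) (k := 11) (by decide +kernel) one_ne_zero
  obtain ⟨c, z3, k3⟩ := nxG (F := F) (r := 7) (s := 10) (k := 6) (by decide +kernel) one_ne_zero
  have e2 : ((E 6) c⁻¹ * ((E 10) 0 * (E 11) 0)) (ρ (n 7 1) v) = ρ (n 7 1) v := by
    have g1 : (E 11) 0 (ρ (n 7 1) v) = ρ (n 7 1) v :=
      Ex_apply fun t => by rw [← mul_div_cancel₀ t z2, mv_apply (k2 _), v11]; simp
    have g2 : (E 10) 0 (ρ (n 7 1) v) = ρ (n 7 1) v :=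
      Ex_apply fun t => by rw [← mul_div_cancel₀ t z1, mv_apply (k1 _), v6]; simp
    rw [End.mul_apply, End.mul_apply, g1, g2,
      Ex_apply fun t => by rw [← mul_div_cancel₀ t z3, mv_apply (k3 _), v10, map_smul, inv_mul_cancel_left₀ z3]]
  obtain ⟨r, hr, -⟩ := exists_tr (i6 0)
  obtain ⟨l, hl, l1⟩ := exists_tr (i6 c⁻¹)
  replace l1 := l1 _ (apply_ne hv _) e2
  have f2 := fun p => scale hψ (opG 6) (sc6 (ρ := ρ) (T := (E 10) 0 * (E 11) 0 * τ p) fun _ => (t0 _).mul_right (tt ρ _ _))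
    (inv_ne_zero z3)
  have s3 := f2 1
  simp only [map_one, mul_one, hb, hr, hl] at s3
  rw [← Nat.cast_one, ← Nat.cast_sub (show 1 ≤ q by omega)] at s3
  norm_cast at s3
  rw [mul_one] at s1
  have a4 : q - 1 ≤ (q - 1) * l := Nat.le_mul_of_pos_right _ l1
  refine ⟨by omega, fun h1 => not_lt.1 fun hlt => ?_⟩
  obtain rfl : l = 1 := le_antisymm (not_lt.1 fun l2 => by have := Nat.mul_le_mul_left (q - 1) l2; omega) l1
  have r1 : r ≤ 1 := by omega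
  rw [Nat.cast_one] at hl
  obtain ⟨ω, o1, hω⟩ := exists_omega h1
  have o3 := (hω ω).2 (by simp)
  have o2 : ω ^ 2 ≠ 1 := fun e => o1 (by rwa [pow_succ, e, one_mul] at o3)
  have o5 : (ω ^ 2) ^ 2 = ω := by rw [← pow_mul, pow_succ, o3, one_mul]
  have fp : ∀ r p (T : End ℂ V), lam r p ≠ 1 → (∀ t, Commute (ρ (x r t)) T) → tr ((E r) 0 * T * τ p) = tr (T * τ p) :=
    fun r p T h hT => tr_fpf (opG r) hT (c := (lam r p)⁻¹) (by simpa using h) fun t => by simpa using tG_conj' p r t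
  have f1 : ∀ p, lam 10 p ≠ 1 → lam 11 p ≠ 1 → tr (τ p) = tr ((E 10) 0 * (E 11) 0 * τ p) := fun p h h' => by
    rw [fp 10 p _ h fun _ => xE ρ ψ 10 11 _ _, ← mul_one ((E 11) 0), fp 11 p _ h' fun _ => .one_right _, one_mul]
  have tR : ∀ p, Commute (τ p) ((E 6) 0 * ((E 10) 0 * (E 11) 0)) := fun p => (tE0 ρ ψ p 6).mul_right (t0 p)
  have tκ : ∀ z, Commute (τ (z, z ^ 2)) ((E 6) c⁻¹ * ((E 10) 0 * (E 11) 0)) := fun z => (tE ρ ψ (by simp [lam]) _).mul_right (t0 _)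
  have iR := i6 0
  have iQ := i6 c⁻¹
  set R := (E 6) 0 * ((E 10) 0 * (E 11) 0)
  set P := (E 9) 0 * ((E 10) 1 * (E 11) 0)
  set Q := (E 6) c⁻¹ * ((E 10) 0 * (E 11) 0)
  have f3 : ∀ z, z ^ 3 = 1 → z ≠ 1 → tr (τ (z, z ^ 2)) = tr (R * τ (z, z ^ 2)) + (q - 1) * tr (Q * τ (z, z ^ 2)) +
      (q ^ 2 - 1) * tr (Q * τ (z ^ 2, z)) := fun z hz z1 => by
    have e3 : Commute (n 6 1) (tG F (z, z ^ 2)) := mul_inv_eq_iff_eq_mul.1
      ((n_tG (a := 7) (b := 9) (by decide +kernel) (by decide +kernel) _).trans (by simp [lam, pow_two]))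
    have e4 : (z ^ 2) ^ 2 / z = 1 := by rw [← pow_mul, pow_succ, hz]; simp
    have e5 := n_tG (F := F) (r := 7) (a := 9) (b := 8) (by decide +kernel) (by decide +kernel) (z, z ^ 2)
    have e6 := line_apply iQ hl e2 (S := τ (z ^ 2, z)) ((tE ρ ψ (by simpa [lam] using e4) _).mul_right (t0 _))
    rw [mv_apply (b := tG F (z ^ 2, z)) e5, line_apply iP hm e1 (tP (z, z ^ 2) e4), map_smul] at e6
    rw [(long_split (ρ := ρ) hψ (fun _ => tt ρ _ _) (fun u => ((tx (by simp [lam]) u).map ρ).symm) (e3.map ρ)).1, ← mul_assoc, f2, ← mul_assoc ((E 10) 1), ← fp 9 _ _ (by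
          simpa [lam] using fun e => z1 (by rwa [pow_succ, e, one_mul] at hz)) fun _ => (xE ρ ψ 9 10 _ _).mul_right (xE ρ ψ 9 11 _ _),
      smul_left_injective ℂ (apply_ne hv _) e6]
    simp only [mul_assoc, R, Q]
  have hom := fun {C : Type _} [Group C] [Fintype C] (φ : C →* Fˣ × Fˣ) => tr_hom (ρ := ρ) ((tG F).comp φ) iR fun c => tR _
  let φ1 : Fˣ →* Fˣ × Fˣ := (MonoidHom.id _).prod (powMonoidHom 2)
  obtain ⟨n0, _, b0, d0⟩ := hom (MonoidHom.id _)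
  obtain ⟨n1, _, b1, d1⟩ := hom φ1
  obtain ⟨n2, _, b2, d2⟩ := hom ((powMonoidHom 2).prod (MonoidHom.id _))
  obtain ⟨n3, _, b3, d3⟩ := hom (invMonoidHom.prod (MonoidHom.id _))
  obtain ⟨n4, _, b4, -⟩ := tr_hom (ρ := ρ) ((tG F).comp φ1) iQ fun c => tκ _
  obtain ⟨n5, b5⟩ := tr_three iQ (tκ ω) (by
    rw [← mul_assoc, ← mul_assoc, ← map_mul, ← map_mul, ← map_mul, ← map_mul, ← pow_three']
    simp [o3, ← pow_mul, pow_mul ω 3 2, Prod.mk_one_one])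
  obtain ⟨n6, b6⟩ := tr_three iR (tR (1, ω)) (by
    rw [← mul_assoc, ← mul_assoc, ← map_mul, ← map_mul, ← map_mul, ← map_mul, ← pow_three']
    simp [o3, Prod.mk_one_one])
  obtain ⟨a, a', b7, b8⟩ := tr_coset (ρ := ρ) o1 o3
  have f4 : ∀ p, lam 6 p ≠ 1 → lam 10 p ≠ 1 → lam 11 p ≠ 1 → tr (τ p) - tr (R * τ p) = 0 := fun p h h' h'' => by
    rw [f1 p h' h'', fp 6 p _ h (x6 0), sub_self]
  have f5 := sum_torus hω o1 _ f4
  have f6 : ∑ z, tr (τ (z ^ 2, z)) = ∑ z, tr (τ (z, z ^ 2)) := sum_congr rfl fun z _ => by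
    rw [tr_semi (semi_rho (n 7 1) (tG F (z, z ^ 2))), n_tG (a := 9) (b := 8) (by decide +kernel) (by decide +kernel)]; rfl
  have f7 : ∑ z, tr (τ (z⁻¹, z)) = ∑ z, tr (τ (z ^ 2, z)) := sum_congr rfl fun z _ => by
    rw [tr_semi (semi_rho (n 6 1) (tG F (z ^ 2, z))), n_tG (a := 7) (b := 9) (by decide +kernel) (by decide +kernel)]
    simp [lam, pow_two]
  have f8 : ∑ z, (tr (τ (z, z ^ 2)) - tr (R * τ (z, z ^ 2)) - (q - 1) * tr (Q * τ (z, z ^ 2))) =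
      (q ^ 2 - 1) * (q + tr (Q * τ (ω ^ 2, ω)) + tr (Q * τ (ω, ω ^ 2))) := by
    rw [← sum_subset (subset_univ {1, ω, ω ^ 2}) fun z _ hz => by
      have : z ^ 3 ≠ 1 := by simpa [hω] using hz
      rw [f1 _ (by simpa [lam, div_eq_one, ← pow_mul, pow_succ' z 3] using this) (by simpa [lam, ← pow_succ'] using this), f2]
      simp [mul_assoc, R, Q], sum_insert (by simp [o1.symm, o2.symm]), sum_pair (by simpa [pow_two] using o1),
      f3 ω o3 o1, f3 (ω ^ 2) ((hω _).2 (by simp)) o2, o5]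
    simp only [one_pow, Prod.mk_one_one, map_one, mul_one, LinearMap.trace_one, hr, hl, s1, s3, Nat.cast_add, Nat.cast_mul,
      Nat.cast_sub a1, Nat.cast_sub Fintype.card_pos]
    push_cast; ring
  have f9 := f3 ω o3 o1
  have f10 := f3 (ω ^ 2) ((hω _).2 (by simp)) o2
  have f11 := f4 (1, ω) (by simpa [lam]) (by simpa [lam]) (by simpa [lam])
  have f12 := f4 ((1, ω) ^ 2) (by simpa [lam]) (by simpa [lam, o5]) (by simpa [lam])
  clear_value R Q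
  rw [← mul_assoc, ← map_mul, ← map_mul, ← pow_two] at b5 b6
  simp only [MonoidHom.comp_apply, MonoidHom.id_apply, MonoidHom.prod_apply, powMonoidHom_apply, invMonoidHom_apply, φ1,
    LinearMap.trace_mul_comm ℂ (ρ _), Fintype.card_prod, Fintype.card_units, Nat.cast_mul,
    Nat.cast_sub Fintype.card_pos, Nat.cast_one, hl, hr, Prod.pow_mk, o5] at b0 b1 b2 b3 b4 b5 b6 d0 d1 d2 d3 b8 f12
  simp only [sum_sub_distrib, ← mul_sum, b0, b1, b2, b3, b4, b7, f7, f6, map_one, mul_one, LinearMap.trace_one, hr, s1, s3, o5,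
    nsmul_eq_mul, Nat.cast_add, Nat.cast_mul, Nat.cast_sub a1, Nat.cast_sub Fintype.card_pos, Nat.cast_pow, Nat.cast_one,
    Nat.cast_ofNat] at f5 f8 f10
  have g0 : (q : ℂ) - 1 ≠ 0 := sub_ne_zero.2 (by norm_cast; omega)
  have g1 : ((q : ℂ) - 1) * (a - n0 - 3 * n4 - (q + 1) - 3 * n5) = 2 * n1 - n2 - n3 := mul_left_cancel₀ g0 (by
    linear_combination f5 + 3 * f8 - 2 * f9 - 2 * f10 + (q - 1) ^ 2 * b5)
  have g2 : (a : ℂ) + 3 * n6 = r + 3 * a' := by linear_combination b8 - b6 - f11 - f12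
  have g3 : ((q : ℤ) - 1) * (a - n0 - 3 * n4 - (q + 1) - 3 * n5) = 2 * n1 - n2 - n3 := by exact_mod_cast g1
  norm_cast at g2 d0 d1 d2 d3
  have g4 := Int.eq_zero_of_abs_lt_dvd (Dvd.intro _ g3) (by rw [abs_lt]; omega)
  rw [g4, mul_eq_zero] at g3
  omega

end Cfsg.Agent.H14.Dg
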