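import Cfsg.Agent.H14.Dg5

/-! The minimal degree of the groups of type `G₂` in characteristic three. -/

set_option autoImplicit false
set_option linter.unusedSectionVars false
set_option linter.style.haveILetI false

namespace Cfsg.Agent.H14.Dg

open Cfsg.Agent.H15 Cfsg.Lie Cfsg.Lie.ChevalleyDatum Subgroup Module Finset H26.RD
open scoped Classical commutatorElement

variable {F : Type*} [Field F] [Fintype F] {V : Type*} [AddCommGroup V] [Module ℂ V] [FiniteDimensional ℂ V]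
variable {ρ : Representation ℂ (chevG2.group F) V} {ψ : AddChar F ℂ}

local notation "x" => RG0.x (RG.toRG0 (YG F))
local notation "n" => RG0.n (RG.toRG0 (YG F))
local notation "tr" => LinearMap.trace ℂ V
local notation "q" => Fintype.card F
local notation "E" r => Ex ρ ψ (RG0.x (RG.toRG0 (YG F)) r)
local notation "τ" p => ρ (tG F p)

attribute [local irreducible] Ex

theorem semi_fix {G : Type*} [Group G] {ρ : Representation ℂ G V} {g a : G} {A B : End ℂ V} {s : ℂ} (h : SemiconjBy (ρ g) A B)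
    (e : ρ a * A = s • A) : ρ (g * a * g⁻¹) * B = s • B := by
  have : B = ρ g * A * ρ g⁻¹ := by rw [h.eq, mul_assoc, ← map_mul]; simp
  rw [this, ← mul_assoc, ← mul_assoc, ← map_mul, inv_mul_cancel_right, map_mul, mul_assoc (ρ g), e]; simp

theorem act_flip {G : Type*} [Group G] {ρ : Representation ℂ G V} {g h : G} {T : End ℂ V} {s : F} (hg : Commute (ρ g) T)
    (hh : Commute (ρ h) T) (e : ρ (h * g * h⁻¹) * T = ψ (-s) • (ρ g * T)) : ρ (g * h * g⁻¹) * T = ψ s • (ρ h * T) := by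
  have e1 : ρ (h * g * h⁻¹) * T * ρ h * ρ g⁻¹ = ρ h * T := by
    rw [mul_assoc _ T, ← hh.eq, ← mul_assoc, ← map_mul, inv_mul_cancel_right, map_mul, mul_assoc (ρ h), hg.eq, mul_assoc, mul_assoc,
      ← map_mul]; simp
  have e2 : ρ g * T * ρ h * ρ g⁻¹ = ρ (g * h * g⁻¹) * T := by
    have : Commute (ρ g⁻¹) T := by
      rw [Commute, SemiconjBy, ← mul_one (_ * T), ← map_one ρ, ← mul_inv_cancel g, map_mul, ← mul_assoc, mul_assoc _ T, ← hg.eq,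
        ← mul_assoc, ← map_mul]; simp
    rw [mul_assoc _ T, ← hh.eq, mul_assoc, mul_assoc, ← this.eq]; simp [mul_assoc]
  rw [← e1, e, smul_mul_assoc, smul_mul_assoc, e2, smul_smul, ← AddChar.map_add_eq_mul]; simp

theorem arith_G3 {a r d : ℕ} (ha : 9 ≤ a) (hr : r ≤ 2) (h : d + 2 = a ^ 4 + a ^ 2 + r)
    (hd : d ∣ a ^ 6 * (a ^ 2 - 1) * (a ^ 6 - 1)) : False := by
  have a1 : 1 ≤ a ^ 2 := Nat.one_le_pow _ _ (by omega)
  have a2 : 1 ≤ a ^ 6 := Nat.one_le_pow _ _ (by omega)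
  zify [a1, a2] at *
  obtain ⟨y, hy⟩ : ∃ y : ℤ, y = a ^ 2 := ⟨_, rfl⟩
  have b1 : 81 ≤ y := by nlinarith
  rw [show (a : ℤ) ^ 6 = y ^ 3 by rw [hy]; ring, ← hy] at hd
  rw [show (a : ℤ) ^ 4 = y ^ 2 by rw [hy]; ring, ← hy] at h
  obtain rfl | rfl | rfl : r = 0 ∨ r = 1 ∨ r = 2 := by omega
  · have e : y + 2 ∣ (y + 2) * (y ^ 5 - 2 * y ^ 4 + 4 * y ^ 3 - 9 * y ^ 2 + 18 * y - 36) + 72 :=
      (mul_dvd_mul_iff_left (show y - 1 ≠ 0 by omega)).1 ((dvd_of_eq (by push_cast at h; linarith)).trans (hd.trans (dvd_of_eq (by ring))))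
    have := Int.le_of_dvd (by norm_num) ((dvd_add_right (dvd_mul_right _ _)).1 e)
    omega
  · have e : y ^ 2 + y - 1 ∣ (y ^ 2 + y - 1) * (y ^ 5 - 2 * y ^ 4 + 3 * y ^ 3 - 6 * y ^ 2 + 10 * y - 16) + (26 * y - 16) :=
      (dvd_of_eq (by push_cast at h; linarith)).trans (hd.trans (dvd_of_eq (by ring)))
    have := Int.le_of_dvd (by omega) ((dvd_add_right (dvd_mul_right _ _)).1 e)
    nlinarith
  · have e : y + 1 ∣ (y + 1) * (y ^ 5 - 2 * y ^ 4 + 2 * y ^ 3 - 3 * y ^ 2 + 4 * y - 4) + 4 :=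
      (mul_dvd_mul_iff_left (show y ≠ 0 by omega)).1 ((dvd_of_eq (by push_cast at h; linarith)).trans (hd.trans (dvd_of_eq (by ring))))
    have := Int.le_of_dvd (by norm_num) ((dvd_add_right (dvd_mul_right _ _)).1 e)
    omega

variable [CharP F 3]

variable (ρ ψ) in
theorem xE3 (r s : Fin 12) (t a : F) (h : decide (CommP chevG2 3 r s ∨ r = s) = true := by decide +kernel) :
    Commute (ρ (x r t)) ((E s) a) := comm_Ex' (cmP (CharP.cast_eq_zero F 3) h t) a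

variable (ρ ψ) in
theorem EE3 {r s : Fin 12} (h : s < r ∧ 8 ≤ s) (a b : F) : (E r) a * (E s) b = (E s) b * (E r) a :=
  comm_ExEx (cmP (CharP.cast_eq_zero F 3) (by revert r s; decide +kernel)) a b

variable (ρ ψ) in
theorem EE3' {r s : Fin 12} (h : s < r ∧ 8 ≤ s) (a b : F) (T : End ℂ V) : (E r) a * ((E s) b * T) = (E s) b * ((E r) a * T) :=
  Commute.left_comm (EE3 ρ ψ h a b) T

theorem sh78 (a u t : F) (S : End ℂ V) : ρ (x 7 u * x 8 t * (x 7 u)⁻¹) * ((E 9) a * S) =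
    ψ (a * u * t) • (ρ (x 8 t) * ((E 9) a * S)) := by
  rw [cj1 (k := 9) (c := 1) (CharP.cast_eq_zero F 3) (by decide +kernel), map_mul, mul_assoc, mul_Ex' (opG 9), mul_smul_comm]
  simp [mul_assoc]

theorem scG (r : Fin 12) (f : Fˣ → Fˣ × Fˣ) (hf : ∀ c, lam r (f c) = c) {T : End ℂ V} (h : ∀ c, Commute (τ (f c)) T) (c : F)
    (hc : c ≠ 0) : ∃ g, Commute (ρ g) T ∧ ∀ t, g * x r t * g⁻¹ = x r (c * t) :=
  ⟨_, h (Units.mk0 c hc), fun t => by simp [tG_conj, hf]⟩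

theorem heis8 (hψ : ψ ≠ 1) {S : End ℂ V} (h2 : ∀ u, Commute (ρ (x 7 u)) S) :
    tr ((E 9) 1 * S) = q * tr ((E 8) 0 * ((E 9) 1 * S)) :=
  heis hψ (opG 8) (fun d => ⟨x 7 d, (xE3 ρ ψ 7 9 _ _).mul_right (h2 d), fun t => by rw [sh78, one_mul]⟩) 0

omit [CharP F 3] in
theorem heis10 (hψ : ψ ≠ 1) {S : End ℂ V} (h2 : ∀ u, Commute (ρ (x 6 u)) S) :
    tr ((E 11) 1 * S) = q * tr ((E 10) 0 * ((E 11) 1 * S)) :=
  heis hψ (opG 10) (fun d => ⟨x 6 d, (xE ρ ψ 6 11 _ _).mul_right (h2 d), fun t => by rw [sh610, one_mul]⟩) 0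

theorem short_split (hψ : ψ ≠ 1) (a : F) : tr ((E 11) a) = tr ((E 8) 0 * ((E 9) 0 * (E 11) a)) +
    (q ^ 2 - 1) * tr ((E 8) 1 * ((E 9) 0 * (E 11) a)) ∧
      tr ((E 8) 0 * ((E 9) 1 * (E 11) a)) = tr ((E 8) 1 * ((E 9) 0 * (E 11) a)) := by
  have h1 : ∀ c : Fˣ, Commute (τ (c⁻¹, c)) ((E 11) a) := fun c => tE ρ ψ (by simp [lam]) a
  have s1 := scale hψ (opG 9) (scG 9 (fun c => (c⁻¹, c)) (fun _ => rfl) h1) one_ne_zero
  have s2 := heis8 hψ fun u => xE ρ ψ 7 11 u a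
  have b := scG (ρ := ρ) 8 (fun c => (c, c⁻¹)) (fun _ => rfl) (T := (E 9) 0 * (E 11) a) fun c =>
    (tE0 ρ ψ _ 9).mul_right (tE ρ ψ (by simp [lam]) a)
  have s3 := scale hψ (opG 8) b one_ne_zero
  obtain ⟨c, c0, hc⟩ := nE ρ ψ 7 8 9
  have h3 : Commute (ρ (n 7 1)) ((E 11) a) := by
    rw [RG0.n, negG', map_mul, map_mul]
    exact ((xE ρ ψ 7 11 _ _).mul_left (xE ρ ψ 4 11 _ _)).mul_left (xE ρ ψ 7 11 _ _)
  have s4 := tr_semi ((hc 1).mul_right ((nE0 ρ ψ 7 9 8).mul_right h3))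
  rw [tr_scale b (mul_ne_zero one_ne_zero c0) one_ne_zero, EE3' ρ ψ (r := 9) (s := 8) (by decide)] at s4
  rw [s2, ← s4] at s1
  exact ⟨by rw [s1, s3]; ring, s4.symm⟩

theorem act76 {T : End ℂ V} {a b c : F} (h8 : ∀ t, ρ (x 8 t) * T = ψ (a * t) • T) (h9 : ∀ t, ρ (x 9 t) * T = T)
    (h10 : ∀ t, ρ (x 10 t) * T = ψ (b * t) • T) (h11 : ∀ t, ρ (x 11 t) * T = ψ (c * t) • T) (t u : F) :
    ρ (x 6 u * x 7 t * (x 6 u)⁻¹) * T = ψ ((a * t - b * t ^ 3 + c * t ^ 3 * u) * u) • (ρ (x 7 t) * T) := by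
  have k : ∀ {r : Fin 12} s, decide (CommP chevG2 0 6 r ∨ 6 = r) = true → x 6 u * x r s * (x 6 u)⁻¹ = x r s := fun s h => by
    rw [(cmG h _ _).eq, mul_inv_cancel_right]
  rw [c76, ← conj_mul, ← conj_mul, ← conj_mul, cj1 (a := 6) (b := 10) (k := 11) (c := 1) Nat.cast_zero (by decide +kernel),
    k _ (by decide +kernel), k _ (by decide +kernel), k _ (by decide +kernel)]
  simp only [map_mul, mul_assoc, h8, h9, h10, h11, mul_smul_comm, smul_smul, ← AddChar.map_add_eq_mul]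
  congr 2
  linear_combination (-(c * t ^ 3 * u ^ 2)) * CharP.cast_eq_zero F 3

local notation "W" a:max b:max c:max d:max => Ex ρ ψ (RG0.x (RG.toRG0 (YG F)) 8) a * (Ex ρ ψ (RG0.x (RG.toRG0 (YG F)) 9) b *
  (Ex ρ ψ (RG0.x (RG.toRG0 (YG F)) 10) c * Ex ρ ψ (RG0.x (RG.toRG0 (YG F)) 11) d))

theorem x7E {u : F} {S : End ℂ V} (h : Commute (ρ (x 7 u)) S) (a : F) : Commute (ρ (x 7 u)) ((E 8) a * ((E 9) 0 * S)) :=
  comm_shear ((xE3 ρ ψ 7 9 _ _).mul_right h) (fun t => by simp [sh78, -map_mul]) a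

variable (ρ ψ)

theorem iW (a b c d : F) : W a b c d * W a b c d = W a b c d :=
  idem_mul (Ex_idem (opG 8) a) (idem_mul (Ex_idem (opG 9) b) (idem_mul (Ex_idem (opG 10) c) (Ex_idem (opG 11) d) (EE ρ ψ 10 11 c d))
    ((EE ρ ψ 9 10 b c).mul_right (EE ρ ψ 9 11 b d))) (Commute.mul_right (EE3 ρ ψ (r := 9) (by decide) b a).symm
      ((EE ρ ψ 8 10 a c).mul_right (EE ρ ψ 8 11 a d)))

theorem x6W (a b c u : F) : Commute (ρ (x 6 u)) (W a b c 0) :=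
  (xE ρ ψ 6 8 u a).mul_right ((xE ρ ψ 6 9 u b).mul_right (by simpa using x6E (Commute.one_right _) c))

theorem x7W (a c d u : F) : Commute (ρ (x 7 u)) (W a 0 c d) := x7E ((xE ρ ψ 7 10 u c).mul_right (xE ρ ψ 7 11 u d)) a

theorem actW (a c t u : F) : ρ (x 6 u * x 7 t * (x 6 u)⁻¹) * W a 0 c 0 = ψ ((a * t - c * t ^ 3) * u) • (ρ (x 7 t) * W a 0 c 0) := by
  simpa [-map_mul] using act76 (T := W a 0 c 0) (c := 0) (fun t => mul_Ex' (opG 8) a t _)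
    (fun t => by rw [(xE3 ρ ψ 9 8 t a).left_comm, mul_Ex' (opG 9)]; simp)
    (fun t => by rw [(xE ρ ψ 10 8 t a).left_comm, (xE ρ ψ 10 9 t 0).left_comm, mul_Ex' (opG 10), mul_smul_comm, mul_smul_comm])
    (fun t => by rw [(xE ρ ψ 11 8 t a).left_comm, (xE ρ ψ 11 9 t 0).left_comm, (xE ρ ψ 11 10 t c).left_comm, mul_Ex (opG 11)]; simp) t u

variable {ρ ψ}

omit [CharP F 3] in
theorem exists_pow {k : ℕ} (h0 : 0 < k) (hq : k + 1 < q) : ∃ a : Fˣ, a ^ k ≠ 1 := by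
  by_contra! c
  have := Nat.le_of_dvd h0 ((FiniteField.forall_pow_eq_one_iff F k).1 c)
  omega

theorem cube (s : F) : ∃ t, t ^ 3 = s :=
  haveI := Fact.mk Nat.prime_three
  surjective_frobenius F 3 s

theorem three_dvd (hψ : ψ ≠ 1) (hq : 3 < q) (a : F) : ∃ k : ℕ, tr (W a 0 1 0) = 3 * k := by
  obtain ⟨w, hw⟩ := AddChar.ne_one_iff.1 hψ
  obtain ⟨t, ht⟩ : ∃ t, a * t - 1 * t ^ 3 ≠ 0 := by
    obtain ⟨b, hb⟩ := exists_pow (F := F) two_pos hq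
    by_contra! c
    have := c b
    rw [show a = 1 by simpa [sub_eq_zero] using c 1, show 1 * (b : F) - 1 * b ^ 3 = b * (1 - b ^ 2) by ring] at this
    exact hb (Units.ext (by simpa [sub_eq_zero, eq_comm (a := (1 : F))] using this))
  have k : ∀ t, a * t - 1 * t ^ 3 ≠ 0 → tr (ρ (x 7 t) * W a 0 1 0) = 0 := fun t h => by
    have := tr_semi ((semi_rho (x 6 (w / (a * t - 1 * t ^ 3))) (x 7 t)).mul_right (x6W ρ ψ a 0 1 _))
    rw [actW, mul_div_cancel₀ _ h, map_smul, smul_eq_mul, eq_comm, mul_left_eq_self₀] at this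
    exact this.resolve_left hw
  have e : t + t = -t := by linear_combination t * CharP.cast_eq_zero F 3
  obtain ⟨m, hm⟩ := tr_three (iW ρ ψ a 0 1 0) (x7W ρ ψ a 1 0 t) (by
    rw [← mul_assoc (ρ _) (ρ _), ← map_mul, ← mul_assoc (ρ _) (ρ _), ← map_mul, ← opG, ← opG, e]; simp)
  rw [← mul_assoc (ρ _) (ρ _), ← map_mul, ← opG, e, k t ht, k (-t) fun c => ht (by linear_combination -c)] at hm
  exact ⟨m, by simpa using hm⟩

omit [CharP F 3] in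
theorem sq_orbit (N : F → ℕ) (h : ∀ a (z : Fˣ), N (a * z ^ 2) = N a) :
    ∑ a ∈ univ.erase 0, N a = 0 ∨ q - 1 ≤ 2 * ∑ a ∈ univ.erase 0, N a := by
  refine or_iff_not_imp_left.2 fun c => ?_
  obtain ⟨a, ha, e⟩ := exists_ne_zero_of_sum_ne_zero c
  have a0 := ne_of_mem_erase ha
  have := card_le_mul_card_image (f := fun z : Fˣ => a * z ^ 2) univ 2 fun b hb => by
    obtain ⟨z, -, rfl⟩ := mem_image.1 hb
    refine (card_le_card fun y hy => ?_).trans (card_le_two (a := z) (b := -z))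
    simpa [a0, sq_eq_sq_iff_eq_or_eq_neg, Units.ext_iff] using hy
  rw [card_univ, Fintype.card_units] at this
  refine this.trans (Nat.mul_le_mul_left _ ((card_eq_sum_ones _).le.trans ((sum_le_sum fun b hb => ?_).trans
    (sum_le_sum_of_subset fun b hb => ?_)))) <;> obtain ⟨z, -, rfl⟩ := mem_image.1 hb
  · rwa [h, Nat.one_le_iff_ne_zero]
  · simp [a0]

theorem m_ne (hψ : ψ ≠ 1) (hf : tr (1 - (E 11) 0) ≠ 0) (hq : 7 < q) : tr (W 0 1 0 1) ≠ 0 := fun h => by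
  obtain ⟨w, hw⟩ := AddChar.ne_one_iff.1 hψ
  obtain ⟨a, ha⟩ := exists_pow (F := F) (k := 6) (by norm_num) hq
  obtain ⟨s1, s2⟩ := short_split (ρ := ρ) hψ 1
  have s3 := heis10 hψ fun u => (xE ρ ψ 6 8 u 0).mul_right (xE ρ ψ 6 9 u 1)
  simp (disch := decide) only [mul_assoc, EE3, EE3', h, s2, mul_zero] at s3
  have c1 : Commute ((E 8) 0) ((E 9) 0) := (EE3 ρ ψ (r := 9) (by decide) 0 0).symm
  have s4 := eq_zero_of_tr (idem_mul (idem_sub (idem_mul (Ex_idem (opG 8) 0) (Ex_idem (opG 9) 0) c1)) (Ex_idem (opG 11) 1)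
    ((Commute.one_left _).sub_left ((EE ρ ψ 8 11 0 1).mul_left (EE ρ ψ 9 11 0 1)))) (by simp [sub_mul, mul_assoc, s1, s3])
  rw [sub_mul, one_mul, sub_eq_zero, mul_assoc] at s4
  have h8 : ∀ t, ρ (x 8 t) * (E 11) 1 = (1 : ℂ) • (E 11) 1 := fun t => by rw [s4, mul_Ex' (opG 8)]; simp
  have h9 : ∀ t, ρ (x 9 t) * (E 11) 1 = (E 11) 1 := fun t => by rw [s4, c1.left_comm, mul_Ex' (opG 9)]; simp
  obtain ⟨u, u0, hu⟩ := nE ρ ψ 6 11 10
  obtain ⟨c, c0, hc⟩ := nxG (F := F) (r := 6) (s := 8) (k := 7) (by decide +kernel) one_ne_zero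
  have k1 : ∀ t, ρ (x 7 t) * ((E 10) 0 * (E 11) 1) = ψ (-(t ^ 3 * u⁻¹ ^ 2)) • ((E 10) 0 * (E 11) 1) := fun t => by
    have e1 := semi_fix (by simpa [u0] using hu u⁻¹) (h8 (t / c))
    rw [hc, mul_div_cancel₀ _ c0] at e1
    have e2 := semi_fix (shear (ψ := ψ) (d := u⁻¹) one_ne_zero (xE ρ ψ 6 11 u⁻¹ 1) (fun t => by simpa using sh610 1 u⁻¹ t 1) 0)
      (a := x 7 t) (s := 1) (by rw [zero_mul, zero_add, ← mul_assoc, e1, smul_mul_assoc])
    rw [act76 (a := 0) (b := 0) (c := 1) (fun t => by rw [(xE ρ ψ 8 10 t 0).left_comm, h8]; simp)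
      (fun t => by rw [(xE ρ ψ 9 10 t 0).left_comm, h9]) (fun t => mul_Ex' (opG 10) 0 t _)
      (fun t => by rw [(xE ρ ψ 11 10 t 0).left_comm, mul_Ex (opG 11), mul_smul_comm]), one_smul] at e2
    conv_rhs => rw [← e2, smul_smul, ← AddChar.map_add_eq_mul]
    rw [show -(t ^ 3 * u⁻¹ ^ 2) + (0 * t - 0 * t ^ 3 + 1 * t ^ 3 * u⁻¹) * u⁻¹ = 0 by ring, AddChar.map_zero_eq_one, one_smul]
  have a1 : 1 - (a : F) ^ 6 ≠ 0 := sub_ne_zero.2 fun e => ha (Units.ext (by simpa using e.symm))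
  obtain ⟨t, ht⟩ := cube (w * u ^ 2 / (1 - (a : F) ^ 6))
  have e3 := semi_fix ((tE0 ρ ψ (a⁻¹, a) 10).mul_right (tE ρ ψ (r := 11) (by simp [lam]) 1)) (k1 t)
  rw [tG_conj, k1, show -(((lam 7 (a⁻¹, a) : F) * t) ^ 3 * u⁻¹ ^ 2) = w + -(t ^ 3 * u⁻¹ ^ 2) by
    simp only [lam, mul_pow, ht]; simp; field_simp; ring, AddChar.map_add_eq_mul] at e3
  obtain ⟨-, s5, s6⟩ := long_split (ρ := ρ) hψ (fun _ => .one_right _) (fun _ => .one_right _) (.one_right _)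
  simp only [mul_one] at s5 s6
  have := smul_left_injective ℂ (fun e => hf (by rw [map_sub, s5, ← s6, e]; simp)) e3
  exact hw (by simpa [AddChar.map_neg_eq_inv, (AddChar.val_isUnit ψ _).ne_zero] using this)

end Cfsg.Agent.H14.Dg
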