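import Cfsg.Agent.H14.Dg6
import Cfsg.Agent.H4.Integral
import Cfsg.Agent.S1055
import Cfsg.Agent.S1059

/-! The minimal degree of the groups of type `G₂`. -/

set_option autoImplicit false
set_option linter.unusedSectionVars false
set_option linter.style.haveILetI false

namespace Cfsg.Agent.H14.Dg

open Cfsg.Agent.H15 Cfsg.Lie Cfsg.Lie.ChevalleyDatum Subgroup Module Finset H26.RD
open scoped Classical commutatorElement

variable {F : Type*} [Field F] [Fintype F] {V : Type*} [AddCommGroup V] [Module ℂ V] [FiniteDimensional ℂ V]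
variable {ρ : Representation ℂ (chevG2.group F) V} {ψ : AddChar F ℂ}

local notation "x" => RG0.x (RG.toRG0 (YG F))
local notation "n" => RG0.n (RG.toRG0 (YG F))
local notation "tr" => LinearMap.trace ℂ V
local notation "q" => Fintype.card F
local notation "E" r => Ex ρ ψ (RG0.x (RG.toRG0 (YG F)) r)
local notation "τ" p => ρ (tG F p)
local notation "W" a:max b:max c:max d:max => Ex ρ ψ (RG0.x (RG.toRG0 (YG F)) 8) a * (Ex ρ ψ (RG0.x (RG.toRG0 (YG F)) 9) b *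
  (Ex ρ ψ (RG0.x (RG.toRG0 (YG F)) 10) c * Ex ρ ψ (RG0.x (RG.toRG0 (YG F)) 11) d))

attribute [local irreducible] Ex

variable (ρ ψ) in
theorem tZ (p : Fˣ × Fˣ) : Commute (τ p) (W 0 0 0 0) :=
  (tE0 ρ ψ p 8).mul_right ((tE0 ρ ψ p 9).mul_right ((tE0 ρ ψ p 10).mul_right (tE0 ρ ψ p 11)))

variable [CharP F 3]

theorem y_eq (hψ : ψ ≠ 1) : ∃ (k : ℕ) (c : F), c ≠ 0 ∧ tr (W 1 0 0 0) = q * k ∧ tr ((E 7) c * W 0 0 0 0) = k := by
  obtain ⟨k, hk, -⟩ := exists_tr (idem_mul (Ex_idem (ψ := ψ) (opG 7) 0) (iW ρ ψ 1 0 0 0)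
    (comm_Ex (fun t => (x7W ρ ψ 1 0 0 t).symm) 0).symm)
  obtain ⟨c, c0, hc⟩ := nE ρ ψ 6 7 8
  refine ⟨k, 1 * c, by simpa, hk ▸ heis hψ (opG 7) (fun d => ⟨x 6 d, x6W ρ ψ _ _ _ _, fun t => by simp [actW, mul_comm, -map_mul]⟩) 0, ?_⟩
  rw [tr_semi ((hc 1).mul_right ((nE0 ρ ψ 6 8 7).mul_right ((nE0 ρ ψ 6 9 9).mul_right
    ((nE0 ρ ψ 6 10 11).mul_right (nE0 ρ ψ 6 11 10))))), (EE ρ ψ 11 10 0 0).eq, (Commute.mul_right (comm_Ex (fun t => (xE3 ρ ψ 7 9 t 0).symm)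
      0).symm ((EE ρ ψ 7 10 0 0).mul_right (EE ρ ψ 7 11 0 0))).eq, ← mul_assoc, LinearMap.trace_mul_comm, hk]

theorem y_eq' (hψ : ψ ≠ 1) : ∃ (k : ℕ) (c : F), c ≠ 0 ∧ tr (W 0 0 1 0) = q * k ∧ tr ((E 6) c * W 0 0 0 0) = k := by
  obtain ⟨k, hk, -⟩ := exists_tr (idem_mul (Ex_idem (ψ := ψ) (opG 6) 0) (iW ρ ψ 0 0 1 0)
    (comm_Ex (fun t => (x6W ρ ψ 0 0 1 t).symm) 0).symm)
  obtain ⟨c, c0, hc⟩ := nE ρ ψ 7 6 10
  refine ⟨k, 1 * c, by simpa, hk ▸ heis hψ (opG 6) (fun d => ?_) 0, ?_⟩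
  · obtain ⟨t, rfl⟩ := cube d
    exact ⟨x 7 t, x7W ρ ψ _ _ _ _, fun u => act_flip (x7W ρ ψ _ _ _ _) (x6W ρ ψ _ _ _ _) (by simp [actW, -map_mul])⟩
  · rw [tr_semi ((hc 1).mul_right ((nE0 ρ ψ 7 8 9).mul_right ((nE0 ρ ψ 7 9 8).mul_right
      ((nE0 ρ ψ 7 10 6).mul_right (nE0 ρ ψ 7 11 11))))), (EE ρ ψ 6 11 0 0).eq, ← mul_assoc ((E 8) 0), ← mul_assoc ((E 9) 0),
      ← mul_assoc ((E 10) 1), LinearMap.trace_mul_comm, ← hk]
    simp (disch := decide) only [EE3', EE3]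

theorem z_eq (hψ : ψ ≠ 1) (hq : 2 < q) {c d : F} (c0 : c ≠ 0) (d0 : d ≠ 0) (hc : tr ((E 7) c * W 0 0 0 0) = 1)
    (hd : tr ((E 6) d * W 0 0 0 0) = 1) : ∃ r : ℕ, tr (W 0 0 0 0) = r + 2 * (q - 1) := by
  have i : ∀ a b, ∃ k : ℕ, tr ((E 6) a * ((E 7) b * W 0 0 0 0)) = k ∧ tr ((E 7) b * ((E 6) a * W 0 0 0 0)) = k := fun a b => by
    obtain ⟨k, hk, -⟩ := exists_tr (idem_mul (Ex_idem (ψ := ψ) (opG 6) a) (idem_mul (Ex_idem (ψ := ψ) (opG 7) b) (iW ρ ψ 0 0 0 0)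
      (comm_Ex (fun t => (x7W ρ ψ 0 0 0 t).symm) b).symm)
      (comm_Ex (fun t => (comm_shear (x6W ρ ψ 0 0 0 t) (fun u => by simp [actW, -map_mul]) b).symm) a).symm)
    exact ⟨k, hk, by rw [← (comm_Ex (fun t => (x6W ρ ψ 0 0 0 t).symm) a).eq, ← mul_assoc, LinearMap.trace_mul_comm, hk]⟩
  have s1 := scale hψ (opG 7) (scG 7 (fun c => (1, c)) (fun _ => by simp [lam]) fun _ => tZ ρ ψ _) c0
  have s2 := scale hψ (opG 6) (sc6 fun _ => (tE0 ρ ψ _ 7).mul_right (tZ ρ ψ _)) d0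
  have s3 := scale hψ (opG 7) (scG 7 (fun c => (c, c ^ 2)) (fun _ => by simp [lam, pow_two]) fun _ =>
    (tE ρ ψ (r := 6) (by simp [lam]) d).mul_right (tZ ρ ψ _)) c0
  obtain ⟨r, h1, -⟩ := i 0 0
  obtain ⟨k, h2, h3⟩ := i d 0
  obtain ⟨l, -, h4⟩ := i d c
  rw [hd, h3, h4, ← Nat.cast_one, ← Nat.cast_sub (by omega)] at s3
  norm_cast at s3
  obtain rfl : l = 0 := by
    by_contra e
    have := Nat.mul_le_mul_left (q - 1) (Nat.one_le_iff_ne_zero.2 e)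
    omega
  exact ⟨r, by rw [s1, s2, h1, h2, hc, show k = 1 by omega]; push_cast; ring⟩

theorem x_eq (hψ : ψ ≠ 1) (hq : 3 < q) : ∃ X : ℕ, tr ((E 9) 0 * ((E 10) 1 * (E 11) 0)) = tr (W 0 0 1 0) + 3 * X ∧
    (X = 0 ∨ q - 1 ≤ 2 * X) := by
  choose N hN using three_dvd (ρ := ρ) hψ hq
  refine ⟨_, ?_, sq_orbit N fun a z => ?_⟩
  · rw [tr_sum (ρ := ρ) hψ (opG 8), ← add_sum_erase _ _ (mem_univ 0)]
    simp only [hN, mul_sum, Nat.cast_sum]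
  · have := tr_semi ((semi_Ex (ψ := ψ) (lam 8 (z ^ 2, z)).ne_zero (tG_conj _ 8) a).mul_right (SemiconjBy.mul_right (tE0 ρ ψ (z ^ 2, z) 9)
      (SemiconjBy.mul_right (tE ρ ψ (r := 10) (by simp [lam]) 1) (tE0 ρ ψ (z ^ 2, z) 11))))
    rw [hN, hN] at this
    simpa [lam] using this

theorem deg_3 (hψ : ψ ≠ 1) (hf : tr (1 - (E 11) 0) ≠ 0) (hq : 9 ≤ q) :
    q ^ 4 + q ^ 2 ≤ finrank ℂ V + 2 := by
  have N := fun a b c d => (exists_tr (iW ρ ψ a b c d)).imp fun _ h => h.1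
  obtain ⟨m, hm⟩ := N 0 1 0 1
  obtain ⟨m1, hm1⟩ := N 0 0 0 1
  obtain ⟨m2, hm2⟩ := N 0 1 0 0
  obtain ⟨z, hz⟩ := N 0 0 0 0
  obtain ⟨k, c, c0, hk, hc⟩ := y_eq (ρ := ρ) hψ
  obtain ⟨l, d, d0, hl, hd⟩ := y_eq' (ρ := ρ) hψ
  obtain ⟨X, hX, hX'⟩ := x_eq (ρ := ρ) hψ (by omega)
  have m0 : 1 ≤ m := Nat.one_le_iff_ne_zero.2 fun e => m_ne hψ hf (by omega) (by simpa [e] using hm)
  have n9 : ∀ a, Commute (ρ (n 6 1)) ((E 9) a) := fun a => by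
    rw [RG0.n, negG', map_mul, map_mul]
    exact ((xE ρ ψ 6 9 _ _).mul_left (xE ρ ψ 5 9 _ _)).mul_left (xE ρ ψ 6 9 _ _)
  have L := fun a => (long_split (ψ := ψ) hψ (fun c => tE ρ ψ (r := 9) (by simp [lam]) a) (fun u => xE ρ ψ 6 9 u a) (n9 a)).2.2
  have s0 := scale (ρ := ρ) hψ (opG 11) (sc11 fun _ => .one_right _) one_ne_zero
  obtain ⟨s1, s2⟩ := short_split (ρ := ρ) hψ 1
  obtain ⟨s3, s4⟩ := short_split (ρ := ρ) hψ 0
  have H := fun a b => heis10 hψ fun u => (xE ρ ψ 6 8 u a).mul_right (xE ρ ψ 6 9 u b)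
  have s5 := H 0 0
  have s6 := H 0 1
  have s7 := H 1 0
  have s8 := heis8 hψ fun u => (xE ρ ψ 7 10 u 1).mul_right (xE ρ ψ 7 11 u 0)
  have s9 := heis8 hψ fun u => (xE ρ ψ 7 10 u 0).mul_right (xE ρ ψ 7 11 u 1)
  have s10 := L 1
  have s11 := L 0
  have S10 := fun a => scale hψ (opG 10) (sc10 (ρ := ρ) (T := (E 8) 0 * ((E 9) a * (E 11) 0)) fun c => (tE0 ρ ψ _ 8).mul_right
    ((tE ρ ψ (r := 9) (by simp [lam]) a).mul_right (tE0 ρ ψ _ 11))) one_ne_zero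
  have s12 := S10 0
  have s13 := S10 1
  have s14 := scale hψ (opG 8) (scG (ρ := ρ) 8 (fun c => (c, c⁻¹)) (fun _ => rfl) fun c => (tE0 ρ ψ _ 9).mul_right
    ((tE0 ρ ψ _ 10).mul_right (tE ρ ψ (r := 11) (by simp [lam]) 1))) one_ne_zero
  have s15 := scale hψ (opG 8) (scG (ρ := ρ) 8 (fun c => (c, 1)) (fun _ => rfl) fun c => (tE0 ρ ψ _ 9).mul_right
    (tE0 ρ ψ _ 11)) one_ne_zero
  have s16 := scale hψ (opG 8) (scG (ρ := ρ) 8 (fun c => (c, 1)) (fun _ => rfl) fun c => (tE0 ρ ψ _ 9).mul_right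
    ((tE0 ρ ψ _ 10).mul_right (tE0 ρ ψ _ 11))) one_ne_zero
  have s17 := scale hψ (opG 10) (sc10 (ρ := ρ) fun c => (tE0 ρ ψ _ 9).mul_right (tE0 ρ ψ _ 11)) one_ne_zero
  have Z := z_eq (ρ := ρ) hψ (by omega) c0 d0
  simp (disch := decide) only [EE3, EE3', mul_one, hm, hm1, hm2, hz, hk, hl, hX, hc, hd, LinearMap.trace_one] at *
  have g0 : (q : ℂ) - 1 ≠ 0 := sub_ne_zero.2 (by norm_cast; omega)
  have g1 : tr (W 0 1 1 0) = m := mul_left_cancel₀ qne (by rw [← s8, ← s10, s9])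
  have g2 : tr (W 1 0 0 1) = m := mul_left_cancel₀ qne (by rw [← s7, ← s2, s6])
  have g3 : (q * l + 3 * X : ℂ) + m = m1 + q * m := by linear_combination s14 - s11 + (q - 1) * g2
  have g4 : (q * k + 3 * X : ℂ) + m = m2 + q * m := mul_left_cancel₀ g0 (by
    linear_combination s15 - s17 - s16 + s12 + (q - 1) * (s13 - s4) + (q - 1) ^ 2 * g1)
  have g5 : (finrank ℂ V : ℂ) = z + (q - 1) * (q * l) + (q ^ 2 - 1) * (m2 + (q - 1) * m) + (q - 1) * (q * m1 + (q ^ 2 - 1) * (q * m)) := by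
    linear_combination s0 + s3 + s12 + (q ^ 2 - 1) * (s13 - s4 + (q - 1) * g1) + (q - 1) * (s1 + s5 + (q ^ 2 - 1) * (s6 - s2))
  generalize finrank ℂ V = D at *
  generalize q = a at *
  obtain ⟨b, rfl⟩ : ∃ b, a = b + 9 := ⟨a - 9, by omega⟩
  have g6 : (D : ℂ) = z + (b + 8) * ((b + 9) * l) + (b + 8) * (b + 10) * (m2 + (b + 8) * m) +
      (b + 8) * ((b + 9) * m1 + (b + 8) * (b + 10) * ((b + 9) * m)) := by rw [g5]; push_cast; ring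
  norm_cast at g3 g4 g6
  refine not_lt.1 fun hlt => ?_
  obtain rfl : m = 1 := by
    by_contra e
    obtain ⟨m, rfl⟩ : ∃ k, m = k + 2 := ⟨m - 2, by omega⟩
    ring_nf at g6 hlt
    omega
  have a1 : m1 ≤ 3 ∧ m2 ≤ 3 := by
    constructor <;> by_contra! e <;> obtain ⟨m, rfl⟩ := Nat.exists_eq_add_of_lt e <;> ring_nf at g6 hlt <;> omega
  obtain rfl : X = 0 := by omega
  obtain rfl : l = 1 := by nlinarith
  obtain rfl : k = 1 := by nlinarith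
  obtain ⟨r, hr⟩ := Z Nat.cast_one Nat.cast_one
  obtain rfl : m1 = 1 := by omega
  obtain rfl : m2 = 1 := by omega
  rw [show ((b + 9 : ℕ) : ℂ) - 1 = b + 8 by push_cast; ring] at hr
  norm_cast at hr
  ring_nf at g6 hlt
  omega

omit [CharP F 3] in
theorem degree_G2 (k : ℕ) (ρ : Representation ℂ (chevG2.group F) (Fin k → ℂ)) (hρ : ρ.IsIrreducible) (hk : 2 ≤ k) :
    (q % 3 = 1 → 4 < q → q ^ 3 + 1 ≤ k) ∧ (q % 3 = 2 → 2 < q → q ^ 3 - 1 ≤ k) ∧ (q % 3 = 0 → 3 < q → q ^ 4 + q ^ 2 + 1 ≤ k) := by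
  haveI := Fintype.ofFinite (chevG2.group F)
  obtain ⟨ψ, hψ⟩ := (AddChar.exists_apply_ne_zero (a := (1 : F))).2 one_ne_zero
  replace hψ : ψ ≠ 1 := fun e => hψ (by simp [e])
  have hf : 2 < q → LinearMap.trace ℂ _ (1 - Ex ρ ψ (x 11) 0) ≠ 0 := fun h => by
    obtain ⟨a, ha⟩ := exists_pow (F := F) one_pos h
    haveI := (S1055.result ⟨(a : F), a.ne_zero, by simpa using ha⟩).1
    exact eq_one_of_tr hρ hk (opG 11) (by simp [(YG F).x_eq_one_iff])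
  obtain ⟨p, hp, m, h1, h2⟩ := FiniteField.card' F
  have h3 : q % 3 ≠ 0 → (3 : F) ≠ 0 := fun h e => by
    obtain rfl := (Nat.prime_dvd_prime_iff_eq h1 Nat.prime_three).1 ((CharP.cast_eq_zero_iff F p 3).1 (by exact_mod_cast e))
    exact h (Nat.mod_eq_zero_of_dvd (h2 ▸ dvd_pow_self 3 m.ne_zero))
  refine ⟨fun a b => by simpa using (deg_ne3 hψ (hf (by omega)) (h3 (by omega)) b).2 a,
    fun a b => by simpa using (deg_ne3 hψ (hf b) (h3 (by omega)) (by omega)).1, fun a b => not_lt.1 fun c => ?_⟩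
  obtain rfl : 3 = p := (Nat.prime_dvd_prime_iff_eq Nat.prime_three h1).1
    (Nat.prime_three.dvd_of_dvd_pow (h2 ▸ Nat.dvd_of_mod_eq_zero a))
  have h9 : 3 ^ 2 ≤ q := h2 ▸ Nat.pow_le_pow_right three_pos ((Nat.pow_lt_pow_iff_right (by norm_num)).1 ((pow_one 3).trans_lt (h2 ▸ b)))
  obtain ⟨r, hr⟩ := Nat.exists_eq_add_of_le (deg_3 hψ (hf (by omega)) h9)
  rw [finrank_fin_fun] at hr
  exact arith_G3 h9 (by omega) hr (S1059.result (F := F) rfl ▸ H4.Cfsg.IsIrrCharacter.degree_dvd_card ⟨k, ρ, hρ, rfl⟩ (by simp))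

end Cfsg.Agent.H14.Dg
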