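import Cfsg.Agent.H14.Dg3
import Cfsg.Agent.H14.Lift2

/-! Representations of simply laced groups: Heisenberg subgroups and lines. -/

set_option autoImplicit false
set_option linter.unusedSectionVars false

namespace Cfsg.Agent.H14.Dg

open Module Finset H26.RD
open scoped Classical commutatorElement

variable {ι Φ : Type} [Fintype ι] [DecidableEq ι] [Fintype Φ] {R : RS ι Φ} {F : Type*} [Field F] [Fintype F]
  {G : Type*} [Group G] [Fintype G] {X : RG R F G} {V : Type*} [AddCommGroup V] [Module ℂ V] [FiniteDimensional ℂ V]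
  {ρ : Representation ℂ G V} {ψ : AddChar F ℂ}

local notation "x" => RG0.x (RG.toRG0 X)
local notation "tr" => LinearMap.trace ℂ V
local notation "q" => Fintype.card F
local notation "E" r => Ex ρ ψ (RG0.x (RG.toRG0 X) r)

attribute [local irreducible] Ex

theorem ht_refl (r s : Φ) : R.ht (R.refl r s) = R.ht s - R.pair r s * R.ht r := by simp [RS.ht, R.vec_refl, -zsmul_eq_mul]

variable (ρ X) in
/-- the projection onto the fixed space of a set of root subgroups -/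
noncomputable def pG (S : Set Φ) : End ℂ V := pj ρ (X.gen S) fun _ => 1

variable {S : Set Φ}

theorem pG_idem : pG X ρ S * pG X ρ S = pG X ρ S := pj_idem (isCh_one _)

theorem x_pG {r : Φ} (h : r ∈ S) (t : F) : ρ (x r t) * pG X ρ S = pG X ρ S :=
  (mul_pj (isCh_one _) (X.x_mem_gen h t)).trans (one_smul _ _)

theorem pG_apply {v : V} (h : ∀ r ∈ S, ∀ t, ρ (x r t) v = v) : pG X ρ S v = v :=
  pj_apply (isCh_one _) fun _ ha => (X.gen_le.2 h : _ ≤ Fv ρ v) ha |>.trans (one_smul _ _).symm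

theorem comm_pG {g : G} (h : ∀ s ∈ S, ∀ u, g * x s u * g⁻¹ ∈ X.gen S) : Commute (ρ g) (pG X ρ S) :=
  pj_conj fun _ ha => ⟨(X.gen_le.2 h : _ ≤ (X.gen S).comap (MulAut.conj g).toMonoidHom) ha, rfl⟩

theorem comm_pG' {g : G} (h : ∀ s ∈ S, ∀ u, Commute g (x s u)) : Commute (ρ g) (pG X ρ S) :=
  comm_pG fun s hs u => by simpa [(h s hs u).eq] using X.x_mem_gen hs u

theorem pG_comm {T : End ℂ V} (h : ∀ r ∈ S, ∀ t, Commute (ρ (x r t)) T) : Commute (pG X ρ S) T :=
  (pj_comm fun _ ha => X.gen_induction (P := fun g => Commute T (ρ g)) (by simp)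
    (fun r hr t g _ e => by simpa using (h r hr t).symm.mul_right e) ha).symm

theorem pG_empty : pG X ρ ∅ = 1 := LinearMap.ext fun _ => pG_apply (by simp)

theorem pG_insert {a : Φ} (h : ∀ t, Commute (ρ (x a t)) (pG X ρ S)) : pG X ρ (insert a S) = (E a) 0 * pG X ρ S := by
  have c : Commute (pG X ρ (insert a S)) ((E a) 0) :=
    comm_Ex (fun t => (pj_conj fun y hy => ⟨mul_mem (mul_mem (X.x_mem_gen (Set.mem_insert _ _) t) hy)
      (inv_mem (X.x_mem_gen (Set.mem_insert _ _) t)), rfl⟩).symm) 0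
  have e : pG X ρ (insert a S) * ((E a) 0 * pG X ρ S) = (E a) 0 * pG X ρ S := LinearMap.ext fun v => pG_apply (by
    rintro r (rfl | hr) t
    · simpa using LinearMap.congr_fun (mul_Ex' (X.x_add r) 0 t _) v
    · rw [← End.mul_apply, ← (comm_Ex (fun t => (h t).symm) 0).eq, ← mul_assoc, x_pG hr])
  rw [← e, ← mul_assoc, c.eq, Ex_mul_of fun t => by simpa using x_pG (Set.mem_insert a S) t]
  exact (pj_mul_pj (isCh_one _) (X.gen_mono (Set.subset_insert a S))).symm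

attribute [local irreducible] pG

variable (hl : ∀ r s, R.len r = R.len s)
include hl

theorem cjS {r s : Φ} (h : R.pair r s = -1) (t u : F) : x r t * x s u * (x r t)⁻¹ = x (R.refl r s) (X.η r s * t * u) * x s u := by
  rw [← X.comm_sl hl h, commutatorElement_def]; group

theorem pair_ge {r s : Φ} (h : s ≠ R.neg r) (h' : R.pair r s ≠ -1) : 0 ≤ R.pair r s := by
  rcases R.pair_cases_sl hl r s with e | e | e | e | e <;> simp_all

theorem pair_le {r s : Φ} (h : s ≠ r) : R.pair r s ≤ 1 := by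
  rcases R.pair_cases_sl hl r s with e | e | e | e | e <;> simp_all

theorem refl_star {β γ : Φ} (h : R.pair β γ = 1) : R.pair (R.refl γ β) γ = -1 ∧ R.refl (R.refl γ β) γ = β := by
  have e : R.pair (R.refl γ β) γ = -1 := by simp [R.pair_refl_left_sl hl, h, R.pair_comm_sl hl γ β]
  exact ⟨e, R.vec_inj (by simp [R.vec_refl, e, h, R.pair_comm_sl hl γ β])⟩

theorem heisY (hψ : ψ ≠ 1) {β : Φ} {a : F} (ha : a ≠ 0) {T : End ℂ V} (hT : ∀ t, ρ (x β t) * T = ψ (a * t) • T) (Y : Finset Φ)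
    (h1 : ∀ γ ∈ Y, R.pair β γ = 1) (h2 : ∀ γ ∈ Y, ∀ δ ∈ Y, 0 ≤ R.pair γ δ)
    (h3 : ∀ γ ∈ Y, ∀ t, Commute (ρ (x (R.refl γ β) t)) T) : tr T = q ^ Y.card * tr (pG X ρ Y * T) := by
  induction Y using Finset.induction_on with
  | empty => simp [pG_empty]
  | insert γ s hs ih =>
    have m := fun δ (h : δ ∈ s) => mem_insert_of_mem (b := γ) h
    have m0 := mem_insert_self γ s
    obtain ⟨e1, e2⟩ := refl_star hl (h1 γ m0)
    rw [ih (fun δ h => h1 δ (m δ h)) (fun δ h ε h' => h2 δ (m δ h) ε (m ε h')) fun δ h => h3 δ (m δ h), coe_insert,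
      pG_insert (ψ := ψ) fun t => comm_pG' fun δ h => X.commute_sl hl (h2 γ m0 δ (m δ h)) t, card_insert_of_notMem hs, pow_succ,
      mul_assoc, mul_assoc, heis hψ (X.x_add γ) (fun d => ⟨x (R.refl γ β) (X.η (R.refl γ β) γ * d / a),
        (comm_pG' fun δ h => X.commute_sl hl ?_ _).mul_right (h3 γ m0 _), fun t => ?_⟩) 0]
    · have := pair_le hl (r := γ) (ne_of_mem_of_not_mem h hs)
      rw [R.pair_refl_left_sl hl, h1 δ (m δ h), R.pair_comm_sl hl γ β, h1 γ m0]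
      omega
    · rw [cjS hl e1, e2, (X.commute_sl hl (by simp [h1 γ m0]) _ _).eq, map_mul, mul_assoc,
        (comm_pG' (ρ := ρ) (S := s) fun δ h => X.commute_sl hl (r := β) (by simp [h1 δ (m δ h)]) _).left_comm, hT, mul_smul_comm,
        mul_smul_comm]
      congr 2
      linear_combination (exp := 1) d * t * X.η_cast_mul_self (R.refl γ β) γ +
        X.η (R.refl γ β) γ * X.η (R.refl γ β) γ * d * t * mul_inv_cancel₀ ha

theorem swap_apply {r s : Φ} {v : V} (h : s ≠ R.neg r) (h' : R.pair r s = -1 → ∀ w, ρ (x (R.refl r s) w) v = v) (t u : F) :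
    ρ (x r t) (ρ (x s u) v) = ρ (x s u) (ρ (x r t) v) := by
  by_cases e : R.pair r s = -1
  · have := h' e (X.η r s * -t * -u)
    rw [← X.comm_sl hl e, X.x_neg, X.x_neg] at this
    rw [← End.mul_apply, ← map_mul, show x r t * x s u = x s u * (x r t * ⁅(x r t)⁻¹, (x s u)⁻¹⁆) by group]
    simp only [map_mul, End.mul_apply, this]
  · rw [← End.mul_apply, ← map_mul, (X.commute_sl hl (pair_ge hl h e) t u).eq, map_mul, End.mul_apply]

variable (X ρ ψ) in
omit hl in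
/-- the line attached to a simple root -/
structure Lin (β : Φ) (a : F) (v : V) : Prop where
  ne : v ≠ 0
  eig : ∀ t, ρ (x β t) v = ψ (a * t) • v
  fix : ∀ γ, R.pos γ → R.pair β γ = 1 → ∀ t, ρ (x γ t) v = v
  uniq : ∀ w, (∀ t, ρ (x β t) w = ψ (a * t) • w) → (∀ γ, R.pos γ → R.pair β γ = 1 → ∀ t, ρ (x γ t) w = w) → ∃ c : ℂ, w = c • v

variable {β : Φ} {a : F} {v : V}

theorem Lin.stab (h : Lin X ρ ψ β a v) {κ : Φ} (h1 : R.pair β κ ≤ 0) (h2 : κ ≠ R.neg β)
    (h3 : R.pair β κ = -1 → R.pos (R.refl β κ)) (h4 : ∀ γ, R.pos γ → R.pair β γ = 1 → κ ≠ R.neg γ ∧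
      (R.pair γ κ = -1 → ∀ t, ρ (x (R.refl γ κ) t) v = v)) (t : F) : x κ t ∈ Ln ρ v :=
  h.uniq _ (fun u => by rw [swap_apply hl h2 fun e => h.fix _ (h3 e) (by simp [R.pair_refl_self, e]), h.eig, map_smul])
    fun γ a b u => by rw [swap_apply hl (h4 γ a b).1 (h4 γ a b).2, h.fix γ a b]

theorem Lin.stab0 (h : Lin X ρ ψ β a v) {κ : Φ} (h1 : R.pair β κ = 0) (h2 : -1 ≤ R.ht κ) (t : F) : x κ t ∈ Ln ρ v :=
  h.stab hl h1.le (by rintro rfl; simp at h1) (by simp [h1]) (fun γ a b => ⟨by rintro rfl; simp [b] at h1, fun e => h.fix _ (by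
    have := a.ht_pos
    have := R.ht_ne_zero (R.refl γ κ)
    rw [R.pos_iff_ht, ht_refl, e] at *
    omega) (by simp [R.pair_refl_right, *])⟩) t

theorem fix_sum {κ δ : Φ} (h : R.pair κ δ = 1) (h1 : ∀ t, x κ t ∈ Ln ρ v) (h2 : ∀ t, x (R.refl κ δ) t ∈ Ln ρ v) (t : F) :
    ρ (x δ t) v = v := by
  have := comm_mem_Fv (h1 (X.η κ (R.refl κ δ))) (h2 t)
  rwa [X.comm_sl hl (by simp [R.pair_refl_self, h]), R.refl_refl, X.η_cast_mul_self, one_mul] at this

variable (H1 : ∀ i δ, R.pair (R.simple i) δ = 0 → 1 < R.ht δ →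
  ∃ κ, R.pair (R.simple i) κ = 0 ∧ -1 ≤ R.ht κ ∧ R.ht κ < R.ht δ ∧ R.pair κ δ = 1)
include H1

variable {i : ι}

theorem Lin.stab_pos (h : Lin X ρ ψ (R.simple i) a v) {κ : Φ} (hκ : R.pos κ) (t : F) : x κ t ∈ Ln ρ v := by
  have p := hκ.ht_pos
  rcases R.pair_cases_sl hl (R.simple i) κ with rfl | rfl | e | e | e
  · exact ⟨_, h.eig t⟩
  · exact absurd hκ (R.not_pos_neg_simple i)
  · refine h.stab hl (by omega) (by rintro rfl; simp at e) (fun _ => by rw [R.pos_iff_ht, ht_refl, e]; simp; omega)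
      (fun γ a b => ⟨RS.ne_neg_of_f RS.htv (add_pos a.ht_pos p), fun c => ?_⟩) t
    have := a.ht_pos
    obtain ⟨k, a1, a2, a3, a4⟩ := H1 i (R.refl γ κ) (by simp [R.pair_refl_right, *]) (by rw [ht_refl, c]; omega)
    exact fix_sum hl a4 (h.stab0 hl a1 a2) (h.stab0 hl (by simp [R.pair_refl_right, *]) (by rw [ht_refl, a4]; omega))
  · exact h.stab0 hl e (by omega) t
  · exact Fv_le v (h.fix κ hκ e t)

theorem Lin.fix_ne (h : Lin X ρ ψ (R.simple i) a v) {δ : Φ} (hδ : R.pos δ) (h1 : ∀ j, δ ≠ R.simple j) (t : F) : ρ (x δ t) v = v := by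
  obtain ⟨j, -, hj⟩ := hδ.exists_ap_pos
  have := pair_le hl (h1 j)
  exact fix_sum hl (κ := R.simple j) (by rw [R.pair_simple] at *; omega) (h.stab_pos hl H1 (R.pos_simple j))
    (h.stab_pos hl H1 (by simpa using hδ.srefl (h1 j))) t

theorem Lin.fix_simple (h : Lin X ρ ψ (R.simple i) a v) {j k : ι} (h1 : R.car i k = 0) (h2 : R.car k j = -1) (t : F) :
    ρ (x (R.simple j) t) v = v :=
  fix_sum hl (κ := R.neg (R.simple k)) (by simp [R.pair_simple_simple, h2]) (h.stab0 hl (by simp [R.pair_simple_simple, h1]) (by simp))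
    (h.stab_pos hl H1 (by simpa using (R.pos_simple j).srefl fun e => by simp [R.simple_injective e] at h2)) t

theorem Lin.fix_pos (hψ : ψ ≠ 1) (H2 : ∀ i j, i ≠ j → ∃ k, R.car i k = 0 ∧ R.car k j = -1 ∨ R.car j k = 0 ∧ R.car k i = -1)
    (hL : ∀ i b, b ≠ 0 → ∃ w, Lin X ρ ψ (R.simple i) b w) (h : Lin X ρ ψ (R.simple i) a v) (ha : a ≠ 0) {δ : Φ} (hδ : R.pos δ)
    (h1 : δ ≠ R.simple i) (t : F) : ρ (x δ t) v = v := by
  by_cases c : ∀ j, δ ≠ R.simple j
  · exact h.fix_ne hl H1 hδ c t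
  push Not at c
  obtain ⟨j, rfl⟩ := c
  obtain ⟨k, ⟨a1, a2⟩ | ⟨a1, a2⟩⟩ := H2 i j fun e => h1 (e ▸ rfl)
  · exact h.fix_simple hl H1 a1 a2 t
  obtain ⟨b, hb⟩ : ∃ b, (E (R.simple j)) b v ≠ 0 := by
    by_contra! c
    exact h.ne (by simpa [c] using (LinearMap.congr_fun (sum_Ex (ρ := ρ) hψ (X.x_add (R.simple j))) v).symm)
  obtain ⟨c, hc⟩ : ∃ c : ℂ, c • v = (E (R.simple j)) b v := Submodule.mem_span_singleton.1 (by
    unfold Ex
    simp only [LinearMap.smul_apply, LinearMap.sum_apply]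
    refine Submodule.smul_mem _ _ (Submodule.sum_mem _ fun u _ => Submodule.smul_mem _ _ ?_)
    obtain ⟨c, e⟩ := h.stab_pos hl H1 hδ u
    exact Submodule.mem_span_singleton.2 ⟨c, e.symm⟩)
  have e : ∀ u, ρ (x (R.simple j) u) v = ψ (b * u) • v := fun u => smul_right_injective V (r := c) (fun e => hb (by simp [← hc, e])) (by
    simpa [← hc, smul_comm c] using LinearMap.congr_fun (mul_Ex (ρ := ρ) (ψ := ψ) (X.x_add (R.simple j)) b u) v)
  by_cases b0 : b = 0
  · simp [e, b0]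
  obtain ⟨w, hw⟩ := hL j b b0
  obtain ⟨d, hd⟩ := hw.uniq v e fun γ p1 p2 => h.fix_ne hl H1 p1 fun l e => by
    have := R.ht_ne_zero (R.refl (R.simple j) γ)
    rw [ht_refl, p2, e] at this
    simp at this
  obtain ⟨u, hu⟩ := AddChar.ne_one_iff.1 hψ
  have := h.eig (u / a)
  rw [mul_div_cancel₀ _ ha, hd, map_smul, hw.fix_simple hl H1 a1 a2, ← hd] at this
  exact absurd (smul_left_injective ℂ h.ne (this.symm.trans (one_smul _ _).symm)) hu

end Cfsg.Agent.H14.Dg
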