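import Cfsg.Agent.H14.Dg8

/-! Representations of simply laced groups: the degree bound. -/

set_option autoImplicit false
set_option linter.unusedSectionVars false

namespace Cfsg.Agent.H14.Dg

open Module Finset H26.RD
open scoped Classical commutatorElement

variable {ι Φ : Type} [Fintype ι] [DecidableEq ι] [Fintype Φ] {R : RS ι Φ} {F : Type*} [Field F] [Fintype F]
  {G : Type*} [Group G] [Fintype G] {X : RG R F G} {V : Type*} [AddCommGroup V] [Module ℂ V] [FiniteDimensional ℂ V]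
  {ρ : Representation ℂ G V} {ψ : AddChar F ℂ}

local notation "x" => RG0.x (RG.toRG0 X)
local notation "tr" => LinearMap.trace ℂ V
local notation "q" => Fintype.card F
local notation "E" r => Ex ρ ψ (RG0.x (RG.toRG0 X) r)

attribute [local irreducible] Ex pG

variable (hl : ∀ r s, R.len r = R.len s)
include hl

theorem step_pair {i : ι} {r : Φ} (h : r ≠ R.simple i) (h' : 0 < R.ap i (R.vec r)) : R.pair (R.simple i) r = 1 := by
  have := pair_le hl h
  rw [R.pair_simple] at *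
  omega

theorem exists_legs {β : Φ} (hβ : R.pos β) : ∃ Y : Finset Φ, (Y.card : ℤ) + 1 = R.ht β ∧
    (∀ γ ∈ Y, R.pos γ ∧ R.pair β γ = 1 ∧ R.ht γ < R.ht β) ∧ ∀ γ ∈ Y, ∀ δ ∈ Y, 0 ≤ R.pair γ δ := by
  apply R.pos_induction (hr := hβ)
  · exact fun i => ⟨∅, by simp⟩
  · intro i r hr hi _ h2 ih
    obtain ⟨Y, a1, a2, a3⟩ := ih
    have p := step_pair hl hi h2
    have p1 : R.pair (R.srefl i r) (R.simple i) = -1 := by rw [R.pair_comm_sl hl, ← R.refl_simple, R.pair_refl_self, p]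
    have e : ∀ γ, R.ht (R.srefl i γ) = R.ht γ - R.pair (R.simple i) γ := fun γ => by rw [R.ht_srefl, R.pair_simple]
    have b : ∀ γ ∈ Y, γ ≠ R.simple i ∧ -1 ≤ R.pair (R.simple i) γ ∧ R.pair (R.simple i) γ ≤ 0 ∧
        (R.pair (R.simple i) γ = -1 → R.ht γ + 1 < R.ht r) := fun γ h => by
      obtain ⟨c1, c2, c3⟩ := a2 γ h
      rw [e, p] at c3
      rcases R.pair_cases_sl hl (R.simple i) γ with rfl | rfl | c | c | c
      · omega
      · exact absurd c1 (R.not_pos_neg_simple i)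
      · exact ⟨by rintro rfl; omega, by omega, by omega, fun _ => by omega⟩
      · exact ⟨by rintro rfl; omega, by omega, by omega, fun _ => by omega⟩
      · have : γ = r := R.eq_of_pair_sl hl (by
          rw [← R.refl_simple, R.pair_refl_left_sl hl, p, c] at c2; omega)
        subst this
        omega
    have n : R.simple i ∉ Y.image (R.srefl i) := fun h => by
      obtain ⟨γ, h, c⟩ := mem_image.1 h
      have := (a2 γ h).1
      rw [← R.srefl_srefl i γ, c, R.srefl_simple_self] at this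
      exact R.not_pos_neg_simple i this
    have c : ∀ γ ∈ Y, 0 ≤ R.pair (R.simple i) (R.srefl i γ) := fun γ h => by
      rw [← R.refl_simple, R.pair_refl_self]; have := b γ h; omega
    have := (hr.srefl hi).ht_pos
    rw [e, p] at this a1
    refine ⟨insert _ (Y.image (R.srefl i)), by
      rw [card_insert_of_notMem n, card_image_of_injective _ (Function.LeftInverse.injective (R.srefl_srefl i))]
      push_cast; omega, ?_, ?_⟩ <;> simp only [forall_mem_insert, forall_mem_image]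
    · refine ⟨⟨R.pos_simple i, R.pair_comm_sl hl _ _ ▸ p, by simp; omega⟩,
        fun γ h => ⟨(a2 γ h).1.srefl (b γ h).1, by rw [← (a2 γ h).2.1, ← R.pair_srefl i r, R.srefl_srefl], ?_⟩⟩
      have := b γ h
      have := a2 γ h
      rw [e, p] at this
      rw [e]
      omega
    · exact ⟨⟨by simp, c⟩, fun γ h => ⟨R.pair_comm_sl hl _ _ ▸ c γ h, fun δ h' => by simpa using a3 γ h δ h'⟩⟩

theorem exists_vec (h : ∀ i a, a ≠ 0 → ∃ v, v ≠ 0 ∧ (∀ t, ρ (x (R.simple i) t) v = ψ (a * t) • v) ∧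
    ∀ δ, R.pos δ → δ ≠ R.simple i → ∀ t, ρ (x δ t) v = v) {β : Φ} (hβ : R.pos β) : ∀ a, a ≠ 0 → ∃ v, v ≠ 0 ∧
      (∀ t, ρ (x β t) v = ψ (a * t) • v) ∧ ∀ δ, R.pos δ → δ ≠ β → ¬ (R.pair β δ = 1 ∧ R.ht δ < R.ht β) → ∀ t, ρ (x δ t) v = v := by
  apply R.pos_induction (hr := hβ)
  · exact fun i a ha => (h i a ha).imp fun v h => ⟨h.1, h.2.1, fun δ a b _ => h.2.2 δ a b⟩
  · intro i r hr hi _ h2 ih a ha
    have p := step_pair hl hi h2
    have k : ∀ s, ∃ c : F, c ≠ 0 ∧ ∀ t v, ρ (x s (c * t)) (ρ (X.n (R.simple i) 1) v) =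
        ρ (X.n (R.simple i) 1) (ρ (x (R.srefl i s) t) v) := fun s =>
      ⟨_, mul_ne_zero (X.η_cast_ne (R.simple i) (R.srefl i s)) (zpow_ne_zero _ one_ne_zero), fun t v => by
        have := X.n_conj (R.simple i) (R.srefl i s) 1 one_ne_zero t
        rw [R.refl_simple, R.srefl_srefl] at this
        rw [← this, ← End.mul_apply, ← map_mul, inv_mul_cancel_right, map_mul, End.mul_apply]⟩
    obtain ⟨c, c0, hc⟩ := k r
    obtain ⟨v, v0, a1, a2⟩ := ih (a * c) (mul_ne_zero ha c0)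
    refine ⟨_, apply_ne (ρ := ρ) v0 (X.n (R.simple i) 1), fun t => ?_, fun δ b1 b2 b3 t => ?_⟩
    · rw [← mul_div_cancel₀ t c0, hc, a1, map_smul, mul_assoc]
    obtain ⟨d, d0, hd⟩ := k δ
    have e : ∀ γ, R.ht (R.srefl i γ) = R.ht γ - R.pair (R.simple i) γ := fun γ => by rw [R.ht_srefl, R.pair_simple]
    have := (hr.srefl hi).ht_pos
    have n : δ ≠ R.simple i := by
      rintro rfl
      exact b3 ⟨R.pair_comm_sl hl _ _ ▸ p, by rw [e, p] at this; simp; omega⟩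
    rw [← mul_div_cancel₀ t d0, hd, a2 _ (b1.srefl n) (fun e => b2 (by simpa using congrArg (R.srefl i) e)) fun ⟨c1, c2⟩ => b3 ?_]
    rw [R.pair_srefl] at c1
    refine ⟨c1, not_le.1 fun c3 => ?_⟩
    have h1 := ht_refl (R := R) δ r
    have h2 := e (R.refl δ r)
    have h3 := R.ht_ne_zero (R.refl δ r)
    rw [R.pair_comm_sl hl δ, c1] at h1
    rw [R.pair_refl_right, R.pair_comm_sl hl δ, c1, p] at h2
    rw [e, e, p] at c2
    have h4 : R.refl δ r = R.neg (R.simple i) := by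
      by_contra h4
      have := (((R.pos_neg_iff_not _).2 (by rw [R.pos_iff_ht]; omega) : R.pos (R.neg (R.refl δ r))).srefl (i := i)
        fun e => h4 (R.neg_eq_iff.1 e)).ht_pos
      rw [R.srefl_neg, R.ht_neg] at this
      omega
    have h5 := R.pair_refl_right (R.simple i) δ r
    have := pair_le hl n
    rw [h4, R.pair_comm_sl hl δ, c1, p] at h5
    simp at h5
    omega

theorem comm_up {S : Set Φ} (hS : ∀ δ ∈ S, R.pos δ ∧ ∀ γ, R.pos γ → R.pair γ δ = -1 → R.refl γ δ ∈ S) {γ : Φ} (h : R.pos γ) (t : F) :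
    Commute (ρ (x γ t)) (pG X ρ S) := comm_pG fun δ a u => by
  by_cases e : R.pair γ δ = -1
  · rw [cjS hl e]; exact mul_mem (X.x_mem_gen ((hS δ a).2 γ h e) _) (X.x_mem_gen a _)
  · simpa [(X.commute_sl hl (pair_ge hl (RS.ne_neg_of_f RS.htv (add_pos h.ht_pos (hS δ a).1.ht_pos)) e) t u).eq] using X.x_mem_gen a u

theorem chain (hψ : ψ ≠ 1) (h : ∀ i a, a ≠ 0 → ∃ v, v ≠ 0 ∧ (∀ t, ρ (x (R.simple i) t) v = ψ (a * t) • v) ∧
    ∀ δ, R.pos δ → δ ≠ R.simple i → ∀ t, ρ (x δ t) v = v) (S : Finset Φ)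
    (hS : ∀ δ ∈ S, R.pos δ ∧ ∀ γ, R.pos γ → R.pair γ δ = -1 → R.refl γ δ ∈ S) :
    ∃ z : ℕ, tr (pG X ρ S) = z ∧ z + ∑ β ∈ S, (q - 1) * q ^ (R.ht β - 1).toNat ≤ finrank ℂ V := by
  induction S using Finset.induction_on_min_value R.ht with
  | empty => exact ⟨finrank ℂ V, by simp [pG_empty], by simp⟩
  | insert β s hs hm ih =>
    have hβ := (hS β (mem_insert_self _ _)).1
    have hs' : ∀ δ ∈ s, R.pos δ ∧ ∀ γ, R.pos γ → R.pair γ δ = -1 → R.refl γ δ ∈ s := fun δ a =>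
      ⟨(hS δ (mem_insert_of_mem a)).1, fun γ b c => (mem_insert.1 ((hS δ (mem_insert_of_mem a)).2 γ b c)).resolve_left fun e => by
        have := hm δ a
        have := b.ht_pos
        rw [← e, ht_refl, c] at *
        omega⟩
    obtain ⟨z, a1, a2⟩ := ih hs'
    have c := fun {γ} => comm_up (X := X) (ρ := ρ) hl (S := s) hs' (γ := γ)
    have i := fun a => idem_mul (Ex_idem (ψ := ψ) (X.x_add β) a) pG_idem (comm_Ex (fun t => (c hβ t).symm) a).symm
    obtain ⟨Y, b1, b2, b3⟩ := exists_legs hl hβ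
    have k : ∀ a, ∃ n : ℕ, tr ((E β) a * pG X ρ s) = n ∧ (a ≠ 0 → q ^ Y.card ≤ n) := fun a => by
      obtain ⟨n, d1, d2⟩ := exists_tr (i a)
      refine ⟨n, d1, fun ha => ?_⟩
      obtain ⟨v, v0, e1, e2⟩ := exists_vec hl h hβ a ha
      replace d2 := d2 v v0 (by
        rw [End.mul_apply, pG_apply fun δ hδ => e2 δ (hs' δ hδ).1 (ne_of_mem_of_not_mem hδ hs) fun e => by have := hm δ hδ; omega,
          Ex_apply e1])
      have g : ∀ γ, R.pos γ → R.pair β γ = 1 → ∀ t, Commute (ρ (x γ t)) ((E β) a * pG X ρ s) := fun γ p1 p2 t =>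
        (comm_Ex' (fun u => X.commute_sl hl (by simp [R.pair_comm_sl hl γ, p2]) t u) a).mul_right (c p1 t)
      obtain ⟨m, d3, -⟩ := exists_tr (idem_mul (pG_idem (X := X) (S := Y)) (i a)
        (pG_comm fun γ h => g γ (b2 γ h).1 (b2 γ h).2.1))
      have := heisY hl hψ ha (fun t => mul_Ex' (X.x_add β) a t _) Y (fun γ h => (b2 γ h).2.1) b3 fun γ h => g _ (by
        have := b2 γ h
        rw [R.pos_iff_ht, ht_refl, R.pair_comm_sl hl γ, this.2.1]; omega)
          (by simp [R.pair_refl_right, R.pair_comm_sl hl γ, (b2 γ h).2.1])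
      rw [d1, d3] at this
      norm_cast at this
      exact this ▸ Nat.le_mul_of_pos_right _ (Nat.pos_of_ne_zero fun e => by simp [this, e] at d2)
    choose N h1 h2 using k
    have := tr_sum (ρ := ρ) hψ (X.x_add β) (pG X ρ s)
    simp only [h1, a1] at this
    norm_cast at this
    refine ⟨N 0, by rw [coe_insert, pG_insert (c hβ), h1], le_trans ?_ a2⟩
    rw [sum_insert hs, ← add_assoc, this, ← add_sum_erase _ _ (mem_univ 0), show (R.ht β - 1).toNat = Y.card by omega]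
    have := card_nsmul_le_sum (univ.erase 0) N _ fun a h => h2 a (ne_of_mem_erase h)
    simpa using this

theorem lin_of_tr (hψ : ψ ≠ 1) (i : ι) {a : F} (ha : a ≠ 0) : ∃ m : ℕ, tr ((E (R.simple i)) a) =
    q ^ (univ.filter fun γ => R.pos γ ∧ R.pair (R.simple i) γ = 1).card * m ∧ (m = 1 → ∃ v, Lin X ρ ψ (R.simple i) a v) := by
  set Y := univ.filter fun γ => R.pos γ ∧ R.pair (R.simple i) γ = 1
  have m : ∀ {γ}, γ ∈ Y ↔ R.pos γ ∧ R.pair (R.simple i) γ = 1 := by simp [Y]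
  have c : ∀ γ, R.pair (R.simple i) γ = 1 → ∀ t, Commute (ρ (x γ t)) ((E (R.simple i)) a) := fun γ h t =>
    comm_Ex' (fun u => X.commute_sl hl (by simp [R.pair_comm_sl hl γ, h]) t u) a
  have c' := pG_comm (S := Y) fun γ h => c γ (m.1 h).2
  have iP := idem_mul pG_idem (Ex_idem (X.x_add _) a) c'
  obtain ⟨n, h1, -⟩ := exists_tr iP
  refine ⟨n, h1 ▸ heisY hl hψ ha (mul_Ex (X.x_add _) a) Y (fun γ h => (m.1 h).2) (fun γ p δ p' => pair_ge hl
    (RS.ne_neg_of_f RS.htv (add_pos (m.1 p).1.ht_pos (m.1 p').1.ht_pos)) fun e => ?_) fun γ h => c _ (by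
      simp [R.pair_refl_right, R.pair_comm_sl hl γ, (m.1 h).2, -RS.refl_simple]), fun e => ?_⟩
  · have h2 := ht_refl (R := R) γ δ
    have := (m.1 p).1.ht_pos
    have := (m.1 p').1.ht_pos
    rw [R.eq_of_pair_sl hl (r := R.simple i) (s := R.refl γ δ) (by simp [R.pair_refl_right, e, (m.1 p).2, (m.1 p').2]), e,
      R.ht_simple] at h2
    omega
  · rw [e, Nat.cast_one] at h1
    obtain ⟨v, v0, h2, -⟩ := exists_line iP h1
    refine ⟨v, v0, fun t => ?_, fun γ p1 p2 t => ?_, fun w p1 p2 => ?_⟩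
    · rw [← h2, c'.eq, ← End.mul_apply, mul_Ex' (X.x_add _)]; rfl
    · rw [← h2, ← End.mul_apply, ← mul_assoc, x_pG (m.2 ⟨p1, p2⟩)]
    · rw [tr_idem iP, Nat.cast_eq_one, finrank_eq_one_iff_of_nonzero' (⟨v, v, h2⟩ : LinearMap.range _) fun e => v0 (congrArg Subtype.val e)] at h1
      exact (h1 ⟨w, w, by rw [End.mul_apply, Ex_apply p1, pG_apply fun γ h => p2 γ (m.1 h).1 (m.1 h).2]⟩).imp fun c e =>
        (congrArg Subtype.val e).symm

theorem deg_sl (hψ : ψ ≠ 1) (hf : ∀ i, tr (1 - (E (R.simple i)) 0) ≠ 0) {k : ℕ}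
    (hk : ∀ i, (univ.filter fun γ => R.pos γ ∧ R.pair (R.simple i) γ = 1).card = k + 1) :
    2 * (q ^ 2 - 1) * q ^ k ≤ finrank ℂ V ∨ ∀ i b, b ≠ 0 → ∃ w, Lin X ρ ψ (R.simple i) b w := by
  refine or_iff_not_imp_left.2 fun c => ?_
  intro i b hb
  obtain ⟨m, h1, h2⟩ := lin_of_tr (X := X) (ρ := ρ) hl hψ i hb
  refine h2 (by_contra fun m1 => ?_)
  obtain ⟨γ, hγ⟩ := card_pos.1 (k.succ_pos.trans_eq (hk i).symm)
  obtain ⟨-, p⟩ := (mem_filter.1 hγ).2
  rw [hk] at h1
  set β := R.simple i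
  have p' := R.pair_comm_sl hl γ β ▸ p
  have e1 : ∀ a, a ≠ 0 → tr ((E β) a) = q ^ (k + 1) * m := fun a ha => by
    rw [← h1, ← mul_one ((E β) a), ← mul_one ((E β) b)]
    exact tr_scale (fun c hc => ⟨X.h γ c, .one_right _, fun t => by rw [X.h_conj _ _ hc, p', zpow_one]⟩) ha hb
  have e2 : ∀ a, a ≠ 0 → tr ((E γ) a) = q ^ (k + 1) * m := fun a ha => by
    have := X.n_conj (R.refl γ β) β 1 one_ne_zero
    rw [show R.refl (R.refl γ β) β = γ from R.vec_inj (by simp [R.vec_refl, R.pair_refl_left_sl hl, p, p'])] at this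
    have c0 := mul_ne_zero (X.η_cast_ne (R.refl γ β) β) (zpow_ne_zero (-R.pair (R.refl γ β) β) one_ne_zero)
    rw [← tr_semi (semi_Ex c0 this a), e1 _ (mul_ne_zero ha c0)]
  have s : ∀ f : F → ℂ, ∀ z, (∀ a, a ≠ 0 → f a = z) → ∑ a, f a = f 0 + (q - 1) * z := fun f z h => by
    rw [← add_sum_erase _ _ (mem_univ 0), sum_congr rfl fun a ha => h a (ne_of_mem_erase ha)]
    simp [Nat.cast_sub Fintype.card_pos]
  have e3 : ∀ a b, b ≠ 0 → tr ((E γ) a * (E β) b) = q ^ k * m := fun a b hb => mul_left_cancel₀ qne (by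
    have := refl_star hl p
    rw [← heis hψ (X.x_add γ) (fun d => ⟨x (R.refl γ β) (X.η (R.refl γ β) γ * d / b), comm_Ex' (fun t => X.commute_sl hl (by
      simp [R.pair_refl_left_sl hl, p, p']) _ t) b, fun t => ?_⟩) a, e1 b hb]
    · ring
    · rw [cjS hl this.1, this.2, (X.commute_sl hl (by simp [p]) _ _).eq, map_mul, mul_assoc, mul_Ex (X.x_add β), mul_smul_comm]
      congr 2
      linear_combination (exp := 1) d * t * X.η_cast_mul_self (R.refl γ β) γ +
        X.η (R.refl γ β) γ * X.η (R.refl γ β) γ * d * t * mul_inv_cancel₀ hb)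
  have cm : ∀ a b, Commute ((E γ) a) ((E β) b) := comm_ExEx fun t u => X.commute_sl hl (by simp [p']) t u
  have e4 : ∀ a, a ≠ 0 → tr ((E γ) a * (E β) 0) = q ^ k * m := fun a ha => by
    have := tr_sum (ρ := ρ) hψ (X.x_add β) ((E γ) a)
    simp only [← (cm a _).eq] at this
    rw [e2 a ha, s _ _ (e3 a)] at this
    linear_combination -this
  have e5 := tr_sum (ρ := ρ) hψ (X.x_add β) 1
  have e6 := tr_sum (ρ := ρ) hψ (X.x_add γ) ((E β) 0)
  obtain ⟨z, hz, -⟩ := exists_tr (idem_mul (Ex_idem (X.x_add γ) 0) (Ex_idem (X.x_add β) 0) (cm 0 0))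
  simp only [mul_one] at e5
  rw [s _ _ e1] at e5
  rw [s _ _ e4, hz] at e6
  have m2 : 2 ≤ m := by
    have : m ≠ 0 := fun e => hf i (by rw [map_sub, e5, e]; simp [β])
    omega
  have a1 : 1 ≤ q ^ 2 := Nat.one_le_pow _ _ Fintype.card_pos
  have e7 : (finrank ℂ V : ℂ) = z + m * (q ^ 2 - 1 : ℕ) * q ^ k := by
    rw [Nat.cast_sub a1, ← LinearMap.trace_one, e5, e6]; push_cast; ring
  norm_cast at e7
  exact c (e7 ▸ le_add_left (Nat.mul_le_mul_right _ (Nat.mul_le_mul_right _ m2)))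

end Cfsg.Agent.H14.Dg
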