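import Cfsg.Agent.H14.EO6

/-! The prime graph of groups of type `F₄` in characteristic two. -/

set_option autoImplicit false

namespace Cfsg.Agent.H14

open Finset Cfsg.Lie

/-- small cyclotomic polynomials -/
def cyc : ℕ → ℕ × List ℤ
  | 1 => (1, [-1])
  | 2 => (1, [1])
  | 3 => (2, [1, 1])
  | 4 => (2, [1, 0])
  | 6 => (2, [1, -1])
  | 8 => (4, [1, 0, 0, 0])
  | _ => (4, [1, 0, -1, 0])

lemma zmod_three : ∀ y : ZMod 3, y ^ 4 - y ^ 2 + 1 ≠ 0 := by decide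

variable {r q : ℕ} [hr : Fact r.Prime]

lemma dvd_cyc (h : orderOf (q : ZMod r) ∈ [1, 2, 3, 4, 6, 8, 12]) :
    (r : ℤ) ∣ evM (cyc (orderOf (q : ZMod r))).1 (cyc (orderOf (q : ZMod r))).2 q := by
  have h1 := pow_orderOf_eq_one (q : ZMod r)
  have h2 : ∀ n, n ≠ 0 → n < orderOf (q : ZMod r) → (q : ZMod r) ^ n - 1 ≠ 0 := fun n a b =>
    sub_ne_zero.2 (pow_ne_one_of_lt_orderOf a b)
  rw [← ZMod.intCast_zmod_eq_zero_iff_dvd]
  generalize orderOf (q : ZMod r) = k at *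
  simp only [List.mem_cons, List.not_mem_nil, or_false] at h
  rcases h with rfl | rfl | rfl | rfl | rfl | rfl | rfl <;> simp [cyc, evM, sum_range_succ]
  · linear_combination h1
  · exact mul_left_cancel₀ (h2 1 (by simp) (by simp)) (by linear_combination h1)
  · exact mul_left_cancel₀ (h2 1 (by simp) (by simp)) (by linear_combination h1)
  · exact mul_left_cancel₀ (h2 2 (by simp) (by simp)) (by linear_combination h1)
  · exact mul_left_cancel₀ (mul_ne_zero (h2 2 (by simp) (by simp)) (h2 3 (by simp) (by simp))) (by linear_combination (q - 1) * h1)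
  · exact mul_left_cancel₀ (h2 4 (by simp) (by simp)) (by linear_combination h1)
  · exact mul_left_cancel₀ (mul_ne_zero (h2 4 (by simp) (by simp)) (h2 6 (by simp) (by simp))) (by linear_combination (q ^ 2 - 1) * h1)

lemma orderOf_mem {x : ZMod r} {n : ℕ} (hn : n ≠ 0) (h : x ^ n = 1) : orderOf x ∈ n.divisors :=
  Nat.mem_divisors.2 ⟨orderOf_dvd_of_pow_eq_one h, hn⟩

lemma ord_of_dvd (h2 : r ≠ 2) : ((r : ℤ) ∣ evM 4 [-1, -0, 0, 0] q → orderOf (q : ZMod r) ∈ [1, 2, 4]) ∧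
    ((r : ℤ) ∣ evM 4 [-1, -1, 0, 1] q → orderOf (q : ZMod r) ∈ [1, 2, 3]) ∧
    ((r : ℤ) ∣ evM 4 [-1, - -1, 0, -1] q → orderOf (q : ZMod r) ∈ [1, 2, 6]) ∧
    ((r : ℤ) ∣ evM 4 [1, 0, 0, 0] q → orderOf (q : ZMod r) = 8) ∧ ((r : ℤ) ∣ evM 4 [1, 0, -1, 0] q → orderOf (q : ZMod r) = 12) := by
  have h0 : (2 : ZMod r) ≠ 0 := fun h => h2 ((Nat.prime_dvd_prime_iff_eq hr.out Nat.prime_two).1 ((ZMod.natCast_eq_zero_iff 2 r).1 h))
  have h1 : ∀ n, orderOf (q : ZMod r) ∣ n → (q : ZMod r) ^ n = 1 := fun n => orderOf_dvd_iff_pow_eq_one.1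
  simp only [← ZMod.intCast_zmod_eq_zero_iff_dvd]
  simp only [evM, sum_range_succ, List.getD_cons_zero, List.getD_cons_succ, range_zero, sum_empty]
  push_cast
  generalize (q : ZMod r) = x at *
  refine ⟨fun h => ?_, fun h => ?_, fun h => ?_, fun h => ?_, fun h => ?_⟩
  · exact (by decide : ∀ k ∈ Nat.divisors 4, k ∈ [1, 2, 4]) _ (orderOf_mem (by simp) (by linear_combination h))
  · rcases mul_eq_zero.1 (show (x + 1) * (x ^ 3 - 1) = 0 by linear_combination h) with h | h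
    · exact (by decide : ∀ k ∈ Nat.divisors 2, k ∈ [1, 2, 3]) _ (orderOf_mem (by simp) (by linear_combination (x - 1) * h))
    · exact (by decide : ∀ k ∈ Nat.divisors 3, k ∈ [1, 2, 3]) _ (orderOf_mem (by simp) (by linear_combination h))
  · rcases mul_eq_zero.1 (show (x - 1) * (x ^ 3 + 1) = 0 by linear_combination h) with h | h
    · exact (by decide : ∀ k ∈ Nat.divisors 1, k ∈ [1, 2, 6]) _ (orderOf_mem (by simp) (by linear_combination h))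
    · exact (by decide : ∀ k ∈ Nat.divisors 6, ¬ k ∣ 3 → k ∈ [1, 2, 6]) _ (orderOf_mem (by simp) (by linear_combination (x ^ 3 - 1) * h))
        fun e => h0 (by linear_combination h - h1 _ e)
  · exact (by decide : ∀ k ∈ Nat.divisors 8, ¬ k ∣ 4 → k = 8) _ (orderOf_mem (by simp) (by linear_combination (x ^ 4 - 1) * h))
      fun e => h0 (by linear_combination h - h1 _ e)
  · refine (by decide : ∀ k ∈ Nat.divisors 12, ¬ k ∣ 6 → ¬ k ∣ 4 → k = 12) _ (orderOf_mem (by simp)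
      (by linear_combination (x ^ 6 - 1) * (x ^ 2 + 1) * h)) (fun e => h0 (by linear_combination (x ^ 2 + 1) * h - h1 _ e)) fun e => ?_
    obtain rfl := (Nat.prime_dvd_prime_iff_eq hr.out Nat.prime_three).1 ((ZMod.natCast_eq_zero_iff 3 r).1 (by
      push_cast; linear_combination (x ^ 2 + 2) * h - (x ^ 2 + 1) * h1 _ e))
    exact zmod_three x (by linear_combination h)

variable (F : Type*) [Field F] [Fintype F] [CharP F 2]

theorem f4_orderOf (x : chevF4.group F) : (∃ b, ∃ t ∈ [0, 1, -1], (orderOf x : ℤ) ∣ evM 4 [-1, -t, 0, t] (Fintype.card F) * 2 ^ b) ∨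
    ∃ t ∈ [0, -1], (orderOf x : ℤ) ∣ evM 4 [1, 0, t, 0] (Fintype.card F) := by
  obtain ⟨j, h1, h2, h3⟩ := exists_fro goodF4 stF4 (centerF4 _) F
  obtain ⟨e, -, he⟩ := FiniteField.card F 2
  obtain ⟨s, ⟨w, a1, a2⟩, u, a3, a4⟩ := h3.jordan h1 h2 Nat.prime_two (CharP.cast_eq_zero _ 2) he x
  obtain ⟨b, hb⟩ := (rgSt goodF4 _ stF4).isPGroup_U' Nat.prime_two (CharP.cast_eq_zero _ 2)
    ⟨u, RG0.gen_mono _ (fun r h => h.1) a3⟩
  have b0 : ∀ (m : ℤ) b, s ^ m = 1 → u ^ 2 ^ b = 1 → (orderOf x : ℤ) ∣ m * 2 ^ b := fun m b c1 c2 => by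
    rw [Int.natCast_dvd, Int.natAbs_mul, Int.natAbs_pow]
    exact orderOf_dvd_of_pow_eq_one ((a4 _).2 ⟨by rw [pow_mul, pow_natAbs_eq_one.2 c1, one_pow], by rw [pow_mul']; simp [c2]⟩)
  have b1 := fun w hw e => f4_pow (R := goodF4.R) (bridgeF4.cov_eq' goodF4) (bridgeF4.pr_eq goodF4) (car_eqF4 _) (s := s) (w := w)
    (q := Fintype.card F) hw e
  rcases b1 w a1 a2 with ⟨t, c1, c2⟩ | ⟨c0, t, c1, c2⟩
  · exact .inl ⟨b, t, c1, b0 _ _ c2 (congrArg Subtype.val hb)⟩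
  by_cases h : ∃ a, goodF4.R.chi s a = 1
  · obtain ⟨a, h⟩ := h
    have c3 := RS.mat_mul (goodF4.R.W_le_Aut a1) (goodF4.R.rP a)
    rcases b1 (w * goodF4.R.rP a) (mul_mem a1 (goodF4.R.rP_mem_W a)) (by
      exact (congrArg (mact · s) c3).trans ((mact_mul _ _ _).trans ((congrArg _ (RG.mact_rP h)).trans a2))) with ⟨t, c1, c2⟩ | ⟨c4, -⟩
    · exact .inl ⟨b, t, c1, b0 _ _ c2 (congrArg Subtype.val hb)⟩
    · have := (congrArg Matrix.det c3).trans (Matrix.det_mul _ _)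
      erw [c4, c0, RS.det_mat_rP] at this
      simp at this
  · exact .inr ⟨t, c1, by simpa using b0 _ 0 c2 (by
      simpa [show {r | goodF4.R.pos r ∧ goodF4.R.chi s r = 1} = ∅ from Set.eq_empty_of_forall_notMem fun r h' => h ⟨r, h'.2⟩] using a3)⟩

/-- certificates for tori in type `F₄` -/
def f4L : List (List ℕ × List (ℕ × List (List ℤ) × ℕ)) :=
  [([24, 25, 30, 33], [(8, [[1, 1, 1, 1], [0, 1, 1, 0], [0, 0, 1, 1], [0, 0, -1, 0]], 0)]),
  ([24, 25, 27, 33], [(12, [[1, 1, 1, 1], [0, 1, 1, 0], [0, 0, 1, 0], [0, 0, 0, 1]], 0)]),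
  ([24, 25, 41], [(1, [[1, 3, 4, 2]], 0), (2, [[1, 1, 0, 0]], 0), (4, [[1, 1, 2, 1], [0, 0, 0, 1]], 0)]),
  ([24, 27, 39], [(1, [[2, 2, 2, 1]], 3), (2, [[0, 0, 0, 1]], 3), (3, [[1, 3, 4, 2], [0, 1, 0, 0]], 0)]),
  ([24, 25, 34], [(1, [[1, 3, 4, 2]], 0), (2, [[1, 1, 0, 2]], 0), (6, [[1, 1, 1, 0], [0, 0, 1, 1]], 0)])]

/-- certificates for tori centralising the highest root subgroup -/
def f4L' : List (ℕ × List ℕ × List (List ℤ) × ℕ) :=
  [(1, [], [[1, 0, 0, 0]], 0), (2, [25], [[0, 0, 1, 0]], 2), (3, [27, 33], [[1, 1, 0, 0], [0, 1, 0, 0]], 0),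
  (4, [25, 27], [[0, 1, 1, 0], [0, 0, 1, 0]], 1), (6, [25, 27, 33], [[1, 1, 0, 0], [0, 1, 2, 0]], 0)]

variable {F} (h2 : r ≠ 2)
include h2

lemma card_coprime : (Fintype.card F).Coprime r := by
  obtain ⟨e, -, he⟩ := FiniteField.card F 2
  exact he ▸ ((Nat.coprime_primes Nat.prime_two hr.out).2 h2.symm).pow_left _

theorem f4_two (h : orderOf (Fintype.card F : ZMod r) ∈ [1, 2, 3, 4, 6]) : ∃ x : chevF4.group F, orderOf x = r * 2 := by
  have h1 := dvd_cyc (r := r) (q := Fintype.card F) ((by decide : ∀ k ∈ [1, 2, 3, 4, 6], k ∈ [1, 2, 3, 4, 6, 8, 12]) _ h)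
  obtain ⟨a, h3, h4, h5, h6⟩ := (by decide +kernel : ∀ k ∈ [1, 2, 3, 4, 6], ∃ a ∈ f4L', a.1 = k ∧
    certChk tabF4 48 4 a.2.1 (cyc k).1 (cyc k).2 a.2.2.1 a.2.2.2 1 = true ∧ decide (47 < 48 ∧ (∀ r ∈ a.2.1, tabF4.pr 4 r 47 = 0) ∧
      ∀ b < (cyc k).1, tabF4.ev 4 (a.2.2.1.getD b []) 47 = 0) = true) _ h
  exact exists_ordp goodF4 bridgeF4 stF4 (centerF4 _) F h5 (card_coprime h2) h1 isCoprime_one_left h6 2

theorem f4_odd {s : ℕ} [hs : Fact s.Prime] (h2' : s ≠ 2) (hrs : r ≠ s) {S : List ℕ} (hS : S ∈ [[1, 2, 4], [1, 2, 3], [1, 2, 6], [8], [12]])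
    (h : orderOf (Fintype.card F : ZMod r) ∈ S) (h' : orderOf (Fintype.card F : ZMod s) ∈ S) :
    ∃ x : chevF4.group F, orderOf x = r * s := by
  obtain ⟨h3, w, -, h4⟩ := (by decide +kernel : ∀ S ∈ [[1, 2, 4], [1, 2, 3], [1, 2, 6], [8], [12]], (∀ k ∈ S, k ∈ [1, 2, 3, 4, 6, 8, 12]) ∧
    ∃ a ∈ f4L, ∀ k ∈ S, ∃ b ∈ a.2, certChk tabF4 48 4 a.1 (cyc k).1 (cyc k).2 b.2.1 b.2.2 1 = true) S hS
  obtain ⟨b, -, h5⟩ := h4 _ h
  obtain ⟨b', -, h6⟩ := h4 _ h'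
  exact exists_ord₂ goodF4 bridgeF4 stF4 (centerF4 _) F h5 (card_coprime h2) (dvd_cyc (h3 _ h)) isCoprime_one_left h6 (card_coprime h2')
    (dvd_cyc (h3 _ h')) isCoprime_one_left ((Nat.coprime_primes hr.out hs.out).2 hrs)

end Cfsg.Agent.H14
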