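import Cfsg.Agent.H15.TwA1
import Cfsg.Agent.H27.SR2
import Cfsg.Agent.H27.Tower

/-! Relative root subgroups of twisted groups. -/

set_option autoImplicit false

namespace Cfsg.Agent.H14.Mu

open Cfsg.Agent.H15 Cfsg.Agent.H27 Subgroup

variable {ι Φ : Type} [Fintype ι] [DecidableEq ι] {R : RS ι Φ} {K : Type*} [Field K] {G : Type*} [Group G]
variable {X : RG R K G} {κ : Type} [Finite Φ] (S : TwO X κ)

/-- labels of relative roots -/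
def Blk : Type := {w : Equiv.Perm Φ // S.Ws w} × κ

theorem ws_one : S.Ws 1 := ⟨one_mem _, fun _ => rfl⟩

/-- the simple relative roots -/
def bs (k : κ) : Blk S := (⟨1, ws_one S⟩, k)

abbrev UT : Subgroup S.T := X.U.subgroupOf S.T
abbrev HT : Subgroup S.T := X.H.subgroupOf S.T
abbrev BT : Subgroup S.T := X.B.subgroupOf S.T

variable {S}

def Blk.set (a : Blk S) : Set Φ := a.1.1 '' PJ R (S.J a.2)

def Blk.sg (a : Blk S) : Subgroup S.T := (X.gen a.set).subgroupOf S.T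

def Blk.pos (a : Blk S) : Prop := ∀ r ∈ a.set, R.pos r

def Blk.act (w : Equiv.Perm Φ) (hw : S.Ws w) (a : Blk S) : Blk S := (⟨w * a.1.1, hw.mul a.1.2⟩, a.2)

noncomputable def Blk.neg (a : Blk S) : Blk S := (⟨a.1.1 * S.wJ a.2, a.1.2.mul (S.ws_wJ _)⟩, a.2)

theorem act_set (w : Equiv.Perm Φ) (hw : S.Ws w) (a : Blk S) : (a.act w hw).set = w '' a.set := by
  simp [Blk.set, Blk.act, Set.image_image]

theorem bs_set (k : κ) : (bs S k).set = PJ R (S.J k) := by simp [Blk.set, bs]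

theorem wJ_image (k : κ) : S.wJ k '' PJ R (S.J k) = MJ R (S.J k) := by
  ext r
  refine ⟨by rintro ⟨s, hs, rfl⟩; exact S.wJ_PJ hs, fun h => ⟨_, S.wJ_MJ h, ?_⟩⟩
  rw [← Equiv.Perm.mul_apply, S.wJ_mul_self]; rfl

omit [Finite Φ] in
theorem MJ_eq (J : Set ι) : MJ R J = R.neg '' PJ R J := by
  ext r
  refine ⟨fun h => ⟨R.neg r, ⟨(R.pos_neg_iff_not r).2 h.1, RG.neg_mem_sub h.2⟩, R.neg_neg r⟩, ?_⟩
  rintro ⟨s, hs, rfl⟩
  exact ⟨fun h => (R.pos_neg_iff_not s).1 h hs.1, RG.neg_mem_sub hs.2⟩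

theorem neg_set (a : Blk S) : a.neg.set = R.neg '' a.set := by
  have : a.neg.set = a.1.1 '' (S.wJ a.2 '' PJ R (S.J a.2)) := by simp [Blk.set, Blk.neg, Set.image_image]
  rw [this, wJ_image, MJ_eq, Blk.set, Set.image_image, Set.image_image]
  exact Set.image_congr fun r _ => RS.Aut.map_neg a.1.2.aut r

theorem set_nonempty (a : Blk S) : a.set.Nonempty := (S.PJ_nonempty _).image _

theorem not_pos_iff (a : Blk S) : ¬ a.pos ↔ ∀ r ∈ a.set, ¬ R.pos r := by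
  refine ⟨fun h => ?_, fun h h' => let ⟨r, hr⟩ := set_nonempty a; h r hr (h' r hr)⟩
  rcases S.dichotomy a.1.2 a.2 with h1 | h1
  · rintro _ ⟨r, hr, rfl⟩; exact (h1 hr).2
  · exact absurd (by rintro _ ⟨r, hr, rfl⟩; exact h1 r hr) h

theorem mem_bs {k : κ} {g : S.T} : g ∈ (bs S k).sg ↔ (g : G) ∈ S.XP k := by
  rw [Blk.sg, bs_set, mem_subgroupOf, ← S.XP_eq]; simp

theorem mem_bs_neg {k : κ} {g : S.T} : g ∈ (bs S k).neg.sg ↔ (g : G) ∈ S.XM k := by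
  rw [Blk.sg, neg_set, bs_set, ← MJ_eq, mem_subgroupOf]
  exact ⟨fun h => ⟨h, S.T_le_Fix g.2⟩, fun h => h.1⟩

theorem cj_gen {n : S.T} {w : Equiv.Perm Φ} (hn : X.Rep n w) (A : Set Φ) :
    Cj n ((X.gen A).subgroupOf S.T) ((X.gen (w '' A)).subgroupOf S.T) :=
  cj_of_mem (fun _ hx => hn.conj_mem_gen (T := w '' A) (fun r hr => ⟨r, hr, rfl⟩) hx) fun x hx => by
    have := hn.inv.conj_mem_gen (T := A) (by rintro _ ⟨r, hr, rfl⟩; simpa using hr) hx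
    simpa [mem_subgroupOf] using this

theorem cj_sg {n : S.T} {w : Equiv.Perm Φ} (hn : X.Rep n w) (hw : S.Ws w) (a : Blk S) :
    Cj n a.sg (a.act w hw).sg := by
  rw [Blk.sg, Blk.sg, act_set]; exact cj_gen hn _

theorem exists_rep {w : Equiv.Perm Φ} (hw : S.Ws w) : ∃ n : S.T, (n : G) ∈ X.N ∧ X.Rep n w :=
  let ⟨n, hn, h⟩ := S.exists_rep_T hw
  ⟨⟨n, (S.closure_le hn).2⟩, (S.closure_le hn).1, h⟩

theorem act_bs (a : Blk S) : (bs S a.2).act a.1.1 a.1.2 = a := Prod.ext (Subtype.ext (mul_one _)) rfl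

theorem exists_cj (a : Blk S) : ∃ n : S.T, (n : G) ∈ X.N ∧ X.Rep n a.1.1 ∧ Cj n (bs S a.2).sg a.sg :=
  let ⟨n, h1, h2⟩ := exists_rep a.1.2
  ⟨n, h1, h2, by simpa only [act_bs] using cj_sg h2 a.1.2 (bs S a.2)⟩

theorem sg_le_U {a : Blk S} (h : a.pos) : a.sg ≤ UT S := fun _ hx => X.gen_mono h hx

theorem mem_iSup_of_inv {w : Equiv.Perm Φ} (hw : S.Ws w) :
    ∀ u : S.T, (u : G) ∈ X.gen (Inv R w) → u ∈ ⨆ a : {a : Blk S // a.set ⊆ Inv R w}, a.1.sg := by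
  refine S.ws_induction (P := fun w => ∀ u : S.T, (u : G) ∈ X.gen (Inv R w) →
    u ∈ ⨆ a : {a : Blk S // a.set ⊆ Inv R w}, a.1.sg) (fun u hu => ?_) (fun w k hw hk ih u hu => ?_) hw
  · rw [show Inv R 1 = ∅ by ext; simp [H15.Inv], RG0.gen_empty] at hu
    exact (Subtype.ext hu : u = 1) ▸ one_mem _
  · obtain ⟨v, hv, h1, x, hx, e⟩ := S.exists_split (A := Inv R w) (fun _ h => h.1) (inv_closed hw.aut)
      (fun r hr => hw.ρ_inv.2 hr) hk hu (S.T_le_Fix u.2)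
    have hv' : v ∈ S.T := (mul_mem_cancel_right (S.XP_le k hx)).1 (e ▸ u.2)
    have h2 := ih (S.nT k * ⟨v, hv'⟩ * (S.nT k)⁻¹) ((S.rep_nJ k).conj_mem_gen (T := Inv R (w * S.wJ k))
      (fun r hr => (S.conj_inv_diff hw hk r).2 hr) hv)
    have h3 := conj_mem_iSup (g := (S.nT k)⁻¹) (B := ⨆ a : {a : Blk S // a.set ⊆ Inv R w}, a.1.sg) (fun a y hy => ?_) h2
    · rw [show u = (S.nT k)⁻¹ * (S.nT k * ⟨v, hv'⟩ * (S.nT k)⁻¹) * (S.nT k)⁻¹⁻¹ * ⟨x, S.XP_le k hx⟩ from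
        Subtype.ext (by simp [e, mul_assoc])]
      have h4 : (⟨x, S.XP_le k hx⟩ : S.T) ∈ (bs S k).sg := mem_bs.2 hx
      exact mul_mem h3 (mem_iSup_of_mem (S := fun a : {a : Blk S // a.set ⊆ Inv R w} => a.1.sg)
        ⟨bs S k, by rwa [bs_set]⟩ h4)
    · refine mem_iSup_of_mem (S := fun a : {a : Blk S // a.set ⊆ Inv R w} => a.1.sg) ⟨a.1.act _ (S.ws_wJ k), ?_⟩
        ((cj_sg (n := (S.nT k)⁻¹) (w := S.wJ k) (S.rep_nJ_inv k) (S.ws_wJ k) a.1).mem hy)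
      rw [act_set]
      rintro _ ⟨r, hr, rfl⟩
      refine ((S.conj_inv_diff hw hk _).1 ?_).1
      rw [← Equiv.Perm.mul_apply, S.wJ_mul_self]; exact a.2 hr

theorem posU_eq : posU Blk.sg Blk.pos = UT S := by
  refine le_antisymm (posU_le fun a => sg_le_U) fun u hu => ?_
  obtain ⟨w, hw, h⟩ := S.exists_w0
  have := mem_iSup_of_inv hw u (h ▸ hu)
  rwa [h] at this

theorem H_le_torT : HT S ≤ torT (Blk.sg (S := S)) := fun _ ht a => by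
  simpa [Blk.sg] using cj_gen (X.rep_H ht) a.set

theorem torT_U {t : S.T} (ht : t ∈ torT (Blk.sg (S := S))) : (t : G) ∈ X.B :=
  S.mem_B_of_conj (S.T_le_Fix t.2) fun u hu hu' => X.U_le_B (by
    have h1 : (⟨u, hu'⟩ : S.T) ∈ posU Blk.sg Blk.pos := posU_eq.ge hu
    exact posU_eq.le (conj_mem_iSup (fun a y hy => le_posU a.2 ((ht a.1).mem hy)) h1))

theorem torT_eq : torT (Blk.sg (S := S)) = HT S := by
  refine le_antisymm (fun t ht => ?_) H_le_torT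
  obtain ⟨n, hn, hn', w, hw, h⟩ := S.exists_n0
  have hw' := S.ws_of_rep (S.T_le_Fix hn') hw
  have h1 : (⟨n, hn'⟩ : S.T) * t * (⟨n, hn'⟩ : S.T)⁻¹ ∈ torT (Blk.sg (S := S)) := fun a => by
    have c1 := cj_sg (n := (⟨n, hn'⟩ : S.T)⁻¹) hw.inv hw'.inv a
    exact (c1.inv.mul (ht _)).mul c1 |> fun c => by simpa using c
  obtain ⟨u, hu, y, hy, e⟩ := X.mem_B_iff.1 (torT_U h1)
  refine X.mem_H_of_mem_B_op (torT_U ht) ?_
  show (t : G) ∈ _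
  rw [X.op_B, show (t : G) = n⁻¹ * u * n⁻¹⁻¹ * (n⁻¹ * y * n⁻¹⁻¹) by
    rw [show n⁻¹ * u * n⁻¹⁻¹ * (n⁻¹ * y * n⁻¹⁻¹) = n⁻¹ * (u * y) * n by group, ← e]; simp [mul_assoc]]
  exact mul_mem (mem_sup_left (hw.inv.conj_mem_gen (T := {r | ¬ R.pos r})
    (fun r hr => (h _).1 (by simpa using hr)) hu)) (mem_sup_right (X.conj_mem_H (inv_mem hn) hy))

theorem exists_nk (k : κ) : ∃ n : S.T, n ∈ (bs S k).sg ⊔ (bs S k).neg.sg ∧ (n : G) ∈ X.N ∧ X.Rep n (S.wJ k) := by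
  obtain ⟨v, hv, h1, h2⟩ := S.nontriv k
  have hv' : v ∈ S.XM k := ⟨hv, X.gen_le_grp _ hv, h1⟩
  obtain ⟨a, ha, n, hn, hn', hw, a', ha', e⟩ := S.exists_XM' hv' h2
  refine ⟨⟨n, hn'⟩, ?_, hn, hw⟩
  rw [show (⟨n, hn'⟩ : S.T) = (⟨a, S.XP_le k ha⟩ : S.T)⁻¹ * ⟨v, S.XM_le k hv'⟩ * (⟨a', S.XP_le k ha'⟩ : S.T)⁻¹ from
    Subtype.ext (by simp [e, mul_assoc])]
  exact mul_mem (mul_mem (mem_sup_left (inv_mem (mem_bs.2 ha))) (mem_sup_right (mem_bs_neg.2 hv')))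
    (mem_sup_left (inv_mem (mem_bs.2 ha')))

theorem set_eq_of_not_pos {a : Blk S} (h : a.pos) {i : κ} (h' : ¬ (a.act _ (S.ws_wJ i)).pos) :
    a.set = PJ R (S.J i) := by
  rw [not_pos_iff, act_set] at h'
  have h1 : a.set ⊆ PJ R (S.J i) := fun r hr => S.inv_wJ i ▸ ⟨h r hr, h' _ ⟨r, hr, rfl⟩⟩
  refine h1.antisymm fun s hs => ?_
  obtain ⟨_, r, hr, rfl⟩ := set_nonempty a
  have h2 := h1 ⟨r, hr, rfl⟩
  have h3 := (S.dichotomy a.1.2.inv i).resolve_left fun c => (c h2).2 (by simpa using hr.1)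
  have h4 := (S.dichotomy ((S.ws_wJ a.2).mul a.1.2.inv) i).resolve_right fun c =>
    (S.wJ_PJ hr).1 (by simpa using c _ h2)
  exact ⟨a.1.1⁻¹ s, S.inv_wJ a.2 ▸ ⟨h3 s hs, (h4 hs).2⟩, by simp⟩

theorem bruhat_k {k : κ} {n : S.T} (hn : (n : G) ∈ X.N) (hw : X.Rep n (S.wJ k)) {g : S.T}
    (hg : g ∈ (bs S k).sg ⊔ (bs S k).neg.sg) : (∃ x ∈ (bs S k).sg, ∃ t ∈ HT S, g = x * t) ∨
      ∃ x ∈ (bs S k).sg, ∃ t ∈ HT S, ∃ x' ∈ (bs S k).sg, g = x * t * n * x' := by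
  let C : S.T → Prop := fun g => (∃ x ∈ (bs S k).sg, ∃ t ∈ HT S, g = x * t) ∨
      ∃ x ∈ (bs S k).sg, ∃ t ∈ HT S, ∃ x' ∈ (bs S k).sg, g = x * t * n * x'
  have hH : ∀ t ∈ HT S, ∀ x ∈ (bs S k).sg, t * x * t⁻¹ ∈ (bs S k).sg := fun t ht x hx => (H_le_torT ht _).mem hx
  have nH : ∀ t ∈ HT S, n * t * n⁻¹ ∈ HT S := fun t ht => X.conj_mem_H hn ht
  have c1 : ∀ y ∈ (bs S k).sg, ∀ g, C g → C (y * g) := by
    rintro y hy _ (⟨x, hx, t, ht, rfl⟩ | ⟨x, hx, t, ht, x', hx', rfl⟩)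
    · exact Or.inl ⟨_, mul_mem hy hx, t, ht, by group⟩
    · exact Or.inr ⟨_, mul_mem hy hx, t, ht, x', hx', by group⟩
  have c2 : ∀ y ∈ HT S, ∀ g, C g → C (y * g) := by
    rintro y hy _ (⟨x, hx, t, ht, rfl⟩ | ⟨x, hx, t, ht, x', hx', rfl⟩)
    · exact Or.inl ⟨_, hH y hy x hx, _, mul_mem hy ht, by group⟩
    · exact Or.inr ⟨_, hH y hy x hx, _, mul_mem hy ht, x', hx', by group⟩
  have dec : ∀ v ∈ (bs S k).neg.sg, v ≠ 1 → ∃ a ∈ (bs S k).sg, ∃ t ∈ HT S, ∃ a' ∈ (bs S k).sg, v = a * t * n * a' := by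
    intro v hv h1
    obtain ⟨a, ha, m, hm, hm', hw', a', ha', e⟩ := S.exists_XM' (mem_bs_neg.1 hv) (fun c => h1 (Subtype.ext c))
    refine ⟨⟨a, S.XP_le k ha⟩, mem_bs.2 ha, n * (n⁻¹ * ⟨m, hm'⟩) * n⁻¹, nH _ (X.inv_mul_mem_H hn hm hw hw'),
      ⟨a', S.XP_le k ha'⟩, mem_bs.2 ha', Subtype.ext (by simp [e, mul_assoc])⟩
  have nn : n * n ∈ HT S := (X.mem_H_iff_rep (mul_mem hn hn)).2 (by simpa [S.wJ_mul_self] using hw.mul hw)
  have c3 : ∀ g, C g → C (n * g) := by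
    rintro _ (⟨x, hx, t, ht, rfl⟩ | ⟨x, hx, t, ht, x', hx', rfl⟩)
    · exact Or.inr ⟨1, one_mem _, _, nH t ht, _, hH _ (inv_mem ht) x hx, by group⟩
    · have h1 : n * x * n⁻¹ ∈ (bs S k).neg.sg := mem_bs_neg.2 (S.conj_XP (S.T_le_Fix n.2) hw (mem_bs.1 hx))
      have h2 : n * t * n ∈ HT S := by simpa [mul_assoc] using mul_mem (nH t ht) nn
      by_cases h0 : n * x * n⁻¹ = 1
      · refine Or.inl ⟨_, hH _ h2 x' hx', _, h2, ?_⟩
        calc _ = n * x * n⁻¹ * (n * t * n * x') := by group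
          _ = _ := by rw [h0]; group
      · obtain ⟨a, ha, s, hs, a', ha', e⟩ := dec _ h1 h0
        refine Or.inr ⟨a, ha, _, mul_mem hs (nH _ h2), _, mul_mem (hH _ (inv_mem h2) a' ha') hx', ?_⟩
        calc _ = n * x * n⁻¹ * (n * t * n * x') := by group
          _ = _ := by rw [e]; group
  have c4 : ∀ y ∈ (bs S k).neg.sg, ∀ g, C g → C (y * g) := fun y hy g hg => by
    by_cases h0 : y = 1
    · simpa [h0] using hg
    · obtain ⟨a, ha, s, hs, a', ha', rfl⟩ := dec _ hy h0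
      simpa [mul_assoc] using c1 a ha _ (c2 s hs _ (c3 _ (c1 a' ha' _ hg)))
  let M : Subgroup S.T :=
    { carrier := {y | (∀ g, C g → C (y * g)) ∧ ∀ g, C g → C (y⁻¹ * g)}
      one_mem' := by simp
      mul_mem' := fun h1 h2 => ⟨fun g hg => by simpa [mul_assoc] using h1.1 _ (h2.1 g hg),
        fun g hg => by simpa [mul_assoc] using h2.2 _ (h1.2 g hg)⟩
      inv_mem' := fun h => ⟨h.2, by simpa using h.1⟩ }
  have : _ ≤ M := sup_le (fun y hy => ⟨c1 y hy, c1 _ (inv_mem hy)⟩) fun y hy => ⟨c4 y hy, c4 _ (inv_mem hy)⟩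
  have h5 := (this hg).1 1 (Or.inl ⟨1, one_mem _, 1, one_mem _, by simp⟩)
  rwa [mul_one] at h5

variable (S) in
/-- the relative root system -/
noncomputable def sr : SR S.T κ (Blk S) where
  X := Blk.sg
  neg := Blk.neg
  pos := Blk.pos
  α := bs S
  s i := Blk.act _ (S.ws_wJ i)
  n i := (exists_nk i).choose
  pos_neg a := by
    rw [not_pos_iff, Blk.pos, neg_set]; simp [R.pos_neg_iff_not]
  pos_α i r hr := ((bs_set i).le hr).1
  s_neg i a := Prod.ext (Subtype.ext (mul_assoc _ _ _).symm) rfl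
  X_s i := by simp [Blk.act, Blk.neg, bs]
  X_s' i := by simp [Blk.act, Blk.neg, bs, S.wJ_mul_self]
  n_cj i a := cj_sg (exists_nk i).choose_spec.2.2 _ a
  n_mem i := (exists_nk i).choose_spec.1
  pos_s i a h := or_iff_not_imp_left.2 fun h' => by
    simp only [Blk.sg, neg_set, bs_set, set_eq_of_not_pos h h', and_self]
  split i u hu := by
    rw [posU_eq] at hu ⊢
    obtain ⟨v, hv, h1, x, hx, e⟩ := S.exists_split_U i hu (S.T_le_Fix u.2)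
    exact ⟨⟨x, S.XP_le i hx⟩, mem_bs.2 hx, ⟨v, S.U_le_T (X.UJ_le_U _ hv) h1⟩, X.UJ_le_U _ hv, Subtype.ext e,
      S.nJ_conj_UJ i (exists_nk i).choose_spec.2.2 hv⟩
  bruhat i g hg := by
    rw [torT_eq]; exact bruhat_k (exists_nk i).choose_spec.2.1 (exists_nk i).choose_spec.2.2 hg
  rigid i x hx h := by
    rw [show x = 1 from Subtype.ext (S.XP_eq_one (mem_bs.1 hx) fun y hy =>
      S.XM_le_V i (mem_bs_neg.1 (h.mem (x := ⟨y, S.XM_le i hy⟩) (mem_bs_neg.2 hy))))]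
    exact one_mem _
  faith a h := by
    by_contra h'
    rw [posU_eq] at h
    obtain ⟨n, -, -, hn⟩ := exists_cj a
    obtain ⟨x, hx, h1⟩ := S.exists_XP_ne a.2
    have h2 := hn.mem (x := ⟨x, S.XP_le _ hx⟩) (mem_bs.2 hx)
    have := X.eq_one_of_mem_V_B (X.gen_mono (T := {r | ¬ R.pos r}) ((not_pos_iff a).1 h') h2) (X.U_le_B (h h2))
    exact h1 (by simpa using this)
  gen a := by
    have h1 : ∀ l : List κ, (l.foldr (fun i => Blk.act _ (S.ws_wJ i)) a).set = (l.map S.wJ).prod '' a.set := by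
      intro l
      induction l with
      | nil => simp
      | cons i l ih => simp [act_set, ih, Set.image_image]
    obtain ⟨l, hl⟩ := S.ws_induction (P := fun w => ∃ l : List κ, (l.map S.wJ).prod = w) ⟨[], rfl⟩
      (fun w k _ _ ⟨l, hl⟩ => ⟨l ++ [k], by simp [hl, mul_assoc, S.wJ_mul_self]⟩) a.1.2.inv
    refine ⟨l, fun r hr => ?_⟩
    rw [h1, hl, Blk.set, Set.image_image] at hr
    obtain ⟨s, hs, rfl⟩ := hr
    simpa using hs.1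

theorem iSup_sg : ⨆ a : Blk S, a.sg = ⊤ := by
  rw [eq_top_iff]
  rintro ⟨g, hg⟩ -
  have : S.T ≤ (⨆ a : Blk S, a.sg).map S.T.subtype := S.T_le
    (fun k y hy => ⟨⟨y, S.XP_le k hy⟩, mem_iSup_of_mem _ (mem_bs.2 hy), rfl⟩)
    (fun k y hy => ⟨⟨y, S.XM_le k hy⟩, mem_iSup_of_mem _ (mem_bs_neg.2 hy), rfl⟩)
  obtain ⟨y, hy, e⟩ := this hg
  exact (Subtype.ext e : y = ⟨g, hg⟩) ▸ hy

theorem eq_one_of_pelt [Finite K] (p : ℕ) [Fact p.Prime] [CharP K p] {t : S.T} (ht : t ∈ HT S) (h : PElt p t) :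
    t = 1 :=
  let ⟨_, hk⟩ := h
  Subtype.ext (X.eq_one_of_mem_U_H (X.mem_U_of_pow X.hmul_of_finite p (X.H_le_B ht) (congrArg Subtype.val hk)) ht)

theorem isPGroup_UT [Finite K] (p : ℕ) [Fact p.Prime] [CharP K p] : IsPGroup p (UT S) :=
  (X.isPGroup_U p).comap_subtype

end Cfsg.Agent.H14.Mu
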