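import Cfsg.Agent.H14.Mu1

/-! Central extensions of twisted groups: the part in the defining characteristic. -/

set_option autoImplicit false
set_option linter.style.haveILetI false

namespace Cfsg.Agent.H14.Mu

open Cfsg.Agent.H15 Cfsg.Agent.H27 Subgroup
open scoped commutatorElement

section abstract
variable {G : Type*} [Group G] {Γ : Type*} [Group Γ] {σ : Γ →* G}

theorem surj_of_inj [Finite G] {A A' : Subgroup G} {t : G} (h1 : ∀ y ∈ A', t * y * t⁻¹ ∈ A')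
    (h2 : ∀ y ∈ A, t * y * t⁻¹ ∈ A) (h3 : ∀ g ∈ A', ∀ y ∈ A, g * y * g⁻¹ ∈ A)
    (h4 : ∀ y ∈ A', ⁅t, y⁆ ∈ A → y ∈ A) : ∀ y ∈ A', ∃ y0 ∈ A', y * ⁅t, y0⁆⁻¹ ∈ A := by
  haveI : (A.subgroupOf A').Normal := ⟨fun y hy g => h3 g g.2 y hy⟩
  let c : A' →* A' := MonoidHom.mk' (fun y => ⟨t * y * t⁻¹, h1 y y.2⟩) fun a b => Subtype.ext (by simp [mul_assoc])
  let φ := QuotientGroup.map (A.subgroupOf A') (A.subgroupOf A') c fun y hy => h2 y hy
  have hi : Function.Injective fun q => φ q * q⁻¹ := by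
    intro a b e
    have e1 : φ (b⁻¹ * a) * (b⁻¹ * a)⁻¹ = 1 := by
      have e' : φ a * a⁻¹ = φ b * b⁻¹ := e
      rw [map_mul, map_inv, mul_inv_rev, inv_inv, mul_assoc, ← mul_assoc (φ a), e']; group
    obtain ⟨y, hy⟩ := QuotientGroup.mk_surjective (b⁻¹ * a)
    rw [← hy] at e1
    have := (QuotientGroup.eq_one_iff (c y * y⁻¹)).1 e1
    have h5 := (QuotientGroup.eq_one_iff (N := A.subgroupOf A') y).2 (h4 y y.2 this)
    rw [hy, inv_mul_eq_one] at h5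
    exact h5.symm
  intro y hy
  obtain ⟨q, e⟩ := Finite.injective_iff_surjective.1 hi (⟨y, hy⟩ : A')
  obtain ⟨y0, rfl⟩ := QuotientGroup.mk_surjective q
  have : ((⟨y, hy⟩ * (c y0 * y0⁻¹)⁻¹ : A') : A' ⧸ A.subgroupOf A') = 1 := by
    rw [QuotientGroup.mk_mul, ← e]
    exact mul_inv_cancel _
  have h5 := (QuotientGroup.eq_one_iff _).1 this
  exact ⟨y0, y0.2, h5⟩

/-- lifts commute -/
def CL (σ : Γ →* G) (A B : Subgroup G) : Prop := ∀ a b, σ a ∈ A → σ b ∈ B → Commute a b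

theorem CL.cj (hs : Function.Surjective σ) {A B A' B' : Subgroup G} (h : CL σ A B) {n : G}
    (h1 : ∀ y ∈ A', n * y * n⁻¹ ∈ A) (h2 : ∀ y ∈ B', n * y * n⁻¹ ∈ B) : CL σ A' B' := fun a b ha hb => by
  obtain ⟨m, rfl⟩ := hs n
  have := (h (m * a * m⁻¹) (m * b * m⁻¹) (by simpa using h1 _ ha) (by simpa using h2 _ hb)).conj m⁻¹
  simpa [mul_assoc] using this

theorem Splt.commute (hc : σ.ker ≤ center Γ) {N A : Subgroup G} (h : Splt σ N A) {a b : Γ} (ha : σ a ∈ N)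
    (hb : σ b ∈ A) (hab : Commute (σ a) (σ b)) : Commute a b := by
  obtain ⟨D, h1, h2, h3⟩ := h
  obtain ⟨d, hd, e⟩ := h1.ge hb
  rw [← commutatorElement_eq_one_iff_commute, ← comm_congr hc rfl e]
  refine h2 _ (mul_mem (h3 a ha d hd) (inv_mem hd)) ?_
  rw [map_commutatorElement, e, hab.commutator_eq]

variable {N U A A' : Subgroup G} {β : G → G → Γ}

/-- the left kernel of a pairing -/
def lk (P : Pairing σ N U A A' β) : Subgroup G where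
  carrier := {g | g ∈ U ∧ ∀ y ∈ A', β g y = 1}
  one_mem' := ⟨one_mem _, fun _ => P.one_left⟩
  mul_mem' h1 h2 := ⟨mul_mem h1.1 h2.1, fun y hy => by
    rw [P.mul_left _ h1.1 _ h2.1 _ hy, h1.2 y hy, h2.2 y hy, one_mul]⟩
  inv_mem' h := ⟨inv_mem h.1, fun y hy => by rw [P.inv_left h.1 hy, h.2 y hy, inv_one]⟩

theorem comm_mem_lk (hc : σ.ker ≤ center Γ) (P : Pairing σ N U A A' β) {g g' : G} (hg : g ∈ U) (hg' : g' ∈ U) :
    ⁅g, g'⁆ ∈ lk P :=
  ⟨mul_mem (mul_mem (mul_mem hg hg') (inv_mem hg)) (inv_mem hg'), fun _ => P.comm_left hc hg hg'⟩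

theorem conj_mem_lk (P : Pairing σ N U A A' β) (hU : ∀ n ∈ N, ∀ u ∈ U, n * u * n⁻¹ ∈ U)
    (hA : ∀ n ∈ N, ∀ u ∈ A', n * u * n⁻¹ ∈ A') {n g : G} (hn : n ∈ N) (hg : g ∈ lk P) : n * g * n⁻¹ ∈ lk P :=
  ⟨hU n hn g hg.1, fun y hy => by
    have h1 := hA _ (inv_mem hn) y hy
    rw [← hg.2 _ h1, ← P.conj n hn g hg.1 _ h1]; simp [mul_assoc]⟩

end abstract

variable {ι Φ : Type} [Fintype ι] [DecidableEq ι] {R : RS ι Φ} {K : Type*} [Field K] {G : Type*} [Group G]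
variable {X : RG R K G}

def Fx (X : RG R K G) (h : G) (A : Set Φ) : Prop := ∀ r ∈ A, h * X.x r 1 * h⁻¹ = X.x r 1
def Fp (X : RG R K G) (h : G) (A : Set Φ) : Prop := ∀ r ∈ A, h * X.x r 1 * h⁻¹ ≠ X.x r 1

theorem Fx.conj {h : G} (hh : h ∈ X.H) {A : Set Φ} (hf : Fx X h A) {y : G} (hy : y ∈ X.gen A) : h * y * h⁻¹ = y := by
  obtain ⟨χ, hχ⟩ := X.H_char hh
  have : X.gen A ≤ centralizer {h} := X.gen_le.2 fun r hr t => by
    have h1 := X.x_injective _ ((hχ r 1).symm.trans (hf r hr))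
    rw [mem_centralizer_singleton_iff, eq_comm, ← mul_inv_eq_iff_eq_mul, hχ, mul_one _ |>.symm.trans h1, one_mul]
  rw [← mem_centralizer_singleton_iff.1 (this hy), mul_inv_cancel_right]

theorem Fp.mem [Finite Φ] {h : G} (hh : h ∈ X.H) {A O : Set Φ} (hf : Fp X h O) (hp : ∀ r ∈ A ∪ O, R.pos r)
    (hA : ∀ r ∈ A, ∀ s ∈ A, R.comb r s ⊆ A) (hO : ∀ r ∈ A ∪ O, ∀ s ∈ A ∪ O, R.comb r s ⊆ A ∪ O) (hd : Disjoint A O)
    {y : G} (hy : y ∈ X.gen (A ∪ O)) (hc : ⁅h, y⁆ ∈ X.gen A) : y ∈ X.gen A := by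
  classical
  obtain ⟨χ, hχ⟩ := X.H_char hh
  let L1 := (Set.toFinite A).toFinset.toList
  let L2 := (Set.toFinite O).toFinset.toList
  have m1 : ∀ r, r ∈ L1 ↔ r ∈ A := fun r => by simp [L1]
  have m2 : ∀ r, r ∈ L2 ↔ r ∈ O := fun r => by simp [L2]
  have nd : (L1 ++ L2).Nodup := List.nodup_append.2 ⟨Finset.nodup_toList _, Finset.nodup_toList _,
    fun a ha b hb e => Set.disjoint_left.1 hd ((m1 a).1 ha) (e ▸ (m2 b).1 hb)⟩
  obtain ⟨t, rfl⟩ := X.exists_prodL RS.htv (fun r hr => (hp r hr).ht_pos) hO (L := L1 ++ L2)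
    (fun r => by simp [m1, m2]) nd hy
  obtain ⟨t', e⟩ := X.exists_prodL RS.htv (fun r hr => (hp r (Or.inl hr)).ht_pos) hA m1 (Finset.nodup_toList _)
    (mul_mem hc (X.prodL_mem (fun r => (m1 r).1) t))
  have e1 : X.prodL (L1 ++ L2) (fun r => χ (Multiplicative.ofAdd (R.vec r)) * t r) =
      X.prodL (L1 ++ L2) fun r => if r ∈ A then t' r else t r := by
    rw [← conj_prodL X hχ, X.prodL_append L1 L2 fun r => ite _ _ _,
      X.prodL_congr (L := L1) (t' := t') fun r hr => if_pos ((m1 r).1 hr),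
      X.prodL_congr (L := L2) (t' := t) fun r hr => if_neg (Set.disjoint_right.1 hd ((m2 r).1 hr)), ← e,
      mul_assoc _ _ (X.prodL L2 t), ← X.prodL_append, commutatorElement_def, inv_mul_cancel_right]
  have h3 := X.prodL_injective RS.htv (fun r hr => (hp r (by simpa [m1, m2] using hr)).ht_pos) nd e1
  rw [X.prodL_append, X.prodL_congr (L := L2) (t' := 0), X.prodL_zero, mul_one]
  · exact X.prodL_mem (fun r => (m1 r).1) t
  intro r hr
  by_contra h0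
  have h4 := h3 r (List.mem_append_right _ hr)
  rw [if_neg (Set.disjoint_right.1 hd ((m2 r).1 hr))] at h4
  exact hf r ((m2 r).1 hr) (by rw [hχ, mul_right_cancel₀ h0 (h4.trans (one_mul _).symm), one_mul])

def LS (R : RS ι Φ) (lv : Φ → ℕ) (j : ℕ) : Set Φ := {r | R.pos r ∧ lv r < j}
def LO (R : RS ι Φ) (lv : Φ → ℕ) (j : ℕ) : Set Φ := {r | R.pos r ∧ lv r = j}

/-- a central filtration of the positive roots -/
structure Lv (X : RG R K G) (lv : Φ → ℕ) : Prop where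
  cl : ∀ r s k, R.pos r → R.pos s → k ∈ R.comb r s → lv k ≤ lv r ∨ lv k ≤ lv s
  cm : ∀ r s, R.pos r → R.pos s → ∀ t u, ⁅X.x r t, X.x s u⁆ ∈ X.gen (LS R lv (lv s))

theorem LS_succ (lv : Φ → ℕ) (j : ℕ) : LS R lv (j + 1) = LS R lv j ∪ LO R lv j := by
  ext r; simp only [LS, LO, Set.mem_ofPred_eq, Set.mem_union, ← and_or_left]; exact and_congr_right fun _ => by omega

theorem LS_mono (lv : Φ → ℕ) {i j : ℕ} (h : i ≤ j) : LS R lv i ⊆ LS R lv j := fun _ hr => ⟨hr.1, hr.2.trans_le h⟩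

theorem Lv.of_comb {lv : Φ → ℕ} (h : ∀ r s k, R.pos r → R.pos s → k ∈ R.comb r s → lv k < lv s) : Lv X lv :=
  ⟨fun r s k a b c => Or.inr (h r s k a b c).le, fun r s a b t u => by
    have := X.comm_mem (r := s) (s := r) (RS.ne_neg_of_f RS.htv (add_pos b.ht_pos a.ht_pos)) (-u) (-t)
    simp only [X.x_neg, inv_inv] at this
    exact X.gen_mono (T := LS R lv (lv s))
      (fun k hk => ⟨RS.comb_pos hk b a, h r s k a b (R.comb_comm r s ▸ hk)⟩) this⟩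

namespace Lv
variable {lv : Φ → ℕ} (h : Lv X lv)
include h

theorem closed (j : ℕ) : ∀ r ∈ LS R lv j, ∀ s ∈ LS R lv j, R.comb r s ⊆ LS R lv j := fun r hr s hs k hk =>
  ⟨RS.comb_pos hk hr.1 hs.1, (h.cl r s k hr.1 hs.1 hk).elim (·.trans_lt hr.2) (·.trans_lt hs.2)⟩

theorem conj (j : ℕ) {g y : G} (hg : g ∈ X.B) (hy : y ∈ X.gen (LS R lv j)) : g * y * g⁻¹ ∈ X.gen (LS R lv j) := by
  have key : ∀ r, R.pos r → ∀ t, ∀ s ∈ LS R lv j, ∀ u, X.x r t * X.x s u * (X.x r t)⁻¹ ∈ X.gen (LS R lv j) :=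
    fun r hr t s hs u => by
      simpa [commutatorElement_def] using
        mul_mem (X.gen_mono (LS_mono lv hs.2.le) (h.cm r s hr hs.1 t u)) (X.x_mem_gen hs u)
  have : X.B ≤ normalizer (X.gen (LS R lv j) : Set G) := sup_le (X.gen_le.2 fun r hr t =>
    X.mem_normalizer_gen (key r hr t) fun s hs u => by simpa [X.x_neg] using key r hr (-t) s hs u)
    (X.H_le_normalizer_gen _)
  exact (mem_normalizer_iff.1 (this hg) y).1 hy

theorem comm (j : ℕ) {g y : G} (hg : g ∈ X.U) (hy : y ∈ X.gen (LS R lv (j + 1))) : ⁅g, y⁆ ∈ X.gen (LS R lv j) := by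
  refine X.gen_induction (P := fun g => ⁅g, y⁆ ∈ X.gen (LS R lv j)) (by simp) (fun r hr t g _ ih => ?_) hg
  have h1 : ⁅X.x r t, y⁆ ∈ X.gen (LS R lv j) := by
    refine X.gen_induction (P := fun y => ⁅X.x r t, y⁆ ∈ X.gen (LS R lv j)) (by simp) (fun s hs u y _ ih => ?_) hy
    have := mul_mem (X.gen_mono (LS_mono lv (Nat.le_of_lt_succ hs.2)) (h.cm r s hr hs.1 t u))
      (h.conj j (X.x_mem_B hs.1 u) ih)
    simpa [commutatorElement_def, mul_assoc] using this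
  simpa [commutatorElement_def, mul_assoc] using mul_mem (h.conj j (X.x_mem_B hr t) ih) h1

theorem inj [Finite Φ] {j : ℕ} {t : G} (ht : t ∈ X.H) (hf : Fp X t (LO R lv j)) {y : G}
    (hy : y ∈ X.gen (LS R lv (j + 1))) (hc : ⁅t, y⁆ ∈ X.gen (LS R lv j)) : y ∈ X.gen (LS R lv j) :=
  hf.mem ht (fun r hr => ((LS_succ lv j).ge hr).1) (h.closed j) (by rw [← LS_succ]; exact h.closed (j + 1))
    (Set.disjoint_left.2 fun r a b => a.2.ne b.2) (by rw [← LS_succ]; exact hy) hc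

theorem fix [Finite Φ] {j : ℕ} {t : G} (ht : t ∈ X.H) (hf : Fx X t (LO R lv j)) {y : G}
    (hy : y ∈ X.gen (LS R lv (j + 1))) : ⁅t, y⁆ ∈ X.gen (LS R lv j) := by
  obtain ⟨a, ha, b, hb, rfl⟩ := X.exists_mul_of_union RS.htv (fun r hr => hr.1.ht_pos) (h.closed (j + 1))
    (LS_succ lv j).symm hy
  rw [show ⁅t, a * b⁆ = t * a * t⁻¹ * (t * b * t⁻¹) * b⁻¹ * a⁻¹ by group, hf.conj ht hb, mul_inv_cancel_right]
  exact mul_mem (X.H_conj_mem_gen ht ha) (inv_mem ha)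

end Lv

variable {κ : Type} [Finite Φ] {S : TwO X κ}

variable (S) in
abbrev AL (lv : Φ → ℕ) (j : ℕ) : Subgroup S.T := (X.gen (LS R lv j)).subgroupOf S.T

theorem AL_le_U (lv : Φ → ℕ) (j : ℕ) : AL S lv j ≤ UT S := fun _ hy => X.gen_mono (fun _ h => h.1) hy

theorem BT_U : ∀ n ∈ BT S, ∀ u ∈ UT S, n * u * n⁻¹ ∈ UT S := fun _ hn _ hu => X.B_conj_mem_U hn hu

theorem set_closed (a : Blk S) : ∀ r ∈ a.set, ∀ s ∈ a.set, R.comb r s ⊆ a.set := by
  rintro _ ⟨r, hr, rfl⟩ _ ⟨s, hs, rfl⟩ k hk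
  exact ⟨a.1.1⁻¹ k, PJ_closed _ r hr s hs (by simpa using RS.Aut.comb a.1.2.inv.aut hk), by simp⟩

variable [Finite S.T] {lv : Φ → ℕ} (h : Lv X lv) {Γ : Type*} [Group Γ] {σ : Γ →* S.T}

omit [Finite Φ] [Finite S.T] in
theorem Lv.BT_A (h : Lv X lv) (j : ℕ) : ∀ n ∈ BT S, ∀ u ∈ AL S lv j, n * u * n⁻¹ ∈ AL S lv j :=
  fun _ hn _ hu => h.conj j hn hu

theorem Lv.surj (h : Lv X lv) {j : ℕ} {t : S.T} (ht : t ∈ HT S) (hf : Fp X t (LO R lv j)) :
    ∀ y ∈ AL S lv (j + 1), ∃ y0 ∈ AL S lv (j + 1), y * ⁅t, y0⁆⁻¹ ∈ AL S lv j :=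
  surj_of_inj (h.BT_A _ _ (X.H_le_B ht)) (h.BT_A _ _ (X.H_le_B ht))
    (fun g hg => h.BT_A _ _ (X.U_le_B (AL_le_U _ _ hg))) fun _ hy hc => h.inj ht hf hy hc

/-- separation by a torus element -/
def Sep (S : TwO X κ) (A B : Set Φ) : Prop := ∃ t ∈ X.H, t ∈ S.T ∧ (Fx X t A ∧ Fp X t B ∨ Fp X t A ∧ Fx X t B)

theorem Lv.sep (h : Lv X lv) {j : ℕ} {β : S.T → S.T → Γ}
    (P : Pairing σ (BT S) (UT S) (AL S lv j) (AL S lv (j + 1)) β) {a : Blk S} (ha : a.pos)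
    (hs : Sep S a.set (LO R lv j)) : a.sg ≤ lk P := fun g hg => ⟨sg_le_U ha hg, fun y hy => by
  have hA : AL S lv j ≤ AL S lv (j + 1) := fun _ hy => X.gen_mono (LS_mono lv (Nat.le_succ j)) hy
  obtain ⟨t, ht, ht', ⟨h1, h2⟩ | ⟨h1, h2⟩⟩ := hs
  · obtain ⟨y0, h3, h4⟩ := h.surj (t := ⟨t, ht'⟩) ht h2 y hy
    have h5 := h.BT_A _ ⟨t, ht'⟩ (X.H_le_B ht) _ h3
    have := P.mul_right g (sg_le_U ha hg) _ (hA h4) _ (mul_mem h5 (inv_mem h3))
    rw [P.triv _ (sg_le_U ha hg) _ h4, one_mul, ← commutatorElement_def, inv_mul_cancel_right] at this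
    rw [this]
    exact P.right_of_fix (X.H_le_B ht) (sg_le_U ha hg) h3 h5 (Subtype.ext (h1.conj ht hg))
  · have h3 := @Cj.mem _ _ _ _ _ (H_le_torT (show (⟨t, ht'⟩ : S.T) ∈ HT S from ht) a)
    obtain ⟨g0, h4, h5⟩ := surj_of_inj (A := ⊥) (A' := a.sg) (t := ⟨t, ht'⟩) (fun _ => h3) (by simp) (by simp)
      (fun y hy hc => Subtype.ext (by
        have := h1.mem (A := ∅) ht (by rw [Set.empty_union]; exact ha) (by simp) (by simpa using set_closed a) (by simp)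
          (y := y) (by rw [Set.empty_union]; exact hy) (by rw [X.gen_empty]; exact congrArg Subtype.val hc)
        rwa [X.gen_empty] at this)) g hg
    have h6 := sg_le_U ha h4
    have h7 := sg_le_U ha (h3 h4)
    have h8 : ⁅(⟨t, ht'⟩ : S.T), y⁆ ∈ AL S lv j := h.fix ht h2 hy
    have h9 := P.conj ⟨t, ht'⟩ (X.H_le_B ht) g0 h6 y hy
    rw [show (⟨t, ht'⟩ : S.T) * y * (⟨t, ht'⟩ : S.T)⁻¹ = ⁅(⟨t, ht'⟩ : S.T), y⁆ * y by group,
      P.mul_right _ h7 _ (hA h8) _ hy, P.triv _ h7 _ h8, one_mul] at h9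
    rw [mul_inv_eq_one.1 (mem_bot.1 h5), commutatorElement_def, P.mul_left _ h7 _ (inv_mem h6) _ hy, h9,
      P.inv_left h6 hy, mul_inv_cancel]⟩

omit [Finite S.T] in
theorem U_le_of_sg {M : Subgroup S.T} (h : ∀ a : Blk S, a.pos → a.sg ≤ M) : UT S ≤ M := posU_eq.ge.trans (posU_le h)

omit [Finite S.T] in
/-- the self-pairing of a root subgroup -/
theorem self_le (hs : Function.Surjective σ) {A A' : Subgroup S.T} (hA : A' ≤ UT S) {β : S.T → S.T → Γ}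
    (P : Pairing σ (BT S) (UT S) A A' β) {C : Subgroup S.T} (hC : C ≤ A') (h1 : ∀ g ∈ C, ∀ y ∈ C, β g y = 1)
    (h2 : ∀ a : Blk S, a.pos → a.sg ≤ lk P ∨ a.sg ≤ C) : C ≤ lk P := fun g hg => ⟨hA (hC hg), fun y hy => by
  have h3 : UT S ≤ P.lker g (hC hg) := U_le_of_sg fun a ha x hx => ⟨sg_le_U ha hx, (h2 a ha).elim
    (fun c => (c hx).2 g (hC hg)) fun c => h1 x (c hx) g hg⟩
  simpa [(h3 (hA hy)).2] using P.skew hs hA (hC hg) hy⟩

omit [Finite Φ] [Finite S.T] in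
theorem CL.pairing (hs : Function.Surjective σ) {N U A A' : Subgroup S.T} {β : S.T → S.T → Γ}
    (P : Pairing σ N U A A' β) {C C' : Subgroup S.T} (h : CL σ C C') (hC : C ≤ U) (hC' : C' ≤ A') :
    ∀ g ∈ C, ∀ y ∈ C', β g y = 1 := fun g hg y hy => by
  obtain ⟨a, rfl⟩ := hs g
  obtain ⟨b, rfl⟩ := hs y
  exact P.comm a b (hC hg) (hC' hy) (h a b hg hy)

variable [Finite K]

omit [Finite Φ] [Finite S.T] in
theorem H_commute {a b : G} (ha : a ∈ X.H) (hb : b ∈ X.H) : Commute a b := by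
  rw [← X.torX_range X.hmul_of_finite] at ha hb
  obtain ⟨a, rfl⟩ := ha
  obtain ⟨b, rfl⟩ := hb
  exact (Commute.all a b).map _

theorem Lv.step (h : Lv X lv) (hs : Function.Surjective σ) (hc : σ.ker ≤ center Γ) {j : ℕ}
    (hS : Splt σ (BT S) (AL S lv j)) (hfp : ∃ t ∈ X.H, t ∈ S.T ∧ Fp X t (LO R lv j))
    (hβ : ∀ β (P : Pairing σ (BT S) (UT S) (AL S lv j) (AL S lv (j + 1)) β) (a : Blk S), a.pos → a.sg ≤ lk P) :
    Splt σ (BT S) (AL S lv (j + 1)) := by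
  obtain ⟨t, ht, ht', hf⟩ := hfp
  refine hS.step hs hc (U := UT S) (K := HT S) (fun _ hy => X.gen_mono (LS_mono lv (Nat.le_succ j)) hy) (AL_le_U _ _)
    (fun _ hy => X.U_le_B hy) (fun n hn => ?_) BT_U (h.BT_A _) (fun g hg y hy => h.comm j hg hy)
    (fun β P g hg => (U_le_of_sg (hβ β P) hg).2) (t := ⟨t, ht'⟩) (X.H_le_B ht)
    (fun k hk => Subtype.ext (H_commute ht hk).eq) (h.surj ht hf) fun y hy hc => h.inj ht hf hy hc
  obtain ⟨u, hu, h1, y, hy, h2, e⟩ := S.exists_B hn n.2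
  exact ⟨⟨u, h1⟩, hu, ⟨y, h2⟩, hy, Subtype.ext e⟩

theorem closedAt_of_spl (p : ℕ) [hp : Fact p.Prime] [CharP K p]
    (h : ∀ (Γ : Type) [Group Γ] [Finite Γ] (σ : Γ →* S.T), Function.Surjective σ → σ.ker ≤ center Γ →
      (∀ z, σ z = 1 → PElt p z) → Splt σ (BT S) (UT S)) : ClosedAt p S.T := by
  refine closedAt_of_cm hp.out fun Γ _ _ σ hs hc hk z hz h0 => ?_
  obtain ⟨P, hP⟩ := S.exists_sylow p
  have h1 := mem_cm_of_relIndex hs hc hp.out hz (hk z hz) (P := BT S) (fun c => P.not_dvd_index (by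
    rw [relIndex_top_right] at c
    exact c.trans (index_dvd_of_le (hP.trans_le fun _ hy => X.U_le_B hy)))) h0
  refine eq_one_of_mem_cm_of_coprime hs hc hp.out hz (hk z hz) (H := HT S) (fun t => eq_one_of_pelt p)
    (mem_cm_of_spl (h Γ σ hs hc hk) (fun _ hy => X.H_le_B hy) (fun n hn => ?_)
      (fun u a b => Subtype.ext (X.eq_one_of_mem_U_H a b)) hz h1)
  obtain ⟨u, hu, h1, y, hy, h2, e⟩ := S.exists_B hn n.2
  exact ⟨⟨u, h1⟩, hu, ⟨y, h2⟩, hy, Subtype.ext e⟩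

omit [Finite Φ] [Finite S.T] [Finite K] in
theorem spl_of_steps {m : ℕ} (hm : ∀ r, R.pos r → lv r < m)
    (h : ∀ j < m, Splt σ (BT S) (AL S lv j) → Splt σ (BT S) (AL S lv (j + 1))) : Splt σ (BT S) (UT S) := by
  have h1 : ∀ j ≤ m, Splt σ (BT S) (AL S lv j) := by
    intro j hj
    induction j with
    | zero => simpa [AL, LS] using spl_bot _
    | succ j ih => exact h j hj (ih (by omega))
  have h2 : LS R lv m = {r | R.pos r} := Set.ext fun r => and_iff_left_of_imp (hm r)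
  have := h1 m le_rfl
  rwa [AL, h2] at this

omit [Finite S.T] [Finite K] in
theorem set_eq_fiber {bk : Φ → ℕ} (h1 : ∀ k r s, bk r = bk s → bk (S.wJ k r) = bk (S.wJ k s))
    (h2 : ∀ k, ∀ r ∈ PJ R (S.J k), ∀ s, s ∈ PJ R (S.J k) ↔ bk s = bk r) (a : Blk S) {r : Φ} (hr : r ∈ a.set) :
    a.set = {s | bk s = bk r} := by
  have h3 : ∀ w, S.Ws w → ∀ r s, bk r = bk s → bk (w r) = bk (w s) := fun w hw =>
    S.ws_induction (P := fun w => ∀ r s, bk r = bk s → bk (w r) = bk (w s)) (fun _ _ h => h) (fun w k _ _ ih r s e => by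
      simpa [← Equiv.Perm.mul_apply, mul_assoc, S.wJ_mul_self] using ih _ _ (h1 k r s e)) hw
  obtain ⟨r, hr, rfl⟩ := hr
  ext s
  refine ⟨by rintro ⟨s, hs, rfl⟩; exact h3 _ a.1.2 _ _ ((h2 _ r hr s).1 hs), fun e => ⟨a.1.1⁻¹ s, (h2 _ r hr _).2 ?_, by simp⟩⟩
  simpa using h3 _ a.1.2.inv _ _ e

omit [Finite S.T] [Finite K] in
theorem CL.blk (hs : Function.Surjective σ) (a : Blk S) (h : CL σ (bs S a.2).sg (bs S a.2).sg) : CL σ a.sg a.sg :=
  let ⟨_, _, _, hn⟩ := exists_cj a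
  h.cj hs (fun _ => hn.inv.mem) fun _ => hn.inv.mem

/-- the case of abelian relative root subgroups -/
theorem closedAt_ab (p : ℕ) [Fact p.Prime] [CharP K p] (h : Lv X lv) {m : ℕ} (hm : ∀ r, R.pos r ↔ lv r < m)
    (h1 : ∀ k r s, lv r = lv s → lv (S.wJ k r) = lv (S.wJ k s))
    (h2 : ∀ k, ∀ r ∈ PJ R (S.J k), ∀ s, s ∈ PJ R (S.J k) ↔ lv s = lv r)
    (hfp : ∀ j < m, ∃ t ∈ X.H, t ∈ S.T ∧ Fp X t (LO R lv j))
    (hsep : ∀ i < m, ∀ j < m, i ≠ j → Sep S (LO R lv i) (LO R lv j))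
    (hcl : ∀ (Γ : Type) [Group Γ] (σ : Γ →* S.T), Function.Surjective σ → σ.ker ≤ center Γ →
      ∀ k, CL σ (bs S k).sg (bs S k).sg) : ClosedAt p S.T := by
  refine closedAt_of_spl p fun Γ _ _ σ hs hc _ => spl_of_steps (fun r => (hm r).1) fun j hj hS =>
    h.step hs hc hS (hfp j hj) fun β P => ?_
  have h3 : ∀ a : Blk S, a.pos → ∃ i < m, a.set = LO R lv i := fun a ha => by
    obtain ⟨r, hr⟩ := set_nonempty a
    refine ⟨_, (hm r).1 (ha r hr), (set_eq_fiber h1 h2 a hr).trans (Set.ext fun s => (and_iff_right_of_imp fun e => ?_).symm)⟩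
    exact (hm s).2 (e.trans_lt ((hm r).1 (ha r hr)))
  have h4 : ∀ a : Blk S, a.pos → a.sg ≤ lk P ∨ a.set = LO R lv j := fun a ha => by
    obtain ⟨i, hi, e⟩ := h3 a ha
    by_cases hij : i = j
    · exact Or.inr (hij ▸ e)
    · exact Or.inl (h.sep P ha (e ▸ hsep i hi j hj hij))
  intro a ha
  refine (h4 a ha).elim id fun e => ?_
  have h5 : a.sg ≤ AL S lv (j + 1) := fun y hy => X.gen_mono (by rw [e, LS_succ]; exact Set.subset_union_right) hy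
  exact self_le hs (AL_le_U _ _) P h5 (((hcl Γ σ hs hc a.2).blk hs).pairing hs P (sg_le_U ha) h5) fun b hb =>
    (h4 b hb).imp_right fun e' => by rw [Blk.sg, Blk.sg, e, e']

end Cfsg.Agent.H14.Mu
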