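import Cfsg.Agent.H14.Mu2

/-! Central extensions of twisted groups: rank one subgroups and the part prime to the characteristic. -/

set_option autoImplicit false
set_option linter.style.haveILetI false

namespace Cfsg.Agent.H14.Mu

open Cfsg.Agent.H15 Cfsg.Agent.H27 Subgroup
open scoped commutatorElement

section st
variable {F : Type*} [Field F] {Y Y' : Type*} [Group Y] [Group Y']

def stMap (D : H29.StData F Y) (f : Y →* Y') : H29.StData F Y' where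
  x t := f (D.x t)
  y t := f (D.y t)
  x_add s t := by rw [D.x_add, map_mul]
  y_add s t := by rw [D.y_add, map_mul]
  conj t ht u := by simpa using congrArg f (D.conj t ht u)

theorem stMap_h (D : H29.StData F Y) (f : Y →* Y') (t : F) : (stMap D f).h t = f (D.h t) := by
  simp [H29.StData.h, H29.StData.w, stMap]

def stSub (D : H29.StData F Y) (M : Subgroup Y) (hx : ∀ t, D.x t ∈ M) (hy : ∀ t, D.y t ∈ M) : H29.StData F M where
  x t := ⟨D.x t, hx t⟩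
  y t := ⟨D.y t, hy t⟩
  x_add s t := Subtype.ext (D.x_add s t)
  y_add s t := Subtype.ext (D.y_add s t)
  conj t ht u := Subtype.ext (D.conj t ht u)

def StC (D D' : H29.StData F Y) : Prop := ∀ s t, (Commute (D.x s) (D'.x t) ∧ Commute (D.x s) (D'.y t)) ∧
  Commute (D.y s) (D'.x t) ∧ Commute (D.y s) (D'.y t)

theorem StC.mem {D D' : H29.StData F Y} (h : StC D D') (t : F) :
    D.x t ∈ centralizer (Set.range D'.x ∪ Set.range D'.y) ∧ D.y t ∈ centralizer (Set.range D'.x ∪ Set.range D'.y) := by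
  constructor <;> rintro _ (⟨s, rfl⟩ | ⟨s, rfl⟩)
  exacts [(h t s).1.1.symm, (h t s).1.2.symm, (h t s).2.1.symm, (h t s).2.2.symm]

def stMul (D D' : H29.StData F Y) (h : StC D D') : H29.StData F Y :=
  stMap ((stSub D _ (fun t => (h.mem t).1) fun t => (h.mem t).2).prod
    (stSub D' (centralizer (centralizer (Set.range D'.x ∪ Set.range D'.y) : Subgroup Y))
      (fun t _ hg => (hg _ (Or.inl ⟨t, rfl⟩)).symm) fun t _ hg => (hg _ (Or.inr ⟨t, rfl⟩)).symm))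
    (MonoidHom.noncommCoprod (Subgroup.subtype _) (Subgroup.subtype _) fun a b => b.2 a a.2)

theorem stMul_h (D D' : H29.StData F Y) (h : StC D D') (t : F) : (stMul D D' h).h t = D.h t * D'.h t :=
  stMap_h _ _ t

variable {σ : Y →* Y'} (hs : Function.Surjective σ) (hc : σ.ker ≤ center Y)
include hs hc

theorem cl_of_comm {C : Subgroup Y'} (h : ∀ y ∈ C, ∃ u v, y = ⁅u, v⁆ ∧ ∀ c ∈ C, Commute c u ∧ Commute c v) :
    CL σ C C := fun a b ha hb => by
  obtain ⟨u, v, e, h1⟩ := h _ hb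
  obtain ⟨u, rfl⟩ := hs u
  obtain ⟨v, rfl⟩ := hs v
  have := commute_comm_of_ker hc (h1 _ ha).1 (h1 _ ha).2
  rwa [← commutatorElement_eq_one_iff_commute, comm_congr hc rfl (e.trans (map_commutatorElement σ u v).symm).symm,
    commutatorElement_eq_one_iff_commute] at this

theorem cl_tensor [Finite F] {C : Subgroup Y'} (x : F → Y') (hx : ∀ s t, x (s + t) = x s * x t)
    (hC : ∀ g, g ∈ C ↔ ∃ t, x t = g) (h : ∀ φ : F →+* F, φ ≠ RingHom.id F →
      ∃ c, c ≠ 0 ∧ (∃ n, ∀ t, n * x t * n⁻¹ = x (c * t)) ∧ c * φ c ≠ 1) : CL σ C C := by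
  have m : ∀ t, x t ∈ C := fun t => (hC _).2 ⟨t, rfl⟩
  obtain ⟨β, P, hD⟩ := exists_pairing hs hc (N := normalizer (C : Set Y')) (U := C) (A := ⊥) (A' := C) (D := ⊥)
    (by simp) (by simp) (by simp) bot_le le_rfl le_normalizer (fun n hn u => (mem_normalizer_iff.1 hn u).1)
    (fun n hn u => (mem_normalizer_iff.1 hn u).1) (fun g hg y hy => by
      obtain ⟨s, rfl⟩ := (hC g).1 hg
      obtain ⟨t, rfl⟩ := (hC y).1 hy
      rw [mem_bot, commutatorElement_eq_one_iff_mul_comm, ← hx, ← hx, add_comm])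
  letI := kerCommGroup hc
  obtain ⟨b, hb⟩ := P.exists_biadd hc x x (fun s s' t => by rw [hx, P.mul_left _ (m _) _ (m _) _ (m _)])
    (fun s t t' => by rw [hx, P.mul_right _ (m _) _ (m _) _ (m _)])
  have inj : ∀ u v : Additive σ.ker, (u.toMul : Y) = v.toMul → u = v := fun u v h =>
    Additive.toMul.injective (Subtype.ext h)
  intro a a' ha ha'
  have := hD a a' ha ha'
  obtain ⟨s, e⟩ := (hC _).1 ha
  obtain ⟨t, e'⟩ := (hC _).1 ha'
  rw [← e, ← e', ← hb, tensor_lemma_alt b {s | s.1 = s.2 ∧ s.1 ≠ 0 ∧ ∃ n, ∀ t, n * x t * n⁻¹ = x (s.1 * t)}] at this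
  · simpa [commutatorElement_eq_one_iff_commute] using this
  · rintro ⟨c, c'⟩ ⟨e, h0, n, hn⟩ s t
    obtain rfl : c = c' := e
    apply inj
    rw [hb, hb, ← P.conj n _ _ (m s) _ (m t), hn, hn]
    refine (cj_iff_mem_normalizer).1 (cj_of_mem (fun y hy => ?_) fun y hy => ?_)
    · obtain ⟨s, rfl⟩ := (hC y).1 hy
      exact hn s ▸ m _
    · obtain ⟨s, rfl⟩ := (hC y).1 hy
      rw [← mul_inv_cancel_left₀ h0 s, ← hn]; simpa [mul_assoc] using m _
  · intro φ hφ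
    obtain ⟨c, h0, h1, h2⟩ := h φ hφ
    exact ⟨(c, c), ⟨rfl, h0, h1⟩, h2⟩
  · intro x
    apply inj
    rw [hb]; exact P.self hs le_rfl (m _)

theorem cl_st [Finite F] {C : Subgroup Y'} (D : H29.StData F Y') (hC : ∀ g, g ∈ C ↔ ∃ t, D.x t = g)
    (h4 : Nat.card F ≠ 4) (h9 : Nat.card F ≠ 9) : CL σ C C :=
  cl_tensor hs hc D.x D.x_add hC fun φ hφ =>
    let ⟨a, h0, h⟩ := exists_sq_hom_ne h4 h9 φ hφ
    ⟨_, pow_ne_zero 2 h0, ⟨_, st_hx D h0⟩, h⟩

end st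

variable {ι Φ : Type} [Fintype ι] [DecidableEq ι] {R : RS ι Φ} {K : Type*} [Field K] {G : Type*} [Group G]
variable {X : RG R K G} {F : Type*} [Field F]

def stOne (X : RG R K G) (r : Φ) (φ : F →+* K) : H29.StData F G where
  x t := X.x r (φ t)
  y t := X.x (R.neg r) (φ t)
  x_add s t := by rw [map_add, X.x_add]
  y_add s t := by rw [map_add, X.x_add]
  conj t ht u := by
    have := X.n_conj r r (φ t) ((map_ne_zero φ).2 ht) (φ u)
    rw [RG0.n, R.refl_self, X.η_self, R.pair_self] at this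
    simp only [map_neg, map_inv₀, this, map_div₀, map_pow]
    congr 1; simp [zpow_neg, zpow_ofNat, div_eq_inv_mul]

theorem stOne_h (X : RG R K G) (r : Φ) (φ : F →+* K) (t : F) : (stOne X r φ).h t = X.h r (φ t) := by
  simp [H29.StData.h, H29.StData.w, stOne, RG0.h, RG0.n]

theorem stC_one {i j : ι} (hij : i ≠ j) (h : R.car i j = 0) (φ ψ : F →+* K) :
    StC (stOne X (R.simple i) φ) (stOne X (R.simple j) ψ) := fun _ _ => by
  have a : ∀ i t, X.x (R.simple i) t ∈ X.gen (R.sub {i}) := fun i t =>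
    X.x_mem_gen (S := R.sub {i}) (RG.simple_mem_sub.2 (Set.mem_singleton i)) t
  have b : ∀ i t, X.x (R.neg (R.simple i)) t ∈ X.gen (R.sub {i}) := fun i t =>
    X.x_mem_gen (S := R.sub {i}) (RG.neg_mem_sub (RG.simple_mem_sub.2 (Set.mem_singleton i))) t
  exact ⟨⟨commute_of_orth X hij h (a _ _) (a _ _), commute_of_orth X hij h (a _ _) (b _ _)⟩,
    commute_of_orth X hij h (b _ _) (a _ _), commute_of_orth X hij h (b _ _) (b _ _)⟩

theorem StC.mul {D D₁ D₂ : H29.StData F G} (h1 : StC D D₁) (h2 : StC D D₂) (h : StC D₁ D₂) : StC D (stMul D₁ D₂ h) :=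
  fun s t => ⟨⟨(h1 s t).1.1.mul_right (h2 s t).1.1, (h1 s t).1.2.mul_right (h2 s t).1.2⟩,
    (h1 s t).2.1.mul_right (h2 s t).2.1, (h1 s t).2.2.mul_right (h2 s t).2.2⟩

variable {κ : Type} [Finite Φ] {S : TwO X κ}

/-- a node of type `SL₂` -/
structure Nod (S : TwO X κ) (k : κ) (D : H29.StData F G) : Prop where
  x : ∀ g, g ∈ S.XP k ↔ ∃ t, g = D.x t
  y : ∀ g, g ∈ S.XM k ↔ ∃ t, g = D.y t

namespace Nod
variable {k : κ} {D : H29.StData F G} (h : Nod S k D)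

def st : H29.StData F S.T :=
  stSub D _ (fun t => S.XP_le k ((h.x _).2 ⟨t, rfl⟩)) fun t => S.XM_le k ((h.y _).2 ⟨t, rfl⟩)

theorem mem_x (g : S.T) : g ∈ (bs S k).sg ↔ ∃ t, h.st.x t = g :=
  mem_bs.trans ((h.x g).trans (exists_congr fun _ => ⟨fun e => Subtype.ext e.symm, fun e => congrArg Subtype.val e.symm⟩))

theorem mem_y (g : S.T) : g ∈ (bs S k).neg.sg ↔ ∃ t, h.st.y t = g :=
  mem_bs_neg.trans ((h.y g).trans
    (exists_congr fun _ => ⟨fun e => Subtype.ext e.symm, fun e => congrArg Subtype.val e.symm⟩))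

end Nod

variable {Γ : Type*} [Group Γ] {σ : Γ →* S.T}

theorem cl_long (hs : Function.Surjective σ) (hc : σ.ker ≤ center Γ) {a b k : Φ} {E : Subfield K}
    (hE : ∀ t, X.x a t ∈ S.T ↔ t ∈ E) {t₀ : K} (h0 : t₀ ≠ 0) (hb : X.x b t₀ ∈ S.T) {ε : K} (hε : ε ≠ 0)
    (hx : ∀ t u, X.x b u * X.x a t = X.x a t * X.x b u * X.x k (ε * t * u))
    (h1 : ∀ t u, Commute (X.x k t) (X.x a u)) (h2 : ∀ t u, Commute (X.x k t) (X.x b u)) {n : G} (hn : n ∈ S.T)
    {w : Equiv.Perm Φ} (hw : X.Rep n w) (hk : w k = a) {C : Subgroup S.T} (hC : ∀ g ∈ C, ∃ t, (g : G) = X.x a t) :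
    CL σ C C := by
  obtain ⟨c, h3⟩ := hw.conj_x k
  rw [hk] at h3
  have h4 : ∀ t, X.x a (c * (ε * t * t₀)) = ⁅n * (X.x b t₀)⁻¹ * n⁻¹, n * (X.x a t)⁻¹ * n⁻¹⁆ := fun t => by
    rw [← h3, show ⁅n * (X.x b t₀)⁻¹ * n⁻¹, n * (X.x a t)⁻¹ * n⁻¹⁆ =
      n * ((X.x b t₀)⁻¹ * (X.x a t)⁻¹ * (X.x b t₀ * X.x a t)) * n⁻¹ by group, hx]; group
  have m1 := mul_mem (mul_mem hn (inv_mem hb)) (inv_mem hn)
  have m2 := fun t ht => mul_mem (mul_mem hn (inv_mem ((hE t).2 ht))) (inv_mem hn)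
  have h5 : c * (ε * 1 * t₀) ∈ E := (hE _).1 (h4 1 ▸ commutator_le_self _
    (commutator_mem_commutator m1 (m2 1 (one_mem _))))
  refine cl_of_comm hs hc fun y hy => ?_
  obtain ⟨t, e⟩ := hC y hy
  refine ⟨⟨_, m1⟩, ⟨_, m2 _ (div_mem ((hE t).1 (e ▸ y.2)) h5)⟩, Subtype.ext (e.trans (.trans ?_ (h4 _))), fun g hg => ?_⟩
  · congr 1; field_simp
  obtain ⟨s, e'⟩ := hC g hg
  have e2 : (g : G) = n * X.x k (c⁻¹ * s) * n⁻¹ := by rw [h3, e']; simp
  exact ⟨Subtype.ext (e2 ▸ ((h2 _ _).inv_right.conj n).eq :), Subtype.ext (e2 ▸ ((h1 _ _).inv_right.conj n).eq :)⟩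

variable [Finite K] [Finite S.T] {p : ℕ} [Fact p.Prime] [CharP K p]

theorem sr_U : IsPGroup p (sr S).U := (isPGroup_UT p).to_le posU_eq.le

/-- the lifted rank one subgroups -/
noncomputable abbrev hL (h : CExtP σ p) (k : κ) : Subgroup Γ := (sr S).hX h sr_U (bs S k) ⊔ (sr S).hX h sr_U (bs S k).neg

theorem Nod.lift [Finite F] {k : κ} {D : H29.StData F G} (hD : Nod S k D) (h : CExtP σ p) {t : Γ} (ht : t ∈ hL h k)
    (ht' : σ t ∈ HT S) : ∃ a, a ≠ 0 ∧ (σ t : G) = D.h a ∧ (a = 1 → t = 1) := by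
  have p1 := (sr S).isPGroup_X (sr_U (p := p)) (bs S k)
  have p2 := (sr S).isPGroup_X (sr_U (p := p)) (bs S k).neg
  have m1 : ∀ s, hD.st.x s ∈ (bs S k).sg := fun s => (hD.mem_x _).2 ⟨s, rfl⟩
  have m2 : ∀ s, hD.st.y s ∈ (bs S k).neg.sg := fun s => (hD.mem_y _).2 ⟨s, rfl⟩
  have q1 := fun s => h.map_plift (PElt.of_mem p1 (m1 s))
  have q2 := fun s => h.map_plift (PElt.of_mem p2 (m2 s))
  let E : H29.StData F Γ :=
    { x := fun s => plift σ p (hD.st.x s)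
      y := fun s => plift σ p (hD.st.y s)
      x_add := fun s t => by rw [hD.st.x_add, h.plift_mul p1 (m1 s) (m1 t)]
      y_add := fun s t => by rw [hD.st.y_add, h.plift_mul p2 (m2 s) (m2 t)]
      conj := fun t ht u => by
        rw [h.plift_conj (PElt.of_mem p1 (m1 u)), map_mul, map_mul, q1, q2, hD.st.conj t ht u] }
  have e1 : addRange E.x E.x_add = (sr S).hX h sr_U (bs S k) := by
    ext a
    rw [mem_addRange, SR.mem_hX]
    refine ⟨by rintro ⟨s, rfl⟩; exact ⟨q1 s ▸ m1 s, h.pelt_plift (PElt.of_mem p1 (m1 s))⟩, fun ha => ?_⟩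
    obtain ⟨s, e⟩ := (hD.mem_x _).1 ha.1
    exact ⟨s, (congrArg _ e).trans (h.plift_eq ha.2)⟩
  have e2 : addRange E.y E.y_add = (sr S).hX h sr_U (bs S k).neg := by
    ext a
    rw [mem_addRange, SR.mem_hX]
    refine ⟨by rintro ⟨s, rfl⟩; exact ⟨q2 s ▸ m2 s, h.pelt_plift (PElt.of_mem p2 (m2 s))⟩, fun ha => ?_⟩
    obtain ⟨s, e⟩ := (hD.mem_y _).1 ha.1
    exact ⟨s, (congrArg _ e).trans (h.plift_eq ha.2)⟩
  obtain ⟨a, h0, rfl⟩ := st_exists_h E (g := t) (by rwa [e1, e2])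
    (by rw [e1]; exact (sr S).hX_cj h _ (H_le_torT ht' _)) (by rw [e2]; exact (sr S).hX_cj h _ (H_le_torT ht' _))
    (by
      rw [e1, e2]
      intro e
      have := congrArg (Subgroup.map σ) e
      rw [SR.map_hX, SR.map_hX] at this
      exact (sr S).not_le_U k (this.trans_le ((sr S).X_le_U ((sr S).pos_α k))))
    (fun u hu => by
      rw [e2] at hu
      have h1 := (sr S).rigid k _ (m1 u) (q1 u ▸ (sr S).cj_of_hX h _ hu)
      exact (congrArg (plift σ p) (eq_one_of_pelt p (torT_eq.le h1) (PElt.of_mem p1 (m1 u)))).trans h.plift_one)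
  refine ⟨a, h0, ?_, by rintro rfl; exact E.h_one⟩
  simp only [H29.StData.h, H29.StData.w, map_mul, E, q1, q2]; rfl

theorem closedAt_of_prod [DecidableEq κ] {r : ℕ} (hr : r.Prime) (hrp : r ≠ p) (l : List κ) (hl : l.Nodup)
    (hl' : ∀ i, i ∈ l) (h : ∀ (Γ : Type) [Group Γ] [Finite Γ] (σ : Γ →* S.T) (h : CExtP σ p), Nat.card σ.ker = r →
      ∀ t : κ → Γ, (∀ i, t i ∈ hL h i ∧ σ (t i) ∈ HT S) → σ (l.map t).prod = 1 → (l.map t).prod = 1) :
    ClosedAt r S.T := closedAt_of hr fun Γ _ _ σ hs hk hz z h1 => by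
  have hσ := cextP_of_stem hs ((Nat.coprime_primes hr Fact.out).2 hrp) hz
  obtain ⟨t, h2, rfl⟩ := (sr S).exists_prod_ker hσ sr_U hs iSup_sg
    (fun t ht => eq_one_of_pelt p (torT_eq.le ht)) l hl hl' h1
  exact h Γ σ hσ hk t (fun i => ⟨(h2 i).1, torT_eq.le (h2 i).2⟩) h1

end Cfsg.Agent.H14.Mu
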