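import Cfsg.Agent.H14.Mu4

/-! The Schur multiplier of the triality groups: the generic case. -/

set_option autoImplicit false
set_option linter.style.haveILetI false

namespace Cfsg.Agent.H14.Mu

open Cfsg.Agent.H15 Cfsg.Agent.H27 Subgroup Cfsg.Lie Cfsg.Lie.ChevalleyDatum
open scoped commutatorElement

variable {K : Type*} [Field K] [Fintype K] {q : ℕ} {S : TwO (X4 K) (Fin 2)}

def lvD (r : ℕ) : ℕ := getW 8 256 0x102020305020303040505696968676766696766666564 r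

def ctD (i j : ℕ) (a : Fin 4) : ℤ := (chevD4.coroot.getD (getW 8 256
  0x171717170c110011111111161600160f160e110e000e0e0f0f0f0f000f0c0c0c0c0c00 (6 * i + j)) #[]).getD a 0

def exD (v : Fin 4 → ℤ) (r : ℕ) : ℤ := ∑ a : Fin 4, v a * chevD4.cartan a r

def ZD (v : Fin 4 → ℤ) (r : ℕ) : Prop := exD v r = 0 ∧ exD (v ∘ τ4 ∘ τ4) r = 0 ∧ exD (v ∘ τ4) r = 0

def GD (v : Fin 4 → ℤ) (r : ℕ) : Prop := ¬ ZD v r ∧ |exD v r| ≤ 2 ∧ |exD (v ∘ τ4 ∘ τ4) r| ≤ 2 ∧ |exD (v ∘ τ4) r| ≤ 2 ∧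
  |exD v r| + |exD (v ∘ τ4 ∘ τ4) r| + |exD (v ∘ τ4) r| ≤ 3

instance instDecZD (v : Fin 4 → ℤ) (r : ℕ) : Decidable (ZD v r) := by unfold ZD; infer_instance
instance instDecGD (v : Fin 4 → ℤ) (r : ℕ) : Decidable (GD v r) := by unfold GD; infer_instance

set_option synthInstance.maxSize 1000 in
theorem certD : ∀ i < 6, ∀ j < 6, i ≠ j →
    ((∀ r : Fin 24, lvD r = i → ZD (ctD i j) r) ∧ ∀ r : Fin 24, lvD r = j → GD (ctD i j) r) ∨
    1 < i ∧ (∀ r : Fin 24, lvD r = i → GD (ctD i j) r) ∧ ∀ r : Fin 24, lvD r = j → ZD (ctD i j) r := by decide +kernel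

theorem posD (r : Fin 24) : R4.pos r ↔ lvD r < 6 :=
  (goodD4.isPosRoot_iff r).symm.trans (by revert r; decide +kernel)

omit [Fintype K] in
theorem lv_D4 : Lv (X4 K) fun r : Fin 24 => lvD r :=
  Lv.of_f posD (fL goodD4 ([(6, 0), (10, 1), (6, 2), (6, 3)] : List (ℤ × Fin 4)))
    (F := fun r : Fin 24 => (([(6, 0), (10, 1), (6, 2), (6, 3)] : List (ℤ × Fin 4)).map
      fun p => p.1 * chevD4.cartan p.2 r).sum) (fun r => fL_apply goodD4 _ r) (by decide +kernel) (by decide +kernel)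

variable (h : H15.IsD4 S q)
include h

theorem torD (t : Kˣ) (v : Fin 4 → ℤ) : ∃ c, tor4 K c ∈ (X4 K).H ⊓ S.T ∧ ∀ r : Fin 24, ∏ a : Fin 4, c a ^ chevD4.cartan a r =
    t ^ (exD v r + q * (exD (v ∘ τ4 ∘ τ4) r + q * exD (v ∘ τ4) r)) := by
  have h1 : ((t ^ q) ^ q) ^ q = t := Units.ext (by simpa [h.g] using h.gg 0 0 0 t)
  refine ⟨fun a => t ^ v a * ((t ^ q) ^ v (τ4 (τ4 a)) * ((t ^ q) ^ q) ^ v (τ4 a)), h.H_eq.ge ⟨_, h.mem_CFix.2 fun a => ?_, rfl⟩,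
    fun r => ?_⟩
  · rw [mul_pow, mul_pow, zpow_pow', zpow_pow', zpow_pow', h1, (by decide : ∀ a, τ4 (τ4 (τ4 a)) = a), mul_comm, mul_assoc]
  · simp only [mul_zpow, Finset.prod_mul_distrib, prod_zpow_mul, zpow_add, zpow_mul, zpow_natCast]; rfl

theorem sepD (h2 : q ≠ 2) (v : Fin 4 → ℤ) : ∃ t ∈ (X4 K).H, t ∈ S.T ∧
    (∀ A : Set (Fin 24), (∀ r ∈ A, ZD v r) → Fx (X4 K) t A) ∧ ∀ A : Set (Fin 24), (∀ r ∈ A, GD v r) → Fp (X4 K) t A := by
  obtain ⟨t, ht⟩ := IsCyclic.exists_generator (α := Kˣ)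
  obtain ⟨c, h1, e⟩ := torD h t v
  refine ⟨_, h1.1, h1.2, fun A hA r hr => tor_fx goodD4 ((e r).trans ?_),
    fun A hA r hr => tor_conj_ne goodD4 ((e r).trans_ne ?_)⟩
  · obtain ⟨a1, a2, a3⟩ := hA r hr
    simp [a1, a2, a3]
  · obtain ⟨a0, a1, a2, a3, a4⟩ := hA r hr
    have hq : (3 : ℤ) ≤ q := by have := h.hq; omega
    unfold ZD at a0
    generalize exD v r = a, exD (v ∘ τ4 ∘ τ4) r = b, exD (v ∘ τ4) r = c at *
    refine small_ne ht (fun e => a0 ?_) ?_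
    · have b1 : a = 0 := Int.eq_zero_of_abs_lt_dvd (m := q) ⟨-(b + q * c), by linarith⟩ (by omega)
      have b2 : b + q * c = 0 := (mul_eq_zero.1 (by linarith)).resolve_left (show (q : ℤ) ≠ 0 by omega)
      have b3 : b = 0 := Int.eq_zero_of_abs_lt_dvd (m := q) ⟨-c, by linarith⟩ (by omega)
      exact ⟨b1, b3, (mul_eq_zero.1 (by linarith)).resolve_left (show (q : ℤ) ≠ 0 by omega)⟩
    · rw [h.hK]; push_cast
      have b1 : |a + q * (b + q * c)| ≤ |a| + q * (|b| + q * |c|) := (abs_add_le _ _).trans (by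
        rw [abs_mul, Nat.abs_cast]
        have := abs_add_le b (q * c)
        rw [abs_mul, Nat.abs_cast] at this
        nlinarith)
      have := abs_nonneg a
      have := abs_nonneg b
      have := abs_nonneg c
      generalize |a| = x, |b| = y, |c| = z at *
      have b2 : 3 * (q * q) ≤ (q : ℤ) ^ 3 := by nlinarith
      have b3 : 3 * q ≤ (q : ℤ) * q := by nlinarith
      interval_cases x <;> interval_cases y <;> interval_cases z <;> nlinarith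

theorem PJD (k : Fin 2) (r : Fin 24) : r ∈ PJ R4 (S.J k) ↔ lvD r = ![4, 5] k := by
  rw [TwO.J, h.o]
  exact (mem_PJ_iff goodD4 r).trans ((by decide +kernel : ∀ k (r : Fin 24), (chevD4.IsPosRoot r ∧
    ∀ i : Fin 4, o4 i ≠ k → (chevD4.coroot.getD r #[]).getD i 0 = 0) ↔ lvD r = ![4, 5] k) k r)

theorem wJD (k : Fin 2) (r s : Fin 24) : lvD r = lvD s → lvD (S.wJ k r) = lvD (S.wJ k s) := by
  rw [h.wJ_eq', wp4, wp4]
  revert k r s; decide +kernel

theorem nodD : Nod S 1 (stMul _ _ ((stC_one (X := X4 K) (i := 0) (j := 2) (by decide) (car4 _ _) (RingHom.id K) (S.g 0)).mul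
    (stC_one (j := 3) (by decide) (car4 _ _) _ ((S.g 2).comp (S.g 0))) (stC_one (by decide) (car4 _ _) _ _))) :=
  ⟨S.three_pos h.J1 (by decide) (h.τ_eq 0) (h.τ_eq 2) (h.τ_eq 3) (car4 _ _) (car4 _ _) (car4 _ _) (h.gg _ _ _),
    S.three_neg h.J1 (by decide) (h.τ_eq 0) (h.τ_eq 2) (h.τ_eq 3) (car4 _ _) (car4 _ _) (car4 _ _) (h.gg _ _ _)⟩

theorem clD {Γ : Type*} [Group Γ] {σ : Γ →* S.T} (hs : Function.Surjective σ) (hc : σ.ker ≤ center Γ) (k : Fin 2) :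
    CL σ (bs S k).sg (bs S k).sg := by
  fin_cases k
  · have a1 := S.XP_le 0 ((S.one_pos h.J0 (h.τ_eq 1) _).2 ⟨1, map_one _, rfl⟩)
    obtain ⟨c, hc'⟩ := (S.rep_nJ 1).conj_x (R4.simple 1)
    have a2 := mul_mem (mul_mem (S.nJ_mem_T 1) a1) (inv_mem (S.nJ_mem_T 1))
    rw [hc', show S.wJ 1 (R4.simple 1) = 22 by
      rw [h.wJ_eq', simple4]; exact Fin.ext ((wp4 _ _).trans (by decide +kernel))] at a2
    refine cl_long hs hc (x_mem_iff h.J0 (h.τ_eq 1)) (by simp) a2 (by simp) comm4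
      ((X4 K).commute_sl (slD4 _) (by rw [simple4, pair4]; decide +kernel))
      ((X4 K).commute_sl (slD4 _) (by rw [pair4]; decide +kernel))
      (mul_mem (S.nJ_mem_T 1) (S.nJ_mem_T 0)) ((S.rep_nJ 1).mul (S.rep_nJ 0)) ?_
      fun g hg => let ⟨t, _, e⟩ := (S.one_pos h.J0 (h.τ_eq 1) _).1 (mem_bs.1 hg); ⟨t, e⟩
    rw [h.wJ_eq', h.wJ_eq', ← RS.wp_append, simple4]
    exact Fin.ext ((wp4 _ _).trans (by decide +kernel))
  · have := h.hq
    refine cl_st hs hc _ (nodD h).mem_x ?_ ?_ <;> rw [Nat.card_eq_fintype_card, h.hK] <;> intro e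
    · have := Nat.pow_le_pow_left this 3; omega
    · rcases Nat.lt_or_ge q 3 with c | c
      · interval_cases q; omega
      · have := Nat.pow_le_pow_left c 3; omega

theorem closedAt_D4 (h2 : q ≠ 2) (p : ℕ) [Fact p.Prime] [CharP K p] : ClosedAt p S.T := by
  haveI := h.finite
  refine closedAt_ab (lv := fun r : Fin 24 => lvD r) p lv_D4 posD (wJD h)
    (fun k r hr s => by rw [PJD h] at hr ⊢; rw [hr]) (fun j hj => ?_) (fun i hi j hj hij => ?_)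
    fun Γ _ σ hs hc => clD h hs hc
  · obtain ⟨t, a, b, -, c⟩ := sepD h h2 (ctD (if j = 0 then 1 else 0) j)
    refine ⟨t, a, b, c _ fun r hr => ((certD _ ?_ j hj ?_).resolve_right fun e => ?_).2 r hr.2⟩
    · split_ifs <;> omega
    · split_ifs <;> omega
    · have := e.1; split_ifs at this <;> omega
  · obtain ⟨t, a, b, c, d⟩ := sepD h h2 (ctD i j)
    exact ⟨t, a, b, (certD i hi j hj hij).imp (fun e => ⟨c _ fun r hr => e.1 r hr.2, d _ fun r hr => e.2 r hr.2⟩)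
      fun e => ⟨d _ fun r hr => e.2.1 r hr.2, c _ fun r hr => e.2.2 r hr.2⟩⟩

theorem closedAt_D4' (p : ℕ) [Fact p.Prime] [CharP K p] {r : ℕ} (hr : r.Prime) (hrp : r ≠ p) : ClosedAt r S.T := by
  haveI := h.finite
  refine closedAt_of_prod hr hrp [0, 1] (by decide) (by decide) fun Γ _ _ σ hσ _ t ht e => ?_
  obtain ⟨a0, b0, c0, d0⟩ := (nod_one h.J0 (h.τ_eq 1)).lift hσ (ht 0).1 (ht 0).2
  obtain ⟨a1, b1, c1, d1⟩ := (nodD h).lift hσ (ht 1).1 (ht 1).2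
  have e1 := congrArg Subtype.val e
  have H := h_eq_tor (tor4_single (K := K))
  simp only [List.map, List.prod_cons, List.prod_nil, map_mul, Subgroup.coe_mul, c0, c1, stMul_h, stOne_h, mul_one,
    RingHom.id_apply] at e1
  rw [H _ ((map_ne_zero _).2 b0), H _ b1, H _ ((map_ne_zero _).2 b1), H _ ((map_ne_zero _).2 b1),
    ← map_mul, ← map_mul, ← map_mul] at e1
  obtain ⟨f0, f1, f2⟩ := ker_D4 (mem_tor4_ker.1 e1)
  have f3 := f0 0
  simp [Units.ext_iff] at f1 f2 f3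
  have f4 : a1 = 1 := by
    rcases f3 with rfl | rfl
    · rfl
    · simpa using f2
  simp [d0 f1, d1 f4]

end Cfsg.Agent.H14.Mu
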