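import Cfsg.Agent.H14.SS6
import Cfsg.Agent.H14.SL2
import Cfsg.Agent.H12.Torus

/-! Fundamental subgroups `SL₂`. -/

set_option autoImplicit false

namespace Cfsg.Agent.H14

open Matrix

variable {ι Φ : Type} [Fintype ι] [DecidableEq ι] {R : RS ι Φ} {K : Type*} [Field K] {G : Type*} [Group G]

theorem RG.exists_SL2_inj (X : RG R K G) (hm : X.HMul) {r s : Φ} (hr : R.pos r) (h : R.pair r s = 1) :
    ∃ φ : SpecialLinearGroup (Fin 2) K →* G, Function.Injective φ ∧ φ.range ≤ X.gen {r, R.neg r} ∧ φ (-1) = X.h r (-1) := by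
  obtain ⟨φ, hφ⟩ := X.exists_SL2 hm r
  refine ⟨φ, (injective_iff_map_eq_one _).2 fun g hg => ?_, ?_, by simp [hφ, RG.cell]⟩
  · have h1 := g.det_coe
    rw [det_fin_two] at h1
    rw [hφ, RG.cell] at hg
    split_ifs at hg with h2
    · rw [h2, mul_zero, sub_zero] at h1
      have h3 := left_ne_zero_of_mul_eq_one h1
      have h4 := X.eq_one_of_mem_U_H (X.x_mem_U hr _) (eq_inv_of_mul_eq_one_left hg ▸ inv_mem (X.h_mem_H r h3))
      have h5 := X.h_conj r s h3 1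
      rw [h4, one_mul] at hg
      rw [hg, h, zpow_one, one_mul, inv_one, mul_one, mul_one, (X.x_injective s).eq_iff] at h5
      rw [X.x_eq_one_iff, ← h5, one_mul] at h4
      rw [← h5, one_mul] at h1
      ext i j
      fin_cases i <;> fin_cases j <;> simp [h1, h2, h4, ← h5]
    · have h3 : -(g 1 0)⁻¹ ≠ 0 := by simpa using h2
      have := (X.mem_B_iff_rep (X.n_mem_N r h3) (X.rep_n r h3)).1 ((mul_mem_cancel_left (X.x_mem_B hr _)).1
        ((mul_mem_cancel_right (X.x_mem_B hr _)).1 (hg ▸ one_mem _)))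
      exact absurd (by simpa using DFunLike.congr_fun this r) (R.neg_ne r)
  · rintro _ ⟨g, rfl⟩
    rw [hφ, RG.cell]
    have h1 := fun t => X.x_mem_gen (S := {r, R.neg r}) (r := r) (by simp) t
    have h2 := fun t => X.n_mem_gen (S := {r, R.neg r}) (r := r) (by simp) (by simp) t
    split_ifs
    exacts [mul_mem (h1 _) (mul_mem (h2 _) (h2 _)), mul_mem (mul_mem (h1 _) (h2 _)) (h1 _)]

theorem RG0.commute_of_long (X : RG0 R K G) {r s : Φ} (h : R.pair r s = 0) (hl : ∀ k, 2 ≤ R.pair r k → k = r) {a b : G}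
    (ha : a ∈ X.gen {r, R.neg r}) (hb : b ∈ X.gen {s, R.neg s}) : a * b = b * a := by
  have h1 : ∀ r s, R.pair r s = 0 → (∀ k, 2 ≤ R.pair r k → k = r) → s ≠ R.neg r ∧ R.comb r s ⊆ ∅ := fun r s h hl => by
    refine ⟨by rintro rfl; simp at h, fun k hk => ?_⟩
    obtain ⟨i, j, a1, a2, a3⟩ := RS.comb_pair hk
    obtain rfl := hl k (by simp [a3, h]; omega)
    have := a3 s
    simp [R.pair_eq_zero_comm.1 h, a2.ne'] at this
  have hl' : ∀ k, 2 ≤ R.pair (R.neg r) k → k = R.neg r := fun k hk => by rw [← hl (R.neg k) (by simpa using hk), R.neg_neg]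
  have := X.commutator_mem_gen (M := ∅) (by simp) (by simp) (by
    simpa using ⟨⟨by simpa using h1 _ _ h hl, by simpa using h1 r (R.neg s) (by simp [h]) hl⟩,
      by simpa using h1 _ s (by simp [h]) hl', by simpa using h1 _ (R.neg s) (by simp [h]) hl'⟩) ha hb
  rw [X.gen_empty, Subgroup.mem_bot, mul_assoc, mul_assoc, inv_mul_eq_one, eq_inv_mul_iff_mul_eq] at this
  exact this.symm

lemma card_centralizer_of_isConj {a b : G} (h : IsConj a b) :
    Nat.card (Subgroup.centralizer {a}) = Nat.card (Subgroup.centralizer {b}) := by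
  obtain ⟨c, rfl⟩ := isConj_iff.1 h
  exact Nat.card_congr ((MulAut.conj c).toEquiv.subtypeEquiv fun x => by
    simp [Subgroup.mem_centralizer_singleton_iff, ← mul_assoc]; simp [mul_assoc])

theorem sl2_pair [Fintype K] {φ ψ : SpecialLinearGroup (Fin 2) K →* G} (h1 : Function.Injective φ) (h2 : Function.Injective ψ)
    (h3 : ∀ x y, φ x * ψ y = ψ y * φ x) {t : G} (h4 : φ (-1) = t) (h5 : ψ (-1) = t) (ht : orderOf t = 2)
    (h : Nat.card (Subgroup.centralizer {t}) = Fintype.card K ^ 2 * (Fintype.card K ^ 2 - 1) ^ 2) :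
    ∃ L₁ L₂ : Subgroup G, Nonempty (L₁ ≃* SpecialLinearGroup (Fin 2) K) ∧ Nonempty (L₂ ≃* SpecialLinearGroup (Fin 2) K) ∧
      (∀ x ∈ L₁, ∀ y ∈ L₂, x * y = y * x) ∧ L₁ ⊓ L₂ = Subgroup.zpowers t ∧ L₁ ⊔ L₂ ≤ Subgroup.centralizer {t} ∧
      (L₁ ⊔ L₂).relIndex (Subgroup.centralizer {t}) = 2 := by
  have a1 : φ.range ⊓ ψ.range = Subgroup.zpowers t := by
    refine le_antisymm ?_ (Subgroup.zpowers_le.2 ⟨⟨_, h4⟩, _, h5⟩)
    rintro _ ⟨⟨x, rfl⟩, y, e⟩
    rcases H12.mem_center_SL2.1 (Subgroup.mem_center_iff.2 fun z => h1 (by rw [map_mul, map_mul, ← e, h3] : φ (z * x) = _)) with rfl | rfl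
    · simp
    · exact h4 ▸ Subgroup.mem_zpowers _
  have a2 : φ.range ⊔ ψ.range ≤ Subgroup.centralizer {t} := sup_le
    (by rintro _ ⟨x, rfl⟩; exact Subgroup.mem_centralizer_singleton_iff.2 (h5 ▸ h3 x _))
    (by rintro _ ⟨x, rfl⟩; exact Subgroup.mem_centralizer_singleton_iff.2 (h4 ▸ (h3 _ x).symm))
  refine ⟨φ.range, ψ.range, ⟨(MonoidHom.ofInjective h1).symm⟩, ⟨(MonoidHom.ofInjective h2).symm⟩,
    by rintro _ ⟨x, rfl⟩ _ ⟨y, rfl⟩; exact h3 x y, a1, a2, ?_⟩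
  let f := φ.noncommCoprod ψ h3
  have a3 : Nat.card f.ker = 2 := by
    refine .trans ?_ ht
    rw [← Nat.card_zpowers, ← a1]
    refine Nat.card_congr (Equiv.ofBijective (fun z => ⟨φ z.1.1, ⟨_, rfl⟩, z.1.2⁻¹, by
      rw [map_inv, inv_eq_iff_mul_eq_one, ← h3]; exact z.2⟩) ⟨fun z z' e => ?_, ?_⟩)
    · have e1 := h1 (congrArg Subtype.val e)
      have e2 : φ z.1.1 * ψ z.1.2 = 1 := z.2
      have e3 : φ z'.1.1 * ψ z'.1.2 = 1 := z'.2
      exact Subtype.ext (Prod.ext e1 (h2 (mul_left_cancel (e2.trans (e1 ▸ e3.symm)))))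
    · rintro ⟨_, ⟨x, rfl⟩, y, e⟩
      exact ⟨⟨(x, y⁻¹), show φ x * ψ y⁻¹ = 1 by simp [e]⟩, rfl⟩
  have a4 := f.ker.card_mul_index
  have a5 := ((φ.range ⊔ ψ.range).subgroupOf (Subgroup.centralizer {t})).card_mul_index
  rw [Subgroup.index_ker, a3, Nat.card_prod, H12.card_SL2 rfl, show f.range = _ from MonoidHom.noncommCoprod_range _ _ _] at a4
  rw [Nat.card_congr (Subgroup.subgroupOfEquivOfLe a2).toEquiv, h] at a5
  have a6 : 0 < Fintype.card K ^ 2 - 1 := Nat.sub_pos_of_lt (Nat.one_lt_pow two_ne_zero Fintype.one_lt_card)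
  refine Nat.eq_of_mul_eq_mul_left (Nat.pos_of_mul_pos_left (a4 ▸ by positivity : 0 < 2 * _)) (a5.trans ?_)
  rw [mul_comm _ 2, a4]; ring

end Cfsg.Agent.H14
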