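import Cfsg.Agent.H14.Stb4
import Cfsg.Agent.H14.SL2

/-! The Steinberg character is the only character of defect zero. -/

set_option autoImplicit false

namespace Cfsg.Agent.H14

open Cfsg.Agent.H4 Cfsg.Agent.H6 Finset MonoidAlgebra
open scoped ComplexConjugate

section hat
variable {G : Type*} [Group G] [Fintype G] (k : Type*) [CommRing k]

lemma sum_cosets {M : Type*} [AddCommMonoid M] (A : Subgroup G) [Fintype A] [Fintype (G ⧸ A)] (f : G → M) :
    ∑ g, f g = ∑ c : G ⧸ A, ∑ a : A, f (c.out * a) := by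
  rw [← Fintype.sum_prod_type (f := fun z : (G ⧸ A) × A => f (z.1.out * z.2))]
  refine (Fintype.sum_bijective (fun z : (G ⧸ A) × A => z.1.out * z.2) ⟨?_, fun g => ?_⟩ _ _ fun _ => rfl).symm
  · rintro ⟨c, a⟩ ⟨c', a'⟩ h
    have h1 := congrArg (QuotientGroup.mk (s := A)) h
    simp only [QuotientGroup.mk_mul_of_mem _ (Subtype.prop _), QuotientGroup.out_eq'] at h1
    subst h1
    exact Prod.ext rfl (Subtype.ext (mul_left_cancel h))
  · obtain ⟨a, ha⟩ := QuotientGroup.mk_out_eq_mul A g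
    exact ⟨(QuotientGroup.mk g, a⁻¹), by simp [ha]⟩

open Classical in
/-- the sum of the elements of a subgroup -/
noncomputable def hat (A : Subgroup G) : MonoidAlgebra k G := ∑ a : A, of k G a

variable {k}

lemma of_mul_hat {A : Subgroup G} {a : G} (ha : a ∈ A) : of k G a * hat k A = hat k A := by
  classical
  simp only [hat, Finset.mul_sum, ← map_mul]
  exact Equiv.sum_comp (Equiv.mulLeft (⟨a, ha⟩ : A)) fun b => of k G b

lemma hat_mul_of {A : Subgroup G} {a : G} (ha : a ∈ A) : hat k A * of k G a = hat k A := by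
  classical
  simp only [hat, Finset.sum_mul, ← map_mul]
  exact Equiv.sum_comp (Equiv.mulRight (⟨a, ha⟩ : A)) fun b => of k G b

lemma of_mul_hat_comm {A : Subgroup G} {g : G} (hg : g ∈ Subgroup.normalizer (A : Set G)) :
    of k G g * hat k A = hat k A * of k G g := by
  classical
  simp only [hat, Finset.sum_mul, Finset.mul_sum, ← map_mul]
  exact Fintype.sum_equiv (Equiv.subtypeEquiv (MulAut.conj g).toEquiv (Subgroup.mem_normalizer_iff.1 hg)) _ _
    fun b => by simp

lemma hat_eq_sum {α : Type*} [Fintype α] {A : Subgroup G} (f : α → G) (hf : Function.Injective f)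
    (h : ∀ g, g ∈ A ↔ ∃ a, f a = g) : hat k A = ∑ a, of k G (f a) := by
  classical
  exact (Fintype.sum_bijective (fun a => (⟨f a, (h _).2 ⟨a, rfl⟩⟩ : A)) ⟨fun a b e => hf (congrArg Subtype.val e),
    fun g => let ⟨a, ha⟩ := (h g).1 g.2; ⟨a, Subtype.ext ha⟩⟩ _ _ fun _ => rfl).symm

lemma hat_eq_mul {A B C : Subgroup G} (h1 : ∀ g ∈ B, g ∈ C → g = 1) (h : ∀ g, g ∈ A ↔ ∃ b ∈ B, ∃ c ∈ C, g = b * c) :
    hat k A = hat k B * hat k C := by
  classical
  rw [hat_eq_sum (fun z : B × C => (z.1 : G) * z.2) ?_ fun g => by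
    rw [h]; exact ⟨fun ⟨b, hb, c, hc, e⟩ => ⟨(⟨b, hb⟩, ⟨c, hc⟩), e.symm⟩, fun ⟨z, e⟩ => ⟨_, z.1.2, _, z.2.2, e.symm⟩⟩]
  · simp only [hat, Finset.sum_mul_sum, Fintype.sum_prod_type, map_mul]
  · rintro ⟨⟨b, hb⟩, ⟨c, hc⟩⟩ ⟨⟨b', hb'⟩, ⟨c', hc'⟩⟩ e
    simp only [Prod.mk.injEq, Subtype.mk.injEq] at e ⊢
    obtain rfl := inv_mul_eq_one.1 (h1 _ (mul_mem (inv_mem hb') hb) (by
      rw [show b'⁻¹ * b = c' * c⁻¹ by rw [eq_mul_inv_iff_mul_eq, mul_assoc, e]; group]; exact mul_mem hc' (inv_mem hc)))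
    exact ⟨rfl, mul_left_cancel e⟩

lemma hat_mul_of_fixed {A : Subgroup G} {y : MonoidAlgebra k G} (h : ∀ a ∈ A, of k G a * y = y) :
    hat k A * y = (Nat.card A : k) • y := by
  classical
  rw [hat, Finset.sum_mul, Finset.sum_congr rfl fun (a : A) _ => h a a.2]
  simp [Nat.cast_smul_eq_nsmul]

lemma hat_mul_eq_zero {A B : Subgroup G} (hB : B ≤ A) (hc : (Nat.card B : k) = 0) {y : MonoidAlgebra k G}
    (h : ∀ a ∈ B, of k G a * y = y) : hat k A * y = 0 := by
  classical
  have := Fintype.ofFinite (A ⧸ B.subgroupOf A)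
  have h2 := hat_mul_of_fixed h
  rw [hc, zero_smul, hat_eq_sum (fun b : B.subgroupOf A => ((b : A) : G)) (fun _ _ e => Subtype.ext (Subtype.ext e))
    fun g => ⟨fun h => ⟨⟨⟨g, hB h⟩, h⟩, rfl⟩, by rintro ⟨b, rfl⟩; exact b.2⟩] at h2
  rw [hat, sum_cosets (B.subgroupOf A), Finset.sum_mul]
  refine Finset.sum_eq_zero fun c _ => ?_
  simp only [Subgroup.coe_mul, map_mul, ← Finset.mul_sum, mul_assoc, h2, mul_zero]

open Classical in
lemma coeff_mul_hat (e : MonoidAlgebra k G) (A : Subgroup G) (x : G) :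
    (e * hat k A).coeff x = ∑ y with x⁻¹ * y ∈ A, e.coeff y := by
  simp only [hat, Finset.mul_sum, coeff_sum', of_apply, coeff_mul_single_apply, mul_one]
  refine Finset.sum_bij (fun a _ => x * (a : G)⁻¹) (by simp) (by simp) (fun y hy => ⟨⟨(x⁻¹ * y)⁻¹, ?_⟩, by simp, by simp⟩)
    fun _ _ => rfl
  exact inv_mem (mem_filter.1 hy).2

lemma coeff_mul_hat_eq_zero {k : Type*} [Field k] {p : ℕ} [Fact p.Prime] [CharP k p] {e : MonoidAlgebra k G}
    (he : e ∈ Subalgebra.center k (MonoidAlgebra k G)) {A : Subgroup G} {x v : G} (h1 : v ∈ A) (h2 : x⁻¹ * v * x ∈ A)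
    {n : ℕ} (h3 : v ^ p ^ n = 1) (h4 : ∀ y, Commute v y → e.coeff y = 0) : (e * hat k A).coeff x = 0 := by
  classical
  rw [coeff_mul_hat, ← Finset.sum_fiberwise_of_maps_to (t := univ.image e.coeff) (g := e.coeff) (by simp)]
  refine Finset.sum_eq_zero fun c _ => ?_
  rw [Finset.sum_congr rfl fun y hy => (mem_filter.1 hy).2, Finset.sum_const, nsmul_eq_mul, mul_eq_zero, or_iff_not_imp_right,
    Finset.filter_filter, ← Fintype.card_subtype, CharP.cast_eq_zero_iff k p]
  intro hc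
  let f : Function.End {y // x⁻¹ * y ∈ A ∧ e.coeff y = c} := fun y => ⟨v * y * v⁻¹, by
    simpa [mul_assoc] using mul_mem (mul_mem h2 y.2.1) (inv_mem h1), by rw [mem_center_iff.1 he, y.2.2]⟩
  have hf : ∀ m y, ((f ^ m) y : G) = v ^ m * y * (v ^ m)⁻¹ := fun m => by
    induction m with
    | zero => simp [Function.End.one_def]
    | succ m ih => intro y; rw [pow_succ']; change v * (f ^ m) y * v⁻¹ = _; rw [ih]; group
  have h5 := Equiv.Perm.card_fixedPoints_modEq (f := f) (p := p) (n := n) (funext fun y => Subtype.ext (by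
    rw [hf, h3]; simp [Function.End.one_def]))
  rw [(Fintype.card_eq_zero_iff (α := f.fixedPoints)).2 ⟨fun y => hc (y.1.2.2.symm.trans (h4 _
    (mul_inv_eq_iff_eq_mul.1 (congrArg Subtype.val y.2))))⟩] at h5
  exact (Nat.modEq_zero_iff_dvd).1 h5

variable {M : Ideal AlgInt} [M.IsMaximal]

lemma hat_mem_intAlg (A : Subgroup G) : hat ℂ A ∈ intAlg M G := sum_mem fun _ _ => single_mem_intAlg _ (one_mem _)

lemma redA_hat (A : Subgroup G) : redA M (hat ℂ A) = hat (Res M) A := by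
  simp only [hat, of_apply]
  rw [redA_sum _ fun _ _ => single_mem_intAlg _ (one_mem _)]
  simp [redA_single]

lemma mul_hat_eq_zero_of_red {f : MonoidAlgebra ℂ G} (hf : f ∈ intAlg M G) (h1 : f * f = f)
    (h2 : f ∈ Subalgebra.center ℂ (MonoidAlgebra ℂ G)) {A : Subgroup G} (h : redA M f * hat (Res M) A = 0) :
    f * hat ℂ A = 0 := by
  classical
  have := Fintype.ofFinite (G ⧸ A)
  set z := f * hat ℂ A with hz
  have hzi : z ∈ intAlg M G := mul_mem hf (hat_mem_intAlg A)
  have hz0 : redA M z = 0 := by rw [hz, redA_mul hf (hat_mem_intAlg A), redA_hat, h]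
  set y : MonoidAlgebra ℂ G := ∑ c : G ⧸ A, z.coeff c.out • single c.out 1 with hy
  have h3 : y * hat ℂ A = z := by
    rw [eq_sum_smul_single z, sum_cosets A, hy, hat, Finset.sum_mul_sum]
    refine Finset.sum_congr rfl fun c _ => Finset.sum_congr rfl fun a _ => ?_
    rw [smul_mul_assoc, ← congrArg (·.coeff (c.out * a)) (show z * of ℂ G a = z by
      rw [hz, mul_assoc, hat_mul_of a.2])]
    simp
  have h4 : y * z = z := by
    rw [hz, ← mul_assoc, ← center_comm h2, mul_assoc, h3, hz, ← mul_assoc, h1]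
  have hyi : y ∈ intAlg M G := sum_mem fun c _ => smul_mem_intAlg (hzi _) (single_mem_intAlg _ (one_mem _))
  have hy0 : redA M y = 0 := by
    rw [hy, redA_sum _ fun c _ => smul_mem_intAlg (hzi _) (single_mem_intAlg _ (one_mem _))]
    refine Finset.sum_eq_zero fun c _ => ?_
    rw [redA_smul (hzi _) (single_mem_intAlg _ (one_mem _)), ← coeff_redA, hz0]; simp
  let Y : Matrix G G (locRing M) := 1 - Matrix.of fun a b => ⟨y.coeff (a * b⁻¹), hyi _⟩
  have h5 : Y.det ≠ 0 := fun h => by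
    have h6 := (red M).map_det Y
    rw [h, map_zero, show (red M).mapMatrix Y = 1 by
      rw [map_sub, map_one, sub_eq_self]
      ext a b
      simpa [← redC_of_mem] using congrArg (·.coeff (a * b⁻¹)) hy0] at h6
    simp at h6
  have h6 := Matrix.eq_zero_of_mulVec_eq_zero h5 (v := fun g => ⟨z.coeff g, hzi g⟩) (by
    rw [Matrix.sub_mulVec, Matrix.one_mulVec, sub_eq_zero]
    ext g
    have := congrArg (·.coeff g) h4
    simp only [coeff_mul_right'] at this
    simp [Matrix.mulVec, dotProduct, this])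
  exact alg_ext fun g => congrArg Subtype.val (congrFun h6 g)

open Classical in
lemma chiL_hat (χ : G → ℂ) (A : Subgroup G) : chiL χ (hat ℂ A) = ∑ g with g ∈ A, χ g := by
  simp [hat, Finset.sum_subtype (p := (· ∈ A)) (filter (· ∈ A) univ) (by simp)]

open Classical in
lemma sum_mul_eq_zero {χ : G → ℂ} (hχ : IsCharacter G χ) {A : Subgroup G} (h : ∑ g with g ∈ A, χ g = 0) (x : G) :
    ∑ y with x⁻¹ * y ∈ A, χ y = 0 := by
  obtain ⟨n, ρ, rfl⟩ := hχ
  set e := (Nat.card A : ℂ)⁻¹ • ∑ g with g ∈ A, ρ g with he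
  have h1 : ∀ a ∈ A, ρ a * e = e := fun a ha => by
    rw [he, mul_smul_comm, Finset.mul_sum]
    congr 1
    exact Finset.sum_equiv (Equiv.mulLeft a) (by simp [A.mul_mem_cancel_left ha]) (by simp)
  have h2 : IsIdempotentElem e := by
    rw [IsIdempotentElem]
    conv_lhs => rw [he, smul_mul_assoc, Finset.sum_mul, ← he, Finset.sum_congr rfl fun a ha => h1 a (mem_filter.1 ha).2]
    rw [Finset.sum_const, ← Fintype.card_subtype, ← Nat.card_eq_fintype_card, ← Nat.cast_smul_eq_nsmul ℂ, smul_smul,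
      inv_mul_cancel₀ (cardC_ne A), one_smul]
  have h3 : e = 0 := (LinearMap.IsIdempotentElem.eq_zero_of_trace_eq_zero h2 (by
    rw [he, map_smul, map_sum]; simp only [Representation.character] at h; simp [h]))
  rw [he, smul_eq_zero, or_iff_right (inv_ne_zero (cardC_ne A))] at h3
  have h4 := congrArg (fun f => LinearMap.trace ℂ _ (ρ x * f)) h3
  simp only [Finset.mul_sum, map_sum, mul_zero, map_zero, ← map_mul] at h4
  rw [← h4]
  exact Finset.sum_equiv (Equiv.mulLeft x⁻¹) (by simp) (by simp [Representation.character])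

end hat

end Cfsg.Agent.H14
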