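import Cfsg.Agent.H14.Stb5
import Cfsg.Agent.H10.Comp
import Cfsg.Agent.S0955

/-! The blocks in the defining characteristic. -/

set_option autoImplicit false

namespace Cfsg.Agent.H14

open Cfsg.Agent.H4 Cfsg.Agent.H6 Finset MonoidAlgebra

variable {ι Φ : Type} [Fintype ι] [DecidableEq ι] {R : RS ι Φ} {K : Type*} [Field K] {G : Type*} [Group G]

namespace RG

variable [Fintype G] [Finite Φ] [Finite K] (X : RG R K G) (htop : X.grp = ⊤) (hm : X.HMul) (p : ℕ) [hp : Fact p.Prime]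
  [CharP K p] {k : Type*} [Field k] [CharP k p]

omit [Finite Φ] [Fintype G] in
include hp in
lemma card_gen_cast (r : Φ) : (Nat.card (X.gen {r}) : k) = 0 := by
  have := Fintype.ofFinite K
  rw [← Nat.card_congr (Equiv.ofBijective (fun t => (⟨X.x r t, X.x_mem_gen (S := {r}) rfl t⟩ : X.gen {r}))
    ⟨fun a b h => X.x_injective r (congrArg Subtype.val h), fun g => let ⟨t, h⟩ := X.mem_gen_singleton.1 g.2; ⟨t, Subtype.ext h.symm⟩⟩),
    CharP.cast_eq_zero_iff k p, Nat.card_eq_fintype_card]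
  exact (CharP.cast_eq_zero_iff K p _).1 (FiniteField.cast_card_eq_zero K)

include hm hp in
theorem hat_key {n : G} {w : Equiv.Perm Φ} (hw : X.Rep n w) (h0 : ∀ r, R.pos r → ¬ R.pos (w r))
    {y : MonoidAlgebra k G} (hy : ∀ u ∈ X.U, of k G u * y = y) (j : ι) {s : K} (hs : s ≠ 0) :
    hat k X.U * of k G n * (of k G (X.h (R.simple j) s) * (hat k X.U * of k G n * y)) =
      hat k X.U * of k G n * (hat k X.U * of k G n * y) := by
  classical
  have := Fintype.ofFinite K
  set α := R.simple j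
  have h1 : hat k X.U = (∑ t, of k G (X.x α t)) * hat k (X.Ui j) := by
    rw [← hat_eq_sum (A := X.gen {α}) _ (X.x_injective α) (by simp [X.mem_gen_singleton, eq_comm])]
    refine hat_eq_mul (fun g h1 h2 => ?_) fun g => ⟨fun h => ?_, ?_⟩
    · obtain ⟨t, rfl⟩ := X.mem_gen_singleton.1 h1
      by_contra h
      exact (X.mem_of_x_mem_gen RS.htv (S := {r | R.pos r ∧ r ≠ α}) (fun r h => h.1.ht_pos) (fun r a s b =>
        (comb_simple_subset j (Or.inl a.1) b.1 b.2).2) (fun e => h (by simp [e])) h2).2 rfl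
    · obtain ⟨v, hv, t, e⟩ := X.exists_Ui_mul j (inv_mem h)
      exact ⟨_, inv_mem (X.x_mem_gen (S := {α}) rfl t), _, inv_mem hv, by rw [← mul_inv_rev, ← e, inv_inv]⟩
    · rintro ⟨b, hb, c, hc, rfl⟩
      exact mul_mem (X.gen_mono (S := {α}) (T := {r | R.pos r}) (by rintro _ rfl; exact R.pos_simple j) hb) (X.Ui_le_U j hc)
  have hp1 : R.pos (w (R.neg α)) := by
    rw [RS.Aut.map_neg hw.mem_Aut, R.pos_neg_iff_not]; exact h0 _ (R.pos_simple j)
  have hp2 : R.pos (w⁻¹ (R.neg α)) := by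
    by_contra h
    refine h0 _ ((R.pos_neg_iff_not _).2 h) ?_
    rw [RS.Aut.map_neg hw.mem_Aut]; simpa using R.pos_simple j
  obtain ⟨T, hT⟩ : ∃ T, T = hat k X.U * of k G n := ⟨_, rfl⟩
  obtain ⟨z, hz⟩ : ∃ z, z = hat k (X.Ui j) * of k G n * y := ⟨_, rfl⟩
  rw [← hT]
  have h2 : ∀ t, of k G (X.x (R.neg α) t) * z = z := fun t => by
    obtain ⟨u, hu⟩ := hw.inv.conj_x' (R.neg α) t
    rw [hz, mul_assoc, ← mul_assoc, of_mul_hat_comm (X.gen_le_normalizer_Ui j (X.x_mem_gen (S := {r | R.pos r ∨ r = R.neg α}) (Or.inr rfl) t)), mul_assoc,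
      ← mul_assoc (of k G _), ← map_mul, show X.x (R.neg α) t * n = n * X.x (w⁻¹ (R.neg α)) u by rw [← hu]; group,
      map_mul, mul_assoc, hy _ (X.x_mem_U hp2 u)]
  have h3 : ∀ t, T * of k G (X.x (R.neg α) t) = T := fun t => by
    obtain ⟨u, hu⟩ := hw.conj_x' (R.neg α) t
    rw [hT, mul_assoc, ← map_mul, show n * X.x (R.neg α) t = X.x (w (R.neg α)) u * n by rw [← hu]; group, map_mul,
      ← mul_assoc, hat_mul_of (X.x_mem_U hp1 u)]
  have key : ∀ s : K, s ≠ 0 → T * (of k G (X.h α s) * (T * y)) =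
      ∑ t ∈ univ.erase 0, T * (of k G (X.n α t) * z) := fun s hs => by
    have h4 : T * y = ∑ t, of k G (X.x α t) * z := by
      rw [← Finset.sum_mul, hz, hT, h1]; simp only [mul_assoc]
    rw [h4, Finset.mul_sum, Finset.mul_sum, ← Finset.add_sum_erase _ _ (mem_univ 0), RG0.x_zero, map_one, one_mul, hT,
      mul_assoc (hat k X.U), hat_mul_eq_zero (A := X.U) (B := X.gen {w (R.neg α)}) (X.gen_mono (S := {w (R.neg α)}) (T := {r | R.pos r}) (by rintro _ rfl; exact hp1))
        (X.card_gen_cast p _) fun a ha => ?_, zero_add, ← hT]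
    · refine Finset.sum_bij (fun t _ => s * t) (fun t ht => by simpa [hs] using ht) (fun a _ b _ => mul_left_cancel₀ hs)
        (fun t ht => ⟨s⁻¹ * t, by simpa [hs] using ht, by simp [hs]⟩) fun t ht => ?_
      have ht : t ≠ 0 := (mem_erase.1 ht).1
      have e := X.x_neg_eq (R.neg α) ht
      obtain ⟨u, hu⟩ := (X.rep_h α hs).conj_x' (R.neg α) t⁻¹
      rw [R.neg_neg, X.n_neg_root α ht] at e
      rw [e, map_mul, mul_assoc, h2, ← mul_assoc (of k G _), ← map_mul, ← mul_assoc (X.h α s),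
        mul_inv_eq_iff_eq_mul.1 hu, mul_assoc _ (X.h α s), X.h_mul_n hm α hs ht, map_mul, mul_assoc, ← mul_assoc T]
      exact congrArg (· * _) (h3 u)
    · obtain ⟨t, rfl⟩ := X.mem_gen_singleton.1 ha
      obtain ⟨u, hu⟩ := (hw.mul (X.rep_h α hs)).inv.conj_x' (w (R.neg α)) t
      rw [← mul_assoc (of k G n), ← map_mul, ← mul_assoc, ← map_mul, show X.x (w (R.neg α)) t * (n * X.h α s) =
        n * X.h α s * X.x (R.neg α) u by simp only [mul_one, Equiv.Perm.coe_inv, Equiv.symm_apply_apply] at hu; rw [← hu]; group,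
        map_mul, mul_assoc, h2]
  have := key 1 one_ne_zero
  rw [RG0.h_one, map_one, one_mul] at this
  rw [key s hs, this]

omit [Fintype G] [Finite Φ] [Finite K] in
lemma x_pow_char (r : Φ) (t : K) : X.x r t ^ p = 1 := by
  have : ∀ n : ℕ, X.x r t ^ n = X.x r (n * t) := fun n => by
    induction n with
    | zero => simp
    | succ n ih => rw [pow_succ, ih, ← X.x_add]; push_cast; ring_nf
  simp [this]

include htop in
omit [Finite Φ] [Finite K] in
lemma coeff_hat_eq_zero {e : MonoidAlgebra k G} (he : e ∈ Subalgebra.center k (MonoidAlgebra k G))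
    (h : ∀ v y, v ≠ 1 → v ^ p = 1 → Commute v y → e.coeff y = 0) {A : Subgroup G} (hA : X.U ≤ A) {u n c : G} (hu : u ∈ X.U)
    {w : Equiv.Perm Φ} (hw : X.Rep n w) (hc : c ∈ A) {r : Φ} (h1 : ∀ t, X.x r t ∈ A) (h2 : R.pos (w r)) :
    (e * hat k A).coeff (u * n * c) = 0 := by
  obtain ⟨t, ht⟩ := hw.conj_x' r 1
  refine coeff_mul_hat_eq_zero (p := p) (n := 1) he (v := u * X.x (w r) t * u⁻¹)
    (hA (mul_mem (mul_mem hu (X.x_mem_U h2 t)) (inv_mem hu))) ?_ (by rw [pow_one, conj_pow, X.x_pow_char p]; simp)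
    fun y => h _ y (fun e => ?_) (by rw [conj_pow, X.x_pow_char p]; simp)
  · rw [← ht]; simpa [mul_assoc] using mul_mem (mul_mem (inv_mem hc) (h1 1)) hc
  · rw [← ht] at e; simp [X.x_eq_one_iff] at e

include htop hm in
theorem mul_hat_B_ne_zero {e : MonoidAlgebra k G} (he : e ∈ Subalgebra.center k (MonoidAlgebra k G)) (he2 : e * e = e)
    (h : ∀ v y, v ≠ 1 → v ^ p = 1 → Commute v y → e.coeff y = 0) (h0 : e * hat k X.U ≠ 0) : e * hat k X.B ≠ 0 := by
  classical
  obtain ⟨w, hw, h1⟩ := R.exists_w0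
  obtain ⟨n, hn, hw⟩ := X.exists_rep_of_W hw
  have hUw : X.Uw w = X.U := congrArg X.gen (Set.ext fun r => ⟨And.left, fun h => ⟨h, h1 r h⟩⟩)
  obtain ⟨v, hv⟩ : ∃ v, v = e * hat k X.U := ⟨_, rfl⟩
  rw [← hv] at h0
  have hU : ∀ u ∈ X.U, of k G u * v = v := fun u hu => by
    rw [hv, ← mul_assoc, ← center_comm he, mul_assoc, of_mul_hat hu]
  have hU' : ∀ u ∈ X.U, v * of k G u = v := fun u hu => by rw [hv, mul_assoc, hat_mul_of hu]
  obtain ⟨T, hT⟩ : ∃ T, T = hat k X.U * of k G n := ⟨_, rfl⟩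
  have h2 : v = ∑ y : X.H, v.coeff (n * y) • (T * (of k G y * hat k X.U)) := by
    have : ∑ z : X.H × X.U × X.U, v.coeff (n * z.1) • of k G (z.2.1 * n * z.1 * z.2.2) = ∑ g, v.coeff g • single g 1 := by
      refine Fintype.sum_of_injective (fun z : X.H × X.U × X.U => (z.2.1 * n * z.1 * z.2.2 : G)) ?_ _ _ ?_ ?_
      · rintro ⟨⟨y, hy⟩, ⟨a, ha⟩, ⟨b, hb⟩⟩ ⟨⟨y', hy'⟩, ⟨a', ha'⟩, ⟨b', hb'⟩⟩ e
        simp only [Prod.mk.injEq, Subtype.mk.injEq] at e ⊢
        obtain ⟨e1, rfl⟩ := X.normal_form_unique (mul_mem (X.U_le_B ha) (X.H_le_B (X.conj_mem_H hn hy)))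
          (mul_mem (X.U_le_B ha') (X.H_le_B (X.conj_mem_H hn hy'))) hw (hUw ▸ hb) (hUw ▸ hb') (by simpa [mul_assoc] using e)
        obtain rfl := inv_mul_eq_one.1 (X.eq_one_of_mem_U_H (mul_mem (inv_mem ha') ha) (by
          rw [show a'⁻¹ * a = n * y' * n⁻¹ * (n * y * n⁻¹)⁻¹ by rw [eq_mul_inv_iff_mul_eq, mul_assoc, e1]; group]
          exact mul_mem (X.conj_mem_H hn hy') (inv_mem (X.conj_mem_H hn hy))))
        simpa using e1
      · intro g hg
        obtain ⟨u, hu, m, hm', w', hw', c, hc, rfl⟩ := X.exists_normal_form (htop ▸ Subgroup.mem_top g)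
        by_cases h3 : ∃ r, R.pos r ∧ R.pos (w' r)
        · obtain ⟨r, h3, h4⟩ := h3
          rw [hv, X.coeff_hat_eq_zero htop p he h le_rfl hu hw' (X.Uw_le_U _ hc) (X.x_mem_U h3) h4, zero_smul]
        · refine absurd ⟨(⟨n⁻¹ * m, X.mem_H_of_rep (mul_mem (inv_mem hn) hm') (hw.inv.mul hw') fun i => ?_⟩, ⟨u, hu⟩,
            ⟨c, X.Uw_le_U _ hc⟩), by simp [mul_assoc]⟩ hg
          by_contra h4
          refine h1 _ ((R.pos_neg_iff_not _).2 h4) ?_
          rw [RS.Aut.map_neg hw.mem_Aut]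
          simpa [R.pos_neg_iff_not] using fun h => h3 ⟨_, R.pos_simple i, h⟩
      · rintro ⟨y, a, b⟩
        have e1 := congrArg (·.coeff (a * n * y * b)) (hU a a.2)
        have e2 := congrArg (·.coeff (n * y * b)) (hU' b b.2)
        simp only [of_apply, coeff_single_mul_apply, coeff_mul_single_apply, mul_assoc, inv_mul_cancel_left, one_mul,
          mul_one, mul_inv_cancel] at e1 e2 ⊢
        rw [← e1, ← e2]
    conv_lhs => rw [eq_sum_smul_single v, ← this, Fintype.sum_prod_type]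
    simp only [hT, hat, Fintype.sum_prod_type, Finset.sum_mul, Finset.mul_sum, Finset.smul_sum, map_mul, mul_assoc]
    exact Finset.sum_congr rfl fun _ _ => Finset.sum_comm
  have h3 : v = ∑ y : X.H, v.coeff (n * y) • (T * (of k G y * v)) := by
    have : v = e * v := by rw [hv, ← mul_assoc, he2]
    conv_lhs => rw [this, h2, Finset.mul_sum]
    refine Finset.sum_congr rfl fun y _ => ?_
    rw [mul_smul_comm, ← mul_assoc e, center_comm he T, mul_assoc, ← mul_assoc e, center_comm he (of k G _), mul_assoc, ← hv]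
  have h4 : ∀ y ∈ X.H, of k G y * T = T * of k G (n⁻¹ * y * n) := fun y hy => by
    rw [hT, ← mul_assoc, of_mul_hat_comm (A := X.U) (X.H_le_normalizer_gen _ hy), mul_assoc, mul_assoc, ← map_mul, ← map_mul]
    congr 2; group
  have hHn : ∀ y ∈ X.H, n⁻¹ * y * n ∈ X.H := fun y hy => by simpa using X.conj_mem_H (inv_mem hn) hy
  have h5 : ∀ y ∈ X.H, ∀ u ∈ X.U, of k G u * (of k G y * v) = of k G y * v := fun y hy u hu => by
    rw [← mul_assoc, ← map_mul, show u * y = y * (y⁻¹ * u * y⁻¹⁻¹) by group, map_mul, mul_assoc,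
      hU _ (X.H_conj_mem_gen (inv_mem hy) hu)]
  have h3' : ∀ y' ∈ X.H, of k G y' * v = ∑ y : X.H, v.coeff (n * y) • (T * (of k G (n⁻¹ * y' * n * y) * v)) :=
    fun y' hy' => by
      conv_lhs => rw [h3, Finset.mul_sum]
      refine Finset.sum_congr rfl fun y _ => ?_
      rw [mul_smul_comm, ← mul_assoc _ T, h4 y' hy', map_mul (of k G) _ y.1, mul_assoc T, mul_assoc _ _ v]
  have h6 : ∀ y ∈ X.H, T * (of k G y * v) = T * v := fun y hy => by
    have : ∀ y ∈ X.H, ∀ y' ∈ X.H, T * (of k G (y * y') * v) = T * (of k G y' * v) := fun y hy => by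
      rw [X.H_eq_closure] at hy
      induction hy using Subgroup.closure_induction with
      | mem y h =>
        obtain ⟨i, t, ht, rfl⟩ := h
        intro y' hy'
        rw [map_mul, mul_assoc, h3' y' hy', Finset.mul_sum, Finset.mul_sum, Finset.mul_sum]
        refine Finset.sum_congr rfl fun y _ => ?_
        rw [mul_smul_comm, mul_smul_comm, mul_smul_comm]
        refine congrArg _ ?_
        rw [hT]
        exact X.hat_key hm p hw h1 (h5 _ (mul_mem (hHn _ hy') y.2)) i ht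
      | one => simp
      | mul a b ha hb iha ihb => intro y' hy'; rw [mul_assoc a b y', iha _ (mul_mem (X.H_eq_closure ▸ hb) hy'), ihb _ hy']
      | inv a ha ih =>
        intro y' hy'
        rw [← ih _ (mul_mem (inv_mem (X.H_eq_closure ▸ ha)) hy'), mul_inv_cancel_left]
    simpa only [mul_one, map_one, one_mul] using this y hy 1 (one_mem _)
  have h7 : ∀ y ∈ X.H, of k G y * v = v := fun y hy => by
    rw [h3' y hy]
    conv_rhs => rw [h3]
    exact Finset.sum_congr rfl fun y' _ => by rw [h6 _ y'.2, h6 _ (mul_mem (hHn y hy) y'.2)]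
  rw [hat_eq_mul (A := X.B) (B := X.H) (C := X.U) (fun g a b => X.eq_one_of_mem_U_H b a) fun g => X.mem_B_iff',
    ← mul_assoc, center_comm he, mul_assoc, ← hv, hat_mul_of_fixed h7]
  refine smul_ne_zero (fun h => ?_) h0
  obtain ⟨y, hy⟩ := exists_prime_orderOf_dvd_card' p ((CharP.cast_eq_zero_iff k p _).1 h)
  have := X.eq_one_of_mem_H_of_pow hm p y.2 (k := 1) (by rw [pow_one, ← hy]; exact congrArg Subtype.val (pow_orderOf_eq_one y))
  rw [show y = 1 from Subtype.ext this, orderOf_one] at hy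
  exact hp.out.one_lt.ne hy

include htop hm

theorem eq_stX_of_defect_zero {χ : G → ℂ} (hχ : IsIrrCharacter G χ)
    (h : (Nat.card G).factorization p ≤ (charDegree χ).factorization p) : χ = X.stX univ := by
  classical
  obtain ⟨M, hM⟩ := exists_isPModular hp.out
  have := hM.2.1
  have := charP_res hM
  set ψ : IrrCharacter G := ⟨χ, hχ⟩
  have hB : IsPBlock M {ψ} := blockOf_eq_singleton_of_defect_zero hM (χ := ψ) h ▸ isPBlock_blockOf ψ
  have hd := hχ.charDegree_pos.ne'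
  have hZ : ∀ v y, v ≠ 1 → v ^ p = 1 → Commute v y → (eB M {ψ}).coeff y = 0 := fun v y h1 h2 h3 => by
    rw [coeff_eB, blockCoeff_singleton, ← hχ.isCharacter.apply_inv, apply_eq_centralChar_mul hχ y⁻¹,
      show ψ.1 1 = _ from hχ.isCharacter.charDegree_cast.symm, ← mul_assoc, inv_mul_eq_div, ← mul_assoc]
    refine redC_eq_zero_of_memLocalIdeal (MemLocalIdeal.mul_left' (mul_mem ((natCast_div_mem_iff hM hd Nat.card_pos.ne').2 h)
      (centralChar_mem hχ _)) ((memLocalIdeal_natCast_div_iff hM hd Subgroup.index_ne_zero_of_finite).2 ?_))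
    have h4 := factorization_card_eq (p := p) (Subgroup.centralizer {y⁻¹})
    have h5 := hp.out.factorization_pos_of_dvd Nat.card_pos.ne' ((orderOf_eq_prime h2 h1).symm.dvd.trans
      (Subgroup.orderOf_dvd_natCard (Subgroup.centralizer {y⁻¹}) (by rintro _ rfl; exact h3.inv_right.symm)))
    omega
  have key : ∀ A : Subgroup G, eB M {ψ} * hat (Res M) A = 0 → ∑ g with g ∈ A, χ g = 0 := fun A hA => by
    rw [← chiL_hat, ← chiL_fB_mul_of_mem (B := {ψ}) (ψ := ψ) rfl, mul_hat_eq_zero_of_red (A := A) (fB_mem_intAlg hB)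
      (fB_mul_self _) (fB_mem_center _) (by simpa only [eB] using hA), map_zero]
  refine X.eq_stX htop hχ (fun h0 => X.mul_hat_B_ne_zero htop hm p (eB_mem_center _) (eB_mul_self hB) hZ
    (fun h1 => ?_) ?_) fun J hJ => key _ (alg_ext fun g => ?_)
  · have h2 := key _ h1
    rw [Finset.sum_eq_single 1 (fun u hu h3 => apply_eq_zero_of_defect_zero hp.out hχ h ?_) (by simp [one_mem])] at h2
    · exact hχ.apply_one_ne_zero h2
    obtain ⟨k, hk⟩ := IsPGroup.iff_orderOf.1 (X.isPGroup_U p) ⟨u, (mem_filter.1 hu).2⟩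
    rw [Subgroup.orderOf_mk] at hk
    exact hk ▸ dvd_pow_self p (by rintro rfl; exact h3 (by simpa using hk))
  · rw [eB, ← redA_hat, ← redA_mul (fB_mem_intAlg hB) (hat_mem_intAlg _), ← redA_zero]
    refine congrArg _ (alg_ext fun g => ?_)
    have := congrArg (starRingEnd ℂ) (sum_mul_eq_zero hχ.isCharacter h0 g)
    simp only [map_sum, map_zero] at this
    simp [coeff_mul_hat, blockCoeff_singleton, ← Finset.mul_sum, ψ, this]
  · obtain ⟨j, hj⟩ := Finset.nonempty_iff_ne_empty.2 hJ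
    obtain ⟨u, hu, m, -, w, hw, c, hc, rfl⟩ := X.exists_normal_form (htop ▸ Subgroup.mem_top g)
    have hA := X.U_le_B.trans (X.B_le_P J)
    by_cases h3 : R.pos (w (R.simple j))
    · exact X.coeff_hat_eq_zero htop p (eB_mem_center _) hZ hA hu hw (hA (X.Uw_le_U _ hc))
        (X.x_mem_P (simple_mem_sub.2 hj)) h3
    · exact X.coeff_hat_eq_zero htop p (eB_mem_center _) hZ hA hu hw (hA (X.Uw_le_U _ hc))
        (X.x_mem_P (neg_mem_sub (simple_mem_sub.2 hj))) (by rwa [RS.Aut.map_neg hw.mem_Aut, R.pos_neg_iff_not])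

end RG

end Cfsg.Agent.H14
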