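import Cfsg.Agent.H14.Stb6
import Cfsg.Agent.H14.BT

/-! Radical subgroups and the number of blocks in the defining characteristic. -/

set_option autoImplicit false

namespace Cfsg.Agent.H14

open Cfsg.Agent.H4 Cfsg.Agent.H6 Finset

variable {ι Φ : Type} [Fintype ι] [DecidableEq ι] {R : RS ι Φ} {K : Type*} [Field K] {G : Type*} [Group G]

namespace RG

variable [Fintype G] [Finite Φ] [Finite K] (X : RG R K G) (htop : X.grp = ⊤) (hm : X.HMul) (p : ℕ) [hp : Fact p.Prime]
  [CharP K p]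

include htop hm

/-- Radical `p`-subgroups are unipotent radicals of parabolic subgroups. -/
theorem exists_eq_UJ {D : Subgroup G} (hD : IsPGroup p D) (h : ∀ Q : Subgroup G, IsPGroup p Q → D ≤ Q →
    Q ≤ Subgroup.normalizer (D : Set G) → Subgroup.normalizer (D : Set G) ≤ Subgroup.normalizer (Q : Set G) → Q ≤ D) :
    ∃ c J, D = (X.UJ J).map (MulAut.conj c).toMonoidHom := by
  obtain ⟨a, -, ha⟩ := X.exists_conj_U htop hm p le_top le_top hD
  obtain ⟨g, -, J, h1, h2⟩ := X.borelTits (Y := (fun y => a * y * a⁻¹) '' D) (by rintro _ ⟨y, hy, rfl⟩; exact ha y hy)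
  refine ⟨a⁻¹ * g, J, ?_⟩
  have h3 : D ≤ (X.UJ J).map (MulAut.conj (a⁻¹ * g)).toMonoidHom := fun y hy =>
    ⟨_, h1 _ ⟨y, hy, rfl⟩, by simp [mul_assoc]⟩
  by_contra h4
  have h5 := (X.isPGroup_UJ p J).map (MulAut.conj (a⁻¹ * g)).toMonoidHom
  have h6 := H3.lt_inf_normalizer_of_lt h5 (lt_of_le_of_ne h3 h4)
  refine h6.not_ge (h _ h5.to_inf_left h6.le inf_le_right (H1.le_normalizer_inf (fun n hn => ?_) Subgroup.le_normalizer))
  have := X.P_le_normalizer J (h2 (a * n * a⁻¹) (htop ▸ trivial) (by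
    rintro _ ⟨y, hy, rfl⟩
    exact ⟨n⁻¹ * y * n, by simpa using (Subgroup.mem_normalizer_iff.1 (inv_mem hn) y).1 hy, by group⟩))
  exact Subgroup.le_normalizer_map _ ⟨_, this, by simp [mul_assoc]⟩

theorem eq_one_of_radical (hc : R.Conn) (hZ : Subgroup.center G = ⊥) {D : Subgroup G} (hD : IsPGroup p D)
    (h : ∀ Q : Subgroup G, IsPGroup p Q → D ≤ Q → Q ≤ Subgroup.normalizer (D : Set G) →
      Subgroup.normalizer (D : Set G) ≤ Subgroup.normalizer (Q : Set G) → Q ≤ D) (h0 : D ≠ ⊥) {g : G}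
    (hg : ¬ p ∣ orderOf g) (hgD : D ≤ Subgroup.centralizer {g}) : g = 1 := by
  obtain ⟨c, J, rfl⟩ := X.exists_eq_UJ htop hm p hD h
  obtain ⟨u, hu, y, -, h1, h2⟩ := X.centralizer_UJ hc (J := J) (g := c⁻¹ * g * c) (Set.nonempty_compl.2 (by
    rintro rfl; simp [UJ_univ] at h0)) (htop ▸ trivial) fun y hy => by
      have : c * y * c⁻¹ * g = g * (c * y * c⁻¹) := Subgroup.mem_centralizer_singleton_iff.1 (hgD ⟨y, hy, rfl⟩)
      calc _ = c⁻¹ * (g * (c * y * c⁻¹)) * g⁻¹ * c := by group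
        _ = y := by rw [← this]; group
  have h3 : y ∈ Subgroup.center G := Subgroup.mem_center_iff.2 fun z => by
    have : X.grp ≤ Subgroup.centralizer {y} := X.gen_le.2 fun r _ t =>
      Subgroup.mem_centralizer_singleton_iff.2 (mul_inv_eq_iff_eq_mul.1 (h1 r t)).symm
    exact Subgroup.mem_centralizer_singleton_iff.1 (this (htop ▸ trivial))
  rw [hZ, Subgroup.mem_bot] at h3
  obtain ⟨k, hk⟩ := IsPGroup.iff_orderOf.1 (X.isPGroup_UJ p J) ⟨u, hu⟩
  rw [Subgroup.orderOf_mk, show u = c⁻¹ * g * c⁻¹⁻¹ by simpa [h3] using h2.symm,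
    ← MulAut.conj_apply, MulEquiv.orderOf_eq] at hk
  cases k with
  | zero => simpa using hk
  | succ k => exact absurd (hk ▸ dvd_pow_self p k.succ_ne_zero) hg

theorem card_blocks [Nonempty ι] (hc : R.Conn) (hZ : Subgroup.center G = ⊥) {M : Ideal AlgInt} (hM : IsPModular p M) :
    Nat.card {B : Set (IrrCharacter G) // IsPBlock M B} = 2 := by
  classical
  have := hM.2.1
  have := Fintype.ofFinite (ConjClasses G)
  set S : IrrCharacter G := ⟨_, X.isIrr_stX_univ htop⟩
  have hU := X.card_U_eq htop hm p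
  have hS : charDegree (S : G → ℂ) = _ := charDegree_eq_of ((X.stX_univ_one htop).trans (congrArg _ hU))
  have hS' := blockOf_eq_singleton_of_defect_zero hM (χ := S) (by simp [hS, hp.out.factorization_pow])
  have h1 : 1 < Nat.card X.U := Finite.one_lt_card_iff_nontrivial.2 ⟨⟨_, X.x_mem_U (R.pos_simple (Classical.arbitrary ι)) 1⟩, 1,
    by simp [X.x_eq_one_iff]⟩
  refine Nat.card_eq_two_iff.2 ⟨⟨_, isPBlock_principal⟩, ⟨_, isPBlock_blockOf S⟩, fun h => ?_, Set.eq_univ_of_forall ?_⟩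
  · have h2 : irrOne G ∈ blockOf M (S : G → ℂ) := (congrArg Subtype.val h).le irrOne_mem_principal
    rw [hS', Set.mem_singleton_iff] at h2
    rw [← h2, ← hU] at hS
    exact h1.ne (charDegree_one'.symm.trans hS)
  rintro ⟨B, hB⟩
  obtain ⟨g, hg⟩ := exists_isDefectClass hB
  obtain ⟨χ, hχ, h2⟩ := exists_minExp (p := p) (block_nonempty hB)
  have hD : IsDefectGroup p M B _ := ⟨g, hg, default, rfl⟩
  by_cases h0 : Subgroup.map (Subgroup.centralizer {g}).subtype (default : Sylow p (Subgroup.centralizer {g})) = ⊥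
  · have h3 := card_defectGroup hM hB hD
    rw [h0, Subgroup.card_bot, eq_comm, Nat.pow_eq_one, or_iff_right hp.out.one_lt.ne', blockDefect_eq] at h3
    obtain rfl : χ = S := Subtype.ext (X.eq_stX_of_defect_zero htop hm p χ.2 (by omega))
    exact Or.inr (Subtype.ext (block_eq_blockOf hB hχ))
  obtain rfl := X.eq_one_of_radical htop hm p hc hZ (IsDefectGroup.isPGroup hD) (fun Q a _ b c =>
    (H1.le_map_pCore b c a).trans (S0955.result p M hM B hB _ hD).le) h0 (IsDefectClass.not_dvd hM hB hg)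
    (Subgroup.map_subtype_le _)
  refine Or.inl (Subtype.ext ((eq_principal_iff hB).2 ((mem_iff_lam_eB_ne_zero hB).2 ?_)))
  rw [lam_apply, Finset.sum_eq_single (ConjClasses.mk 1) (fun c _ h3 => ?_) (by simp)]
  · rw [isConj_one_left.1 (isConj_rep_mk 1)]
    simpa [centralChar, Subgroup.centralizer_eq_top_iff_subset.2 (show {(1 : G)} ⊆ (Subgroup.center G : Set G) by simp)] using ((isDefectClass_iff hB hχ).1 hg).1
  by_contra h4
  have h5 := index_le_of_redC_ne_zero hM (irrOne G).2 (right_ne_zero_of_mul h4)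
  have h6 := factorization_card_eq (p := p) (Subgroup.centralizer {rep c})
  have h7 : Nat.card (Subgroup.map (Subgroup.centralizer {rep c}).subtype
      (default : Sylow p (Subgroup.centralizer {rep c}))) = p ^ (Nat.card G).factorization p := by
    rw [Subgroup.card_map_of_injective Subtype.val_injective, card_sylow_centralizer]
    erw [charDegree_one'] at h5
    simp at h5; rw [h6, h5, add_zero]
  refine h3 (isConj_rep_iff.1 ?_)
  rw [X.eq_one_of_radical htop hm p hc hZ (IsPGroup.of_card h7) (fun Q a b _ _ =>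
    ((Sylow.ofCard _ h7).3 a b).le) (fun h => by rw [h, Subgroup.card_bot, ← hU] at h7; exact h1.ne h7)
    (fun h => left_ne_zero_of_mul h4 (coeff_eB_eq_zero hM hB h)) (Subgroup.map_subtype_le _)]

end RG

end Cfsg.Agent.H14
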