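import Cfsg.Agent.H14.EO3

/-! Homocyclic subgroups of the finite Chevalley groups. -/

set_option autoImplicit false

namespace Cfsg.Agent.H14

open Finset Matrix Cfsg.Lie Cfsg.Lie.ChevalleyDatum

/-- the map of roots D4 → E8 with node map [1, 3, 2, 4] -/
noncomputable def morD48 : Morph chevD4 chevE8 1 :=
  mkMorph goodD4 goodE8 bridgeD4 bridgeE8 (slD4 _) (slE8 _)
    0x9894938f8e8d89888382877e71686d6c67666261605c5b57
    0x17000000161500000014131200000011100d0000000f0e0000000c0000000000000000000000000b00000009080000000a0706000000050403000000020100000000000000000000000000000000000000000000000000000000000000000000000000000000000000000000000000000000000000000000000000000000000000000000000000000000000000000000000000000000000000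
    0x300c0
    (by decide +kernel) (by decide +kernel)

/-- the map of roots B2 → F4 with node map [1, 2] -/
def morB24 : Morph chevB2 chevF4 1 where
  ρ := getW 8 256 0x1e1c1b1916141311
  ρ' := getW 8 256 0x7000605000400000300020100000000000000000000000000000000000000
  ε := fun _ => 1
  e := fun _ => 1
  hp := Or.inl rfl
  ok := by decide +kernel
  pair := by decide +kernel

lemma torS_injective_D4 (K : Type*) [Field K] : Function.Injective (torS goodD4 stD4 K) :=
  torX_injective goodD4 goodE8 stD4 morD48 (![1, 3, 2, 4] : Fin 4 → Fin 8)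
    (by decide : ∀ i j : Fin 4, (![1, 3, 2, 4] : Fin 4 → Fin 8) i = ![1, 3, 2, 4] j → i = j)
    (fun i => Fin.ext (((congrArg _ (goodD4.simple_eq i)).trans ((by decide +kernel : ∀ i : Fin 4, morD48.ρ (chevD4.simple i) =
      chevE8.simple ((![1, 3, 2, 4] : Fin 4 → Fin 8) i)) i)).trans (goodE8.simple_eq _).symm)) (fun _ => rfl) (centerE8 _)

lemma torS_injective_B2 (K : Type*) [Field K] : Function.Injective (torS goodB2 stB2 K) :=
  torX_injective goodB2 goodF4 stB2 morB24 (![1, 2] : Fin 2 → Fin 4)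
    (by decide : ∀ i j : Fin 2, (![1, 2] : Fin 2 → Fin 4) i = ![1, 2] j → i = j)
    (fun i => Fin.ext (((congrArg _ (goodB2.simple_eq i)).trans ((by decide +kernel : ∀ i : Fin 2, morB24.ρ (chevB2.simple i) =
      chevF4.simple ((![1, 2] : Fin 2 → Fin 4) i)) i)).trans (goodF4.simple_eq _).symm)) (fun _ => rfl) (centerF4 _)

theorem RG.Fro.exists_hom {ι Φ : Type} [Fintype ι] [DecidableEq ι] {R : RS ι Φ} {k : Type*} [Field k] {Γ : Type*} [Group Γ]
    {X : RG R k Γ} {hm : X.HMul} {q : ℕ} {σ : k →+* k} {φ : Monoid.End Γ} (h : X.Fro hm q σ φ) {Δ : Type*} [Group Δ] {j : Δ →* Γ}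
    (hj : Function.Injective j) (hj' : ∀ g, φ g = g ↔ ∃ y, j y = g) {w : Equiv.Perm Φ} (hw : w ∈ R.W) {A : Type*} [Group A]
    {ψ : A →* ι → kˣ} (e : ∀ a, mact (R.mat w) (ψ a) = ψ a ^ q) (hψ : Function.Injective ψ) : ∃ f : A →* Δ, Function.Injective f := by
  obtain ⟨g, hg⟩ := h.exists_twist (n := (X.nW w)⁻¹)
  refine ⟨(MonoidHom.ofInjective hj).symm.toMonoidHom.comp ((((MulAut.conj g).toMonoidHom.comp (X.torX hm)).comp ψ).codRestrict _
    fun a => (hj' (g * X.torX hm (ψ a) * g⁻¹)).1 ?_), (MonoidHom.ofInjective hj).symm.injective.comp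
      ((MonoidHom.injective_codRestrict _ _ _).2 (((MulAut.conj g).injective.comp h.inj).comp hψ))⟩
  rw [map_mul, map_mul, map_inv, h.φ_tor, ← e, inv_mul_eq_iff_eq_mul.1 hg, ← X.conj_torX hm (X.nW_mem_N w) (X.rep_nW hw)]
  group

/-- a family of eigenvectors with separating coordinates -/
noncomputable def syChk (T : Tab) (n l : ℕ) (w : List ℕ) (φ : List ℤ) (c : ℤ) (L : List (ℕ × List (List ℤ))) : Bool :=
  band (allL w fun r => Nat.blt r n) <| band (Nat.blt 0 φ.length) <| allN L.length fun j =>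
    band (eigChk T l w φ.length φ (L.getD j default).2) <| band (Nat.blt (L.getD j default).1 l) <| allN L.length fun j' =>
      allN φ.length fun k => ibeq (ent (L.getD j default).2 k (L.getD j' default).1) (bite (Nat.beq j j') (Nat.rec c (fun _ _ => 0) k) 0)

universe u in
theorem exists_homocyclic {D : ChevalleyDatum} (G : Good D) {T : Tab} (B : Bridge D T) (hs : StData D)
    (hi : ∀ (K : Type u) [Field K], Function.Injective (torS G hs K)) (F : Type u) [Field F] [Fintype F]
    {w : List ℕ} {φ : List ℤ} {c : ℤ} {L : List (ℕ × List (List ℤ))} (h : syChk T D.nroots D.rank w φ c L = true) {n : ℕ}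
    (hq : (Fintype.card F).Coprime n) (hn : (n : ℤ) ∣ evM φ.length φ (Fintype.card F)) (hc : IsCoprime c n)
    (hz : n.Coprime (Nat.card (Subgroup.center (D.SteinbergGroup F)))) :
    ∃ f : (Fin L.length → Multiplicative (ZMod n)) →* D.group F, Function.Injective f := by
  simp only [syChk, band_iff, allL_iff, Nat.blt_eq, allN_iff, ibeq_iff, bite_eq, nbeq_iff] at h
  obtain ⟨h1, h2, h3⟩ := h
  let k := AlgebraicClosure F
  have hF := fro_St G hs F k fun K _ _ => hi K
  have : NeZero (n : k) := ⟨fun e => by simpa only [hF.zero, e, not_isCoprime_zero_zero] using hq.cast (R := k)⟩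
  have := NeZero.of_neZero_natCast k (n := n)
  have a0 : ∀ {a : ℕ} (v : Fin a → Multiplicative (ZMod n)), v ^ n = 1 := fun v => funext fun i => by
    simpa using pow_card_eq_one (x := v i)
  let e := (rootsOfUnity n k).subtype.comp (mulEquivOfCyclicCardEq (G := Multiplicative (ZMod n)) (G' := rootsOfUnity n k)
    (by rw [HasEnoughRootsOfUnity.natCard_rootsOfUnity]; simp)).toMonoidHom
  have he : Function.Injective e := Subtype.val_injective.comp (MulEquiv.injective _)
  have a1 : ∀ (v : Fin L.length → Multiplicative (ZMod n)) j, e (v j) ^ (n : ℤ) = 1 := fun v j => by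
    rw [zpow_natCast, ← map_pow, ← Pi.pow_apply, a0, Pi.one_apply, map_one]
  obtain ⟨f, hf⟩ := hF.exists_hom (stMap_injective G hs (hi k) (algebraMap F k)) (fun _ => frS_fix_iff G hs F (hi k)) (G.rw_mem w)
    (A := Fin L.length → Multiplicative (ZMod n))
    (ψ := MonoidHom.mk' (fun v => ∏ j, fun i => e (v j) ^ evE φ.length (L.getD j default).2 (Fintype.card F) i) fun v v' => by
      rw [← prod_mul_distrib]; simp only [Pi.mul_apply, map_mul, mul_zpow]; rfl) (fun v => by
      simp only [MonoidHom.mk'_apply, map_prod, ← prod_pow]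
      obtain ⟨m, hm⟩ := hn
      exact prod_congr rfl fun j _ => eig_spec G B h1 (h3 j j.2).1 (by
        rw [← evM, hm, _root_.zpow_mul, a1, _root_.one_zpow])) ((injective_iff_map_eq_one _).2 fun v hv => funext fun j => by
      have := congrFun hv ⟨_, (h3 j j.2).2.1⟩
      obtain ⟨d, hd⟩ := Nat.exists_eq_add_one.2 h2
      simp only [MonoidHom.mk'_apply, Finset.prod_apply, evE, Pi.one_apply] at this
      rw [prod_eq_single j (fun i _ hi => by
        rw [sum_eq_zero fun k hk => by rw [(h3 i i.2).2.2 j j.2 k (mem_range.1 hk), if_neg (Fin.val_ne_of_ne hi), zero_mul], zpow_zero])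
        (by simp), sum_congr rfl fun k hk => by rw [(h3 j j.2).2.2 j j.2 k (mem_range.1 hk), if_pos rfl]] at this
      simp only [hd, sum_range_succ'] at this
      obtain ⟨a, b, hab⟩ := hc
      refine he ?_
      rw [← zpow_one (e (v j)), ← hab, _root_.zpow_add, mul_comm a, mul_comm b, _root_.zpow_mul, _root_.zpow_mul, a1,
        show e (v j) ^ c = 1 by simpa using this]
      simp)
  refine ⟨(thetaSt G F hs).comp f, (injective_iff_map_eq_one _).2 fun v hv => hf ?_⟩
  have : f v ∈ Subgroup.center _ := thetaSt_ker G (K := F) hs ▸ hv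
  rw [map_one, ← orderOf_eq_one_iff]
  exact Nat.eq_one_of_dvd_coprimes hz (orderOf_dvd_of_pow_eq_one (by rw [← map_pow, a0, map_one]))
    (Subgroup.orderOf_dvd_natCard _ this)

lemma dvd_aux {q n A : ℤ} {d : ℕ} (es : List ℕ) (ψ : ℤ) (h0 : ∀ e ∈ es, 0 < e ∧ e < d) (h1 : n ∣ q ^ d - 1)
    (h2 : ∀ e, 0 < e → e < d → IsCoprime n (q ^ e - 1)) (h : A * (es.map fun e => q ^ e - 1).prod = (q ^ d - 1) * ψ) : n ∣ A := by
  refine IsCoprime.dvd_of_dvd_mul_right ?_ (h ▸ h1.mul_right ψ)
  clear h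
  induction es with
  | nil => simpa using isCoprime_one_right
  | cons e es ih => exact (h2 e (h0 e (by simp)).1 (h0 e (by simp)).2).mul_right (ih fun a ha => h0 a (by simp [ha]))

/-- the lower coefficients of the cyclotomic polynomials that occur -/
def phiL : ℕ → List ℤ
  | 1 => [-1]
  | 2 => [1]
  | 3 => [1, 1]
  | 4 => [1, 0]
  | 5 => [1, 1, 1, 1]
  | 6 => [1, -1]
  | 7 => [1, 1, 1, 1, 1, 1]
  | 8 => [1, 0, 0, 0]
  | 9 => [1, 0, 0, 1, 0, 0]
  | 10 => [1, -1, 1, -1]
  | 12 => [1, 0, -1, 0]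
  | 14 => [1, -1, 1, -1, 1, -1]
  | 15 => [1, -1, 0, 1, -1, 1, 0, -1]
  | 18 => [1, 0, 0, -1, 0, 0]
  | 20 => [1, 0, -1, 0, 1, 0, -1, 0]
  | 24 => [1, 0, 0, 0, -1, 0, 0, 0]
  | 30 => [1, 1, 0, -1, -1, -1, 0, 1]
  | _ => []

lemma dvd_evM {d : ℕ} (hd : phiL d ≠ []) {q n : ℤ} (h1 : n ∣ q ^ d - 1) (h2 : ∀ e, 0 < e → e < d → IsCoprime n (q ^ e - 1)) :
    n ∣ evM (phiL d).length (phiL d) q := by
  unfold phiL at hd ⊢
  split at hd
  · exact dvd_aux [] ((1) * q ^ 0) (by decide) h1 h2 (by simp [evM, sum_range_succ]; ring)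
  · exact dvd_aux [1] ((1) * q ^ 0) (by decide) h1 h2 (by simp [evM, sum_range_succ]; ring)
  · exact dvd_aux [1] ((1) * q ^ 0) (by decide) h1 h2 (by simp [evM, sum_range_succ]; ring)
  · exact dvd_aux [2] ((1) * q ^ 0) (by decide) h1 h2 (by simp [evM, sum_range_succ]; ring)
  · exact dvd_aux [1] ((1) * q ^ 0) (by decide) h1 h2 (by simp [evM, sum_range_succ]; ring)
  · exact dvd_aux [3, 2] ((-1) * q ^ 0 + (1) * q ^ 1) (by decide) h1 h2 (by simp [evM, sum_range_succ]; ring)
  · exact dvd_aux [1] ((1) * q ^ 0) (by decide) h1 h2 (by simp [evM, sum_range_succ]; ring)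
  · exact dvd_aux [4] ((1) * q ^ 0) (by decide) h1 h2 (by simp [evM, sum_range_succ]; ring)
  · exact dvd_aux [3] ((1) * q ^ 0) (by decide) h1 h2 (by simp [evM, sum_range_succ]; ring)
  · exact dvd_aux [5, 2] ((-1) * q ^ 0 + (1) * q ^ 1) (by decide) h1 h2 (by simp [evM, sum_range_succ]; ring)
  · exact dvd_aux [6, 4] ((-1) * q ^ 0 + (1) * q ^ 2) (by decide) h1 h2 (by simp [evM, sum_range_succ]; ring)
  · exact dvd_aux [7, 2] ((-1) * q ^ 0 + (1) * q ^ 1) (by decide) h1 h2 (by simp [evM, sum_range_succ]; ring)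
  · exact dvd_aux [5, 3] ((-1) * q ^ 0 + (1) * q ^ 1) (by decide) h1 h2 (by simp [evM, sum_range_succ]; ring)
  · exact dvd_aux [9, 6] ((-1) * q ^ 0 + (1) * q ^ 3) (by decide) h1 h2 (by simp [evM, sum_range_succ]; ring)
  · exact dvd_aux [10, 4] ((-1) * q ^ 0 + (1) * q ^ 2) (by decide) h1 h2 (by simp [evM, sum_range_succ]; ring)
  · exact dvd_aux [12, 8] ((-1) * q ^ 0 + (1) * q ^ 4) (by decide) h1 h2 (by simp [evM, sum_range_succ]; ring)
  · exact dvd_aux [15, 10, 6] ((1) * q ^ 0 + (1) * q ^ 1 + (-1) * q ^ 3 + (-1) * q ^ 4 + (-1) * q ^ 5 + (-1) * q ^ 6 + (1) * q ^ 8 + (1) * q ^ 9) (by decide) h1 h2 (by simp [evM, sum_range_succ]; ring)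
  · exact absurd rfl hd

end Cfsg.Agent.H14
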