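import Cfsg.Agent.H14.Sy1
import Cfsg.Agent.H15.TwD4

/-! Twisted Frobenius maps on Steinberg groups and a cyclic torus of the triality group. -/

set_option autoImplicit false

namespace Cfsg.Agent.H14

open Cfsg.Lie Cfsg.Lie.ChevalleyDatum Finset H15

theorem reg_of_chk {D : ChevalleyDatum} (G : Good D) {T : Tab} (B : Bridge D T) (V E : List (List ℤ)) (χ : List ℤ) (L : List ℕ)
    (h : decide ((∀ i j : Fin D.rank, ∑ k ∈ range D.rank, ent E i k * ent V k j = if j = i then 1 else 0) ∧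
      ∀ i : Fin D.rank, ent E i D.rank = 0) = true)
    (h1 : torChk' T D.nroots D.rank E = true) (h2 : ∀ q : Fin 4, torChk T D.nroots D.rank L
      (evP D.rank (χ.getD · 0) (q + 2 : ℕ)) ((List.range D.rank).map fun i => evP D.rank (ent E i) (q + 2 : ℕ)) = true)
    {q M d : ℕ} (h4 : 1 < q) (hd : D.rank = d) (hM : evP d (χ.getD · 0) q = M)
    (h3 : ∀ n : ℕ, 0 < evP d (χ.getD · 0) (n + 6) - 4 * ∑ k ∈ range d, (n + 6 : ℤ) ^ k) {g : Fin D.nroots → ℤ}
    (hg : ∀ r, g r = ∑ i, G.R.pair (G.R.simple i) r * evP d (ent E i) q) :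
    (∀ r, ¬ (M : ℤ) ∣ g r) ∧ ∀ w ∈ G.R.W, (∀ r, (M : ℤ) ∣ g (w r) - g r) → w = 1 := by
  subst hd
  rw [decide_eq_true_eq] at h
  rcases lt_or_ge q 6 with hq | hq
  · have h5 := h2 ⟨q - 2, by omega⟩
    have e : ∀ r : Fin D.nroots, (sumN D.rank fun i => T.car i r *
        ((List.range D.rank).map fun i => evP D.rank (ent E i) q).getD i 0) = g r := fun r => by
      rw [hg, sumN_eq]; exact sum_congr rfl fun i _ => by simp [B.car_eq' G]
    simp only [show q - 2 + 2 = q by omega, hM, torChk, band_iff, allN_iff, bnot_iff, decide_eq_true_eq,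
      allL_iff, nble_iff, bimp_iff, bor_iff, nbeq_iff, anyN_iff, ibeq_iff] at h5
    refine ⟨fun r => e r ▸ h5.1 r r.2, fun w hw hw' => RS.Aut.eq_of_simple (G.R.W_le_Aut hw) (one_mem _) fun i => Fin.ext ?_⟩
    have h6 := h5.2.2 i i.2 _ (w (G.R.simple i)).2
    rw [← B.sim_eq i i.2, ← G.simple_eq, e, e] at h6
    refine (h6 (hw' _)).resolve_right (not_not.2 fun b hb => ?_)
    lift b to Fin D.nroots using h5.2.1 b hb
    exact ⟨w b, (w b).2, by rw [e, e]; exact hw' b, by rw [B.pr_eq G, B.pr_eq G, RS.Aut.pair_eq (G.R.W_le_Aut hw)]⟩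
  · have e : ∀ r s, (M : ℤ) ∣ g r - g s → r = s := fun r s hrs => by
      have b : ∀ r : Fin D.nroots, ∀ k < D.rank, |∑ i, G.R.pair (G.R.simple i) r * ent E i k| ≤ 2 := fun r k hk => by
        simpa [sumN_eq, B.car_eq' G] using allN_iff.1 (allN_iff.1 h1 r r.2) k hk
      rw [hg, hg, ← sum_sub_distrib, sum_congr rfl fun i _ => (sub_mul _ _ _).symm, evP_sum] at hrs
      have := eq_zero_of_dvd_evP (C := 4) (fun k hk => by
        simp only [sub_mul, sum_sub_distrib]
        exact (abs_sub _ _).trans (by linarith [b r k hk, b s k hk])) (by simp [h.2]) (by norm_num)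
        (by omega) (by
          have := h3 (q - 6)
          rwa [show ((q - 6 : ℕ) + 6 : ℤ) = q by omega, hM, sub_pos] at this) hrs
      refine G.R.wt_inj fun j => ?_
      have h7 : ∑ k ∈ range D.rank, (∑ i, (G.R.pair (G.R.simple i) r - G.R.pair (G.R.simple i) s) * ent E i k) * ent V k j = 0 :=
        sum_eq_zero fun k hk => by rw [this k (mem_range.1 hk).le, zero_mul]
      simp only [sum_mul, mul_assoc] at h7
      rw [sum_comm] at h7
      simpa [← mul_sum, h.1, G.R.pair_simple, sub_eq_zero] using h7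
    refine ⟨fun r hr => G.R.neg_ne r (e _ _ (dvd_sub ?_ hr)), fun w _ hw => Equiv.ext fun r => e _ _ (hw r)⟩
    simpa [hg] using hr

section tw

variable {D : ChevalleyDatum} (G : Good D) (hs : StData D) (M : Morph D D 1) {K K' : Type*} [Field K] [Field K']

/-- the twisted field map on a Steinberg group -/
noncomputable def twS (φ : K →+* K) : D.SteinbergGroup K →* D.SteinbergGroup K :=
  (M.exists_hom G (rgSt G K hs).toRG0 (rgSt_chev G K hs) (Or.inl rfl) (rgSt_hmul G K hs) hs).choose.comp (stMap G hs φ)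

variable {M} (he : ∀ r, M.e r = 1)
include he

lemma twS_x (φ : K →+* K) (r : Fin D.nroots) (t : K) :
    twS G hs M φ ((rgSt G K hs).x r t) = (rgSt G K hs).x (M.r r) (M.ε r * φ t) := by
  rw [twS, MonoidHom.comp_apply, stMap_x, (M.exists_hom G (rgSt G K hs).toRG0 (rgSt_chev G K hs) (Or.inl rfl)
    (rgSt_hmul G K hs) hs).choose_spec.map_x, M.pull_x, he, pow_one]

lemma stMap_twS {φ : K →+* K} {φ' : K' →+* K'} {j : K →+* K'} (h : ∀ t, j (φ t) = φ' (j t)) (g : D.SteinbergGroup K) :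
    stMap G hs j (twS G hs M φ g) = twS G hs M φ' (stMap G hs j g) :=
  st_ext G hs (φ := (stMap G hs j).comp (twS G hs M φ)) (ψ := (twS G hs M φ').comp (stMap G hs j))
    (fun r t => by simp [twS_x G hs he, h]) g

variable {τ : Equiv.Perm (Fin D.rank)} (hτ : ∀ i : Fin D.rank, M.ρ (D.simple i) = D.simple (τ i) ∧ M.ε (D.simple i) = 1)
include hτ

omit he in
lemma morph_simple (i : Fin D.rank) : M.r (G.R.simple i) = G.R.simple (τ i) :=
  Fin.ext (by rw [Morph.r_val, G.simple_eq, G.simple_eq, (hτ i).1])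

lemma twS_pos (φ : K →+* K) (i : Fin D.rank) (t : K) :
    twS G hs M φ ((rgSt G K hs).x (G.R.simple i) t) = (rgSt G K hs).x (G.R.simple (τ i)) (φ t) := by
  rw [twS_x G hs he, morph_simple G hτ, G.simple_eq, (hτ i).2]; simp

lemma twS_neg (φ : K →+* K) (i : Fin D.rank) (t : K) :
    twS G hs M φ ((rgSt G K hs).x (G.R.neg (G.R.simple i)) t) = (rgSt G K hs).x (G.R.neg (G.R.simple (τ i))) (φ t) := by
  rw [twS_x G hs he, M.r_neg G G, morph_simple G hτ, G.neg_eq, (M.ok _ (G.R.simple i).2).2.2.2.1, G.simple_eq, (hτ i).2]; simp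

lemma twS_torS (φ : K →+* K) (c : Fin D.rank → Kˣ) :
    twS G hs M φ (torS G hs K c) = torS G hs K fun i => Units.map (φ : K →* K) (c (τ.symm i)) := by
  refine DFunLike.congr_fun (MonoidHom.pi_ext (f := (twS G hs M φ).comp (torS G hs K))
    (g := (torS G hs K).comp (MonoidHom.mk' (fun c i => Units.map (φ : K →* K) (c (τ.symm i))) fun _ _ => funext fun _ => map_mul _ _ _))
    fun i t => ?_) c
  rw [MonoidHom.comp_apply, MonoidHom.comp_apply, RG.torX_single, MonoidHom.mk'_apply,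
    show (fun j => Units.map (φ : K →* K) (Pi.mulSingle (M := fun _ => Kˣ) i t (τ.symm j))) =
      Pi.mulSingle (τ i) (Units.map (φ : K →* K) t) from funext fun j => by
        by_cases h : j = τ i
        · simp [h]
        · simp [h, (Equiv.symm_apply_eq τ).not.2 h], RG.torX_single]
  simp [RG0.h, RG0.n, twS_pos G hs he hτ, twS_neg G hs he hτ]

lemma twS_iter (φ : K →+* K) (k : ℕ) (h : τ ^ k = 1) (g : D.SteinbergGroup K) :
    (twS G hs M φ)^[k] g = stMap G hs (φ ^ k) g := by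
  have key : ∀ k i t, (twS G hs M φ)^[k] ((rgSt G K hs).x (G.R.simple i) t) =
      (rgSt G K hs).x (G.R.simple ((τ ^ k) i)) ((φ ^ k) t) ∧ (twS G hs M φ)^[k]
        ((rgSt G K hs).x (G.R.neg (G.R.simple i)) t) = (rgSt G K hs).x (G.R.neg (G.R.simple ((τ ^ k) i))) ((φ ^ k) t) :=
    fun k i t => by
      induction k with
      | zero => simp
      | succ k ih =>
        simp only [pow_succ', Function.iterate_succ_apply', ih]
        exact ⟨twS_pos G hs he hτ _ _ _, twS_neg G hs he hτ _ _ _⟩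
  exact DFunLike.congr_fun ((rgSt G K hs).hom_ext (rgSt_grp G K hs) (φ := MonoidHom.mk' (twS G hs M φ)^[k] (iterate_map_mul _ k))
    (fun i t => by rw [stMap_x]; exact (key k i t).1.trans (by rw [h]; rfl))
    fun i t => by rw [stMap_x]; exact (key k i t).2.trans (by rw [h]; rfl)) g

lemma s_theta (φ : K →+* K) (S : Tw (G.rg K)) (h1 : S.τ = τ) (h2 : ∀ i t, S.g i t = φ t) (g : D.SteinbergGroup K) :
    S.s (thetaSt G K hs g) = thetaSt G K hs (twS G hs M φ g) := by
  have a : ∀ g, (thetaSt G K hs g).1 ∈ (G.rg K).grp := fun g => (G.grp_eq K).le (thetaSt G K hs g).2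
  have b : ∀ r t, (thetaSt G K hs ((rgSt G K hs).x r t) : GL D.Idx K) = (G.rg K).x r t := (piSt_hom G K hs).map_x
  exact DFunLike.congr_fun ((rgSt G K hs).hom_ext (rgSt_grp G K hs) (φ := MonoidHom.mk' (fun g => S.s (thetaSt G K hs g))
    fun x y => by rw [map_mul, Subgroup.coe_mul, S.s_mul _ (a x) _ (a y)])
    (ψ := (D.group K).subtype.comp ((thetaSt G K hs).comp (twS G hs M φ)))
    (fun i t => by simp [twS_pos G hs he hτ, b, S.s_pos, h1, h2]) fun i t => by simp [twS_neg G hs he hτ, b, S.s_neg, h1, h2]) g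

variable (F : Type*) [Field F] [Fintype F] [Algebra F K] (hi : Function.Injective (torS G hs K)) {φ : K →+* K} {k : ℕ}
  (hk : τ ^ k = 1) (hφ : ∀ t, (φ ^ k) t = t ^ Fintype.card F)
include hk hφ

lemma twS_frS (g : D.SteinbergGroup K) : (twS G hs M φ)^[k] g = frS G hs K F g := by
  rw [twS_iter G hs he hτ φ k hk, frS]
  congr 2
  exact RingHom.ext hφ

include hi

theorem twS_fix_iff {φ₀ : F →+* F} (h0 : ∀ t, algebraMap F K (φ₀ t) = φ (algebraMap F K t)) {g : D.SteinbergGroup K} :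
    twS G hs M φ g = g ↔ ∃ y, twS G hs M φ₀ y = y ∧ stMap G hs (algebraMap F K) y = g := by
  refine ⟨fun h => ?_, by rintro ⟨y, h, rfl⟩; rw [← stMap_twS G hs he h0, h]⟩
  obtain ⟨y, rfl⟩ := (frS_fix_iff G hs F hi).1 ((twS_frS G hs he hτ F hk hφ g).symm.trans (Function.iterate_fixed h k))
  exact ⟨y, stMap_injective G hs hi _ ((stMap_twS G hs he h0 y).trans h), rfl⟩

/-- Lang's theorem for twisted Frobenius maps -/
theorem exists_lang_tw (hk0 : 0 < k) (hc : ∀ (τ : K →ₐ[F] K) t, τ (φ t) = φ (τ t)) [IsAlgClosed K]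
    {T : Fin D.nroots ⊕ Fin D.rank → K} (hT : IsTranscendenceBasis F T) (y : D.SteinbergGroup F) :
    ∃ g, g⁻¹ * twS G hs M φ g = stMap G hs (algebraMap F K) y := by
  have h (y : D.SteinbergGroup F) := finite_twisted (twS G hs M φ) (fun m hm => (frS_finite G hs F hi m hm).subset
    fun g hg => by
      rw [Set.mem_ofPred, ← funext (twS_frS G hs he hτ F hk hφ), ← Function.iterate_mul, mul_comm, Function.iterate_mul]
      exact Function.iterate_fixed hg k) hk0 ((twS_frS G hs he hτ F hk hφ _).trans ((frS_fix_iff G hs F hi).2 ⟨y, rfl⟩))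
  obtain ⟨g, -, hg⟩ := (rgSt G K hs).lang_cent (rgSt_grp G K hs) _ hi hT (fun τ => stMap G hs (τ : K →+* K))
    (fun τ => stMap_x G hs _) (s := 1) (by simp) (fun n _ w hw _ h => G.R.W_eq_one hw.mem_W fun i =>
      h _ (G.R.pos_simple i) (by simp [RS.chi])) (σ := twS G hs M φ) (by simp) (fun τ => stMap_twS G hs he (hc τ))
    (a := stMap G hs (algebraMap F K) 1) (by simp) (by simp) (by simp) (fun τ => by rw [stMap_stMap, AlgHom.comp_algebraMap])
    (h 1) (h y)
  exact ⟨g, by simpa using hg⟩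

end tw

end Cfsg.Agent.H14
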