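import Cfsg.Agent.H16.Targ
import Cfsg.Agent.H28.Unitary

/-! `PSL₂(7)` inside `PSU₃(3)`. -/

set_option autoImplicit false

namespace Cfsg.Agent.H14.U33L

open H16 Matrix MulAction

instance factN : Fact (∀ r : ZMod 3, r ^ 2 ≠ 2 + 0 * r) := ⟨by decide⟩
/-- the field with nine elements -/
abbrev N9 : Type := QuadraticAlgebra (ZMod 3) 2 0
instance finN : Fintype N9 := Fintype.ofEquiv _ (QuadraticAlgebra.equivProd (2 : ZMod 3) 0).symm
instance fact7 : Fact (Nat.Prime 7) := ⟨by norm_num⟩

lemma card_N9 : Fintype.card N9 = 9 := by decide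

/-- the elements -/
def el9 (i : ℕ) : N9 := ⟨(i % 3 : ℕ), (i / 3 : ℕ)⟩

/-- an orbit of vectors -/
def pt (i : ℕ) : Fin 3 → N9 := vecPt el9 9 3 (([1, 9, 81, 684, 97, 95, 332, 145, 127, 76, 577,
  227, 415, 208, 328, 587, 226, 416, 40, 128, 187, 578, 586, 104, 360, 424, 162, 106, 178, 720, 80,
  176, 2, 146, 656, 396, 18, 44, 425, 652, 185, 209] : List ℕ).getD i 0)

lemma inj_pt : Inj pt 42 := by decide +kernel

lemma faith_pt (K : Subgroup (SpecialLinearGroup (Fin 3) N9)) : Faith pt 42 K := fun g _ hg =>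
  Subtype.ext (Matrix.ext_of_mulVec_single fun j => by
    have e : ∀ j : Fin 3, pt j = Pi.single j 1 := by decide +kernel
    rw [← e]
    exact (hg j (by omega)).trans (Matrix.one_mulVec _).symm)

/-- first generator -/
def gA : SpecialLinearGroup (Fin 3) N9 :=
  ⟨!![⟨0, 0⟩, ⟨1, 2⟩, ⟨2, 1⟩; ⟨1, 1⟩, ⟨1, 0⟩, ⟨1, 0⟩; ⟨2, 2⟩, ⟨1, 0⟩, ⟨1, 0⟩], by
    rw [det_fin_three]; decide +kernel⟩
/-- second generator -/
def gB : SpecialLinearGroup (Fin 3) N9 :=
  ⟨!![0, 0, 1; 1, 0, 0; 0, 1, 0], by rw [det_fin_three]; decide +kernel⟩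

lemma sq_eq_one_iff_of_ne_zero_aux : ∀ r : ZMod 7, r ^ 2 = 1 → r = 1 ∨ r = -1 := by decide

theorem base : ∃ H : Subgroup (PSU 3 N9 3),
    Nonempty (H ≃* ProjectiveSpecialLinearGroup (Fin 2) (ZMod 7)) := by
  have hc : Nat.card (SpecialLinearGroup (Fin 2) (ZMod 7)) = 336 := H12.card_SL2 (ZMod.card 7)
  have g1 := gen_top (G := SpecialLinearGroup (Fin 2) (ZMod 7)) (pt := vecPt Nat.cast 7 2) (w := 6)
    (by norm_num) (inj_vecPt (inj_zmod 7) 2) hc
    [(⟨!![0, 6; 1, 0], by decide +kernel⟩,
      21668206758854719330363956466829630974437605035384024124724891667149352431381864510710208),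
     (⟨!![0, 6; 1, 6], by decide +kernel⟩,
      835888967017722246129105628059809533159701242170772940141096395891313083369196543599040)]
    (by decide +kernel) [[1, 1, 0]] [1, 7] (by decide) (by decide +kernel)
  have rA : Rep pt 42 gA (get 6
      4474803547316429626769187830710213962995453771811726043163181775206047830275) := by
    decide +kernel
  have rB : Rep pt 42 gB (get 6
      4370451742724744421900549486823706272896826888200734371050132601097304932481) := by
    decide +kernel
  obtain ⟨φ, h⟩ := exists_hom (w := 8) (w2 := 6) (L := SU 3 N9 3) (inj_vecPt (inj_zmod 7) 2) inj_pt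
    (by decide) (faith_SL (surj_zmod 7) 2 ⊤) (faith_pt _)
    [(21668206758854719330363956466829630974437605035384024124724891667149352431381864510710208,
      4474803547316429626769187830710213962995453771811726043163181775206047830275),
     (835888967017722246129105628059809533159701242170772940141096395891313083369196543599040,
      4370451742724744421900549486823706272896826888200734371050132601097304932481)]
    [(4049757369756421906905237163507512331646106247375975667116873049659827465510703414137216,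
      pid 6 42)] g1 (by
      simp only [List.map_cons, List.map_nil, List.forall_mem_cons, List.not_mem_nil, false_imp_iff,
        implies_true, and_true]
      exact ⟨⟨gA, (H28.mem_SU_iff (σ := starRingAut) (by decide)).2 (by decide +kernel), rA⟩,
        gB, (H28.mem_SU_iff (σ := starRingAut) (by decide)).2 (by decide +kernel), rB⟩)
    [[1, 1, 0]] [1, 7] (by decide) (by decide +kernel)
  simp only [List.cons_append, List.nil_append, List.forall_mem_cons, List.not_mem_nil, false_imp_iff,
    implies_true, and_true] at h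
  obtain ⟨⟨a, -, ha⟩, ⟨b, -, hb⟩, m, hm, hm'⟩ := h
  have ea : (φ a).1 = gA := Rep.eq_of_faith (faith_pt ⊤) trivial trivial ha rA
  have eb : (φ b).1 = gB := Rep.eq_of_faith (faith_pt ⊤) trivial trivial hb rB
  have em : m.1 = -1 := Rep.eq_of_faith (faith_SL (surj_zmod 7) 2 ⊤) trivial trivial hm
    (by decide +kernel)
  have em' : φ m = 1 := Subtype.ext (Rep.eq_one (by norm_num) (faith_pt ⊤) trivial hm')
  let ψ : SpecialLinearGroup (Fin 2) (ZMod 7) →* PSU 3 N9 3 :=
    (QuotientGroup.mk' _).comp (φ.comp Subgroup.topEquiv.symm.toMonoidHom)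
  have hk : Subgroup.center _ ≤ ψ.ker := by
    intro z hz
    obtain ⟨r, hr, e⟩ := Matrix.SpecialLinearGroup.mem_center_iff.1 hz
    have : r = 1 ∨ r = -1 := sq_eq_one_iff_of_ne_zero_aux r (by simpa using hr)
    rcases this with rfl | rfl
    · have : z = 1 := Subtype.ext (by rw [← e]; simp)
      rw [this]; exact one_mem _
    · have : z = m.1 := by rw [em]; exact Subtype.ext (by rw [← e]; decide +kernel)
      rw [this, MonoidHom.mem_ker]
      show QuotientGroup.mk' _ (φ m) = 1
      rw [em', map_one]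
  have hs : IsSimpleGroup (SpecialLinearGroup (Fin 2) (ZMod 7) ⧸ Subgroup.center _) :=
    H12.PSL_fin_simple 2 (by norm_num) (by simp)
  let χ := QuotientGroup.lift _ ψ hk
  refine ⟨χ.range, ⟨(MonoidHom.ofInjective ?_).symm⟩⟩
  rw [← MonoidHom.ker_eq_bot_iff]
  refine (inferInstance : χ.ker.Normal).eq_bot_or_eq_top.resolve_right fun e => ?_
  have h1 : χ (a.1 : _ ⧸ _) = 1 := by rw [← MonoidHom.mem_ker, e]; trivial
  have h2 : φ a ∈ Subgroup.center _ := (QuotientGroup.eq_one_iff _).1 h1
  have h3 := congrArg Subtype.val (Subgroup.mem_center_iff.1 h2 (φ b))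
  rw [Subgroup.coe_mul, Subgroup.coe_mul, ea, eb] at h3
  exact absurd (congrArg Subtype.val h3) (by decide +kernel)

end Cfsg.Agent.H14.U33L
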