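import Cfsg.Agent.H14.SS2
import Cfsg.Agent.H15.TwA2

/-! Weakly closed unipotent subgroups. -/

set_option autoImplicit false

namespace Cfsg.Agent.H14

open H15

lemma exists_single_mem {ι K : Type*} [Fintype ι] [DecidableEq ι] [Field K] {A : AddSubgroup (ι → K)} {i : ι}
    (h : ∀ j ≠ i, ∃ c : ι → K, c j = 1 ∧ c i ≠ 1 ∧ ∀ a ∈ A, c * a ∈ A) {a : ι → K} (ha : a ∈ A) (hi : a i ≠ 0) :
    ∃ t ≠ 0, Pi.single i t ∈ A := by
  have : ∀ s : Finset ι, ∃ a ∈ A, a i ≠ 0 ∧ ∀ j ∈ s, j ≠ i → a j = 0 := fun s => by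
    induction s using Finset.induction with
    | empty => exact ⟨a, ha, hi, by simp⟩
    | insert j s _ ih =>
      obtain ⟨a, h1, h2, h3⟩ := ih
      by_cases e : j = i
      · exact ⟨a, h1, h2, by simpa [e] using h3⟩
      obtain ⟨c, c1, c2, c3⟩ := h j e
      refine ⟨c * a - a, sub_mem (c3 a h1) h1, by simpa [sub_eq_zero, h2] using c2, fun k hk hk' => ?_⟩
      rcases Finset.mem_insert.1 hk with rfl | hk
      · simp [c1]
      · simp [h3 k hk hk']
  obtain ⟨a, h1, h2, h3⟩ := this Finset.univ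
  refine ⟨a i, h2, ?_⟩
  convert h1
  funext j
  by_cases e : j = i <;> simp [e, h3 j]

lemma mem_of_sq {K : Type*} [Field K] [Finite K] {A : AddSubgroup K} (h : ∀ s, s ^ 2 ∈ A) (v : K) : v ∈ A := by
  by_cases h2 : ringChar K = 2
  · obtain ⟨s, rfl⟩ := FiniteField.isSquare_of_char_two h2 v
    exact pow_two s ▸ h s
  · have := Ring.two_ne_zero h2
    convert sub_mem (h ((v + 1) / 2)) (h ((v - 1) / 2))
    field_simp; ring

variable {ι Φ : Type} [Fintype ι] [DecidableEq ι] {R : RS ι Φ} {K : Type*} [Field K] {G : Type*} [Group G] (X : RG R K G)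

namespace RG

lemma co_uu [Finite Φ] (t : Φ → K) (i : ι) : co X i (X.uu t) = t (R.simple i) := by
  classical
  suffices ∀ L : List Φ, L.Nodup → (∀ r ∈ L, R.pos r) → co X i (X.prodL L t) = if R.simple i ∈ L then t (R.simple i) else 0 by
    rw [uu, this R.posL (Finset.nodup_toList _) (by simp), if_pos (by simp [R.pos_simple])]
  intro L h1 h2
  induction L with
  | nil => simp
  | cons r L ih =>
    rw [List.forall_mem_cons] at h2
    rw [List.nodup_cons] at h1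
    rw [RG0.prodL_cons, co_mul (X.x_mem_U h2.1 _) (X.prodL_mem (S := {r | R.pos r}) h2.2 t), ih h1.2 h2.2]
    by_cases e : r = R.simple i
    · simp [← e, h1.1, e ▸ co_x (X := X) (i := i)]
    · simp [co_ne e h2.1, Ne.symm e]

lemma mem_gen_of_co [Finite Φ] {S T : Set Φ} (hS : ∀ r ∈ S, R.pos r) (hcl : ∀ r ∈ S, ∀ s ∈ S, R.comb r s ⊆ S) {u : G} (hu : u ∈ X.gen S)
    (h : ∀ r ∈ S, r ∈ T ∨ ∃ i, r = R.simple i ∧ co X i u = 0) : u ∈ X.gen T := by
  obtain ⟨t, h1, rfl⟩ := X.exists_uu hS hcl hu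
  refine X.uu_mem fun r _ h2 => X.x_mem_gen ((h r (by_contra fun e => h2 (h1 r e))).resolve_right ?_) _
  rintro ⟨i, rfl, e⟩
  exact h2 (X.co_uu t i ▸ e)

/-- the root subgroup of `r` is generated by commutators modulo higher roots -/
def Gen (r : Φ) : Prop := ∃ s β, R.pos s ∧ R.pos β ∧ r ∈ R.comb s β ∧ ∀ M : Subgroup G,
  (∀ γ ∈ R.comb s β, R.ht r < R.ht γ → ∀ t, X.x γ t ∈ M) → (∀ t u, (X.x β u)⁻¹ * (X.x s t)⁻¹ * X.x β u * X.x s t ∈ M) → ∀ t, X.x r t ∈ M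

theorem weakly_closed [Finite Φ] [Finite K] (hm : X.HMul) (h1 : ∀ r, R.pos r → (∃ i, r = R.simple i) ∨ X.Gen r)
    (h2 : ∀ i j, j ≠ i → ∃ c : ι → Kˣ, R.chi c (R.simple j) = 1 ∧ R.chi c (R.simple i) ≠ 1) {Y : Subgroup G} (hY : Y ≤ X.U)
    (hw : ∀ g ∈ X.grp, (∀ y ∈ Y, g * y * g⁻¹ ∈ X.U) → g ∈ Subgroup.normalizer (Y : Set G)) : ∃ J, Y = X.UJ J := by
  let J : Set ι := {i | ∀ y ∈ Y, co X i y = 0}
  have a1 : X.P J ≤ Subgroup.normalizer (Y : Set G) :=
    X.P_le (fun b hb => hw b (X.B_le_grp hb) fun y hy => X.B_conj_mem_U hb (hY hy)) fun j hj => hw _ (X.n_mem_grp _ _) fun y hy =>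
      X.Ui_le_U j (X.n_conj_mem_Ui j 1 (X.mem_gen_of_co (fun _ h => h) (fun _ h _ => R.comb_pos_subset h) (hY hy) fun r hr =>
        (em (r = R.simple j)).symm.imp (⟨hr, ·⟩) fun e => ⟨j, e, hj y hy⟩))
  have a2 : ∀ b ∈ X.B, ∀ y ∈ Y, b * y * b⁻¹ ∈ Y := fun b hb y => (Subgroup.mem_normalizer_iff.1 (a1 (X.B_le_P J hb)) y).1
  have a3 : Y ≤ X.UJ J := fun y hy => by
    obtain ⟨n, -, b1, w, b2, b3⟩ := X.exists_wJ J
    obtain ⟨a, ha, b, hb, rfl⟩ := X.exists_mul_of_union RS.htv (A := {r | R.pos r ∧ r ∉ R.sub J}) (B := {r | R.pos r ∧ r ∈ R.sub J})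
      (fun _ => RS.pos.ht_pos) (fun _ h _ => R.comb_pos_subset h) (by ext; simp; tauto) (hY hy)
    have := X.eq_one_of_mem_V_B (b2.conj_mem_gen (T := {r | ¬ R.pos r}) (fun r hr => b3 r hr.1 hr.2) hb) (X.U_le_B (by
      simpa [mul_assoc] using mul_mem (inv_mem (X.UJ_le_U J ((Subgroup.mem_normalizer_iff.1 (X.P_le_normalizer J b1) a).1 ha)))
        (hY ((Subgroup.mem_normalizer_iff.1 (a1 b1) _).1 hy))))
    rwa [conj_eq_one_iff.1 this, mul_one]
  let S : ℤ → Set Φ := fun m => {r | 0 < RS.fJ J (R.vec r) ∧ m ≤ R.ht r}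
  have a4 : ∀ m, ∀ r ∈ S m, R.pos r := fun m r hr => (fJ_pos_iff.1 hr.1).1
  have a5 : ∀ m r, R.pos r → ∀ s ∈ S m, s ≠ R.neg r ∧ R.comb r s ⊆ S (m + 1) := fun m r hr s hs =>
    ⟨RS.ne_neg_of_f RS.htv (add_pos hr.ht_pos (a4 m s hs).ht_pos), fun k hk => ⟨(level_ideal J s hs.1).2 r hr hk, by
      have := RS.comb_f_ge RS.htv hk hr.ht_pos.le (a4 m s hs).ht_pos.le
      have := hr.ht_pos
      have := hs.2
      simp only [RS.ht_def] at *
      omega⟩⟩
  have a6 : ∀ m, S (m + 1) ⊆ S m := fun m r hr => ⟨hr.1, by have := hr.2; omega⟩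
  have xs : ∀ {m r}, 0 < RS.fJ J (R.vec r) → m ≤ R.ht r → ∀ t, X.x r t ∈ X.gen (S m) := fun h h' => X.x_mem_gen (S := S _) ⟨h, h'⟩
  have a9 : X.UJ J ≤ X.gen (S 1) := X.gen_mono fun r hr => ⟨fJ_pos_iff.2 hr, hr.1.ht_pos⟩
  have a7 : ∀ m, ∀ g ∈ X.U, ∀ y ∈ Y ⊔ X.gen (S m), g * y * g⁻¹ ∈ Y ⊔ X.gen (S m) := fun m g hg y hy =>
    (sup_le (fun y hy => Subgroup.mem_sup_left (a2 g (X.U_le_B hg) y hy)) (fun y hy => Subgroup.mem_sup_right
      (X.conj_mem_gen (fun r hr s hs => (a5 m r hr s hs).imp_right (·.trans (a6 m))) hg hy)) :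
        Y ⊔ X.gen (S m) ≤ (Y ⊔ X.gen (S m)).comap (MulAut.conj g).toMonoidHom) hy
  have a8 : ∀ m : ℕ, X.gen (S 1) ≤ Y ⊔ X.gen (S (m + 1)) := fun m => by
    induction m with
    | zero => simp
    | succ m ih =>
      refine ih.trans (sup_le le_sup_left (X.gen_le.2 fun r hr => ?_))
      push_cast
      rcases hr.2.eq_or_lt with e | e
      swap
      · exact fun t => Subgroup.mem_sup_right (xs hr.1 e t)
      rcases h1 r (a4 _ r hr) with ⟨i, rfl⟩ | ⟨s, β, b1, b2, b3, b4⟩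
      · let A : AddSubgroup (ι → K) := ⟨⟨⟨{c | ∃ y ∈ Y, ∀ j, co X j y = c j}, fun ⟨y, hy, e⟩ ⟨z, hz, e'⟩ =>
          ⟨_, mul_mem hy hz, fun j => by rw [co_mul (hY hy) (hY hz), e, e', Pi.add_apply]⟩⟩, 1, one_mem _, by simp⟩,
          fun ⟨y, hy, e⟩ => ⟨_, inv_mem hy, fun j => by rw [co_inv (hY hy), e, Pi.neg_apply]⟩⟩
        have c1 : ∀ c : ι → Kˣ, ∀ a ∈ A, (fun j => (R.chi c (R.simple j) : K)) * a ∈ A := fun c a ⟨y, hy, e⟩ =>
          ⟨_, a2 _ (X.H_le_B (X.torX_mem_H hm c)) y hy, fun j => by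
            rw [co_conj (X.torX_mem_H hm c) (hY hy), X.torX_conj', co_x, e, mul_one, Pi.mul_apply]⟩
        obtain ⟨y, hy, c2⟩ : ∃ y ∈ Y, co X i y ≠ 0 := by simpa [J, simple_mem_sub] using (fJ_pos_iff.1 hr.1).2
        obtain ⟨t, c3, c4⟩ := exists_single_mem (A := A) (fun j hj => (h2 i j hj).elim fun c hc =>
          ⟨_, by simp [hc.1], by simpa using hc.2, c1 c⟩) ⟨y, hy, fun _ => rfl⟩ c2
        intro v
        obtain ⟨z, hz, c5⟩ := mem_of_sq (A := A.comap ((AddMonoidHom.single (fun _ => K) i).comp (AddMonoidHom.mulRight t))) (fun s => by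
          by_cases hs : s = 0
          · simp [hs]
          have := c1 (Pi.mulSingle i (Units.mk0 s hs)) _ c4
          rw [← Pi.single_mul_right, RS.chi, Finset.prod_eq_single i (fun j _ hj => by simp [hj]) (by simp)] at this
          simpa [zpow_two, pow_two] using this) (v / t)
        have c6 := X.x_mem_U (R.pos_simple i) v
        simpa using mul_mem (Subgroup.mem_sup_left hz) (Subgroup.mem_sup_right (X.mem_gen_of_co (T := S (m + 1 + 1)) (a4 1)
          (fun r hr s hs => (a5 1 r (a4 1 r hr) s hs).2.trans (a6 1)) (mul_mem (inv_mem (a9 (a3 hz))) (xs hr.1 (by simp) v)) fun r hr' => by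
            rcases h1 r (a4 _ r hr') with ⟨j, rfl⟩ | ⟨s, β, b1, b2, b3, -⟩
            · refine Or.inr ⟨j, rfl, ?_⟩
              rw [co_mul (inv_mem (hY hz)) c6, co_inv (hY hz), c5, co_simple]
              by_cases e : j = i <;> simp [e, c3, eq_comm (a := i)]
            · refine Or.inl ⟨hr'.1, ?_⟩
              have := RS.comb_f_ge RS.htv b3 b1.ht_pos.le b2.ht_pos.le
              have := b1.ht_pos
              have := b2.ht_pos
              have := e.trans (R.ht_simple i)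
              simp only [RS.ht_def] at *
              omega))
      · let Z : Subgroup G := ⟨⟨⟨{a | a ∈ X.U ∧ ∀ g ∈ X.U, a⁻¹ * g⁻¹ * a * g ∈ Y ⊔ X.gen (S (m + 1 + 1))}, fun {a b} ha hb =>
          ⟨mul_mem ha.1 hb.1, fun g hg => by
            simpa [mul_assoc] using mul_mem (a7 _ _ (inv_mem hb.1) _ (ha.2 g hg)) (hb.2 g hg)⟩⟩, one_mem _, by simp⟩,
          fun {a} ha => ⟨inv_mem ha.1, fun g hg => by simpa [mul_assoc] using a7 _ _ ha.1 _ (inv_mem (ha.2 g hg))⟩⟩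
        have c1 : X.gen (S 1) ≤ Z := ih.trans (sup_le (fun y hy => ⟨hY hy, fun g hg => Subgroup.mem_sup_left (by
          simpa [mul_assoc] using mul_mem (inv_mem hy) (a2 _ (X.U_le_B (inv_mem hg)) y hy))⟩) fun y hy =>
            ⟨X.gen_mono (a4 _) hy, fun g hg => Subgroup.mem_sup_right (X.commutator_mem_gen
              (fun r hr s hs => (a5 _ r (a4 _ r hr) s hs).imp_right (·.trans (a6 _)))
              (fun r hr s hs => (a5 _ r hr s hs).imp_right (·.trans (a6 _))) (fun r hr s hs => by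
                rw [R.comb_comm, Ne, eq_comm, R.neg_eq_iff]; exact a5 _ s hs r hr) hy hg)⟩)
        have c2 : s ∈ S 1 ∨ β ∈ S 1 := by
          obtain ⟨i, j, -, hj, e⟩ := RS.comb_f (RS.fJ J) b3
          have := hr.1
          rw [e] at this
          rcases (fJ_nonneg (J := J) (Or.inl b1)).eq_or_lt with e1 | e1
          · exact Or.inr ⟨pos_of_mul_pos_right (a := j) (by simpa [← e1] using this) (by omega), b2.ht_pos⟩
          · exact Or.inl ⟨e1, b1.ht_pos⟩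
        refine b4 _ (fun γ c3 c4 t => Subgroup.mem_sup_right (xs ?_ (by omega) t)) fun t u => ?_
        · rcases c2 with c2 | c2
          exacts [((a5 _ β b2 s c2).2 (R.comb_comm _ _ ▸ c3)).1, ((a5 _ s b1 β c2).2 c3).1]
        · rcases c2 with c2 | c2
          · simpa [mul_assoc] using inv_mem ((c1 (X.x_mem_gen c2 t)).2 _ (X.x_mem_U b2 u))
          · exact (c1 (X.x_mem_gen c2 u)).2 _ (X.x_mem_U b1 t)
  obtain ⟨m, hm⟩ := (Set.finite_range R.ht).bddAbove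
  refine ⟨J, le_antisymm a3 (a9.trans ((a8 m.toNat).trans (sup_le le_rfl (X.gen_le.2 fun r hr => ?_))))⟩
  have := hm ⟨r, rfl⟩
  have := hr.2
  omega

end RG

end Cfsg.Agent.H14
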