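import Cfsg.Agent.H14.WC1
import Cfsg.Agent.H14.CentTab
import Cfsg.Agent.H14.Par

/-! Weakly closed unipotent subgroups of the tabulated Chevalley groups. -/

set_option autoImplicit false

namespace Cfsg.Agent.H14

open Cfsg.Lie Cfsg.Lie.ChevalleyDatum

/-- `r` occurs with a unit coefficient at the place `k` of the commutator formula `T` -/
def WCAt (D : ChevalleyDatum) (d r : ℕ) (T : List (ℕ × ℤ × ℕ × ℕ)) (k : ℕ) : Prop :=
  (T.take (k + 1)).map (·.2.2) = (List.range (k + 1)).map (fun j => (j + 1, 1)) ∧ (T.getD k 0).1 = r ∧ (T.getD k 0).2.1 ^ 2 = 1 ∧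
    (∀ c ∈ T.drop (k + 1), k + 1 ≤ c.2.2.1 ∧ k + 2 < c.2.2.1 + c.2.2.2) ∧ (k = 2 → d = 2 ∧ CommP D 0 (T.getD 1 0).1 r)

/-- the table check -/
def WCTab (D : ChevalleyDatum) (d cs cb : ℕ) (Y : List (List ℤ)) : Prop :=
  (∀ r < D.nroots, D.IsPosRoot r → (∃ i < D.rank, r = D.simple i) ∨ D.IsPosRoot (getW 8 256 cs r) ∧ D.IsPosRoot (getW 8 256 cb r) ∧
    getW 8 256 cb r ≠ getW 8 256 cs r ∧ ∃ k < 3, WCAt D d r (D.commTerms (getW 8 256 cs r) (getW 8 256 cb r)) k) ∧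
  ∀ i j : Fin D.rank, j ≠ i → ∃ y ∈ Y, ∑ k : Fin D.rank, y.getD k 0 * D.cartan k (D.simple j) = 0 ∧
    ∑ k : Fin D.rank, y.getD k 0 * D.cartan k (D.simple i) ∈ [1, (d : ℤ)]

set_option synthInstance.maxSize 2000 in
instance instDecWCTab (D : ChevalleyDatum) (d cs cb : ℕ) (Y : List (List ℤ)) : Decidable (WCTab D d cs cb Y) := by
  unfold WCTab WCAt; infer_instance

variable {D : ChevalleyDatum} {G : Good D} {K : Type*} [Field K] {Γ : Type*} [Group Γ] {X : RG G.R K Γ}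

lemma WCAt.gen (hX : Chev X.toRG0) {d k : ℕ} {l : K} (l0 : l ≠ 0) (l1 : l ^ d ≠ 1) {r s β : Fin D.nroots} (hs : G.R.pos s) (hβ : G.R.pos β)
    (h : β ≠ s) (hk : k < 3) (hw : WCAt D d r (D.commTerms s β) k) : X.Gen r := by
  obtain ⟨a1, a2, a3, a4, a5⟩ := hw
  have l2 : l - 1 ≠ 0 := fun e => l1 (by rw [sub_eq_zero.1 e, one_pow])
  obtain ⟨P, ε, Q, e, rfl⟩ : ∃ P ε Q, D.commTerms s β = P ++ (r.1, ε, k + 1, 1) :: Q ∧ P.length = k := by
    have b1 : k < (D.commTerms s β).length := by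
      have := congrArg List.length a1
      simp at this; omega
    refine ⟨_, (D.commTerms s β)[k].2.1, List.drop (k + 1) (D.commTerms s β), (List.take_append_drop k _).symm.trans ?_, List.length_take_of_le b1.le⟩
    rw [List.drop_eq_getElem_cons b1]
    have := congrArg (·[k]?) a1
    simp [b1] at this a2
    rw [← a2, ← this]
  have b1 : G.R.vec r = (P.length + 1 : ℤ) • G.R.vec s + G.R.vec β := by
    obtain ⟨m, c1, -, -, c2⟩ := G.commTerms_spec (c := (r.1, ε, P.length + 1, 1)) (by rw [e]; simp)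
    simpa [← Fin.ext c1] using c2
  refine ⟨s, β, hs, hβ, ⟨P.length + 1, 1, by simp, by simp, by simpa using b1⟩, fun M h1 h2 v => ?_⟩
  have b2 : ∀ t u, wordX X.toRG0 (P.map fun c => (c.1, (c.2.1 : K) * (-t) ^ c.2.2.1 * u ^ c.2.2.2)) *
      X.x r (ε * (-t) ^ (P.length + 1) * u) ∈ M := fun t u => by
    have := h2 t u
    rw [mul_assoc, mul_assoc, hX s β h (RS.ne_neg_of_f RS.htv (add_pos hs.ht_pos hβ.ht_pos)), commWord, e] at this
    simp only [List.map_append, List.map_cons, wordX_append, wordX_cons, xN_val, pow_one, mul_assoc, inv_mul_cancel_left] at this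
    rw [← mul_assoc, mul_mem_cancel_right ((X.gen_le.2 fun γ hγ => h1 γ hγ.1 hγ.2 : X.gen {γ | γ ∈ _ ∧ _} ≤ M)
      (wordX_mem _ fun p hp => ?_))] at this
    · simpa [mul_assoc] using this
    obtain ⟨c, hc, rfl⟩ := List.mem_map.1 hp
    obtain ⟨m, c1, c2, c3, c4⟩ := G.commTerms_spec (c := c) (by rw [e]; simp [hc])
    obtain ⟨c5, c6⟩ := a4 c (by rw [e]; simp [List.drop_append, hc])
    refine ⟨m, ⟨⟨_, _, c2, c3, c4⟩, ?_⟩, c1⟩
    have := hs.ht_pos
    have := hβ.ht_pos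
    simp only [RS.ht_def, b1, c4, map_add, map_smul, smul_eq_mul] at *
    zify at c3 c5 c6
    nlinarith [mul_nonneg (sub_nonneg.2 c5) (sub_nonneg.2 (Int.add_one_le_of_lt ‹0 < RS.htv (G.R.vec s)›)),
      mul_nonneg (sub_nonneg.2 (Int.add_one_le_of_lt c3)) (sub_nonneg.2 (Int.add_one_le_of_lt this))]
  rw [e] at a1 a3 a5
  have b3 : (ε : K) ≠ 0 := fun e => by simpa [e] using congrArg (Int.cast (R := K)) a3
  rcases P with _ | ⟨⟨a, c, p⟩, _ | ⟨⟨b, c', p'⟩, _ | _⟩⟩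
  · simpa [mul_div_cancel₀, b3] using b2 (-1) (v / ε)
  · obtain rfl : p = (1, 1) := by simpa [List.range_succ] using a1
    have := mul_mem (inv_mem (b2 (-1) (v / (ε * (l - 1))))) (b2 (-l) (v / (ε * (l - 1)) / l))
    convert this using 1
    simp only [List.map_cons, List.map_nil, wordX_cons, wordX_nil, mul_inv_rev, neg_neg, one_pow, pow_one, mul_one, List.length_singleton]
    rw [mul_assoc (c : K), mul_div_cancel₀ _ l0, mul_assoc, inv_mul_cancel_left, ← X.x_neg, ← X.x_add]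
    congr 1; field_simp; ring
  · obtain ⟨rfl, rfl⟩ : p = (1, 1) ∧ p' = (2, 1) := by simpa [List.range_succ] using a1
    obtain ⟨rfl, a6⟩ := a5 rfl
    have l3 : l ^ 2 - 1 ≠ 0 := sub_ne_zero.2 l1
    have b4 : ∀ t u, xN X.toRG0 b (c' * (l - 1) * t ^ 2 * u) * X.x r (ε * (l ^ 2 - 1) * t ^ 3 * u) ∈ M := fun t u => by
      convert mul_mem (inv_mem (b2 (-t) u)) (b2 (-(l * t)) (u / l)) using 1
      have := fun w => (a6.commute hX Nat.cast_zero w (-(ε * t ^ 3 * u))).eq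
      obtain ⟨b, rfl⟩ : ∃ b' : Fin D.nroots, b'.1 = b := ⟨⟨b, a6.1⟩, rfl⟩
      simp only [List.map_cons, List.map_nil, wordX_cons, wordX_nil, mul_inv_rev, neg_neg, pow_one, mul_one, List.length_cons, List.length_nil,
        xN_val, mul_assoc, List.cons_append, List.getD_cons_succ, List.getD_cons_zero] at this ⊢
      rw [show l * (t * (u / l)) = t * u by field_simp, inv_mul_cancel_left, ← X.x_neg, ← X.x_neg, ← mul_assoc (X.x b _), ← X.x_add,
        ← mul_assoc (X.x r _), ← this, mul_assoc, ← X.x_add]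
      congr 2 <;> field_simp <;> ring
    convert mul_mem (inv_mem (b4 1 (v / (ε * (l ^ 2 - 1) * (l - 1))))) (b4 l (v / (ε * (l ^ 2 - 1) * (l - 1)) / l ^ 2)) using 1
    rw [mul_assoc _ (l ^ 2), mul_div_cancel₀ _ (pow_ne_zero 2 l0), one_pow, mul_one, mul_inv_rev, mul_assoc, inv_mul_cancel_left, ← X.x_neg, ← X.x_add]
    congr 1; field_simp; ring
  · simp at hk; omega

theorem WCTab.weakly_closed (G : Good D) [Finite K] {d cs cb : ℕ} {L : List (List ℤ)} (h : WCTab D d cs cb L) (l : Kˣ) (hl : l ^ d ≠ 1)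
    {Y : Subgroup (GL D.Idx K)} (hY : Y ≤ D.posUnipotent K)
    (hw : ∀ g ∈ D.group K, Y.map (MulAut.conj g).toMonoidHom ≤ D.posUnipotent K → Y.map (MulAut.conj g).toMonoidHom = Y) :
    ∃ J : Set ℕ, (∀ j ∈ J, j < D.rank) ∧ Y = D.unipotentRadical K J := by
  rw [G.U_eq, G.grp_eq] at *
  obtain ⟨J, e⟩ := (G.rg K).weakly_closed G.hmul_rg (fun r hr => (h.1 r r.2 ((G.isPosRoot_iff r).2 hr)).imp
    (fun ⟨i, hi, e⟩ => ⟨⟨i, hi⟩, Fin.ext (e.trans (G.simple_eq ⟨i, hi⟩).symm)⟩) fun ⟨a1, a2, a3, k, a4, a5⟩ =>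
      WCAt.gen G.chev_rg l.ne_zero (fun e => hl (Units.ext (by simpa using e))) ((G.isPosRoot_iff ⟨_, a1.1⟩).1 a1)
        ((G.isPosRoot_iff ⟨_, a2.1⟩).1 a2) (fun e => a3 (congrArg Fin.val e)) a4 a5) (fun i j hj => by
    obtain ⟨y, -, a1, a2⟩ := h.2 i j hj
    refine ⟨fun k => l ^ y.getD k 0, ?_⟩
    simp only [RS.chi_zpow, RS.ev_apply, RS.pair_simple_simple, G.car_eq, a1, zpow_zero, true_and]
    rcases List.mem_pair.1 a2 with e | e <;> rw [e]
    exacts [fun e => hl (by rw [zpow_one] at e; rw [e, one_pow]), by simpa using hl]) hY fun g hg h =>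
      Subgroup.mem_normalizer_iff_map_conj_eq.2 (hw g hg (by rintro _ ⟨y, hy, rfl⟩; exact h y hy))
  exact ⟨Fin.val '' J, by rintro _ ⟨j, -, rfl⟩; exact j.2, by rw [G.UJ_eq, Set.preimage_image_eq _ Fin.val_injective, e]⟩

end Cfsg.Agent.H14
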